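import Cfsg.Agent.H6.Monomial
import Cfsg.Agent.H6.Extension
import Cfsg.Agent.H5.Galois
import Cfsg.Agent.H1.SylowIn
import Cfsg.Agent.S0581
/-! Blichfeldt's theorem on abelian Hall subgroups of linear groups (`blichfeldt`), elements of order
`pq` (`exists_order_pq`), monomial bound for nilpotent linear groups (`exists_fact_index`). -/
open H5 Cfsg
open scoped ComplexConjugate commutatorElement Pointwise
namespace H8
universe u

section
variable {G : Type*} [Group G] [Finite G] {χ : G → ℂ}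

theorem charDegree_add' {φ θ : G → ℂ} (hφ : IsCharacter G φ) (hθ : IsCharacter G θ) :
    charDegree (φ + θ) = charDegree φ + charDegree θ := by
  apply charDegree_eq_of_apply_one
  rw [Pi.add_apply, ← hφ.coe_charDegree, ← hθ.coe_charDegree]; push_cast; rfl

theorem commutator_le_ker_of_primes (hχ : IsCharacter G χ) {n : ℕ} (hn : charDegree χ ≤ n)
    (h : ∀ q : ℕ, q.Prime → q ∣ Nat.card G → n < q) : commutator G ≤ charKer χ := by
  revert hn
  refine hχ.induction_irr (P := fun χ => charDegree χ ≤ n → commutator G ≤ charKer χ) ?_ ?_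
  · intro _ g _ x; rfl
  · intro φ θ hφ hθ ih hn
    rw [charDegree_add' hφ.isCharacter hθ] at hn
    rw [hφ.isCharacter.charKer_add hθ]
    refine le_inf ?_ (ih (by omega))
    rw [hφ.commutator_le_charKer_iff, ← hφ.isCharacter.charDegree_eq_one_iff]
    by_contra h1
    obtain ⟨q, hq, hd⟩ := Nat.exists_prime_and_dvd h1
    have := h q hq (hd.trans hφ.charDegree_dvd_card)
    have := Nat.le_of_dvd hφ.charDegree_pos hd
    omega

theorem comm_of_primes (hχ : IsCharacter G χ) (hf : ∀ g : G, χ g = χ 1 → g = 1) {n : ℕ}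
    (hn : charDegree χ ≤ n) (A : Subgroup G) (h : ∀ q : ℕ, q.Prime → q ∣ Nat.card A → n < q) :
    ∀ x ∈ A, ∀ y ∈ A, x * y = y * x := by
  intro x hx y hy
  have h1 := commutator_le_ker_of_primes (hχ.restrict A) (n := n) (by
    rw [charDegree_eq_of_apply_one (n := charDegree χ) (by simpa using hχ.coe_charDegree.symm)]
    exact hn) h
  have h2 := h1 (Subgroup.commutator_mem_commutator (Subgroup.mem_top (⟨x, hx⟩ : A))
    (Subgroup.mem_top (⟨y, hy⟩ : A)))
  rw [(hχ.restrict A).mem_charKer] at h2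
  have h3 := hf _ h2
  have : ⁅x, y⁆ = 1 := h3
  exact (commutatorElement_eq_one_iff_mul_comm).1 this

/-- a faithful character of degree `< p - 1` is not `p`-rational at an element of order `p` -/
theorem exists_pow_ne_of_order (hχ : IsCharacter G χ) {p : ℕ} (hp : p.Prime)
    (hn : charDegree χ + 1 < p) {x : G} (hx : orderOf x = p) (hf : χ x ≠ χ 1) :
    ∃ j : ℕ, j.Coprime p ∧ χ (x ^ j) ≠ χ x := by
  by_contra hc
  push Not at hc
  obtain ⟨c, hc'⟩ := hχ.exists_int_of_forall_pow (g := x) (by rw [hx]; exact hc)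
  letI := Fintype.ofFinite (Subgroup.zpowers x)
  obtain ⟨a, ha⟩ := (hχ.restrict (Subgroup.zpowers x)).exists_classInner_nat isCharacter_one
  have h1 := card_mul_classInner (fun y : Subgroup.zpowers x => χ y) (fun _ => 1)
  rw [ha, Nat.card_zpowers, hx] at h1
  have h2 : ∑ y : Subgroup.zpowers x, χ y * conj (1 : ℂ) = χ 1 + (p - 1) * c := by
    classical
    rw [← Finset.add_sum_erase _ _ (Finset.mem_univ 1)]
    have : ∀ y ∈ Finset.univ.erase (1 : Subgroup.zpowers x), χ y * conj (1 : ℂ) = c := by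
      intro y hy
      obtain ⟨y, hy2⟩ := y
      obtain ⟨j, rfl⟩ := (mem_powers_iff_mem_zpowers.2 hy2)
      have hj : j.Coprime p := by
        rw [Nat.coprime_comm, hp.coprime_iff_not_dvd, ← hx, orderOf_dvd_iff_pow_eq_one]
        intro h
        exact (Finset.mem_erase.1 hy).1 (Subtype.ext h)
      simp only [map_one, mul_one]
      rw [hc j hj, hc']
    rw [Finset.sum_congr rfl this, Finset.sum_const, Finset.card_erase_of_mem (Finset.mem_univ _),
      Finset.card_univ, ← Nat.card_eq_fintype_card, Nat.card_zpowers, hx, nsmul_eq_mul,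
      Nat.cast_sub hp.one_le]
    simp
  rw [h2, ← hχ.coe_charDegree] at h1
  have h3 : (p : ℤ) * a = charDegree χ + (p - 1) * c := by exact_mod_cast h1
  have h4 : c ≤ charDegree χ := by
    have := hχ.norm_le x
    rw [hc', hχ.norm_apply_one, Complex.norm_intCast] at this
    have h5 : |c| ≤ (charDegree χ : ℤ) := by exact_mod_cast this
    exact (abs_le.1 h5).2
  have h5 : c ≠ charDegree χ := by
    intro e
    apply hf
    rw [hc', e, ← hχ.coe_charDegree]; simp
  have h6 : (charDegree χ : ℤ) + 1 < p := by exact_mod_cast hn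
  have h7 : 0 ≤ c := by
    by_contra h
    have : c ≤ -1 := by omega
    have : (0 : ℤ) ≤ p * a := by positivity
    nlinarith
  have h8 : (p : ℤ) ∣ charDegree χ - c := ⟨a - c, by linarith⟩
  have := Int.le_of_dvd (by omega) h8
  omega

theorem exists_pow_fix (G : Type*) [Group G] [Finite G] {p : ℕ} (hp : p.Prime) {j : ℕ}
    (hj : j.Coprime p) : ∃ k : ℕ, k.Coprime (Nat.card G) ∧ k ≡ j [MOD p] ∧
      ∀ g : G, ¬ p ∣ orderOf g → g ^ k = g := by
  obtain ⟨a, m, hm, e⟩ := Nat.exists_eq_pow_mul_and_not_dvd (Nat.card_pos (α := G)).ne' p hp.ne_one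
  have hc : p.Coprime m := hp.coprime_iff_not_dvd.2 hm
  obtain ⟨k, h1, h2⟩ := Nat.chineseRemainder hc j 1
  refine ⟨k, ?_, h1, ?_⟩
  · rw [e]
    refine Nat.Coprime.mul_right (Nat.Coprime.pow_right _ ?_) ?_
    · rw [Nat.Coprime, h1.gcd_eq]; exact hj
    · rw [Nat.Coprime, h2.gcd_eq]; simp
  · intro g hg
    have : orderOf g ∣ m := by
      have := orderOf_dvd_natCard g
      rw [e] at this
      exact (Nat.Coprime.pow_right _ (hp.coprime_iff_not_dvd.2 hg).symm).dvd_of_dvd_mul_left this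
    conv_rhs => rw [← pow_one g]
    rw [pow_eq_pow_iff_modEq]
    exact h2.of_dvd this

theorem exists_order_pq (hχ : IsIrrCharacter G χ) (hf : ∀ g : G, χ g = χ 1 → g = 1) {p q : ℕ}
    (hp : p.Prime) (hq : q.Prime) (hp1 : charDegree χ + 1 < p) (hq1 : charDegree χ + 1 < q)
    (hpG : p ∣ Nat.card G) (hqG : q ∣ Nat.card G) : ∃ g : G, p ∣ orderOf g ∧ q ∣ orderOf g := by
  letI := Fintype.ofFinite G
  have key : ∀ {p : ℕ}, p.Prime → charDegree χ + 1 < p → p ∣ Nat.card G →
      ∃ k : ℕ, k.Coprime (Nat.card G) ∧ (fun g => χ (g ^ k)) ≠ χ ∧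
        ∀ g : G, ¬ p ∣ orderOf g → g ^ k = g := by
    intro p hp hp1 hpG
    haveI := Fact.mk hp
    obtain ⟨x, hx⟩ := exists_prime_orderOf_dvd_card' p hpG
    obtain ⟨j, hj, hne⟩ := exists_pow_ne_of_order hχ.isCharacter hp hp1 hx (fun h => by
      rw [hf x h, orderOf_one] at hx; exact hp.ne_one hx.symm)
    obtain ⟨k, h1, h2, h3⟩ := exists_pow_fix G hp hj
    refine ⟨k, h1, fun h => hne ?_, h3⟩
    rw [← congrFun h x, (pow_eq_pow_iff_modEq.2 (hx ▸ h2) : x ^ k = x ^ j)]
  obtain ⟨k, hk, hk1, hk2⟩ := key hp hp1 hpG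
  obtain ⟨l, hl, hl1, hl2⟩ := key hq hq1 hqG
  by_contra hc
  push Not at hc
  have e : (fun g => χ (g ^ (k * l))) + χ = (fun g => χ (g ^ k)) + fun g => χ (g ^ l) := by
    ext g
    simp only [Pi.add_apply]
    by_cases h : p ∣ orderOf g
    · rw [mul_comm k l, pow_mul, hl2 g (hc g h)]
    · rw [pow_mul, hk2 g h, add_comm]
  have e2 := congrArg (fun f => classInner f χ) e
  simp only [classInner_add_left] at e2
  rw [(hχ.pow_arg hk).classInner_of_ne hχ hk1, (hχ.pow_arg hl).classInner_of_ne hχ hl1,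
    hχ.classInner_self] at e2
  obtain ⟨a, ha⟩ := (hχ.pow_arg (hk.mul_left hl)).isCharacter.exists_classInner_nat hχ.isCharacter
  rw [ha] at e2
  have : (a + 1 : ℕ) = 0 := by exact_mod_cast (by simpa using e2 : (a : ℂ) + 1 = 0)
  omega

end

/-- `A` is a Hall subgroup for the set of primes `> n + 1` -/
def BigHall {G : Type*} [Group G] (n : ℕ) (A : Subgroup G) : Prop :=
  (∀ q : ℕ, q.Prime → q ∣ Nat.card A → n + 1 < q) ∧ ∀ q : ℕ, q.Prime → q ∣ A.index → q ≤ n + 1

theorem BigHall.coprime {G : Type*} [Group G] {n : ℕ} {A : Subgroup G} (h : BigHall n A) :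
    (Nat.card A).Coprime A.index :=
  Nat.coprime_of_dvd fun q hq h1 h2 => by have := h.1 q hq h1; have := h.2 q hq h2; omega

theorem BigHall.map {G : Type*} [Group G] {n : ℕ} {K : Subgroup G} {A : Subgroup K}
    (h : BigHall n A) (hK : ∀ q : ℕ, q.Prime → q ∣ K.index → q ≤ n + 1) :
    BigHall n (A.map K.subtype) := by
  refine ⟨fun q hq hd => h.1 q hq ?_, fun q hq hd => ?_⟩
  · rwa [Subgroup.card_map_of_injective K.subtype_injective] at hd
  · rw [Subgroup.index_map_subtype] at hd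
    exact (hq.dvd_mul.1 hd).elim (h.2 q hq) (hK q hq)

theorem isNilpotent_of_comm {G : Type*} [Group G] {A : Subgroup G}
    (h : ∀ x ∈ A, ∀ y ∈ A, x * y = y * x) : Group.IsNilpotent A := by
  letI : CommGroup A := { (inferInstance : Group A) with
    mul_comm := fun a b => Subtype.ext (h _ a.2 _ b.2) }
  exact CommGroup.isNilpotent

theorem BigHall.le_conj {G : Type*} [Group G] [Finite G] {n : ℕ} {A H : Subgroup G}
    (h : BigHall n A) (hA : ∀ x ∈ A, ∀ y ∈ A, x * y = y * x)
    (hH : ∀ q : ℕ, q.Prime → q ∣ Nat.card H → n + 1 < q) : ∃ x : G, H ≤ MulAut.conj x • A := by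
  refine Cfsg.Agent.S0581.result A H (isNilpotent_of_comm hA) h.coprime fun q hq hd => ?_
  have h1 : q ∣ Nat.card A * A.index := by
    rw [A.card_mul_index]; exact hd.trans H.card_subgroup_dvd_card
  refine (hq.dvd_mul.1 h1).resolve_right fun h2 => ?_
  have := h.2 q hq h2; have := hH q hq hd; omega

section main
variable {G : Type u} [Group G] [Finite G] {χ : G → ℂ} {n : ℕ}

theorem bigHall_of_normal (hχ : IsCharacter G χ) (hf : ∀ g : G, χ g = χ 1 → g = 1)
    (hn : charDegree χ ≤ n)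
    (ih : ∀ K : Subgroup G, K ≠ ⊤ → ∃ A : Subgroup K, BigHall n A)
    {N : Subgroup G} [hN : N.Normal] (hne : N ≠ ⊤) {p : ℕ} (hp : p.Prime) (hpn : n + 1 < p)
    (hi : ∀ q : ℕ, q.Prime → q ∣ N.index → q = p) : ∃ A : Subgroup G, BigHall n A := by
  haveI := Fact.mk hp
  obtain ⟨A, hA⟩ := ih N hne
  set H := A.map N.subtype with hH
  have hHN : H ≤ N := Subgroup.map_subtype_le _
  have hc : Nat.card H = Nat.card A := Subgroup.card_map_of_injective N.subtype_injective
  have hH1 : ∀ q : ℕ, q.Prime → q ∣ Nat.card H → n + 1 < q := by rw [hc]; exact hA.1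
  have hAc : ∀ x ∈ A, ∀ y ∈ A, x * y = y * x := fun x hx y hy => Subtype.ext
    (comm_of_primes hχ hf hn H (fun q hq hd => by have := hH1 q hq hd; omega) _
      (Subgroup.mem_map_of_mem _ hx) _ (Subgroup.mem_map_of_mem _ hy))
  have hrel : H.relIndex N = A.index := H1.relIndex_map_subtype A
  by_cases hT : Subgroup.normalizer (H : Set G) = ⊤
  · haveI : H.Normal := Subgroup.normalizer_eq_top_iff.1 hT
    obtain ⟨P⟩ : Nonempty (Sylow p G) := inferInstance
    refine ⟨H ⊔ (P : Subgroup G), fun q hq hd => ?_, fun q hq hd => ?_⟩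
    · have h0 := H1.card_sup_dvd (N := H) (H := (P : Subgroup G)) (by rw [hT]; exact le_top)
      have := hd.trans h0
      rcases hq.dvd_mul.1 this with h | h
      · exact hH1 q hq h
      · obtain ⟨k, hk⟩ := IsPGroup.iff_card.1 P.2
        rw [hk] at h
        rw [(Nat.prime_dvd_prime_iff_eq hq hp).1 (hq.dvd_of_dvd_pow h)]; exact hpn
    · have h1 := hd.trans (Subgroup.index_dvd_of_le (le_sup_left : H ≤ H ⊔ P))
      rw [← Subgroup.relIndex_mul_index hHN, hrel] at h1
      rcases hq.dvd_mul.1 h1 with h | h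
      · exact hA.2 q hq h
      · obtain rfl := hi q hq h
        exact absurd (hd.trans (Subgroup.index_dvd_of_le le_sup_right)) P.not_dvd_index
  · obtain ⟨B, hB⟩ := ih _ hT
    refine ⟨_, hB.map fun q hq hd => hA.2 q hq (hd.trans ?_)⟩
    have : (Subgroup.normalizer (H : Set G)).relIndex N = (Subgroup.normalizer (H : Set G)).index := by
      rw [H1.relIndex_eq_index_iff]
      intro g
      have hle : MulAut.conj g • H ≤ N := H1.conj_smul_le_iff.2 fun x hx => hN.conj_mem _ (hHN hx) g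
      obtain ⟨x, hx⟩ := hA.le_conj hAc (H := (MulAut.conj g • H).subgroupOf N) (by
        rw [H1.card_subgroupOf_of_le hle, H1.card_conj_smul]; exact hH1)
      refine ⟨x, x.2, (x : G)⁻¹ * g, H1.mem_normalizer_of_conj_mem fun y hy => ?_, by group⟩
      have h1 : (⟨g * y * g⁻¹, hN.conj_mem _ (hHN hy) g⟩ : N) ∈ (MulAut.conj g • H).subgroupOf N :=
        H1.conj_mem_conj_smul hy
      have h2 := Subgroup.mem_map_of_mem N.subtype (H1.mem_conj_smul.1 (hx h1))
      convert h2 using 1
      simp [mul_assoc]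
    rw [← this, ← hrel]
    exact Subgroup.relIndex_dvd_of_le_left _ Subgroup.le_normalizer

theorem bigHall_of_irr (hχ : IsIrrCharacter G χ) (hf : ∀ g : G, χ g = χ 1 → g = 1)
    (hn : charDegree χ ≤ n)
    (ih : ∀ K : Subgroup G, K ≠ ⊤ → ∃ A : Subgroup K, BigHall n A) :
    ∃ A : Subgroup G, BigHall n A := by
  by_cases hz : ∃ z ∈ Subgroup.center G, (orderOf z).Prime ∧ n + 1 < orderOf z
  · obtain ⟨z, hz, hp, hpn⟩ := hz
    set p := orderOf z with hpz
    obtain ⟨a, m, hm, e⟩ := Nat.exists_eq_pow_mul_and_not_dvd (Nat.card_pos (α := G)).ne' p hp.ne_one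
    obtain ⟨c, -, hc⟩ := hχ.center_le_charCenter hz
    have hd := H6.detChar_of_scalar hχ.isCharacter hχ.coe_charDegree.symm hc
    have hcp : ∀ k : ℕ, χ (z ^ k) = c ^ k * χ 1 := by
      intro k
      induction k with
      | zero => simp
      | succ k ih => rw [pow_succ', hc, ih]; ring
    let μ : G →* ℂˣ := (powMonoidHom m).comp (H6.detHom χ)
    refine bigHall_of_normal hχ.isCharacter hf hn ih (N := μ.ker) (fun h => ?_) hp hpn ?_
    · have h1 : μ z = 1 := (h ▸ Subgroup.mem_top z : z ∈ μ.ker)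
      have h2 : c ^ (charDegree χ * m) = 1 := by
        have := congrArg (fun u : ℂˣ => (u : ℂ)) h1
        simpa [μ, hd, ← pow_mul] using this
      have h3 := hf (z ^ (charDegree χ * m)) (by rw [hcp, h2, one_mul])
      rw [← orderOf_dvd_iff_pow_eq_one] at h3
      rcases hp.dvd_mul.1 h3 with h | h
      · have := Nat.le_of_dvd hχ.charDegree_pos h; omega
      · exact hm h
    · intro q hq hd
      haveI := Fact.mk hq
      obtain ⟨x, hx⟩ := exists_prime_orderOf_dvd_card' (G := G ⧸ μ.ker) q hd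
      obtain ⟨g, rfl⟩ := QuotientGroup.mk_surjective x
      have : ((g : G ⧸ μ.ker)) ^ (p ^ a) = 1 := by
        rw [← QuotientGroup.mk_pow, QuotientGroup.eq_one_iff, MonoidHom.mem_ker]
        simp only [μ, MonoidHom.comp_apply, powMonoidHom_apply]
        rw [← map_pow, ← pow_mul, ← e, pow_card_eq_one', map_one]
      rw [← orderOf_dvd_iff_pow_eq_one, hx] at this
      exact (Nat.prime_dvd_prime_iff_eq hq hp).1 (hq.dvd_of_dvd_pow this)
  push Not at hz
  obtain ⟨H, hH, hmax⟩ := Set.exists_max_image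
    {H : Subgroup G | ∀ q : ℕ, q.Prime → q ∣ Nat.card H → n + 1 < q} (fun H => Nat.card H)
    (Set.toFinite _) ⟨⊥, fun q hq hd => by
      rw [Subgroup.card_bot, Nat.dvd_one] at hd; exact absurd hd hq.ne_one⟩
  have hcomm : ∀ K : Subgroup G, (∀ q : ℕ, q.Prime → q ∣ Nat.card K → n + 1 < q) →
      ∀ x ∈ K, ∀ y ∈ K, x * y = y * x := fun K hK =>
    comm_of_primes hχ.isCharacter hf hn K (fun q hq hd => by have := hK q hq hd; omega)
  have K1 : ∀ x ∈ H, (orderOf x).Prime → H ≤ Subgroup.centralizer {x} ∧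
      ∀ q : ℕ, q.Prime → q ∣ H.relIndex (Subgroup.centralizer {x}) → q ≤ n + 1 := by
    intro x hx hp
    have hle : H ≤ Subgroup.centralizer {x} := fun y hy =>
      Subgroup.mem_centralizer_singleton_iff.2 (hcomm H hH _ hy _ hx)
    refine ⟨hle, ?_⟩
    obtain ⟨A, hA⟩ := ih (Subgroup.centralizer {x}) (fun h => by
      have h1 := hz x (Subgroup.mem_center_iff.2 fun g =>
        Subgroup.mem_centralizer_singleton_iff.1 (h ▸ Subgroup.mem_top g)) hp
      have := hH _ hp (H.orderOf_dvd_natCard hx)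
      omega)
    have hc : Nat.card (A.map (Subgroup.centralizer {x}).subtype) = Nat.card A :=
      Subgroup.card_map_of_injective (Subgroup.subtype_injective _)
    have hA1 : ∀ q : ℕ, q.Prime → q ∣ Nat.card (A.map (Subgroup.centralizer {x}).subtype) →
        n + 1 < q := by rw [hc]; exact hA.1
    obtain ⟨g, hg⟩ := hA.le_conj (H := H.subgroupOf (Subgroup.centralizer {x}))
      (fun a ha b hb => Subtype.ext (hcomm _ hA1 _ (Subgroup.mem_map_of_mem _ ha) _
        (Subgroup.mem_map_of_mem _ hb))) (by rw [H1.card_subgroupOf_of_le hle]; exact hH)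
    have h2 := hmax _ hA1
    rw [hc, ← H1.card_subgroupOf_of_le hle, ← H1.card_conj_smul g A] at h2
    have h3 := Subgroup.eq_of_le_of_card_ge hg h2
    intro q hq hd
    rw [Subgroup.relIndex, h3, H1.index_conj_smul] at hd
    exact hA.2 q hq hd
  have K2 : ∀ p : ℕ, p.Prime → p ∣ Nat.card H → ¬ p ∣ H.index := by
    intro p hp hd h
    haveI := Fact.mk hp
    obtain ⟨x, hx, ho⟩ := H1.exists_prime_orderOf_mem hp hd
    obtain ⟨hle, h1⟩ := K1 x hx (ho ▸ hp)
    rw [← Subgroup.relIndex_mul_index hle] at h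
    rcases hp.dvd_mul.1 h with h | h
    · have := h1 p hp h; have := hH p hp hd; omega
    · obtain ⟨P, hP⟩ := (IsPGroup.of_card (p := p) (n := 1) (G := Subgroup.zpowers x)
        (by rw [Nat.card_zpowers, ho, pow_one])).exists_le_sylow
      refine P.not_dvd_index (h.trans (Subgroup.index_dvd_of_le fun y hy => ?_))
      refine Subgroup.mem_centralizer_singleton_iff.2 (hcomm P (fun q hq hq2 => ?_) _ hy _
        (hP (Subgroup.mem_zpowers x)))
      obtain ⟨k, hk⟩ := IsPGroup.iff_card.1 P.2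
      rw [hk] at hq2
      rw [(Nat.prime_dvd_prime_iff_eq hq hp).1 (hq.dvd_of_dvd_pow hq2)]; exact hH p hp hd
  refine ⟨H, hH, fun q hq hd => ?_⟩
  by_contra hqn
  push Not at hqn
  haveI := Fact.mk hq
  have hqG : q ∣ Nat.card G := hd.trans H.index_dvd_card
  have hH0 : H ≠ ⊥ := by
    rintro rfl
    obtain ⟨x, hx⟩ := exists_prime_orderOf_dvd_card' q hqG
    have := hmax (Subgroup.zpowers x) (fun r hr h => by
      rw [Nat.card_zpowers, hx] at h
      rwa [(Nat.prime_dvd_prime_iff_eq hr hq).1 h])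
    rw [Nat.card_zpowers, hx, Subgroup.card_bot] at this
    exact absurd this hq.one_lt.not_ge
  obtain ⟨p, hp, hpH⟩ := H1.exists_prime_dvd_card hH0
  haveI := Fact.mk hp
  obtain ⟨g, hg1, hg2⟩ := exists_order_pq hχ hf hp hq (by have := hH p hp hpH; omega) (by omega)
    (hpH.trans H.card_subgroup_dvd_card) hqG
  obtain ⟨P, hP⟩ := H1.exists_isSylowIn p H
  have hP2 : H1.IsSylowIn p P ⊤ := hP.trans le_top (by
    rw [Subgroup.relIndex_top_right]; exact K2 p hp hpH)
  have ho : orderOf (g ^ (orderOf g / p)) = p := orderOf_pow_orderOf_div (orderOf_pos g).ne' hg1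
  obtain ⟨y, -, hy⟩ := hP2.exists_conj_le (IsPGroup.of_card (p := p) (n := 1)
    (G := Subgroup.zpowers (g ^ (orderOf g / p))) (by rw [Nat.card_zpowers, ho, pow_one])) le_top
  have hx : y * g ^ (orderOf g / p) * y⁻¹ ∈ H :=
    hP.le (hy (H1.conj_mem_conj_smul (Subgroup.mem_zpowers _)))
  have hoc : ∀ u : G, orderOf (y * u * y⁻¹) = orderOf u := fun u =>
    (MulAut.conj y).orderOf_eq u
  obtain ⟨hle, h1⟩ := K1 _ hx (by rw [hoc, ho]; exact hp)
  have h2 : q ∣ Nat.card (Subgroup.centralizer {y * g ^ (orderOf g / p) * y⁻¹}) := by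
    refine (hoc g ▸ hg2).trans (Subgroup.orderOf_dvd_natCard _ ?_)
    rw [Subgroup.mem_centralizer_singleton_iff, ← conj_pow]
    exact (Commute.self_pow _ _).eq
  rw [← H1.card_mul_relIndex hle] at h2
  rcases hq.dvd_mul.1 h2 with h | h
  · exact K2 q hq h hd
  · have := h1 q hq h; omega

theorem exists_bigHall (n : ℕ) (G : Type u) [Group G] [Finite G] : ∀ χ : G → ℂ, IsCharacter G χ →
    (∀ g : G, χ g = χ 1 → g = 1) → charDegree χ ≤ n → ∃ A : Subgroup G, BigHall n A := by
  refine H1.card_induction (P := fun G _ _ => ∀ χ : G → ℂ, IsCharacter G χ →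
    (∀ g : G, χ g = χ 1 → g = 1) → charDegree χ ≤ n → ∃ A : Subgroup G, BigHall n A) ?_ G
  intro G _ _ ih χ hχ hf hn
  letI := Fintype.ofFinite G
  have ih' : ∀ K : Subgroup G, K ≠ ⊤ → ∃ A : Subgroup K, BigHall n A := fun K hK =>
    ih K (H1.card_lt_of_ne_top hK) (fun x => χ x) (hχ.restrict K)
      (fun g hg => Subtype.ext (hf g hg)) (by
        rw [charDegree_eq_of_apply_one (n := charDegree χ) (by simpa using hχ.coe_charDegree.symm)]
        exact hn)
  by_contra hc
  apply hc
  refine ⟨⊤, fun q hq hd => ?_, fun q hq hd => ?_⟩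
  swap
  · rw [Subgroup.index_top, Nat.dvd_one] at hd; exact absurd hd hq.ne_one
  by_contra hqn
  haveI := Fact.mk hq
  rw [Subgroup.card_top] at hd
  obtain ⟨x, hx⟩ := exists_prime_orderOf_dvd_card' q hd
  have hx1 : x ≠ 1 := by rintro rfl; rw [orderOf_one] at hx; exact hq.ne_one hx.symm
  obtain ⟨φ, hφ, hne, hk⟩ : ∃ φ, IsIrrCharacter G φ ∧ classInner χ φ ≠ 0 ∧ φ x ≠ φ 1 := by
    by_contra h
    push Not at h
    apply hx1 (hf x _)
    rw [hχ.isClassFunction.apply_eq_sum_irr x, hχ.isClassFunction.apply_eq_sum_irr 1]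
    refine Finset.sum_congr rfl fun ψ _ => ?_
    by_cases h0 : classInner χ ψ = 0
    · simp [h0]
    · rw [h _ ψ.2 h0]
  have hφn := (hχ.charDegree_le_of_constituent hφ hne).trans hn
  by_cases hK : charKer φ = ⊥
  · exact hc (bigHall_of_irr hφ (fun g hg => Subgroup.mem_bot.1 (hK ▸ hφ.mem_charKer.2 hg)) hφn ih')
  haveI := hφ.isCharacter.normal_charKer
  obtain ⟨φ', h1, h2, h3⟩ := hφ.exists_faithful_deflate
  obtain ⟨A, hA⟩ := ih _ (H1.card_quotient_lt hK) φ' h1.isCharacter
    (fun g hg => Subgroup.mem_bot.1 (h2 ▸ h1.mem_charKer.2 hg)) (by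
      rw [charDegree_eq_of_apply_one (n := charDegree φ) (by
        rw [hφ.coe_charDegree, ← h3]; rfl)]
      exact hφn)
  by_cases hT : A = ⊤
  · subst hT
    have h4 : orderOf (x : G ⧸ charKer φ) ∣ q := hx ▸ orderOf_map_dvd (QuotientGroup.mk' _) x
    rcases (Nat.dvd_prime hq).1 h4 with h | h
    · rw [orderOf_eq_one_iff, QuotientGroup.eq_one_iff, hφ.mem_charKer] at h
      exact hk h
    · exact hqn (hA.1 q hq (h ▸ Subgroup.orderOf_dvd_natCard _ (Subgroup.mem_top _)))
  · have hi : (A.comap (QuotientGroup.mk' (charKer φ))).index = A.index :=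
      Subgroup.index_comap_of_surjective _ (QuotientGroup.mk'_surjective _)
    obtain ⟨B, hB⟩ := ih' (A.comap (QuotientGroup.mk' (charKer φ))) (fun h => hT (by
      rw [← Subgroup.index_eq_one, ← hi, h, Subgroup.index_top]))
    exact hc ⟨_, hB.map (by rw [hi]; exact hA.2)⟩

theorem blichfeldt (hχ : IsCharacter G χ) (hf : ∀ g : G, χ g = χ 1 → g = 1)
    (hn : charDegree χ ≤ n) : ∃ A : Subgroup G, (∀ x ∈ A, ∀ y ∈ A, x * y = y * x) ∧ BigHall n A := by
  obtain ⟨A, hA⟩ := exists_bigHall n G χ hχ hf hn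
  exact ⟨A, comm_of_primes hχ hf hn A (fun q hq hd => by have := hA.1 q hq hd; omega), hA⟩

end main

theorem exists_fact_index {G : Type*} [Group G] [Finite G] [Group.IsNilpotent G] {χ : G → ℂ}
    (hχ : IsCharacter G χ) : ∃ K : Subgroup G, K.Normal ∧ K.index ∣ (charDegree χ).factorial ∧
      ⁅K, K⁆ ≤ charKer χ := by
  letI := Fintype.ofFinite G
  refine hχ.induction_irr (P := fun χ => ∃ K : Subgroup G, K.Normal ∧
    K.index ∣ (charDegree χ).factorial ∧ ⁅K, K⁆ ≤ charKer χ) ?_ ?_
  · exact ⟨⊤, inferInstance, by simp, fun g _ x => rfl⟩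
  · rintro φ θ hφ hθ ⟨K, hK, h1, h2⟩
    obtain ⟨H, lam, e⟩ := H6.monomial_of_nilpotent hφ
    have hd : charDegree φ = H.index := charDegree_eq_of_apply_one (by
      rw [e, indFun_apply_one]; simp)
    have h3 : H.normalCore.index ∣ (charDegree φ).factorial := by
      rw [hd, Subgroup.normalCore_eq_ker, Subgroup.index_ker, Subgroup.index_eq_card,
        ← Nat.card_perm]
      exact Subgroup.card_subgroup_dvd_card _
    have h4 : ⁅H.normalCore, H.normalCore⁆ ≤ charKer φ := by
      have hle : ⁅H.normalCore, H.normalCore⁆ ≤ H :=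
        (Subgroup.commutator_le_left _ _).trans H.normalCore_le
      rw [e]
      refine H6.normal_le_charKer_ind H (isCharacter_hom lam) _ hle fun m => ?_
      have : ⁅H.normalCore, H.normalCore⁆ ≤ lam.ker.map H.subtype := by
        rw [Subgroup.commutator_le]
        intro a ha b hb
        refine ⟨⁅(⟨a, H.normalCore_le ha⟩ : H), (⟨b, H.normalCore_le hb⟩ : H)⁆, ?_, rfl⟩
        rw [SetLike.mem_coe, MonoidHom.mem_ker, map_commutatorElement,
          commutatorElement_eq_one_iff_mul_comm, mul_comm]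
      obtain ⟨y, hy, e2⟩ := this m.2
      have : (⟨m, hle m.2⟩ : H) = y := Subtype.ext e2.symm
      rw [this, MonoidHom.mem_ker.1 hy, map_one]
    refine ⟨H.normalCore ⊓ K, inferInstance, ?_, ?_⟩
    · rw [charDegree_add' hφ.isCharacter hθ]
      refine dvd_trans ?_ (Nat.factorial_mul_factorial_dvd_factorial_add _ _)
      rw [← Subgroup.relIndex_mul_index (inf_le_right : H.normalCore ⊓ K ≤ K),
        Subgroup.inf_relIndex_right]
      exact mul_dvd_mul ((Subgroup.relIndex_dvd_index_of_normal _ _).trans h3) h1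
    · rw [hφ.isCharacter.charKer_add hθ]
      exact le_inf ((Subgroup.commutator_mono inf_le_left inf_le_left).trans h4)
        ((Subgroup.commutator_mono inf_le_right inf_le_right).trans h2)

end H8
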