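import Cfsg.Agent.H8.Gag
import Cfsg.Agent.H16.FC
import Cfsg.Agent.H1.FTCor
import Cfsg.Agent.S0200

/-! Group theory of Gagola characters: Camina pairs `Cam p N` with `p`-group centralizers;
if `N = O_p(G)` then `G/N` is a `p'`-group (`Cam.mem_of_pow`). -/

set_option autoImplicit false
open H5 Cfsg H18 H1 Subgroup
open scoped commutatorElement

namespace H8

variable {G : Type*} [Group G] [Finite G] {p : ℕ} {N R : Subgroup G} {g t y : G}

/-- the group theoretic content of a Gagola character -/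
structure Cam (p : ℕ) (N : Subgroup G) : Prop where
  nml : N ⊴ ⊤
  ne : N ≠ ⊥
  elem : Elem p N
  pr : p.Prime
  cen : ∀ a ∈ N, a ≠ 1 → PiGrp {p} C1(a)
  cam : ∀ g, g ∉ N → ∀ m ∈ N, IsConj g (g * m)
  card : ∀ a ∈ N, a ≠ 1 → Nat.card N = C1(a).index + 1
  conj : ∀ a ∈ N, ∀ b ∈ N, a ≠ 1 → b ≠ 1 → IsConj a b

theorem Gag.cam {χ : IrrCharacter G} {x : G} (h : Gag χ x) (hp : p.Prime) (hN : IsPGroup p h.N) :
    Cam p h.N := by
  haveI : Fact p.Prime := ⟨hp⟩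
  obtain ⟨q, hq, a, b⟩ := h.elem
  obtain rfl : q = p := by
    have h1 := piElt_of_pow_eq_one hq (b _ h.x_mem)
    obtain ⟨r, r1, r2, r3⟩ := h1.exists_mem h.ne
    exact r3.symm.trans (((piGrp_iff_isPGroup hp).2 hN).elt h.x_mem r r1 r2)
  refine ⟨nml_top, h.ne_bot, ⟨abel_of_comm a, b⟩, hp, fun a ha a1 =>
    (piGrp_iff_isPGroup hp).2 ((h.of_mem ha a1).pgroup_cent hN), fun g hg m hm => ?_,
    fun a ha a1 => (h.of_mem ha a1).card_N, fun a ha b hb => h.isConj ha hb⟩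
  rw [isConj_iff_forall_irr]
  intro ψ
  by_cases e : ψ = χ
  · subst e
    rw [not_not.1 (mt h.mem_N.2 hg), not_not.1 (mt h.mem_N.2 fun e => hg ((h.N.mul_mem_cancel_right hm).1 e))]
  · rw [← ψ.2.isClassFunction (g * m) m, mul_assoc, mul_inv_cancel_right,
      mem_charKer_def.1 (mem_iInf.1 hm ⟨ψ, e⟩)]

namespace Cam

theorem pi (h : Cam p N) : PiGrp {p} N := h.elem.pi' h.pr

theorem nrm (h : Cam p N) (U : Subgroup G) : U ≤ N(N) := le_top.trans h.nml.norm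

theorem reg (h : Cam p N) (hy : PiElt {p}ᶜ y) (h1 : y ≠ 1) : N ⊓ C1(y) = ⊥ :=
  eq_bot_iff.2 fun a ha => by_contra fun e =>
    h1 (((h.cen a ha.1 e).elt (mem_C1_comm.1 ha.2)).eq_one' hy)

theorem inf_N (h : Cam p N) (hR : PiGrp {p}ᶜ R) (h1 : R ≠ ⊥) : N ⊓ N(R) = ⊥ := by
  obtain ⟨y, hy, y1⟩ := exists_mem_ne_one' h1
  rw [(cop_pi' (h.nrm R) hR h.pi).inf_N, eq_bot_iff, ← h.reg (hR.elt hy) y1]
  exact inf_le_inf_left _ (C_le_C1 hy)

theorem lift (h : Cam p N) (hR : PiGrp {p}ᶜ R) (hg : g ∈ N(N ⊔ R)) : ∃ n ∈ N, n * g ∈ N(R) := by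
  obtain ⟨n, hn, e⟩ := exists_cj_le (U := H18.cj g R) (h.nrm R) (h.pi.coprime (hR.cj g))
    (cj_le_of_mem_N le_sup_right hg)
  exact ⟨n, hn, mem_N_of_cj_le (by rwa [H18.cj_cj] at e)⟩

theorem cent_le (h : Cam p N) : C(N) ≤ O[{p}]((⊤ : Subgroup G)) := by
  obtain ⟨a, ha, a1⟩ := exists_mem_ne_one' h.ne
  exact le_pcore ⟨le_top, norm_C h.nml.norm⟩ ((h.cen a ha a1).of_le (C_le_C1 ha))

theorem cent_eq (h : Cam p N) : C(N) = O[{p}]((⊤ : Subgroup G)) := by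
  refine h.cent_le.antisymm ?_
  obtain ⟨a, ha, a1⟩ := exists_mem_ne_one' ((pcore_pi (π := {p}) (H := (⊤ : Subgroup G))).nil.meet_Z
    (h.nml.of_le (le_pcore h.nml h.pi) le_top) h.ne)
  refine cent_symm fun b hb => ?_
  by_cases b1 : b = 1
  · rw [b1]; exact one_mem _
  obtain ⟨c, rfl⟩ := isConj_iff.1 (h.conj a ha.1 b hb a1 b1)
  exact conj_mem (norm_C pcore_nml.norm) (mem_top c) ha.2.2

theorem lift_pow (h : Cam p N) (hR : PiGrp {p}ᶜ R) (h1 : R ≠ ⊥) (hg : g ∈ N(N ⊔ R)) (hg' : g ∉ N)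
    (hp : g ^ p ∈ N) : ∃ k ∈ N(R), k ∉ N ∧ k ^ p = 1 := by
  obtain ⟨n, hn, e⟩ := h.lift hR hg
  haveI := h.nml.normal
  refine ⟨_, e, fun e => hg' ((N.mul_mem_cancel_left hn).1 e), eq_one_of_eq_bot (h.inf_N hR h1)
    (mem_inf.2 ⟨?_, pow_mem e _⟩)⟩
  rw [← QuotientGroup.eq_one_iff] at hp hn ⊢
  simpa [hn] using hp

theorem mem_of_pow_two (h : Cam 2 N) (hO : O[{2}]((⊤ : Subgroup G)) = N) (hp : g ^ 2 ∈ N) :
    g ∈ N := by
  by_contra hg
  have e1 : cs N g ≠ 1 := mt (cs_eq_one_iff (h.nrm ⊤ (mem_top g))).1 hg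
  have e2 : cs N g ^ 2 = 1 := by rw [← mfun_pow (h.nrm ⊤ (mem_top g)), cs_eq_one hp]
  haveI : Fact (Nat.Prime 2) := ⟨Nat.prime_two⟩
  obtain ⟨y, y1, y2, y3⟩ := Cfsg.Agent.S0200.result _ (orderOf_eq_prime e2 e1) fun M hM h2 hm => by
    have : qpre N M ≤ N := (le_pcore (nml_qpre h.nml ⟨le_quo_N.trans (mim_mono le_top),
      norm_of_normal⟩) (((piGrp_iff_isPGroup Nat.prime_two).2 h2).qpre h.pi)).trans hO.le
    exact hg (this (mem_mpre.2 ⟨h.nrm ⊤ (mem_top g), hm⟩))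
  have y4 : PiGrp {2}ᶜ (zpowers y) := piGrp_zpowers.2 ((piNat_compl_iff Nat.prime_two).2
    y2.not_two_dvd_nat)
  obtain ⟨R, hR⟩ := exists_sd (K := N) (L := qpre N (zpowers y)) nml_qpre_self
    (by rw [relIndex_le_qpre]; exact h.pi.coprime y4)
  have r1 : PiGrp {2}ᶜ R := by
    unfold PiGrp; rw [← hR.relIndex, relIndex_le_qpre]; exact y4
  obtain ⟨k, -, k1, k2⟩ := h.lift_pow r1 (by
    rintro rfl
    have := hR.sup
    rw [sup_bot_eq] at this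
    exact y1 (zpowers_eq_bot.1 (le_bot_iff.1 (qpre_le_qpre.1 (this.ge.trans qpre_bot.ge)))))
    (g := g) (by
    rw [hR.sup]
    refine norm_mpre (A := zpowers g) (h.nrm _) ?_ (mem_zpowers g)
    rw [mim_zpowers (h.nrm ⊤ (mem_top g)), zpowers_le, mem_N_iff_cj, H18.cj_zpowers, y3,
      zpowers_inv]) hg hp
  refine k1 ((h.cent_le.trans hO.le) (mem_C.2 fun m hm => ?_))
  obtain ⟨c, hc⟩ := isConj_iff.1 (h.cam k k1 m hm)
  have e3 : (k * m) ^ 2 = 1 := by rw [← hc, conj_pow, k2]; group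
  have e4 := h.elem.pow m hm
  rw [pow_two] at e3 e4 k2
  calc m * k = (k * k) * m * k * (m * m) := by rw [k2, e4]; group
    _ = k * (k * m * (k * m)) * m := by group
    _ = k * m := by rw [e3]; group

theorem mem_of_pow_odd (h : Cam p N) (h2 : p ≠ 2) (hO : O[{p}]((⊤ : Subgroup G)) = N)
    (hp : g ^ p ∈ N) : g ∈ N := by
  classical
  by_contra hg
  obtain ⟨a, ha, a1⟩ := exists_mem_ne_one' h.ne
  have d : 2 ∣ Nat.card G := by
    have := (piNat_compl_iff Nat.prime_two).1 (show PiGrp {2}ᶜ N from fun r a b e =>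
      h2 ((h.pi r a b).symm.trans e))
    rw [h.card a ha a1] at this
    exact (show 2 ∣ C1(a).index by omega).trans (index_dvd_card _)
  haveI : Fact (Nat.Prime 2) := ⟨Nat.prime_two⟩
  obtain ⟨t, ht⟩ := exists_prime_orderOf_dvd_card' 2 d
  have t2 : t * t = 1 := by rw [← pow_two, ← ht, pow_orderOf_eq_one]
  have t1 : t ≠ 1 := by rintro rfl; simp at ht
  have tp : PiElt {p}ᶜ t := (piNat_compl_iff h.pr).2 fun e =>
    h2 ((Nat.prime_dvd_prime_iff_eq h.pr Nat.prime_two).1 (ht ▸ e))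
  have iv : ∀ c : G, ∀ m ∈ N, c * t * c⁻¹ * m * (c * t * c⁻¹)⁻¹ = m⁻¹ := fun c m hm =>
    H23.inverts_of_reg (h.nrm ⊤ (mem_top _)) (h.reg (tp.conj c) (by simpa using t1))
      (by rw [conj_mul, t2]; group) hm
  have n1 : ∀ c : G, c ∈ N(N ⊔ zpowers t) := fun c => by
    refine mem_N_of_cj_le ?_
    rw [H18.cj_sup, cj_eq_self (h.nrm ⊤ (mem_top c)), H18.cj_zpowers]
    refine sup_le le_sup_left (zpowers_le.2 ?_)
    have : c * t * c⁻¹ * t⁻¹ ∈ N := (h.cent_le.trans hO.le) (mem_C.2 fun m hm => by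
      have e1 := iv c _ (conj_mem' (h.nrm ⊤) (mem_top t) hm)
      have e2 := iv 1 _ (conj_mem' (h.nrm ⊤) (mem_top t) hm)
      simp only [one_mul, inv_one, mul_one] at e2
      rw [← e2] at e1
      calc m * (c * t * c⁻¹ * t⁻¹) = t * (t⁻¹ * m * t) * t⁻¹ * (c * t * c⁻¹) * t⁻¹ := by group
        _ = _ := by rw [← e1]; group)
    simpa using mul_mem_sup' this (mem_zpowers t)
  have n2 : ∀ k ∈ N(zpowers t), k ∈ C1(t) := fun k hk => by
    have e := conj_mem_N hk (mem_zpowers t)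
    rw [mem_zpowers_iff_mem_range_orderOf, ht] at e
    simp only [Finset.mem_image, Finset.mem_range] at e
    obtain ⟨i, i1, i2⟩ := e
    interval_cases i
    · exact absurd (by simpa using i2.symm) t1
    · rw [mem_C1, ← mul_inv_eq_iff_eq_mul, ← i2, pow_one]
  have z1 : zpowers t ≠ ⊥ := mt zpowers_eq_bot.1 t1
  obtain ⟨k, k0, k1, k2⟩ := h.lift_pow tp.zpowers z1 (n1 g) hg hp
  let f : N → N := fun n => ⟨k⁻¹ * n * k * (n : G)⁻¹,
    mul_mem (conj_mem' (h.nrm ⊤) (mem_top k) n.2) (inv_mem n.2)⟩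
  have hf : Function.Surjective f := fun m => by
    obtain ⟨c, hc⟩ := isConj_iff.1 (h.cam k k1 m m.2)
    obtain ⟨n, hn, e⟩ := h.lift tp.zpowers (n1 c)
    have e1 : n * c * k * (n * c)⁻¹ * k⁻¹ = 1 := eq_one_of_eq_bot (h.reg tp t1) (mem_inf.2 ⟨by
      have := mul_mem hn (conj_mem (h.nrm ⊤) (mem_top k) (mul_mem m.2 (inv_mem hn)))
      convert this using 1
      calc _ = n * (c * k * c⁻¹) * n⁻¹ * k⁻¹ := by group
        _ = _ := by rw [hc]; group,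
      mul_mem (mul_mem (mul_mem (n2 _ e) (n2 _ k0)) (inv_mem (n2 _ e))) (inv_mem (n2 _ k0))⟩)
    refine ⟨⟨n⁻¹, inv_mem hn⟩, Subtype.ext ?_⟩
    calc k⁻¹ * n⁻¹ * k * n⁻¹⁻¹ = k⁻¹ * n⁻¹ * (n * c * k * (n * c)⁻¹ * k⁻¹) * k * n := by
          rw [e1]; group
      _ = k⁻¹ * (c * k * c⁻¹) := by group
      _ = m := by rw [hc]; group
  obtain ⟨b, hb, b1⟩ := exists_mem_ne_one' ((h.pi.sup (piElt_of_pow_eq_one h.pr k2).zpowers
    (Or.inr (h.nrm _))).nil.meet_Z (nml_sup_left (h.nrm _)) h.ne)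
  have e := mem_C.1 hb.2.2 k (mem_sup_right (mem_zpowers k))
  refine b1 (congrArg Subtype.val (Finite.injective_iff_surjective.2 hf (a₁ := ⟨b, hb.1⟩) (a₂ := 1)
    (Subtype.ext ?_)))
  change k⁻¹ * b * k * b⁻¹ = k⁻¹ * 1 * k * 1⁻¹
  rw [mul_assoc k⁻¹, ← e]; group

theorem mem_of_pow (h : Cam p N) (hO : O[{p}]((⊤ : Subgroup G)) = N) (k : ℕ) :
    ∀ g : G, g ^ p ^ k ∈ N → g ∈ N := by
  induction k with
  | zero => simp
  | succ k ih =>
    intro g hg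
    rw [pow_succ, pow_mul] at hg
    by_cases h2 : p = 2
    · subst h2; exact ih g (h.mem_of_pow_two hO hg)
    · exact ih g (h.mem_of_pow_odd h2 hO hg)

end Cam

end H8
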