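import Mathlib.GroupTheory.Abelianization.Defs
import Mathlib.GroupTheory.Index
import Mathlib.GroupTheory.PGroup
import Mathlib.GroupTheory.SpecificGroups.Cyclic

/-! If `N ⊴ G` and `G = ⟨x⟩N`, then `#{n ∈ N | [x,n] ∈ N'} * #G' = #N * #N'`
(`H8.card_comm_mem_mul_card_commutator`); for abelian `N`: `#C_N(x) * #G' = #N`.
A subgroup of prime index together with any element outside generates the group. -/

namespace H8

open Subgroup
open scoped commutatorElement

theorem zpowers_sup_eq_top_of_index_prime {G : Type*} [Group G] {N : Subgroup G} {p : ℕ}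
    (hp : p.Prime) (hN : N.index = p) {x : G} (hx : x ∉ N) : zpowers x ⊔ N = ⊤ := by
  have h1 : (zpowers x ⊔ N).index ∣ p := hN ▸ index_dvd_of_le le_sup_right
  rcases (Nat.dvd_prime hp).mp h1 with h | h
  · exact index_eq_one.mp h
  · exfalso
    have h2 := relIndex_mul_index (le_sup_right : N ≤ zpowers x ⊔ N)
    rw [h, hN] at h2
    have h3 : N.relIndex (zpowers x ⊔ N) = 1 := by
      exact Nat.eq_of_mul_eq_mul_right hp.pos (h2.trans (one_mul p).symm)
    rw [relIndex_eq_one] at h3
    exact hx (h3 (le_sup_left (a := zpowers x) (mem_zpowers x)))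

theorem card_comm_mem_mul_card_commutator {G : Type*} [Group G] [Finite G] (N : Subgroup G)
    [N.Normal] (x : G) (hx : zpowers x ⊔ N = ⊤) :
    Nat.card {n : N // x * n * x⁻¹ * (n : G)⁻¹ ∈ (_root_.commutator N).map N.subtype} *
      Nat.card (_root_.commutator G) = Nat.card N * Nat.card (_root_.commutator N) := by
  let σ : MulAut N := MulAut.conjNormal x
  let φ : N →* Abelianization N :=
    (Abelianization.of.comp σ.toMonoidHom) * (Abelianization.of (G := N))⁻¹
  have hφ : ∀ n : N, φ n = Abelianization.of (σ n * n⁻¹) := by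
    intro n; simp [φ]
  have hof : ∀ n : N, Abelianization.of n = 1 ↔ n ∈ _root_.commutator N := fun n =>
    QuotientGroup.eq_one_iff n
  have hker : ∀ n : N, n ∈ φ.ker ↔
      x * n * x⁻¹ * (n : G)⁻¹ ∈ (_root_.commutator N).map N.subtype := by
    intro n
    rw [MonoidHom.mem_ker, hφ, hof]
    constructor
    · intro h; exact ⟨_, h, by simp [σ]⟩
    · rintro ⟨m, hm, hm'⟩
      have : m = σ n * n⁻¹ := by
        ext; simpa [σ] using hm'
      exact this ▸ hm
  let K0 : Subgroup N := φ.range.comap Abelianization.of
  let K : Subgroup G := K0.map N.subtype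
  have hN'K0 : _root_.commutator N ≤ K0 := by
    intro n hn
    show Abelianization.of n ∈ φ.range
    rw [(hof n).mpr hn]; exact one_mem _
  have hKle : K ≤ _root_.commutator G := by
    rintro _ ⟨k, ⟨n, hn⟩, rfl⟩
    rw [hφ] at hn
    have h1 : (σ n * n⁻¹)⁻¹ * k ∈ _root_.commutator N := QuotientGroup.eq.mp hn
    have h2 : ((σ n * n⁻¹ : N) : G) ∈ _root_.commutator G := by
      have : ((σ n * n⁻¹ : N) : G) = ⁅x, (n : G)⁆ := by simp [σ, commutatorElement_def]
      rw [this]; exact commutator_mem_commutator (mem_top _) (mem_top _)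
    have h3 : (((σ n * n⁻¹)⁻¹ * k : N) : G) ∈ _root_.commutator G := by
      have := Subgroup.mem_map_of_mem N.subtype h1
      rw [_root_.commutator_def, map_commutator] at this
      exact commutator_mono le_top le_top this
    have := mul_mem h2 h3
    rw [← Subgroup.coe_mul, mul_inv_cancel_left] at this
    exact this
  have hKN : K ≤ N := map_subtype_le _
  have hKnormal : K.Normal := by
    rw [← normalizer_eq_top_iff, eq_top_iff, ← hx, sup_le_iff]
    constructor
    · rw [zpowers_le]
      apply mem_normalizer_fintype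
      rintro _ ⟨k, ⟨n, hn⟩, rfl⟩
      refine ⟨σ k, ⟨σ n, ?_⟩, by simp [σ]⟩
      rw [hφ] at hn ⊢
      have := congrArg (Abelianization.map σ.toMonoidHom) hn
      simpa using this
    · intro m hm
      apply mem_normalizer_fintype
      rintro _ ⟨k, hk, rfl⟩
      refine ⟨⟨m, hm⟩ * k * ⟨m, hm⟩⁻¹, ?_, by simp⟩
      show Abelianization.of _ ∈ φ.range
      rw [map_mul, map_mul, mul_right_comm, ← map_mul, mul_inv_cancel, map_one, one_mul]
      exact hk
  have hleK : _root_.commutator G ≤ K := by
    have hxn : ∀ n ∈ N, ⁅x, n⁆ ∈ K := by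
      intro n hn
      refine ⟨σ ⟨n, hn⟩ * ⟨n, hn⟩⁻¹, ⟨⟨n, hn⟩, hφ _⟩, by simp [σ, commutatorElement_def]⟩
    have hnn : ∀ n ∈ N, ∀ m ∈ N, ⁅n, m⁆ ∈ K := by
      intro n hn m hm
      exact ⟨⁅(⟨n, hn⟩ : N), ⟨m, hm⟩⁆, hN'K0 (commutator_mem_commutator (mem_top _) (mem_top _)),
        by simp [commutatorElement_def]⟩
    let π := QuotientGroup.mk' K
    have hcomm : ∀ a b : G, ⁅a, b⁆ ∈ K ↔ π a * π b = π b * π a := by
      intro a b
      rw [← commutatorElement_eq_one_iff_mul_comm, ← map_commutatorElement]
      exact (QuotientGroup.eq_one_iff _).symm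
    have hgen : ∀ b : G, π x * π b = π b * π x → (∀ n ∈ N, π n * π b = π b * π n) →
        ∀ a : G, π a * π b = π b * π a := by
      intro b h1 h2 a
      have : (⊤ : Subgroup G) ≤ (centralizer {π b}).comap π := by
        rw [← hx, sup_le_iff, zpowers_le]
        refine ⟨?_, fun n hn => ?_⟩
        · rw [mem_comap, mem_centralizer_singleton_iff]; exact h1
        · rw [mem_comap, mem_centralizer_singleton_iff]; exact h2 n hn
      have := this (mem_top a)
      rwa [mem_comap, mem_centralizer_singleton_iff] at this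
    have hxc : ∀ a, π a * π x = π x * π a :=
      hgen x rfl (fun n hn => ((hcomm _ _).mp (hxn n hn)).symm)
    have hnc : ∀ n ∈ N, ∀ a, π a * π n = π n * π a := fun n hn =>
      hgen n ((hcomm _ _).mp (hxn n hn)) (fun m hm => (hcomm _ _).mp (hnn m hm n hn))
    rw [_root_.commutator_def, commutator_le]
    intro a _ b _
    rw [hcomm]
    exact hgen b (hxc b).symm (fun n hn => (hnc n hn b).symm) a
  have hK : K = _root_.commutator G := le_antisymm hKle hleK
  have c1 : Nat.card {n : N // x * n * x⁻¹ * (n : G)⁻¹ ∈ (_root_.commutator N).map N.subtype} =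
      Nat.card φ.ker := Nat.card_congr (Equiv.subtypeEquivRight fun n => (hker n).symm)
  have c2 : Nat.card (_root_.commutator G) = Nat.card K0 := by
    rw [← hK]; exact card_map_of_injective N.subtype_injective
  have c3 : Nat.card K0 = Nat.card φ.range * Nat.card (_root_.commutator N) := by
    have hsurj : Function.Surjective (Abelianization.of (G := N)) := QuotientGroup.mk'_surjective _
    have h1 := index_comap_of_surjective φ.range hsurj
    have h2 := card_mul_index K0
    have h3 := card_mul_index φ.range
    have h4 := card_mul_index (_root_.commutator N)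
    have h5 : Nat.card (Abelianization N) = (_root_.commutator N).index := rfl
    have : Finite (Abelianization N) := Finite.of_surjective _ hsurj
    have hpos : 0 < φ.range.index := Nat.pos_of_ne_zero index_ne_zero_of_finite
    apply Nat.eq_of_mul_eq_mul_right hpos
    calc Nat.card K0 * φ.range.index = Nat.card N := by rw [← h1]; exact h2
      _ = _ := by rw [← h4, ← h5, ← h3]; ring
  have c4 : Nat.card φ.ker * Nat.card φ.range = Nat.card N := by
    rw [← index_ker]; exact card_mul_index _
  rw [c1, c2, c3, ← mul_assoc, c4]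

end H8
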