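import Cfsg.Agent.H8.Gq2

/-! Elementary abelian `2`-groups acting on an odd order group `Q` of class two with scalar centre in characteristic two:
`dl_bur` (Burnside: the centre of a nonabelian derived group is not cyclic), `GqS.dl0`, `DlD`, `GqS.dl2`, `GqS.dlb`. -/

set_option autoImplicit false
set_option linter.unusedSectionVars false

namespace H8
open Module Subgroup Cfsg H18 H1 H21 H21.HB
open scoped commutatorElement
universe u v

variable {G : Type u} [Group G] [Finite G] {K : Type*} [Field K] {V : Type v} [AddCommGroup V] [Module K V]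
  [FiniteDimensional K V] {ρ : G →* End K V} {Q S A B D P : Subgroup G} {a b c h t x y z : G}

theorem dl_bur (hP : PiGrp {2} P) (ha : a ∈ C(P)) (a2 : a ^ 2 = 1) (h : ∀ t ∈ Z(⁅P, P⁆), t ^ 2 = 1 → t ∈ zpowers a) :
    Abel ⁅P, P⁆ := by
  by_contra ab
  have BP : ⁅P, P⁆ ≤ P := der_le
  have nB : P ≤ N(⁅P, P⁆) := norm_comm_left
  have nZ : P ≤ N(Z(⁅P, P⁆)) := norm_inf nB (nB.trans N_le_N_C)
  obtain ⟨_, ⟨n1, n2⟩, n3⟩ := exists_mem_ne_one' ((hP.mim (f := coset Z(⁅P, P⁆))).nil.meet_cent (mim_mono BP) le_rfl (mim_norm nB)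
    fun e => ab (((quo_eq_bot_iff (BP.trans nZ)).1 e).trans inf_le_right))
  obtain ⟨n, n4, rfl⟩ := (mem_quo (BP.trans nZ)).1 n1
  have k1 : ⁅zpowers n ⊔ Z(⁅P, P⁆), P⁆ ≤ Z(⁅P, P⁆) := by
    rw [comm_le_iff_quo (sup_le (zpowers_le.2 (nZ (BP n4))) le_N) nZ, mim_sup (zpowers_le.2 (nZ (BP n4))) le_N, quo_eq_bot le_rfl,
      sup_bot_eq, mim_zpowers (nZ (BP n4))]
    exact zpowers_le.2 n2
  have NB : zpowers n ⊔ Z(⁅P, P⁆) ≤ ⁅P, P⁆ := sup_le (zpowers_le.2 n4) inf_le_left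
  have k2 : Abel (zpowers n ⊔ Z(⁅P, P⁆)) := abel_zpowers.sup (inf_le_right.trans (C_anti inf_le_left))
    (cent_symm (inf_le_right.trans (C_anti (zpowers_le.2 n4))))
  by_cases cy : Cyc (zpowers n ⊔ Z(⁅P, P⁆))
  · exact n3 (cs_eq_one (mem_inf.2 ⟨n4, cent_symm (cy.der_cent (norm_of_comm_le (by
      rw [commutator_comm]; exact k1.trans le_sup_right))) (mem_sup_left (mem_zpowers n))⟩))
  obtain ⟨p, hp, E, hE⟩ := k2.exists_pelem_two cy
  obtain rfl : p = 2 := (hP.of_le (hE.le.trans (NB.trans BP))).eq_of_dvd hp ((hE.pi hp).dvd_card (hE.ne_bot hp two_ne_zero))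
  obtain ⟨e, e1, e2⟩ := SetLike.not_le_iff_exists.1 fun c : E ≤ zpowers a => hE.not_cyc hp le_rfl (cyc_zpowers.of_le c)
  have e3 := hE.le e1
  refine e2 (h e ⟨NB e3, ?_⟩ (hE.elem.pow e e1))
  have k3 : ⁅zpowers e, P⁆ ≤ C(P) := by
    have nD : P ≤ N(zpowers a) := (cent_symm (zpowers_le.2 ha)).trans C_le_N
    refine le_trans ?_ (zpowers_le.2 ha)
    rw [comm_le_iff_quo (zpowers_le.2 (nD (BP (NB e3)))) nD, mim_zpowers (nD (BP (NB e3)))]
    refine zpowers_le.2 (mem_C.2 fun w hw => ?_)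
    obtain ⟨x, hx, rfl⟩ := (mem_quo nD).1 hw
    rw [eq_comm, ← commutatorElement_eq_one_iff_mul_comm, ← mfun_comm (nD (BP (NB e3))) (nD hx)]
    have z1 := k1 (commutator_mem_commutator e3 hx)
    refine cs_eq_one (h _ z1 ?_)
    have z2 := mem_C.1 z1.2 e (NB e3)
    calc ⁅e, x⁆ ^ 2 = (e * ⁅e, x⁆ * e⁻¹) * ⁅e, x⁆ := by rw [z2, sq]; group
      _ = e ^ 2 * x * (e ^ 2)⁻¹ * x⁻¹ := by rw [commutatorElement_def, sq]; group
      _ = 1 := by rw [hE.elem.pow e e1]; group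
  exact cent_symm (commutator_eq_bot_iff_le_centralizer.1 (three_subgroup (by
    rw [commutator_comm P]; exact commutator_eq_bot_iff_le_centralizer.2 k3)
    (commutator_eq_bot_iff_le_centralizer.2 k3))) (mem_zpowers e)

/-- a nondegenerate subgroup on which `y` acts fixed-point-freely -/
structure DlD (Q D : Subgroup G) (y : G) : Prop where
  le : D ≤ Q
  Z : Z(Q) ≤ D
  nd : D ⊓ C(D) ≤ C(Q)
  nt : ¬ D ≤ C(Q)
  n : y ∈ N(D)
  fp : ∀ d ∈ D, d * y = y * d → d ∈ C(Q)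

instance dlFact : Fact (Nat.Prime 2) := ⟨Nat.prime_two⟩

theorem dl_char [CharP K 2] (ρ : G →* End K V) (y2 : y ^ 2 = 1) : (ρ y - 1) * (ρ y) = ρ y - 1 := by
  have : (2 : End K V) = 0 := by
    rw [← Nat.cast_ofNat, ← map_natCast (algebraMap K (End K V)), CharP.cast_eq_zero, map_zero]
  rw [sub_mul, ← map_mul, ← sq, y2, map_one, one_mul, ← sub_eq_zero]
  calc 1 - ρ y - (ρ y - 1) = 2 * (1 - ρ y) := by noncomm_ring
    _ = 0 := by rw [this, zero_mul]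

namespace GqS
variable (s : GqS 2 ρ Q)
include s

theorem dl0 (d : DlD Q D y) (yp : PiElt {2} y) {φ : End K V} (h1 : ∀ x ∈ D, ρ x * φ = φ * ρ x) (h2 : (ρ y - 1) * φ = 0) :
    φ = 0 := by
  by_contra c
  let F : Subgroup G :=
    { carrier := {g | ρ g * φ = φ}
      one_mem' := by simp
      mul_mem' := fun {a b} ha hb => show _ = _ by rw [map_mul, mul_assoc, hb, ha]
      inv_mem' := fun {a} ha => show _ = _ by
        nth_rewrite 1 [← show ρ a * φ = φ from ha]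
        rw [← mul_assoc, ← map_mul, inv_mul_cancel, map_one, one_mul] }
  have yF : y ∈ F := show _ = _ by rwa [sub_mul, one_mul, sub_eq_zero] at h2
  have nF : D ≤ N(F) := fun x hx => mem_N_of_finite fun g hg => show _ = _ by
    rw [map_mul, map_mul, mul_assoc, h1 _ (inv_mem hx), ← mul_assoc, mul_assoc (ρ x), show ρ g * φ = φ from hg, h1 x hx,
      mul_assoc, ← map_mul, mul_inv_cancel, map_one, mul_one]
  have k1 : ⁅D, zpowers y⁆ ≤ F := (comm_mono le_rfl (zpowers_le.2 yF)).trans (comm_le_right nF)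
  have l : ⁅D, zpowers y⁆ ≤ D := comm_le_left (zpowers_le.2 d.n)
  have k2 : Abel ⁅D, zpowers y⁆ := commutator_eq_bot_iff_le_centralizer.1 (eq_bot_iff.2 fun z hz => by
    have z1 := comm_mono (l.trans d.le) (l.trans d.le) hz
    obtain ⟨k, hk⟩ := s.sc z (der_le z1) (s.c2 z1)
    have z2 : ρ z * φ = φ := k1 (der_le hz)
    rw [hk, smul_mul_assoc, one_mul] at z2
    have : k = 1 := smul_left_injective K c (z2.trans (one_smul K φ).symm)
    exact s.inj z (by rw [hk, this, one_smul]))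
  have k3 : D ≤ ⁅D, zpowers y⁆ ⊔ Z(Q) := (s.cop d.le d.n yp).comm_sup.ge.trans (sup_le_sup_left (fun x hx =>
    ⟨d.le hx.1, d.fp x hx.1 (mem_C.1 hx.2 y (mem_zpowers y)).symm⟩) _)
  have k4 : Abel (⁅D, zpowers y⁆ ⊔ Z(Q)) := k2.sup (s.Z_cen _) (cent_symm (s.Z_cen _))
  exact d.nt ((le_inf le_rfl (k4.mono k3)).trans d.nd)

theorem dlE (hy : y ∈ N(Q)) (yp : PiElt {2} y) (c : y ∉ C(Q)) : DlD Q (GqE Q y) y :=
  ⟨GqE_le hy, Z_le_GqE, fun _ h => s.nondeg hy yp h.1 h.2, fun e => c (s.cent_of_triv hy yp e), norm_GqE hy rfl,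
    fun _ => s.cent_of_EC hy yp⟩

theorem dl_inv (hD : D ≤ Q) (xn : x ∈ N(D)) (xp : PiElt {2} x) (x2 : x ^ 2 ∈ C(Q))
    (fp : ∀ d ∈ D, d * x = x * d → d ∈ C(Q)) (hd : a ∈ D) : x * a * x⁻¹ * a ∈ C(Q) := by
  have a1 := conj_mem_N xn hd
  refine fp _ (mul_mem a1 hd) (s.cent_of_mod xp ?_ ?_).symm
  · exact hD (mul_mem (conj_mem_N xn (mul_mem a1 hd)) (inv_mem (mul_mem a1 hd)))
  · have : x * (x * a * x⁻¹ * a) * x⁻¹ * (x * a * x⁻¹ * a)⁻¹ = ⁅a, x * a * x⁻¹⁆ := by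
      calc _ = (x ^ 2 * a * (x ^ 2)⁻¹) * (x * a * x⁻¹) * (x * a * x⁻¹ * a)⁻¹ := by rw [sq]; group
        _ = _ := by rw [← mem_C.1 x2 a (hD hd), commutatorElement_def]; group
    exact this ▸ s.c2 (commutator_mem_commutator (hD hd) (hD a1))

theorem dl1 (d : DlD Q D y) (yp : PiElt {2} y) (y2 : y ^ 2 ∈ C(Q)) (xn : x ∈ N(D)) (xp : PiElt {2} x) (x2 : x ^ 2 ∈ C(Q))
    (e : x * y = y * x) : ∃ D' ≤ D, DlD Q D' y ∧ (x ∈ C(D') ∨ y * x ∈ C(D')) ∧ ∀ g ∈ N(D), g * x = x * g → g ∈ N(D') := by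
  have n1 : ∀ g ∈ N(D), g * x = x * g → g ∈ N(D ⊓ C1(x)) := fun g g1 g2 => mem_N_of_finite fun c hc =>
    mem_inf.2 ⟨conj_mem_N g1 hc.1, mem_C1.2 (by
      calc g * c * g⁻¹ * x = g * (c * x) * g⁻¹ := by rw [mul_assoc, (show Commute g x from g2).inv_left.eq]; group
        _ = _ := by rw [mem_C1.1 hc.2, ← mul_assoc, g2]; group)⟩
  by_cases c : D ⊓ C1(x) ≤ C(Q)
  · refine ⟨D, le_rfl, d, Or.inr (mem_C.2 fun a ha => (s.cent_of_mod (yp.mul' xp e.symm) ?_ ?_).symm), fun g h _ => h⟩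
    · exact d.le (mul_mem (conj_mem_N (mul_mem d.n xn) ha) (inv_mem ha))
    · have k1 := s.dl_inv d.le xn xp x2 (fun d h1 h2 => c ⟨h1, mem_C1.2 h2⟩) ha
      have k2 := s.dl_inv d.le d.n yp y2 d.fp ha
      have k3 := s.cen (d.le (mul_mem (conj_mem_N xn ha) ha)) k1 y
      have : y * x * a * (y * x)⁻¹ * a⁻¹ = (x * a * x⁻¹ * a) * (a * (y * a * y⁻¹ * a)⁻¹ * a⁻¹)⁻¹⁻¹ * 1 := by
        calc y * x * a * (y * x)⁻¹ * a⁻¹ = (y * (x * a * x⁻¹ * a)) * y⁻¹ * (y * a⁻¹ * y⁻¹ * a⁻¹) := by group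
          _ = _ := by rw [k3]; group
      rw [this, inv_inv, mul_one]
      exact mul_mem k1 (conj_mem_N (N_le_N_C (le_N (d.le ha))) (inv_mem k2))
  · refine ⟨D ⊓ C1(x), inf_le_left, ⟨inf_le_left.trans d.le, le_inf d.Z fun z hz => mem_C1.2 (s.cen hz.1 hz.2 x).symm,
      fun a ha => d.nd ⟨ha.1.1, mem_C.2 fun w hw => ?_⟩, c, n1 y d.n e.symm, fun a ha => d.fp a ha.1⟩,
      Or.inl (mem_C.2 fun a ha => mem_C1.1 ha.2), n1⟩
    obtain ⟨e, -, c, c1, e1, c2, rfl⟩ := s.dec d.le xn xp hw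
    rw [mul_assoc, mem_C.1 ha.2 c ⟨c1, mem_C1.2 c2⟩, ← mul_assoc, s.EC_comm e1 (d.le ha.1.1) (mem_C1.1 ha.1.2), mul_assoc]

variable [CharP K 2]

theorem dl2 (hy : y ∈ N(Q)) (y2 : y ^ 2 = 1) (c : y ∉ C(Q)) (xn : x ∈ N(Q)) (xp : PiElt {2} x) (x2 : x ^ 2 ∈ C(Q))
    (e : x * y = y * x) (h : (ρ y - 1) * (ρ x - 1) = 0) : x = 1 ∨ y * x = 1 := by
  have yp : PiElt {2} y := gq_pelt (k := 1) (by simpa using y2)
  obtain ⟨D, -, d, k, -⟩ := s.dl1 (s.dlE hy yp c) yp (y2 ▸ one_mem _) (norm_GqE xn e) xp x2 e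
  have f : ∀ w ∈ C(D), (ρ y - 1) * (ρ w - 1) = 0 → w = 1 := fun w w1 w2 => s.inj w (sub_eq_zero.1 (s.dl0 d yp
    (fun g hg => by rw [mul_sub, sub_mul, ← map_mul, mem_C.1 w1 g hg, map_mul, mul_one, one_mul]) w2))
  refine k.imp (fun k => f _ k h) fun k => f _ k ?_
  rw [map_mul, mul_sub, ← mul_assoc, dl_char ρ y2, ← mul_sub, h]

theorem dlA (hA : A ≤ N(Q)) (pA : PiGrp {2} A) (h : ∀ a ∈ A, ∀ b ∈ A, (ρ a - 1) * (ρ b - 1) = 0) (ha : a ∈ A)
    (c : a ∉ C(Q)) : a ^ 2 = 1 ∧ ∀ b ∈ A, b = 1 ∨ b = a := by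
  have h2 : ∀ b ∈ A, b ^ 2 = 1 := fun b hb => s.inj _ (by
    have := sub_one_pow (K := K) (p := 2) (ρ b) 1
    rw [pow_one, sq, h b hb b hb, eq_comm, sub_eq_zero] at this
    rw [map_pow, this])
  refine ⟨h2 a ha, fun b hb => (s.dl2 (hA ha) (h2 a ha) c (hA hb) (pA.elt hb) (h2 b hb ▸ one_mem _) ?_
    (h a ha b hb)).imp_right fun e => ?_⟩
  · have e1 := h2 _ (mul_mem ha hb)
    have e2 := h2 a ha
    have e3 := h2 b hb
    rw [sq] at e1 e2 e3
    rw [eq_inv_of_mul_eq_one_left e1, mul_inv_rev, inv_eq_of_mul_eq_one_left e2, inv_eq_of_mul_eq_one_left e3]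
  · rw [eq_inv_of_mul_eq_one_right e, inv_eq_of_mul_eq_one_left (sq a ▸ h2 a ha)]

theorem dlb (hP : PiGrp {2} P) (hn : P ≤ N(Q)) (eB : B = ⁅P, P⁆) (h3 : ∀ a ∈ ⁅B, B⁆, ∀ b ∈ ⁅B, B⁆, (ρ a - 1) * (ρ b - 1) = 0)
    (h2 : ∀ a ∈ ⁅B, B⁆, ∀ b ∈ B, ∀ b' ∈ B, (ρ a - 1) * ((ρ b - 1) * (ρ b' - 1)) = 0) (hh : h ∈ B) (hb : b ∈ B)
    (h0 : h ^ 2 = 1) : ⁅h, b⁆ ∈ C(Q) := by
  by_contra c
  have BP : B ≤ P := eB ▸ der_le
  have nB : P ≤ N(B) := eB ▸ norm_comm_left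
  have aA := commutator_mem_commutator hh hb
  obtain ⟨a2, hA⟩ := s.dlA (der_le.trans (BP.trans hn)) (hP.of_le (der_le.trans BP)) h3 aA c
  have mm : ∀ t ∈ B, ⁅t, b⁆ ∈ C(Q) → ∀ w ∈ zpowers t, ⁅w, b⁆ ∈ C(Q) := fun t ht e w hw => by
    have nC : N(Q) ≤ N(C(Q)) := N_le_N_C
    refine (comm_le_iff_quo (zpowers_le.2 (nC (hn (BP ht)))) (zpowers_le.2 (nC (hn (BP hb))))).2 ?_
      (commutator_mem_commutator hw (mem_zpowers b))
    rw [mim_zpowers (nC (hn (BP ht))), mim_zpowers (nC (hn (BP hb))), zpowers_le, C_zpowers, mem_C1,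
      ← commutatorElement_eq_one_iff_mul_comm, ← mfun_comm (nC (hn (BP ht))) (nC (hn (BP hb)))]
    exact cs_eq_one e
  generalize ha : ⁅h, b⁆ = a at *
  have aB : a ∈ B := der_le aA
  have ac : ∀ x ∈ P, x * a = a * x := fun x hx => mul_inv_eq_iff_eq_mul.1 ((hA _ (conj_mem_N (norm_comm nB nB hx)
    aA)).resolve_left fun e => c (by rw [conj_eq_one_iff.1 e]; exact one_mem _))
  have nC : P ≤ N(C(Q)) := hn.trans N_le_N_C
  obtain ⟨t, t1, t2, t3, t4⟩ : ∃ t ∈ B, ⁅zpowers t, B⁆ ≤ C(Q) ∧ t ^ 2 ∈ C(Q) ∧ cs C(Q) t ∉ zpowers (cs C(Q) a) := by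
    by_contra! k
    have := dl_bur (hP.mim (f := coset C(Q))) (mim_cent le_rfl (mfun_mem_mim (mem_C.2 ac)))
      (by rw [← mfun_pow (nC (BP aB)), a2, mfun_one]) fun t ht e => by
        rw [← mim_comm nC nC, ← eB] at ht
        obtain ⟨t, t1, rfl⟩ := (mem_quo (BP.trans nC)).1 ht.1
        refine k t t1 ((comm_le_iff_quo (zpowers_le.2 (nC (BP t1))) (BP.trans nC)).2 ?_) ((cs_eq_one_iff
          (pow_mem (nC (BP t1)) 2)).1 (by rw [mfun_pow (nC (BP t1)), e]))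
        rw [mim_zpowers (nC (BP t1))]; exact zpowers_le.2 ht.2
    rw [← mim_comm nC nC, ← eB] at this
    exact c ((abel_quo_iff (BP.trans nC)).1 this aA)
  have th : t * h = h * t := commutatorElement_eq_one_iff_mul_comm.1 ((hA _ (commutator_mem_commutator t1 hh)).resolve_right
    fun e => c (e ▸ t2 (commutator_mem_commutator (mem_zpowers t) hh)))
  have ap := hP.elt (BP aB)
  have an := hn (BP aB)
  have a2' : a ^ 2 ∈ C(Q) := a2 ▸ one_mem _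
  obtain ⟨D, -, d, k1, n1⟩ := s.dl1 (s.dlE an ap c) ap a2' (norm_GqE (hn (BP t1)) (ac t (BP t1))) (hP.elt (BP t1)) t3
    (ac t (BP t1))
  obtain ⟨D', l, d', k2, -⟩ := s.dl1 d ap a2' (n1 h (norm_GqE (hn (BP hh)) (ac h (BP hh))) th.symm) (hP.elt (BP hh))
    (h0 ▸ one_mem _) (ac h (BP hh))
  have fin : ∀ t' h' : G, (t' = t ∨ t' = a * t) → (h' = h ∨ h' = a * h) → t' ∈ C(D') → h' ∈ C(D') → False := by
    intro t' h' e1 e2 c1 c2
    have tB : t' ∈ B := by rcases e1 with rfl | rfl; exacts [t1, mul_mem aB t1]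
    have hB : h' ∈ B := by rcases e2 with rfl | rfl; exacts [hh, mul_mem aB hh]
    have at' : Commute a t := (ac t (BP t1)).symm
    have ah : Commute a h := (ac h (BP hh)).symm
    have th' : Commute t h := th
    have cm : Commute t' h' := by
      rcases e1 with rfl | rfl <;> rcases e2 with rfl | rfl
      exacts [th', at'.symm.mul_right th', ah.mul_left th', ((Commute.refl a).mul_right ah).mul_left (at'.symm.mul_right th')]
    have h2' : h' ^ 2 = 1 := by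
      rcases e2 with rfl | rfl
      exacts [h0, by rw [ah.mul_pow, a2, h0, one_mul]]
    have t2' : t' ^ 2 ∈ C(Q) := by
      rcases e1 with rfl | rfl
      exacts [t3, by rw [at'.mul_pow, a2, one_mul]; exact t3]
    have ab : ∀ w : G, ⁅a * w, b⁆ = a * ⁅w, b⁆ * a⁻¹ := fun w => by
      calc ⁅a * w, b⁆ = a * ⁅w, b⁆ * a⁻¹ * ⁅a, b⁆ := by simp only [commutatorElement_def]; group
        _ = _ := by rw [commutatorElement_eq_one_iff_mul_comm.2 (ac b (BP hb)).symm, mul_one]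
    have hb' : ⁅h', b⁆ ∉ C(Q) := by
      rcases e2 with rfl | rfl
      exacts [ha ▸ c, by rw [ab, ha, mul_inv_cancel_right]; exact c]
    have tb' : ⁅t', b⁆ ∈ C(Q) := t2 (by
      rcases e1 with rfl | rfl
      · exact commutator_mem_commutator (mem_zpowers _) hb
      · rw [ab]; exact conj_mem_N (norm_comm_right aB) (commutator_mem_commutator (mem_zpowers _) hb))
    have e := s.dl0 d' ap (φ := (ρ h' - 1) * (ρ t' - 1)) (fun g hg => by
      have c3 : Commute (ρ g) (ρ t') := (show Commute g t' from mem_C.1 c1 g hg).map ρ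
      have c4 : Commute (ρ g) (ρ h') := (show Commute g h' from mem_C.1 c2 g hg).map ρ
      exact ((c4.sub_right (Commute.one_right _)).mul_right (c3.sub_right (Commute.one_right _))).eq) (h2 a aA h' hB t' tB)
    rcases s.dl2 (hn (BP hB)) h2' (fun e => hb' (comm_le_left (zpowers_le.2 (nC (BP hb)))
      (commutator_mem_commutator e (mem_zpowers b)))) (hn (BP tB)) (hP.elt (BP tB)) t2' cm.eq e with e | e
    · rcases e1 with rfl | rfl
      · exact t4 (by rw [e, mfun_one]; exact one_mem _)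
      · exact t4 (by rw [eq_inv_of_mul_eq_one_right e, mfun_inv (nC (BP aB))]; exact inv_mem (mem_zpowers _))
    · exact hb' (mm t' tB tb' h' (eq_inv_of_mul_eq_one_left e ▸ inv_mem (mem_zpowers _)))
  rcases k1 with k1 | k1 <;> rcases k2 with k2 | k2
  exacts [fin _ _ (.inl rfl) (.inl rfl) (C_anti l k1) k2, fin _ _ (.inl rfl) (.inr rfl) (C_anti l k1) k2,
    fin _ _ (.inr rfl) (.inl rfl) (C_anti l k1) k2, fin _ _ (.inr rfl) (.inr rfl) (C_anti l k1) k2]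

end GqS
end H8
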