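import Cfsg.Agent.H8.Dl1

/-! Iterated commutator identities along the derived series of a `2`-group: `pop`, `Idn`, `LI`, transfer `LI.tr`, the
weight space shift `dl_down`, and the module theorem `dl_main` (critical commutators `Cn` centralize `Q`). -/

set_option autoImplicit false
set_option linter.unusedSectionVars false

namespace H8
open Module Subgroup Cfsg H18 H1 H21 H21.HB
open scoped commutatorElement
universe u v

section gen
variable {G G' α β : Type*} [Group G] [Group G'] {t : G → α → α} {t' : G' → β → β} {S T N D : Subgroup G}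
  {S' : Subgroup G'} {e e' : ℕ → ℕ} {n m j k i : ℕ} {U Y : Set α} {U' Y' : Set β} {c : G}

/-- iterated application -/
def pop (t : G → α → α) (s : ℕ → G) : ℕ → α → α
  | 0, a => a
  | i + 1, a => t (s i) (pop t s i a)

theorem pop_shift (s : ℕ → G) (n : ℕ) (a : α) : pop t s (n + 1) a = pop t (fun i => s (i + 1)) n (t (s 0) a) := by
  induction n with
  | zero => rfl
  | succ n ih => exact congrArg (t (s (n + 1))) ih

/-- prepend an element -/
def dc (x : G) (s : ℕ → G) : ℕ → G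
  | 0 => x
  | i + 1 => s i

/-- an identity along the derived series -/
def Idn (t : G → α → α) (S : Subgroup G) (e : ℕ → ℕ) (n : ℕ) (U Y : Set α) : Prop :=
  ∀ s : ℕ → G, (∀ i, s i ∈ dser S (e i)) → ∀ a ∈ U, pop t s n a ∈ Y

/-- the three identities at level `m` -/
def LI (t : G → α → α) (S : Subgroup G) (m : ℕ) (U Y : Set α) : Prop :=
  Idn t S id (m + 1) U Y ∧ Idn t S (fun i => if i < 2 then m - 1 else m) 3 U Y ∧ Idn t S (fun _ => m) 2 U Y

theorem Idn.tr (h : Idn t S e n U Y) (R : α → β → Prop)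
    (hf : ∀ i, ∀ y ∈ dser S' (e' i), ∃ x ∈ dser S (e i), ∀ a b, R a b → R (t x a) (t' y b))
    (h1 : ∀ b ∈ U', ∃ a ∈ U, R a b) (h0 : ∀ a ∈ Y, ∀ b, R a b → b ∈ Y') : Idn t' S' e' n U' Y' := fun s hs b hb => by
  choose x x1 x2 using fun i => hf i (s i) (hs i)
  obtain ⟨a, a1, a2⟩ := h1 b hb
  refine h0 _ (h x x1 a a1) _ ?_
  clear h
  induction n with
  | zero => exact a2
  | succ n ih => exact x2 n _ _ ih

theorem LI.tr (h : LI t S m U Y) (R : α → β → Prop)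
    (hf : ∀ j, ∀ y ∈ dser S' j, ∃ x ∈ dser S j, ∀ a b, R a b → R (t x a) (t' y b))
    (h1 : ∀ b ∈ U', ∃ a ∈ U, R a b) (h0 : ∀ a ∈ Y, ∀ b, R a b → b ∈ Y') : LI t' S' m U' Y' :=
  ⟨h.1.tr R (fun _ => hf _) h1 h0, h.2.1.tr R (fun _ => hf _) h1 h0, h.2.2.tr R (fun _ => hf _) h1 h0⟩

theorem Idn.mono (h : Idn t S e n U Y) (h1 : ∀ i, dser T (e' i) ≤ dser S (e i)) {W : Set α} (h2 : W ⊆ U) :
    Idn t T e' n W Y := fun s hs a ha => h s (fun i => h1 i (hs i)) a (h2 ha)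

theorem LI.mono (h : LI t S m U Y) (h1 : T ≤ S) : LI t T m U Y :=
  ⟨h.1.mono (fun _ => dser_mono h1) le_rfl, h.2.1.mono (fun _ => dser_mono h1) le_rfl,
    h.2.2.mono (fun _ => dser_mono h1) le_rfl⟩

/-- the critical elements -/
def Cn (N S : Subgroup G) (m : ℕ) (T : Subgroup G) (j : ℕ) (c : G) : Prop :=
  c ∈ dser S m ∧ (m = 0 ∨ (∃ a ∈ dser S m, c = a ^ 2) ∨ (∃ a ∈ dser S m, ∃ b ∈ dser T j, b ∈ N(dser S m) ∧ c = ⁅a, b⁆) ∨
    ∃ h ∈ dser S (m - 1), ∃ b ∈ dser S (m - 1), h ^ 2 ∈ N ∧ c = ⁅h, b⁆)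

theorem Cn.shift (h : Cn N S (k + m) T (i + j) c) : Cn N (dser S k) m (dser T i) j c := by
  unfold Cn
  rw [← dser_add, ← dser_add, ← dser_add]
  rcases m with _ | m
  exacts [⟨h.1, .inl rfl⟩, ⟨h.1, .inr (h.2.resolve_left (Nat.succ_ne_zero _))⟩]

theorem Cn.mim [Finite G] {f : D →* G'} (h : Cn N S m T j c) (h1 : S ≤ D) (h2 : T ≤ D) (h3 : N ≤ mker f) :
    Cn ⊥ (mim f S) m (mim f T) j (mfun f c) := by
  unfold Cn
  rw [← mim_dser h1, ← mim_dser h1, ← mim_dser h2]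
  have k1 : ∀ {i x}, x ∈ dser S i → x ∈ D := fun h => h1 (dser_le h)
  refine ⟨mfun_mem_mim h.1, h.2.imp_right (Or.imp ?_ (Or.imp ?_ ?_))⟩
  · rintro ⟨a, a1, rfl⟩
    exact ⟨_, mfun_mem_mim a1, mfun_pow (k1 a1) 2⟩
  · rintro ⟨a, a1, b, b1, b2, rfl⟩
    exact ⟨_, mfun_mem_mim a1, _, mfun_mem_mim b1, mfun_mem_N b2, mfun_comm (k1 a1) (h2 (dser_le b1))⟩
  · rintro ⟨a, a1, b, b1, b2, rfl⟩
    exact ⟨_, mfun_mem_mim a1, _, mfun_mem_mim b1, by rw [← mfun_pow (k1 a1), (mem_mker.1 (h3 b2)).2]; exact one_mem _,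
      mfun_comm (k1 a1) (k1 b1)⟩

end gen

variable {G : Type u} [Group G] [Finite G] {K : Type*} [Field K] {V : Type v} [AddCommGroup V] [Module K V]
  [FiniteDimensional K V] {ρ : G →* End K V} {Q S T N Z : Subgroup G} {a c : G} {l : G → K} {m j : ℕ}

/-- the additive commutator -/
def dt {M : Type*} [Monoid M] (ρ : M →* End K V) (x : M) (w : V) : V := ρ x w - w

theorem pop_lin (s : ℕ → G) (n : ℕ) : ∃ φ : End K V, ∀ a, pop (dt ρ) s n a = φ a := by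
  induction n with
  | zero => exact ⟨1, fun _ => rfl⟩
  | succ n ih =>
    obtain ⟨φ, h⟩ := ih
    exact ⟨(ρ (s n) - 1) * φ, fun a => congrArg (dt ρ (s n)) (h a)⟩

theorem pop_mem {W : Submodule K V} {s : ℕ → G} (hs : ∀ i, s i ∈ grStab ρ W) (n : ℕ) {w : V} (hw : w ∈ W) :
    pop (dt ρ) s n w ∈ W := by
  induction n with
  | zero => exact hw
  | succ n ih => exact sub_mem (hs n _ ih) ih

theorem dl_shift (hZ : Abel Z) (hS : PiGrp {2} S) (hn : S ≤ N(Z)) (c : ¬ S ≤ grStab ρ (gqV ρ Z l))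
    (h : Idn (dt ρ) S id (m + 1) (gqV ρ Z l) {0}) : ∃ k, m = k + 1 ∧ Idn (dt ρ) (dser S 1) id (k + 1) (gqV ρ Z l) {0} := by
  obtain ⟨x, x1, x2⟩ := SetLike.not_le_iff_exists.1 fun e : S ≤ S ⊓ grStab ρ (gqV ρ Z l) ⊔ ⁅S, S⁆ =>
    c ((phi_nongen inf_le_left (e.trans (sup_le_sup_left (hS.der_le_phi Nat.prime_two) _))).ge.trans inf_le_right)
  rcases m with _ | k
  · refine absurd (mem_sup_left (mem_inf.2 ⟨x1, fun w hw => ?_⟩)) x2
    have := h (dc x fun _ => 1) (fun i => by rcases i with _ | i; exacts [x1, one_mem _]) w hw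
    rw [show ρ x w = w from sub_eq_zero.1 this]
    exact hw
  refine ⟨k, rfl, fun s hs w hw => ?_⟩
  have s1 : ∀ i, s i ∈ ⁅S, S⁆ := fun i => dser_le (hs i)
  have e := h (dc x s) (fun i => by
    rcases i with _ | i
    exacts [x1, by have := hs i; rwa [← dser_add, add_comm] at this]) w hw
  rw [pop_shift] at e
  have n1 : ⁅S, S⁆ ≤ N(Z) := der_le.trans hn
  let W : (G → K) → Submodule K V := fun l => ⨆ y : (⁅S, S⁆ : Subgroup G), gqV ρ Z fun z => l (y.1⁻¹ * z * y)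
  have w1 : ∀ l, ∀ w ∈ gqV ρ Z l, pop (dt ρ) s (k + 1) w ∈ W l := fun l w hw => pop_mem (fun i u hu =>
    Submodule.iSup_induction _ (motive := fun u => ρ (s i) u ∈ W l) hu (fun y u hu => Submodule.mem_iSup_of_mem
      ⟨s i * y, mul_mem (s1 i) y.2⟩ (by simpa only [mul_inv_rev, mul_assoc] using gqV_map (n1 (s1 i)) hu)) (by simp)
      fun a b ha hb => by rw [map_add]; exact add_mem ha hb) _ (Submodule.mem_iSup_of_mem 1 (by simpa using hw))
  have ind := End.independent_iInf_maxGenEigenspace_of_forall_mapsTo (fun z : Z => ρ z) fun a b φ =>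
    End.mapsTo_maxGenEigenspace_of_comm ((show Commute b.1 a.1 from comm_of_cent hZ b.2 a.2).map ρ) φ
  let O : (G → K) → Set (Z → K) := fun l => {χ | ∃ y ∈ ⁅S, S⁆, χ = fun z : Z => l (y⁻¹ * z * y)}
  have w2 : ∀ l, W l ≤ ⨆ χ ∈ O l, ⨅ z : Z, (ρ z).maxGenEigenspace (χ z) := fun l => iSup_le fun y =>
    le_trans (le_iInf fun (z : Z) u hu => End.eigenspace_le_maxGenEigenspace (End.mem_eigenspace_iff.2
      (mem_gqV.1 hu z z.2))) (le_biSup (fun χ : Z → K => ⨅ z : Z, (ρ z).maxGenEigenspace (χ z))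
      (show (fun z : Z => l (y.1⁻¹ * z * y)) ∈ O l from ⟨y, y.2, rfl⟩))
  have dj : Disjoint (O l) (O fun z => l (x⁻¹ * z * x)) := Set.disjoint_left.2 (by
    rintro _ ⟨y, y1, rfl⟩ ⟨u, u1, e⟩
    have g1 : y⁻¹ * u * x ∈ S := mul_mem (der_le (mul_mem (inv_mem y1) u1)) x1
    have g2 : y⁻¹ * u * x ∈ grStab ρ (gqV ρ Z l) := by_contra fun c => by
      obtain ⟨z, z1, z2⟩ := gqV_ne (hn g1) c
      have := congrFun e ⟨_, conj_mem_N (n1 y1) z1⟩
      exact z2 (by simpa [mul_assoc] using this.symm)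
    have := mul_mem (mem_sup_right (mul_mem (inv_mem u1) y1))
      (mem_sup_left (mem_inf.2 ⟨g1, g2⟩) : _ ∈ S ⊓ grStab ρ (gqV ρ Z l) ⊔ ⁅S, S⁆)
    exact x2 (by simpa [mul_assoc] using this))
  have a1 := w2 _ (w1 _ _ hw)
  have a2 := w2 _ (w1 _ _ (gqV_map (hn x1) hw))
  obtain ⟨φ, hφ⟩ := pop_lin (ρ := ρ) s (k + 1)
  have e' : φ (ρ x w - w) = 0 := (hφ _).symm.trans e
  rw [map_sub, sub_eq_zero, ← hφ, ← hφ] at e'
  exact Submodule.disjoint_def.1 (ind.disjoint_biSup_biSup dj) _ a1 (e' ▸ a2)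

theorem dl_iter (hZ : Abel Z) (m : ℕ) : ∀ S : Subgroup G, PiGrp {2} S → S ≤ N(Z) →
    Idn (dt ρ) S id (m + 1) (gqV ρ Z l) {0} →
    ∃ k j, k + j = m ∧ dser S k ≤ grStab ρ (gqV ρ Z l) ∧ Idn (dt ρ) (dser S k) id (j + 1) (gqV ρ Z l) {0} := by
  induction m using Nat.strong_induction_on with | _ m ih
  intro S hS hn h
  by_cases c : S ≤ grStab ρ (gqV ρ Z l)
  · exact ⟨0, m, zero_add m, c, h⟩
  obtain ⟨n, rfl, h1⟩ := dl_shift hZ hS hn c h
  obtain ⟨k, j, rfl, h2, h3⟩ := ih n n.lt_succ_self _ (hS.of_le dser_le) (dser_le.trans hn) h1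
  rw [← dser_add] at h2 h3
  exact ⟨1 + k, j, by omega, h2, h3⟩

theorem dl_down (hZ : Abel Z) (hS : PiGrp {2} S) (hn : S ≤ N(Z)) (h : LI (dt ρ) S m Set.univ {0}) :
    ∃ k j, k + j = m ∧ dser S k ≤ grStab ρ (gqV ρ Z l) ∧ LI (dt ρ) (dser S k) j (gqV ρ Z l) {0} := by
  obtain ⟨k, j, rfl, h1, h2⟩ := dl_iter (l := l) hZ m S hS hn (h.1.mono (fun _ => le_rfl) (Set.subset_univ _))
  refine ⟨k, j, rfl, h1, h2, h.2.1.mono (fun i => ?_) (Set.subset_univ _), h.2.2.mono (fun _ => dser_add.ge)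
    (Set.subset_univ _)⟩
  rw [← dser_add]
  exact dser_anti (by split_ifs <;> omega)

variable [CharP K 2]

theorem GqS.dl_sc (s : GqS 2 ρ Q) (hS : PiGrp {2} S) (hn : S ≤ N(Q)) (h : LI (dt ρ) S m Set.univ {0})
    (hc : Cn ⊥ S m T j c) : c ∈ C(Q) := by
  by_contra k
  have h3 : ∀ a ∈ dser S m, ∀ b ∈ dser S m, (ρ a - 1) * (ρ b - 1) = 0 := fun a ha b hb => LinearMap.ext fun w =>
    h.2.2 (dc b fun _ => a) (fun i => by rcases i with _ | i; exacts [hb, ha]) w trivial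
  have dA := fun a => s.dlA (a := a) (dser_le.trans hn) (hS.of_le dser_le) h3
  obtain ⟨c2, hA⟩ := dA c hc.1 k
  have ac : ∀ x ∈ N(dser S m), x * c = c * x := fun x hx => mul_inv_eq_iff_eq_mul.1 ((hA _ (conj_mem_N hx hc.1)).resolve_left
    fun e => k (by rw [conj_eq_one_iff.1 e]; exact one_mem _))
  have k1 : c ≠ 1 := fun e => k (e ▸ one_mem _)
  obtain rfl | ⟨a, a1, rfl⟩ | ⟨a, a1, b, -, b2, e⟩ | ⟨x, x1, b, b1, x2, e⟩ := hc.2
  · exact k1 (s.inj c (LinearMap.ext fun w => sub_eq_zero.1 (h.1 (dc c fun _ => 1)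
      (fun i => by rcases i with _ | i; exacts [hc.1, one_mem _]) w trivial)))
  · exact k1 (dA a a1 fun e => k (pow_mem e 2)).1
  · rcases hA a a1 with rfl | rfl
    exacts [k1 (e.trans (commutatorElement_one_left b)), k1 (e.trans (commutatorElement_eq_one_iff_mul_comm.2 (ac b b2).symm))]
  rcases m with _ | _ | m
  · exact k1 (s.inj c (LinearMap.ext fun w => sub_eq_zero.1 (h.1 (dc c fun _ => 1)
      (fun i => by rcases i with _ | i; exacts [hc.1, one_mem _]) w trivial)))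
  · have nS : S ≤ N(dser S (0 + 1)) := dser_nml.2
    rcases s.dl2 (hn (dser_le hc.1)) c2 k (hn x1) (hS.elt x1) (mem_bot.1 x2 ▸ one_mem _) (ac x (nS x1)) (LinearMap.ext fun w =>
      h.1 (dc x (dc c fun _ => 1)) (fun i => by
        rcases i with _ | _ | i; exacts [x1, hc.1, one_mem _]) w trivial) with r | r
    · exact k1 (by rw [e, r, commutatorElement_one_left])
    · refine k1 (e.trans (commutatorElement_eq_one_iff_mul_comm.2 ?_))
      rw [eq_inv_of_mul_eq_one_right r]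
      exact (show Commute b c from ac b (nS b1)).inv_right.symm
  · refine k (e ▸ s.dlb (P := dser S m) (hS.of_le dser_le) (dser_le.trans hn) rfl h3 (fun a ha y hy z hz =>
      LinearMap.ext fun w => h.2.1 (dc z (dc y fun _ => a)) (fun i => ?_) w trivial)
      x1 b1 (mem_bot.1 x2))
    rcases i with _ | _ | i
    exacts [hz, hy, by beta_reduce; rw [if_neg (by omega)]; exact ha]

/-- the statement for a fixed module -/
def DlP (G : Type u) [Group G] (K : Type*) [Field K] (V : Type v) [AddCommGroup V] [Module K V] : Prop :=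
  ∀ (ρ : G →* End K V), (∀ x, ρ x = 1 → x = 1) → ∀ (Q S T : Subgroup G) (m j : ℕ) (c : G), PiGrp {2}ᶜ Q → ⁅Q, Q⁆ ≤ C(Q) →
    PiGrp {2} S → PiGrp {2} T → S ≤ N(Q) → T ≤ N(Q) → LI (dt ρ) S m Set.univ {0} → LI (dt ρ) T j Set.univ {0} →
    Cn ⊥ S m T j c → c ∈ C(Q)

omit [CharP K 2] in
theorem dl_transfer (ih : ∀ (G : Type u) [Group G] [Finite G], DlP G K V) {D : Subgroup G} (ρ : D →* End K V) {α : Type*}
    {t : G → α → α} (R : α → V → Prop) {U Y : Set α} (hR : ∀ x (hx : x ∈ D) a v, R a v → R (t x a) (dt ρ ⟨x, hx⟩ v))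
    (r1 : ∀ v, ∃ a ∈ U, R a v) (r0 : ∀ a ∈ Y, ∀ v, R a v → v = 0) (QD : Q ≤ D) (SD : S ≤ D) (TD : T ≤ D) (ND : N ≤ D)
    (hN : ∀ x : D, x.1 ∈ N → ρ x = 1) (h1 : PiNat {2}ᶜ (N.relIndex Q)) (h2 : ⁅⁅Q, Q⁆, Q⁆ ≤ N) (hS : PiGrp {2} S)
    (hT : PiGrp {2} T) (nS : S ≤ N(Q)) (nT : T ≤ N(Q)) (lS : LI t S m U Y) (lT : LI t T j U Y) (hc : Cn N S m T j c)
    (ha : a ∈ ⁅zpowers c, Q⁆) (hD : a ∈ D) : ρ ⟨a, hD⟩ = 1 := by
  let f := QuotientGroup.mk' ρ.toHomUnits.ker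
  let ρ' := (Units.coeHom _).comp (QuotientGroup.kerLift ρ.toHomUnits)
  have Nk : N ≤ mker f := fun x hx => mem_mker.2 ⟨ND hx, by
    rw [mfun_of_mem (ND hx)]; exact (QuotientGroup.eq_one_iff _).2 (Units.ext (hN _ hx))⟩
  have tr : ∀ {S : Subgroup G} {m}, S ≤ D → LI t S m U Y → LI (dt ρ') (mim f S) m Set.univ {0} := fun {S m} SD h =>
    h.tr R (fun i y hy => by
      rw [← mim_dser SD] at hy
      obtain ⟨x, x1, x2, rfl⟩ := mem_mim.1 hy
      exact ⟨x, x1, by rw [mfun_of_mem x2]; exact hR x x2⟩) (fun v _ => r1 v) r0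
  have := ih _ ρ' (fun x hx => QuotientGroup.kerLift_injective ρ.toHomUnits (Units.ext (by rw [map_one]; exact hx)))
    (mim f Q) (mim f S) (mim f T) m j (mfun f c) (show PiNat _ _ by rw [card_mim QD]; exact H21.PiNat.idx_up h1 Nk)
    (by rw [← mim_comm QD QD, ← comm_le_mker_iff (der_le.trans QD) QD]; exact h2.trans Nk) hS.mim hT.mim (mim_norm nS)
    (mim_norm nT) (tr SD lS) (tr TD lT) (hc.mim SD TD Nk)
  have cD : c ∈ D := SD (dser_le hc.1)
  rw [← zpowers_le, ← mim_zpowers cD, ← comm_le_mker_iff (zpowers_le.2 cD) QD] at this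
  have e := (mem_mker.1 (this ha)).2
  rw [mfun_of_mem hD] at e
  exact congrArg ρ' e |>.trans (map_one ρ')

theorem dl_all [IsAlgClosed K] (d : ℕ) : ∀ (V : Type v) [AddCommGroup V] [Module K V] [FiniteDimensional K V],
    finrank K V = d → ∀ (G : Type u) [Group G] [Finite G], DlP G K V := by
  induction d using Nat.strong_induction_on with | _ d ih
  intro V _ _ _ hd G _ _ ρ inj Q S T m j c h1 h2 hS hT nS nT lS lT hc
  have XQ : ⁅zpowers c, Q⁆ ≤ Q := comm_le_right (zpowers_le.2 (nS (dser_le hc.1)))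
  suffices fin : ∀ a ∈ ⁅zpowers c, Q⁆, a = 1 from
    zpowers_le.1 (commutator_eq_bot_iff_le_centralizer.1 (eq_bot_iff.2 fun a ha => mem_bot.2 (fin a ha)))
  have q1 : PiNat {2}ᶜ ((⊥ : Subgroup G).relIndex Q) := by rw [relIndex_bot_left]; exact h1
  have q2 := (commutator_eq_bot_iff_le_centralizer.2 h2).le
  have sub : ∀ (U : Submodule K V) (i1 : ∀ x : grStab ρ U, ∀ w ∈ U, (ρ.comp (grStab ρ U).subtype) x w ∈ U)
      (S T : Subgroup G) (m j : ℕ) (W : Set V), U ≠ ⊤ → (U : Set V) ⊆ W → (u1 : Q ≤ grStab ρ U) → S ≤ grStab ρ U →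
      T ≤ grStab ρ U → PiGrp {2} S → PiGrp {2} T → S ≤ N(Q) → T ≤ N(Q) → LI (dt ρ) S m W {0} → LI (dt ρ) T j W {0} →
      Cn ⊥ S m T j c → ∀ a (ha : a ∈ ⁅zpowers c, Q⁆), resHom _ U i1 ⟨a, u1 (XQ ha)⟩ = 1 :=
    fun U i1 S T m j W u6 hW u1 u2 u3 hS hT nS nT lS lT hc a ha => dl_transfer (ih _ (hd ▸ Submodule.finrank_lt u6) U rfl)
      (resHom _ U i1) (fun a v => a = v.1) (fun x hx a v e => by rw [e]; rfl) (fun v => ⟨v.1, hW v.2, rfl⟩)
      (fun a ha v e => Subtype.ext (e.symm.trans ha)) u1 u2 u3 bot_le (fun x hx => by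
        rw [show x = 1 from Subtype.ext hx, map_one]) q1 q2 hS hT nS nT lS lT hc ha _
  by_cases irr : ∀ U : Submodule K V, Q ⊔ (S ⊔ T) ≤ grStab ρ U → U = ⊥ ∨ U = ⊤
  swap
  · push Not at irr
    obtain ⟨U, u1, u5, u6⟩ := irr
    obtain ⟨u1, u2⟩ := sup_le_iff.1 u1
    obtain ⟨u2, u3⟩ := sup_le_iff.1 u2
    intro a ha
    have i1 : ∀ x : grStab ρ U, ∀ w ∈ U, (ρ.comp (grStab ρ U).subtype) x w ∈ U := fun x => x.2
    exact gq_unip inj (h1.elt (XQ ha)) (u1 (XQ ha)) i1 (sub U i1 S T m j _ u6 (Set.subset_univ _) u1 u2 u3 hS hT nS nT lS lT hc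
      a ha) (dl_transfer (ih _ (by
        have := U.finrank_quotient_add_finrank
        have := Submodule.finrank_eq_zero.not.2 u5
        omega) (V ⧸ U) rfl) (grQuo _ U i1) (fun a v => U.mkQ a = v) (fun x hx a v e => by rw [← e]; rfl)
        (fun v => (U.mkQ_surjective v).imp fun a e => ⟨trivial, e⟩) (fun a ha v e => by rw [← e, ha, map_zero]) u1 u2 u3 bot_le
        (fun x hx => by rw [show x = 1 from Subtype.ext hx, map_one]) q1 q2 hS hT nS nT lS lT hc ha _)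
  by_cases sc : ∀ z ∈ Q, z ∈ C(Q) → ∃ c : K, ρ z = c • 1
  · have s : GqS 2 ρ Q := ⟨inj, h1, h2, sc⟩
    intro a ha
    rwa [commutator_eq_bot_iff_le_centralizer.2 (zpowers_le.2 (s.dl_sc hS nS lS hc)), mem_bot] at ha
  have nZ : N(Q) ≤ N(Z(Q)) := norm_inf le_rfl N_le_N_C
  have aZ : Abel Z(Q) := inf_le_right.trans (C_anti inf_le_left)
  have nA : Q ⊔ (S ⊔ T) ≤ N(Z(Q)) := (sup_le le_N (sup_le nS nT)).trans nZ
  refine fun a ha => inj a (gqV_span aZ nA irr fun l w hw => ?_)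
  obtain ⟨k, m, rfl, a1, a2⟩ := dl_down (l := l) aZ hS (nS.trans nZ) lS
  obtain ⟨i, j, rfl, b1, b2⟩ := dl_down (l := l) aZ hT (nT.trans nZ) lT
  exact congrArg (fun θ : End K (gqV ρ Z(Q) l) => (θ ⟨w, hw⟩ : V)) (sub _ (fun x => x.2) _ _ m j _
    (fun e => sc fun z z1 z2 => gq_sc nA aZ irr e ⟨z1, z2⟩) le_rfl ((cent_symm inf_le_right).trans gqV_cent) a1 b1
    (hS.of_le dser_le) (hT.of_le dser_le) (dser_le.trans nS) (dser_le.trans nT) a2 b2 hc.shift a ha)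

theorem dl_main (G : Type u) [Group G] [Finite G] : DlP G K V := by
  intro ρ inj Q S T m j c h1 h2 hS hT nS nT lS lT hc
  let F := AlgebraicClosure K
  let φ := End.baseChangeHom K F V
  have i : Function.Injective φ := LinearMap.baseChangeHom_injective K V F
  have k1 : ∀ {S : Subgroup G} {e n}, Idn (dt ρ) S e n Set.univ {0} → Idn (dt (φ.toMonoidHom.comp ρ)) S e n Set.univ {0} :=
    fun {S e n} h s hs w _ => by
      obtain ⟨ψ, hψ⟩ := pop_lin (ρ := φ.toMonoidHom.comp ρ) s n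
      rw [Set.mem_singleton_iff, hψ]
      induction w using TensorProduct.induction_on with
      | zero => exact map_zero ψ
      | add a b ha hb => rw [map_add, ha trivial, hb trivial, add_zero]
      | tmul r v =>
        rw [← hψ]
        exact h.tr (t' := dt (φ.toMonoidHom.comp ρ)) (U' := {r ⊗ₜ[K] v}) (Y' := {0}) (fun a b => b = r ⊗ₜ[K] a)
          (fun i y hy => ⟨y, hy, fun a b e => by rw [e]; exact (TensorProduct.tmul_sub _ _ _).symm⟩)
          (fun b hb => ⟨v, trivial, hb⟩) (fun a ha b e => by rw [e, ha]; exact TensorProduct.tmul_zero _ _) s hs _ rfl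
  exact dl_all (K := F) _ _ rfl G (φ.toMonoidHom.comp ρ) (fun x e => inj x (i (e.trans (map_one φ).symm))) Q S T m j c
    h1 h2 hS hT nS nT ⟨k1 lS.1, k1 lS.2.1, k1 lS.2.2⟩ ⟨k1 lT.1, k1 lT.2.1, k1 lT.2.2⟩ hc

end H8
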