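import Cfsg.Agent.H8.Dl2
import Cfsg.Agent.H1.FTCor
import Cfsg.Agent.H4.Critical

/-! The `2`-length of a `2`-soluble group is at most the derived length of its Sylow `2`-subgroups: `DlH` (identities on
the chief `2`-factors), `dl_mem`, `dl_step`, `dl_plr`, `dl_plr_der`. -/

set_option autoImplicit false
set_option linter.unusedSectionVars false

namespace H8
open Module Subgroup Cfsg H18 H1 H21 H21.HB
open scoped commutatorElement
universe u

variable {G : Type u} [Group G] [Finite G] {H K M N Q S T V X Y : Subgroup G} {c : G} {m n : ℕ}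

/-- the group commutator -/
def dlc {G : Type*} [Group G] (x w : G) : G := ⁅x, w⁆

/-- the identities hold on all chief `2`-factors above `N` -/
def DlH (m : ℕ) (H N : Subgroup G) : Prop :=
  ∀ Y X, Chief H Y X → N ≤ Y → PiNat {2} (Y.relIndex X) → ∀ S ≤ H, PiGrp {2} S → LI dlc S m (X : Set G) Y

theorem dl_glob (hs : H4.PSol 2 H) (hO : O[{2}](H) = ⊥) (hc : c ∈ H) (cp : PiElt {2} c)
    (h : ∀ U, U ⊴ H → PiGrp {2}ᶜ U → ⁅U, U⁆ ≤ C(U) → c ∈ C(U)) : c = 1 := by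
  have pL : PiGrp {2}ᶜ O[{2}ᶜ](H) := pcore_pi
  have k : Cop (zpowers c) O[{2}ᶜ](H) := cop_of_pi ((zpowers_le.2 hc).trans pcore_nml.2) cp.zpowers pL (.inl abel_zpowers.solv)
  refine cp.eq_one' (pL.elt (psol_cent_p'core hs hO ⟨hc, cent_symm (k.cent_of_cent_fit (solv_of_two' pL)
    (fit_le_of_pcores fun q hq q1 => ?_)) (mem_zpowers c)⟩))
  have q2 : q ≠ 2 := fun e => (piNat_compl_iff Nat.prime_two).1 (pL.of_le fit_le) (e ▸ q1)
  haveI : Fact q.Prime := ⟨hq⟩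
  have nP : O[{q}](O[{2}ᶜ](H)) ⊴ H := pcore_nml.pcore
  obtain ⟨U, u1, u2, u3, -, -, u4⟩ := H4.exists_critical_odd q2 (pcore_pi (π := {q}) (H := O[{2}ᶜ](H))).isPGroup
  exact cent_symm (u4 _ (H4.pResidualOf_eq_self_of_coprime ((piNat_compl_iff_coprime hq).1
    (PiNat.p'_of_ne cp.zpowers q2.symm))) ((zpowers_le.2 hc).trans nP.2) (zpowers_le.2 (h U ⟨u1.trans nP.1, nP.2.trans u2⟩
    (pL.of_le (u1.trans pcore_nml.1)) (((comm_mono le_rfl u1).trans u3).trans inf_le_right))))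

theorem dl_elem (ch : Chief H Y X) (hi : PiNat {2} (Y.relIndex X)) : Elem 2 (X ⫽ Y) :=
  ch.minNorm.elem_of_pi ((piGrp_quo_iff ch.nml.2).2 hi)

theorem dl_act (h : RD 2 H V) (hy : DlH m H ⊥) (SH : S ≤ H) (TH : T ≤ H) (hS : PiGrp {2} S) (hT : PiGrp {2} T)
    (hc : Cn V S m T m c) (ch : Chief H Y X) (XV : X ≤ V) (hQ : Q ⊴ H) (q1 : PiNat {2}ᶜ (V.relIndex Q))
    (q2 : ⁅⁅Q, Q⁆, Q⁆ ≤ V) : ⁅⁅zpowers c, Q⁆, X⁆ ≤ Y := by
  have hi : PiNat {2} (Y.relIndex X) := (piGrp_quo_iff ch.nml.2).1 (h.pi.of_le XV).mim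
  have hW := dl_elem ch hi
  have nY := ch.nmlV.2
  have XH := ch.nmlU.1
  have f1 : ∀ g : H, ((coset Y).comp (inclusion nY)) g = cs Y g.1 := fun g => (mfun_of_mem (f := coset Y) (nY g.2)).symm
  let ρ := elemRep hW ((coset Y).comp (inclusion nY)) fun g => f1 g ▸ mfun_mem_N (ch.nmlU.2 g.2)
  have val : ∀ (x : H) v, (dt ρ x v).val = ⁅cs Y x.1, v.val⁆ := fun x v => by
    rw [dt, sub_eq_add_neg, EV.val_add, EV.val_neg, elemRep_val, f1]; rfl
  have triv : ∀ x : H, ρ x = 1 ↔ ∀ a ∈ X, ⁅x.1, a⁆ ∈ Y := fun x => by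
    refine ⟨fun e a ha => (cs_eq_one_iff (nY (comm_le_of_le le_rfl XH (commutator_mem_commutator x.2 ha)))).1 ?_,
      fun e => LinearMap.ext fun v => sub_eq_zero.1 (EV.ext ((val x v).trans ?_))⟩
    · rw [mfun_comm (nY x.2) (nY (XH ha))]
      refine (val x (EV.mk hW _ (mfun_mem_mim ha))).symm.trans ?_
      rw [dt, e, End.one_apply, sub_self]; rfl
    · obtain ⟨a, a1, a2⟩ := (mem_quo ch.nml.2).1 v.mem
      rw [← a2, ← mfun_comm (nY x.2) (nY (XH a1))]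
      exact cs_eq_one (e a a1)
  have DH : ⁅zpowers c, Q⁆ ≤ H := comm_le_of_le (zpowers_le.2 (SH (dser_le hc.1))) hQ.1
  refine commutator_le.2 fun a ha => (triv ⟨a, DH ha⟩).1 (dl_transfer (fun G _ _ => dl_main G) ρ
    (fun a v => a ∈ X ∧ cs Y a = v.val) (fun x hx a v e => ⟨comm_le_right ch.nmlU.2 (commutator_mem_commutator hx e.1), by
      rw [val, ← e.2]; exact mfun_comm (nY hx) (nY (XH e.1))⟩) (fun v => ?_) (fun a ha v e => EV.ext (e.2.symm.trans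
      (cs_eq_one ha))) hQ.1 SH TH h.nml.1 (fun x hx => (triv x).2 fun a ha => ?_) q1 q2 hS hT (SH.trans hQ.2) (TH.trans hQ.2)
    (hy Y X ch bot_le hi S SH hS) (hy Y X ch bot_le hi T TH hT) hc ha _)
  · obtain ⟨a, a1, a2⟩ := (mem_quo ch.nml.2).1 v.mem
    exact ⟨a, a1, a1, a2⟩
  · rw [← commutatorElement_inv]
    exact inv_mem (ch.comm_nil_le h.nml h.pi.mim.nil (commutator_mem_commutator ha hx))

theorem dl_mem (h : RD 2 H V) (hy : DlH m H ⊥) (SH : S ≤ H) (TH : T ≤ H) (hS : PiGrp {2} S) (hT : PiGrp {2} T)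
    (hc : Cn V S m T m c) : c ∈ V := by
  have cS := dser_le hc.1
  have nV := h.nml.2
  have cN := nV (SH cS)
  refine (cs_eq_one_iff cN).1 (dl_glob (psol_mim h.psol) h.quo_core (mfun_mem_mim (SH cS)) ((hS.elt cS).mfun cN)
    fun U hU h1 h2 => ?_)
  have hQ := nml_qpre h.nml hU
  have a := fun Y X ch XV => dl_act (Y := Y) (X := X) h hy SH TH hS hT hc ch XV hQ (by rw [relIndex_le_qpre]; exact h1) (by
    rw [comm_le_iff_quo (der_le.trans qpre_le) qpre_le, mim_comm qpre_le qpre_le, quo_qpre]; exact h2)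
  rw [← quo_qpre (U := U), ← zpowers_le, ← mim_zpowers cN, ← comm_le_iff_quo (zpowers_le.2 cN) qpre_le]
  intro d hd
  have d1 : d ∈ qpre V U := comm_le_right (zpowers_le.2 (hQ.2 (SH cS))) hd
  have d2 := piPart_mem (π := {2}ᶜ) hd
  have d3 := hQ.1 (piPart_mem (π := {2}ᶜ) d1)
  refine mem_of_parts (π := {2}) ((cs_eq_one_iff (nV (hQ.1 (piPart_mem d1)))).1 ?_) (h.cent ⟨d3, stable_chief_cent
    (cop_of_pi' (zpowers_le.2 (nV d3)) piElt_piPart.zpowers h.pi (.inl abel_zpowers.solv)) h.nml (fun Y X ch XV => ?_)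
    (mem_zpowers _)⟩)
  · rw [mfun_piPart (qpre_le d1)]
    exact piPart_eq_one (h1.elt (mem_mpre.1 d1).2)
  · rw [commutator_comm]
    exact (comm_mono (zpowers_le.2 d2) le_rfl).trans (a Y X ch XV)

theorem dl_cover (hY : Y ⊴ H) (SH : S ≤ H) (MS : M ≤ S) (nM : S ≤ N(M)) (hX : X ≤ M ⊔ Y)
    (h : ⁅dser S m, M ⊓ dser S m⁆ ≤ Y) : LI dlc S m (X : Set G) Y := by
  have A : ∀ {e : ℕ → ℕ} {s : ℕ → G}, (∀ i, s i ∈ dser S (e i)) → ∀ w ∈ M, ∀ i, pop dlc s i w ∈ M := fun hs w hw i => by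
    induction i with
    | zero => exact hw
    | succ i ih => exact comm_le_right nM (commutator_mem_commutator (dser_le (hs i)) ih)
  have B : ∀ {j x w}, x ∈ dser S j → w ∈ M → dlc x w ∈ dser S j := fun hx hw =>
    comm_le_left dser_nml.2 (commutator_mem_commutator hx (MS hw))
  have k : LI dlc S m (M : Set G) Y := by
    refine ⟨fun s hs w hw => h (commutator_mem_commutator (hs m) ⟨A hs w hw m, ?_⟩), fun s hs w hw =>
      h (commutator_mem_commutator (hs 2) ⟨A hs w hw 2, ?_⟩), fun s hs w hw =>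
      h (commutator_mem_commutator (hs 1) ⟨A hs w hw 1, B (hs 0) hw⟩)⟩
    · clear h
      induction m with
      | zero => exact MS hw
      | succ i ih => exact commutator_mem_commutator (hs i) ih
    · exact dser_anti (show m ≤ m - 1 + 1 by omega) (commutator_mem_commutator (hs 1) (B (hs 0) hw))
  have nY := hY.2
  refine k.tr (fun a b => a ∈ H ∧ b ∈ H ∧ cs Y a = cs Y b) (fun j y hy => ⟨y, hy, fun a b e => ?_⟩) (fun b hb => ?_)
    fun a ha b e => (cs_eq_one_iff (nY e.2.1)).1 (e.2.2.symm.trans (cs_eq_one ha))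
  · have y1 := SH (dser_le hy)
    exact ⟨comm_le_of_le le_rfl le_rfl (commutator_mem_commutator y1 e.1), comm_le_of_le le_rfl le_rfl
      (commutator_mem_commutator y1 e.2.1), by rw [dlc, dlc, mfun_comm (nY y1) (nY e.1), mfun_comm (nY y1) (nY e.2.1), e.2.2]⟩
  · obtain ⟨a, a1, y, y1, rfl⟩ := (mem_sup_of_norm (MS.trans (SH.trans nY))).1 (hX hb)
    have a2 := SH (MS a1)
    exact ⟨a, a1, a2, mul_mem a2 (hY.1 y1), by rw [mfun_mul (nY a2) (le_N y1), cs_eq_one y1, mul_one]⟩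

theorem dl_cover' (ch : Chief H Y X) (hi : PiNat {2} (Y.relIndex X)) (hS : Hall {2} S H) (h : dser S (m + 1) ⊓ X ≤ Y) :
    LI dlc S m (X : Set G) Y :=
  dl_cover ch.nmlV hS.1 inf_le_left (norm_inf le_N (hS.1.trans ch.nmlU.2)) ((hS.inf_nml ch.nmlU).sup_of_idx ch.le hi).ge
    ((le_inf (comm_mono le_rfl inf_le_right) ((comm_mono le_rfl (inf_le_left.trans inf_le_right)).trans
      (comm_le_right (dser_le.trans (hS.1.trans ch.nmlU.2))))).trans h)

theorem dl_base (h : ∀ P ≤ H, PiGrp {2} P → dser P (m + 1) = ⊥) : DlH m H ⊥ := fun Y X ch _ hi S SH hS => by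
  obtain ⟨P, p1, p2⟩ := exists_sylow_le Nat.prime_two hS SH
  exact (dl_cover' ch hi p1 (by rw [h P p1.1 p1.2, bot_inf_eq]; exact bot_le)).mono p2

theorem dl_chief (hK : K ⊴ H) {X Y : Subgroup (Coset K)} (ch : Chief (H ⫽ K) Y X) : Chief H (qpre K Y) (qpre K X) :=
  ⟨(qpre_le_qpre.2 ch.le).lt_of_not_ge fun e => ch.lt.not_ge (qpre_le_qpre.1 e), nml_qpre hK ch.nmlV, nml_qpre hK ch.nmlU,
    fun W w1 w2 w3 => by
      have w4 := w2.trans qpre_le
      have := ch.max (W ⫽ K) (by have := quo_lt_quo le_qpre w4 w1; rwa [quo_qpre] at this)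
        ((mim_mono w2).trans quo_qpre.le) (mim_norm w3)
      rw [← this, qpre_quo_nml ⟨le_qpre.trans w1.le, w4⟩]⟩

theorem DlH.quo (h : DlH m H K) (hK : K ⊴ H) : DlH m (H ⫽ K) ⊥ := fun Y X ch _ hi U h1 h2 => by
  obtain ⟨P, p1, p2, rfl⟩ := exists_pGrp_lift Nat.prime_two hK.2 h1 h2
  have nP := p1.trans hK.2
  refine (h _ _ (dl_chief hK ch) le_qpre (by rw [idx_mpre (by rw [quo_N]; exact le_top)]; exact hi) P p1 p2.2).tr
    (fun a b => a ∈ N(K) ∧ cs K a = b) (fun j y hy => ?_) (fun b hb => ?_) fun a ha b e => e.2 ▸ (mem_mpre.1 ha).2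
  · rw [← mim_dser nP] at hy
    obtain ⟨x, x1, x2, rfl⟩ := mem_mim.1 hy
    exact ⟨x, x1, fun a b e => ⟨comm_le_of_le le_rfl le_rfl (commutator_mem_commutator x2 e.1),
      e.2 ▸ mfun_comm x2 e.1⟩⟩
  · obtain ⟨a, a1, rfl⟩ := (mem_quo hK.2).1 (ch.nmlU.1 hb)
    exact ⟨a, mem_mpre.2 ⟨hK.2 a1, hb⟩, hK.2 a1, rfl⟩

theorem dl_step (h : RD 2 H V) (hy : DlH (n + 1) H ⊥) : DlH n H V := fun Y X ch VY hi S₀ h1 h2 => by
  obtain ⟨S, hS, le⟩ := exists_sylow_le Nat.prime_two h2 h1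
  refine LI.mono ?_ le
  by_cases c : dser S (n + 1) ⊓ X ≤ Y
  · exact dl_cover' ch hi hS c
  have hT := hS.inf_nml ch.nmlU
  have SN : S ≤ H ⊓ N(S ⊓ X) := le_inf hS.1 (norm_inf le_N (hS.1.trans ch.nmlU.2))
  let s : Set G := {x | ∃ g ∈ H ⊓ N(S ⊓ X), ∃ a ∈ dser S (n + 1) ⊓ X, x = g * a * g⁻¹}
  have sT : ∀ x ∈ s, x ∈ S ⊓ X := by
    rintro _ ⟨g, g1, a, a1, rfl⟩
    exact conj_mem_N g1.2 ⟨dser_le a1.1, a1.2⟩
  have MT : closure s ≤ S ⊓ X := (closure_le _).2 sT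
  have nM : H ⊓ N(S ⊓ X) ≤ N(closure s) := norm_closure (by
    rintro x hx _ ⟨g, g1, a, a1, rfl⟩
    exact ⟨x * g, mul_mem hx g1, a, a1, by group⟩)
  have nV := h.nml.2
  have sN : ∀ x ∈ closure s, x ∈ N(V) := fun x hx => nV (hS.1 (MT hx).1)
  have k0 : ∀ g ∈ H ⊓ N(S ⊓ X), ∀ a ∈ dser S (n + 1) ⊓ X, g * a * g⁻¹ ∈ dser (cj g S) (n + 1) := fun g _ a a1 => by
    rw [← cj_dser]; exact conj_mem_cj a1.1
  have k1 : Abel (closure s ⫽ V) := by
    rw [mim_closure fun x hx => sN x (subset_closure hx)]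
    refine (closure_le _).2 ?_
    rw [centralizer_closure]
    rintro _ ⟨x, hx, rfl⟩ _ ⟨y, hy', rfl⟩
    rw [← commutatorElement_eq_one_iff_mul_comm, ← mfun_comm (sN _ (subset_closure hy')) (sN _ (subset_closure hx))]
    have xT := sT x hx
    obtain ⟨g, g1, a, a1, rfl⟩ := hy'
    obtain ⟨u, u1, b, b1, rfl⟩ := hx
    have k2 : u * b * u⁻¹ ∈ N(dser (cj g S) (n + 1)) := norm_dser le_N (mem_cj.2 (conj_mem_N' g1.2 xT).1)
    exact cs_eq_one (dl_mem h hy (cj_le_of_mem hS.1 g1.1) (cj_le_of_mem hS.1 u1.1) (hS.2.cj g) (hS.2.cj u)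
      ⟨comm_le_left (zpowers_le.2 k2) (commutator_mem_commutator (k0 g g1 a a1) (mem_zpowers _)),
        .inr (.inr (.inl ⟨_, k0 g g1 a a1, _, k0 u u1 b b1, k2, rfl⟩))⟩)
  have k3 : ∀ x ∈ closure s, x ^ 2 ∈ V := fun x hx => by
    rw [← cs_eq_one_iff (pow_mem (sN x hx) 2), mfun_pow (sN x hx)]
    induction hx using closure_induction with
    | mem x hx =>
      rw [← mfun_pow (sN _ (subset_closure hx))]
      obtain ⟨g, g1, a, a1, rfl⟩ := hx
      exact cs_eq_one (dl_mem h hy (cj_le_of_mem hS.1 g1.1) (cj_le_of_mem hS.1 g1.1) (hS.2.cj g) (hS.2.cj g)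
        ⟨pow_mem (k0 g g1 a a1) 2, .inr (.inl ⟨_, k0 g g1 a a1, rfl⟩)⟩)
    | one => rw [mfun_one, one_pow]
    | mul x y hx hy e1 e2 =>
      rw [mfun_mul (sN x hx) (sN y hy), Commute.mul_pow (comm_of_cent k1 (mfun_mem_mim hx) (mfun_mem_mim hy)), e1, e2, one_mul]
    | inv x hx e => rw [mfun_inv (sN x hx), inv_pow, e, inv_one]
  have MX : closure s ⊔ Y ≤ X := sup_le (MT.trans inf_le_right) ch.le
  refine dl_cover ch.nmlV hS.1 (MT.trans inf_le_left) (SN.trans nM) (ch.max _ (le_sup_right.lt_of_not_ge fun e => c fun a ha =>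
    e (mem_sup_left (Subgroup.subset_closure (show a ∈ s from ⟨1, one_mem _, a, ha, by simp⟩)))) MX ?_).ge (commutator_le.2 fun b hb x hx => VY ?_)
  · rw [← frattini_arg Nat.prime_two ch.nmlU hT]
    exact sup_le (norm_of_comm_le ((comm_mono le_rfl MX).trans (((abel_quo_iff ch.nml.2).1 (dl_elem ch hi).abel).trans
      le_sup_right))) (norm_sup nM (inf_le_left.trans ch.nmlV.2))
  · rw [← commutatorElement_inv]
    exact inv_mem (dl_mem h hy hS.1 hS.1 hS.2 hS.2 ⟨commutator_mem_commutator hx.2 hb,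
      .inr (.inr (.inr ⟨x, hx.2, b, hb, k3 x hx.1, rfl⟩))⟩)

theorem dl_plr (m : ℕ) : ∀ (G : Type u) [Group G] [Finite G] (H : Subgroup G), H4.PSol 2 H → DlH m H ⊥ →
    PLR 2 H (m + 1) ⊥ := by
  have q : ∀ m, ∀ (G : Type u) [Group G] [Finite G] (H K : Subgroup G), K ⊴ H → DlH m H ⊥ → DlH m (H ⫽ K) ⊥ :=
    fun m G _ _ H K hK h => DlH.quo (fun Y X ch _ => h Y X ch bot_le) hK
  induction m with
  | zero =>
    intro G _ _ H hs he
    refine plr_step (fun G _ H => DlH 0 H ⊥) (q 0) (fun G _ _ H V h a => plr_zero_iff.2 ⟨h.nml, (piGrp_quo_iff h.nml.2).1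
      (piGrp_of_prime_elt fun x hx h1 (e : _ = 2) => h1.one_lt.ne' (orderOf_eq_one_iff.2 ?_))⟩) hs he
    obtain ⟨P, p1, p2, p3⟩ := exists_pGrp_lift Nat.prime_two h.nml.2 (zpowers_le.2 hx) (PiElt.zpowers (e ▸ piNat_self h1))
    exact zpowers_eq_bot.1 (p3 ▸ quo_eq_bot fun c hc => dl_mem h a p1 p1 p2.2 p2.2 ⟨hc, .inl rfl⟩)
  | succ m ih =>
    intro G _ _ H hs he
    exact plr_step (fun G _ H => DlH (m + 1) H ⊥) (q _) (fun G _ _ H V h a => (plr_quo_iff h.nml).1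
      (ih _ _ (psol_mim h.psol) ((dl_step h a).quo h.nml))) hs he

theorem dl_plr_der (d : ℕ) (hs : H4.PSol 2 H) (he : ∀ P ≤ H, PiGrp {2} P → dser P d = ⊥) : PLR 2 H d ⊥ := by
  rcases d with _ | d
  · refine plr_zero_iff.2 ⟨Nml.bot, ?_⟩
    rw [relIndex_bot_left]
    refine piGrp_of_prime_elt fun x hx h1 (e : _ = 2) => h1.one_lt.ne' (orderOf_eq_one_iff.2 ?_)
    exact zpowers_eq_bot.1 (he _ (zpowers_le.2 hx) (PiElt.zpowers (e ▸ piNat_self h1)))
  · exact dl_plr d G H hs (dl_base he)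

end H8
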