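import Cfsg.Agent.H8.Dl1

/-! Planes of exceptional `2`-elements: `GrW.card_eq`, `GqS.PL` (a plane has order `r ^ 2` modulo the centre), `GqS.PM`
(involutions act on a plane as `± 1`), reflections `ExR`, `GqS.ex_pu` (unique partner), `GqS.ex_cc`. -/

set_option autoImplicit false
set_option linter.unusedSectionVars false

namespace H8
open Module Subgroup Cfsg H18 H1 H21 H21.HB
open scoped commutatorElement
universe u v

theorem ex_mers {r e k : ℕ} (hr : r.Prime) (hk : 2 ≤ k) (h : r ^ e + 1 = 2 ^ k) : e = 1 := by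
  obtain ⟨k, rfl⟩ := Nat.exists_eq_add_of_le hk
  have h4 : 2 ^ (2 + k) = 4 * 2 ^ k := by ring
  have ho : Odd (r ^ e) := by rw [Nat.odd_iff]; omega
  obtain ⟨f, rfl | rfl⟩ := Nat.even_or_odd' e
  · obtain ⟨m, hm⟩ : Odd (r ^ f) := Nat.odd_pow_iff two_ne_zero |>.1 (by rwa [← pow_mul, mul_comm])
    rw [mul_comm, pow_mul, hm] at h
    have : 2 * (m * m + m) + 1 = 2 * 2 ^ k := by nlinarith
    omega
  obtain ⟨m, hm⟩ : Odd r := (Nat.odd_pow_iff (by omega)).1 ho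
  have d : r + 1 ∣ 2 ^ (2 + k) := by
    rw [← h]; simpa using Odd.nat_add_dvd_pow_add_pow r 1 (odd_two_mul_add_one f)
  obtain ⟨j, j1, j2⟩ := (Nat.dvd_prime_pow Nat.prime_two).1 d
  rcases j1.eq_or_lt with rfl | j1
  · exact Nat.pow_right_injective hr.two_le (show r ^ _ = r ^ 1 by rw [pow_one]; omega)
  have d2 : 2 * (r + 1) ∣ r ^ (2 * f + 1) + 1 := by rw [h, j2, ← pow_succ']; exact pow_dvd_pow 2 j1
  have m1 : 1 ≡ r ^ 2 [MOD 2 * (r + 1)] := (Nat.modEq_iff_dvd' (Nat.one_le_pow _ _ hr.pos)).2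
    ⟨m, Nat.sub_eq_of_eq_add (by rw [hm]; ring)⟩
  have m2 := ((m1.pow f).mul_right r).add_right 1
  rw [one_pow, one_mul, ← pow_mul, ← pow_succ] at m2
  have := Nat.le_of_dvd (Nat.succ_pos r) ((Nat.modEq_zero_iff_dvd).1 (m2.trans ((Nat.modEq_zero_iff_dvd).2 d2)))
  omega

section
variable {K : Type*} [Field K] {V : Type v} [AddCommGroup V] [Module K V] [FiniteDimensional K V]
  {Q : Type u} [Group Q] {p n : ℕ} [hp : Fact p.Prime] [CharP K p] [Fintype Q] {ρ : Q →* End K V} {σ : MulAut Q}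
  {g : End K V} {Z : Subgroup Q}

theorem GrW.index_ge (w : GrW p n Z ρ σ) (hq : (Fintype.card Q : K) ≠ 0)
    (sch : ∀ φ : End K V, (∀ a, φ * ρ a = ρ a * φ) → ∃ c : K, φ = c • 1) : finrank K V ^ 2 ≤ Z.index := by
  haveI := Fintype.ofFinite (Q ⧸ Z)
  have : Submodule.span K (Set.range fun x : Q ⧸ Z => ρ x.out) = ⊤ := eq_top_iff.2 fun φ _ => by
    rw [← Submodule.smul_mem_iff _ hq, ← trace_formula sch]
    refine Submodule.smul_mem _ _ (Submodule.sum_mem _ fun a _ => Submodule.smul_mem _ _ ?_)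
    obtain ⟨z, hz⟩ := QuotientGroup.mk_out_eq_mul Z a
    obtain ⟨c, hc⟩ := w.sc _ (inv_mem z.2)
    rw [eq_mul_inv_of_mul_eq hz.symm, map_mul, hc, mul_smul_comm, mul_one]
    exact Submodule.smul_mem _ _ (Submodule.subset_span ⟨_, rfl⟩)
  have := finrank_le_of_span_eq_top this
  rwa [Module.finrank_linearMap, ← sq, ← Nat.card_eq_fintype_card] at this

theorem GrW.card_eq [IsAlgClosed K] [Nontrivial V] (w : GrW p n Z ρ σ) (h : HD p n ρ σ g) (hq : (Fintype.card Q : K) ≠ 0)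
    (h0 : (g - 1) ^ (p ^ n - 1) = 0) : Z.index = (p ^ n - 1) ^ 2 := by
  refine (w.card h hq h0).antisymm ?_
  obtain ⟨W, -, w2, ⟨w3, w4⟩, w5⟩ := exists_min (fun W : Submodule K V => (∀ a, ∀ w ∈ W, ρ a w ∈ W) ∧
    ∀ w ∈ W, g w ∈ W) (U := ⊤) ⟨fun _ _ _ => trivial, fun _ _ => trivial⟩ top_ne_bot
  haveI := Submodule.nontrivial_iff_ne_bot.2 w2
  have h' := h.res w3 w4
  have w' := w.res w3
  have h1 : (g.restrict w4 - 1) ^ (p ^ n - 1) = 0 := by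
    by_contra c
    obtain ⟨x, -, hx⟩ := res_pow_ne w4 c
    exact hx (by rw [h0]; rfl)
  have irr : ∀ U : Submodule K W, ((∀ a, ∀ w ∈ U, resHom ρ W w3 a w ∈ U) ∧ ∀ w ∈ U, g.restrict w4 w ∈ U) →
      U = ⊥ ∨ U = ⊤ := fun U hU => w5 U ⟨by rintro a _ ⟨w, hw, rfl⟩; exact ⟨_, hU.1 a w hw, rfl⟩,
        by rintro _ ⟨w, hw, rfl⟩; exact ⟨_, hU.2 w hw, rfl⟩⟩
  generalize resHom ρ W w3 = ρ' at h' w' irr
  generalize g.restrict w4 = g' at h' h1 irr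
  have sch2 : ∀ φ : End K W, (∀ a, φ * ρ' a = ρ' a * φ) → φ * g' = g' * φ → ∃ c : K, φ = c • 1 := fun φ h1 h2 =>
    H21.HB.schur _ irr φ fun μ => ⟨fun a => eig_inv (h1 a) μ, eig_inv h2 μ⟩
  have := w'.index_ge hq (w'.schur h' hq sch2)
  have e := (w'.ne_zero h' hq h1)
  refine le_trans (Nat.pow_le_pow_left ?_ 2) this
  by_contra! c
  exact e (pow_eq_zero_of_le (by omega) (pow_finrank ⟨_, h1⟩))
end

variable {G : Type u} [Group G] [Finite G] {K : Type*} [Field K] {V : Type v} [AddCommGroup V] [Module K V]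
  [FiniteDimensional K V] {m n : ℕ} {ρ : G →* End K V} {Q A D M P : Subgroup G} {a b c g t u w x y : G}

theorem GqG.t2 (h : GqG 2 ρ Q n g) : (g ^ 2 ^ n) ^ 2 = 1 := by rw [← pow_mul, ← pow_succ, h.pow]

/-- reflections in `M` -/
def ExR (ρ : G →* End K V) (Q M : Subgroup G) (u : G) : Prop := u ∈ M ∧ ∃ n g, GqG 2 ρ Q n g ∧ g ∈ N(M) ∧ u = g ^ 2 ^ n

theorem ExR.cj (h : ExR ρ Q M u) (h1 : x ∈ N(Q)) (h2 : x ∈ N(M)) : ExR ρ Q M (x * u * x⁻¹) := by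
  obtain ⟨u1, n, g, g1, g2, rfl⟩ := h
  exact ⟨conj_mem_N h2 u1, n, _, g1.cj h1, mul_mem (mul_mem h2 g2) (inv_mem h2), conj_pow.symm⟩

theorem ExR.sq (h : ExR ρ Q M u) : u ^ 2 = 1 := by
  obtain ⟨-, n, g, g1, -, rfl⟩ := h
  exact g1.t2

theorem ExR.inv (h : ExR ρ Q M u) : u⁻¹ = u := inv_eq_of_mul_eq_one_left (_root_.sq u ▸ h.sq)

namespace GqS
variable (s : GqS 2 ρ Q)
include s

theorem ex_inv (hD : D ≤ Q) (xn : x ∈ N(D)) (xp : PiElt {2} x) (x2 : x ^ 2 ∈ C(D))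
    (fp : ∀ d ∈ D, d * x = x * d → d ∈ C(Q)) (hd : a ∈ D) : x * a * x⁻¹ * a ∈ C(Q) := by
  have a1 := conj_mem_N xn hd
  refine fp _ (mul_mem a1 hd) (s.cent_of_mod xp ?_ ?_).symm
  · exact hD (mul_mem (conj_mem_N xn (mul_mem a1 hd)) (inv_mem (mul_mem a1 hd)))
  · have : x * (x * a * x⁻¹ * a) * x⁻¹ * (x * a * x⁻¹ * a)⁻¹ = ⁅a, x * a * x⁻¹⁆ := by
      calc _ = (x ^ 2 * a * (x ^ 2)⁻¹) * (x * a * x⁻¹) * (x * a * x⁻¹ * a)⁻¹ := by rw [sq]; group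
        _ = _ := by rw [← mem_C.1 x2 a hd, commutatorElement_def]; group
    exact this ▸ s.c2 (commutator_mem_commutator (hD hd) (hD a1))

theorem le_E (ht : t ∈ N(Q)) (ha : a ∈ Q) (h : t * a * t⁻¹ * a ∈ C(Q)) : a ∈ GqE Q t := by
  refine gr_mem_of_sq (s.pi.elt ha) ?_
  have z1 := mul_mem (conj_mem_N ht ha) ha
  have : a * a = ⁅a, t⁆ * (t * a * t⁻¹ * a) := by
    rw [commutatorElement_def]; group
  rw [this]
  exact mul_mem (mem_sup_left (commutator_mem_commutator ha (mem_zpowers t))) (mem_sup_right ⟨z1, h⟩)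

theorem inv_E (ht : t ∈ N(Q)) (t2 : t ^ 2 = 1) (ha : a ∈ GqE Q t) : t * a * t⁻¹ * a ∈ C(Q) :=
  have tp : PiElt {2} t := gq_pelt (k := 1) (by simpa using t2)
  s.ex_inv (GqE_le ht) (norm_GqE ht rfl) tp (t2 ▸ one_mem _) (fun _ => s.cent_of_EC ht tp) ha

theorem not_CE (ht : t ∈ N(Q)) (tp : PiElt {2} t) (nt : t ∉ C(Q)) : t ∉ C(GqE Q t) := fun e =>
  nt (s.cent_of_triv ht tp fun a ha => s.cent_of_EC ht tp ha (mem_C.1 e a ha))

theorem not_abel (ht : t ∈ N(Q)) (tp : PiElt {2} t) (nt : t ∉ C(Q)) : ¬ Abel (GqE Q t) := fun e =>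
  nt (s.cent_of_triv ht tp fun _ ha => s.nondeg ht tp ha (e ha))

theorem ex_pos (h : GqG 2 ρ Q n g) (nt : g ^ 2 ^ n ∉ C(Q)) : ∃ m, n = m + 1 := by
  rcases n with _ | n
  · exact absurd (by rw [s.inj g (by simpa [sub_eq_zero] using h.ex), one_pow]; exact one_mem _) nt
  · exact ⟨n, rfl⟩

variable [IsAlgClosed K] [CharP K 2]

theorem lemC (gp : g ^ 2 ^ (n + 1) = 1) (ex : (ρ g - 1) ^ (2 ^ (n + 1) - 1) = 0) (AQ : A ≤ Q) (hn : g ∈ N(A))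
    (fp : ∀ a ∈ A, a * g ^ 2 ^ n = g ^ 2 ^ n * a → a ∈ C(Q)) (nd : ∀ a ∈ A, a ∈ C(A) → a ∈ C(Q))
    (nt : ¬ A ≤ C(Q)) : C(Q).relIndex A = (2 ^ (n + 1) - 1) ^ 2 := by
  classical
  haveI := Fintype.ofFinite A
  let σ : MulAut A := A.normalizerMonoidHom ⟨g, hn⟩
  have hσ : ∀ (i : ℕ) (a : A), ((σ ^ i) a : G) = g ^ i * a * (g ^ i)⁻¹ := fun i a => by
    rw [← map_pow]; rfl
  let ρ' : A →* End K V := ρ.comp A.subtype
  have hd : HD 2 (n + 1) ρ' σ (ρ g) := ⟨fun a => by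
      show ρ g * ρ a = ρ (g * a * g⁻¹) * ρ g
      rw [← map_mul, ← map_mul, inv_mul_cancel_right], by rw [← map_pow, gp, map_one],
    by ext a; rw [hσ, gp]; simp⟩
  have hc : (Fintype.card A : K) ≠ 0 := by
    rw [← Nat.card_eq_fintype_card, Ne, CharP.cast_eq_zero_iff K 2]
    exact (piNat_compl_iff Nat.prime_two).1 (s.pi.of_le AQ)
  obtain ⟨a₀, a1, a2⟩ := SetLike.not_le_iff_exists.1 nt
  haveI : Nontrivial V := not_subsingleton_iff_nontrivial.1 fun c => a2 (by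
    rw [s.inj a₀ (Subsingleton.elim _ _)]; exact one_mem _)
  have w : GrW 2 (n + 1) (C(Q).subgroupOf A) ρ' σ := by
    refine ⟨fun a ha => s.sc a (AQ a.2) ha, fun a ha => ?_, fun a ha i hi => ?_, fun a ha => ?_, ⟨⟨a₀, a1⟩, a2⟩⟩
    · obtain ⟨b, b1, b2⟩ : ∃ b ∈ A, b * a ≠ a * b := by
        by_contra! c
        exact ha (nd a a.2 (mem_C.2 c))
      have k1 : ⁅(a : G), b⁆ ∈ Q := comm_le_of_le AQ AQ (commutator_mem_commutator a.2 b1)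
      have k2 : ⁅(a : G), b⁆ ∈ C(Q) := s.c2 (commutator_mem_commutator (AQ a.2) (AQ b1))
      obtain ⟨μ, hμ⟩ := s.sc _ k1 k2
      refine ⟨⟨b, b1⟩, μ, fun e => b2 ?_, ?_⟩
      · rw [e, one_smul] at hμ
        exact (commutatorElement_eq_one_iff_mul_comm.1 (s.inj _ hμ)).symm
      · show ρ a * ρ b = μ • (ρ b * ρ a)
        rw [← one_mul (ρ b * ρ a), ← smul_mul_assoc, ← hμ, ← map_mul, ← map_mul, ← map_mul, commutatorElement_def]
        congr 1; group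
    · by_contra c
      obtain ⟨k, k1, k2⟩ := (Nat.dvd_prime_pow Nat.prime_two).1 (MulAction.pow_smul_eq_iff_period_dvd.1
        (show σ ^ 2 ^ (n + 1) • a = a by rw [hd.sp, one_smul]))
      have k3 : k ≤ n := Nat.le_of_lt_succ (k1.lt_of_ne fun e => c (by
        rw [← e, ← k2]; exact MulAction.pow_smul_eq_iff_period_dvd.1 hi))
      have k4 : (σ ^ 2 ^ n) a = a := MulAction.pow_smul_eq_iff_period_dvd.2 (k2 ▸ pow_dvd_pow 2 k3)
      have := hσ (2 ^ n) a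
      rw [k4, eq_mul_inv_iff_mul_eq] at this
      exact ha (fp a a.2 this)
    · have e := s.cent_of_mod (gq_pelt gp) (AQ (σ a * a⁻¹).2) ha
      exact fp a a.2 ((show Commute g a from e).pow_left _).eq.symm
  exact w.card_eq hd hc ex

/-- a nonabelian subgroup of a plane containing the centre is the whole plane -/
theorem PL (h : GqG 2 ρ Q n g) (nt : g ^ 2 ^ n ∉ C(Q)) (hD : D ≤ GqE Q (g ^ 2 ^ n)) (hZ : Z(Q) ≤ D) (ab : ¬ Abel D) :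
    GqE Q (g ^ 2 ^ n) ≤ D := by
  obtain ⟨m, hm⟩ := s.ex_pos h nt
  have EQ := GqE_le h.tn
  have nd := fun a => s.nondeg (a := a) h.tn h.tp
  have T : ∀ A ≤ GqE Q (g ^ 2 ^ n), g ∈ N(A) → (∀ a ∈ A, a ∈ C(A) → a ∈ C(Q)) → ¬ A ≤ C(Q) →
      C(Q).relIndex A = (2 ^ (n + 1) - 1) ^ 2 := fun A hA hn => s.lemC h.pow h.ex (hA.trans EQ) hn
    fun a ha => s.cent_of_EC h.tn h.tp (hA ha)
  have c1 := T _ le_rfl h.nE nd fun e => nt (s.cent_of_triv h.tn h.tp e)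
  have gE := h.nE
  have ZE : Z(Q) ≤ GqE Q (g ^ 2 ^ n) := Z_le_GqE
  generalize GqE Q (g ^ 2 ^ n) = E at *
  have N4 : 2 ^ 2 ≤ 2 ^ (n + 1) := Nat.pow_le_pow_right two_pos (by omega)
  obtain ⟨r, hr, r1⟩ := Nat.exists_prime_and_dvd (show 2 ^ (n + 1) - 1 ≠ 1 by omega)
  have nil : Nil E := nil_of_quo_center (s.Z_cen E) ((abel_quo_iff ((cent_symm (s.Z_cen E)).trans C_le_N)).2
    ((comm_mono EQ EQ).trans (le_inf der_le s.c2))).nil
  have c2 := T O[{r}](E) pcore_nml.1 (zpowers_le.1 (norm_pcore (zpowers_le.2 gE))) (fun a ha e => nd a (pcore_nml.1 ha) (by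
    rw [← nil.pcore_sup (π := {r})]
    exact cent_symm (sup_le (cent_symm (zpowers_le.2 e)) (cent_symm ((zpowers_le.2 ha).trans
      (nil.cent_pi pcore_nml.1 pcore_nml.1 pcore_pi pcore_pi)))) (mem_zpowers a))) fun e =>
    (piNat_compl_iff hr).1 (nil.pcore_hall.idx_of_le e) (c1 ▸ r1.trans (dvd_pow_self _ two_ne_zero))
  obtain ⟨j, hj⟩ := (pcore_pi (π := {r}) (H := E)).card_eq_pow
  obtain ⟨e, -, he⟩ := (Nat.dvd_prime_pow hr).1 ((dvd_pow_self _ two_ne_zero).trans (c2 ▸ hj ▸ relIndex_dvd) :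
    2 ^ (n + 1) - 1 ∣ r ^ j)
  obtain rfl := ex_mers (e := e) (k := n + 1) hr (by omega) (by omega)
  have c3 : Z(Q).relIndex D * D.relIndex E = r ^ 2 := by
    rw [relIndex_tower hZ hD, ← relIndex_inf_right, show Z(Q) ⊓ E = C(Q) ⊓ E from le_antisymm (inf_le_inf_right _ inf_le_right)
      (le_inf (le_inf (inf_le_right.trans EQ) inf_le_left) inf_le_right), relIndex_inf_right, c1, he, pow_one]
  obtain ⟨i, i1, i2⟩ := (Nat.dvd_prime_pow hr).1 (Dvd.intro _ c3)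
  interval_cases i
  · exact absurd (((relIndex_eq_one_iff.1 i2).trans (s.Z_cen D)) : Abel D) ab
  · exact absurd (abel_of_relIndex_prime (s.Z_cen D) (by rwa [i2, pow_one])) ab
  · rw [i2] at c3
    exact relIndex_eq_one_iff.1 ((Nat.mul_eq_left (pow_ne_zero 2 hr.ne_zero)).1 c3)

/-- an involution acts on a plane as `± 1` -/
theorem PM (h : GqG 2 ρ Q n g) (nt : g ^ 2 ^ n ∉ C(Q)) (xn : x ∈ N(GqE Q (g ^ 2 ^ n))) (xp : PiElt {2} x)
    (x2 : x ^ 2 ∈ C(GqE Q (g ^ 2 ^ n))) (yx : PiElt {2} (g ^ 2 ^ n * x)) :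
    x ∈ C(GqE Q (g ^ 2 ^ n)) ∨ g ^ 2 ^ n * x ∈ C(GqE Q (g ^ 2 ^ n)) := by
  have EQ := GqE_le h.tn
  by_cases ab : Abel (GqE Q (g ^ 2 ^ n) ⊓ C1(x))
  swap
  · exact .inl (mem_C.2 fun a ha => mem_C1.1 (s.PL h nt inf_le_left (le_inf Z_le_GqE fun z hz =>
      mem_C1.2 (s.cen hz.1 hz.2 x).symm) ab ha).2)
  have fp : ∀ d ∈ GqE Q (g ^ 2 ^ n), d * x = x * d → d ∈ C(Q) := fun a ha e => s.nondeg h.tn h.tp ha (mem_C.2 fun w hw => by
    obtain ⟨e', -, c, c1, e1, c2, rfl⟩ := s.dec EQ xn xp hw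
    rw [mul_assoc, comm_of_cent ab ⟨c1, mem_C1.2 c2⟩ ⟨ha, mem_C1.2 e⟩, ← mul_assoc, s.EC_comm e1 (EQ ha) e, mul_assoc])
  have yn := pow_mem h.nE (2 ^ n)
  have k2 := fun a => s.inv_E (a := a) h.tn h.t2
  generalize g ^ 2 ^ n = y at *
  refine .inr (mem_C.2 fun a ha => (s.cent_of_mod yx (EQ (mul_mem (conj_mem_N (mul_mem yn xn) ha) (inv_mem ha))) ?_).symm)
  have k1 := s.ex_inv EQ xn xp x2 fp ha
  have k3 := s.cen (EQ (mul_mem (conj_mem_N xn ha) ha)) k1 y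
  have : y * x * a * (y * x)⁻¹ * a⁻¹ = (x * a * x⁻¹ * a) * (a * (y * a * y⁻¹ * a)⁻¹ * a⁻¹) := by
    calc y * x * a * (y * x)⁻¹ * a⁻¹ = (y * (x * a * x⁻¹ * a)) * y⁻¹ * (y * a⁻¹ * y⁻¹ * a⁻¹) := by group
      _ = _ := by rw [k3]; group
  rw [this]
  exact mul_mem k1 (conj_mem_N (N_le_N_C (le_N (EQ ha))) (inv_mem (k2 a ha)))

theorem eqv (h : GqG 2 ρ Q n g) (nt : g ^ 2 ^ n ∉ C(Q)) (h' : GqG 2 ρ Q m x)
    (e : g ^ 2 ^ n * x ^ 2 ^ m ∈ C(GqE Q (g ^ 2 ^ n))) : g ^ 2 ^ n * x ^ 2 ^ m ∈ C(Q) := by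
  have y2 := h.t2
  have yn := h.tn
  have yp := h.tp
  have T := fun nt => s.PL (D := GqE Q (g ^ 2 ^ n)) h' nt
  have un := h'.tn
  have up := h'.tp
  generalize g ^ 2 ^ n = y at *
  generalize x ^ 2 ^ m = u at *
  have yi : y⁻¹ = y := inv_eq_of_mul_eq_one_left (sq y ▸ y2)
  have l1 : GqE Q y ≤ GqE Q u := fun a ha => s.le_E un (GqE_le yn ha) (by
    have : u * a * u⁻¹ = y * a * y⁻¹ := by
      calc u * a * u⁻¹ = y⁻¹ * (y * u * a) * (y * u)⁻¹ * y := by group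
        _ = y⁻¹ * a * y⁻¹⁻¹ := by rw [← mem_C.1 e a ha]; group
        _ = _ := by rw [yi, yi]
    rw [this]; exact s.inv_E yn y2 ha)
  have l2 := T (fun c => s.not_CE yn yp nt (by simpa using mul_mem e (inv_mem (C_anti (GqE_le yn) c)))) l1 Z_le_GqE
    (s.not_abel yn yp nt)
  refine mem_C.2 fun a ha => ?_
  obtain ⟨b, -, c, c1, e1, c2, rfl⟩ := s.dec le_rfl yn yp ha
  have c3 := s.cent_t un up c1 (C_anti l2 (mem_C.2 fun b hb => s.EC_comm hb c1 c2))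
  rw [mul_assoc, ((show Commute c y from c2).mul_right c3).eq, ← mul_assoc, mem_C.1 e b e1, mul_assoc]

theorem planes2 (hM : PiGrp {2} M) (MQ : M ≤ N(Q)) (hy : ExR ρ Q M y) (nt : y ∉ C(Q)) (hx : x ∈ M) (c : x ∉ N(GqE Q y)) :
    cj x (GqE Q y) ≤ C(GqE Q y) := by
  obtain ⟨-, n, g, h, g2, rfl⟩ := hy
  obtain ⟨n, rfl⟩ := s.ex_pos h nt
  have e : GrE Q (g ^ 2 ^ (n + 1)) = GqE Q (g ^ 2 ^ (n + 1)) := by
    ext a
    rw [mem_GrE s.c2 h.tn]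
    exact ⟨fun k => s.le_E h.tn k.1 k.2, fun k => ⟨GqE_le h.tn k, s.inv_E h.tn h.t2 k⟩⟩
  have := GrS.planes ⟨s.inj, s.pi, s.c2, s.sc⟩ _ ((gq_pelt h.pow).zpowers.sup_norm hM (zpowers_le.2 g2))
    (sup_le (zpowers_le.2 h.norm) MQ) g (mem_sup_left (mem_zpowers g)) ⟨h.norm, h.pow, h.ex⟩
    (fun k => nt (s.cent_of_triv h.tn h.tp (e ▸ k))) x (mem_sup_right hx)
  rw [e] at this
  exact this.resolve_left fun k => c (mem_N_iff_cj.2 k)

theorem ex_same (hM : PiGrp {2} M) (MQ : M ≤ N(Q)) (hy : ExR ρ Q M y) (hu : ExR ρ Q M u) (nt : y ∉ C(Q))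
    (e : GqE Q y = GqE Q u) : cs C(Q) y = cs C(Q) u := by
  have nC : M ≤ N(C(Q)) := MQ.trans N_le_N_C
  rw [cs_eq_iff (nC hy.1) (nC hu.1), hy.inv]
  have u2 := hu.sq
  obtain ⟨y1, n, g, h, -, rfl⟩ := hy
  obtain ⟨u1, m, x, h', -, rfl⟩ := hu
  refine s.eqv h nt h' ((s.PM h nt (e ▸ norm_GqE h'.tn rfl) h'.tp (u2 ▸ one_mem _) (hM.elt (mul_mem y1 u1))).resolve_left
    fun k => s.not_abel h.tn h.tp nt ?_)
  rw [e] at k ⊢
  exact fun a ha => C_anti (GqE_le h'.tn) (s.cent_of_EC h'.tn h'.tp ha (mem_C.1 k a ha))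

theorem ex_fix (hM : PiGrp {2} M) (MQ : M ≤ N(Q)) (hy : ExR ρ Q M y) (hu : ExR ρ Q M u) (nt : y ∉ C(Q))
    (p : cj u (GqE Q y) ≤ C(GqE Q y)) (h1 : c ∈ Q) (h2 : c ∈ C(GqE Q y)) (h3 : c ∈ C(cj u (GqE Q y))) : c * u = u * c := by
  have yn := MQ hy.1
  have ab := s.not_abel yn (hM.elt hy.1) nt
  have EQ := GqE_le yn
  have ZE : Z(Q) ≤ GqE Q y := Z_le_GqE
  generalize GqE Q y = E at *
  obtain ⟨u1, m, x, h', -, rfl⟩ := hu
  refine s.cent_t h'.tn h'.tp h1 (C_anti ((s.PL h' (fun c => ab ?_) (inf_le_left (b := E ⊔ cj (x ^ 2 ^ m) E))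
    (le_inf Z_le_GqE (le_sup_of_le_left ZE)) fun k => ab ?_).trans inf_le_right) ?_)
  · rwa [cj_eq_self (C_le_N (C_anti EQ c))] at p
  · generalize x ^ 2 ^ m = u at *
    refine fun a ha => mem_C.2 fun b hb => ?_
    have f : ∀ a ∈ E, a * (u * a⁻¹ * u⁻¹) ∈ GqE Q u ⊓ (E ⊔ cj u E) := fun a ha => ⟨mem_sup_left (by
      have := commutator_mem_commutator (EQ ha) (mem_zpowers u)
      simpa only [commutatorElement_def, mul_assoc] using this), mul_mem (mem_sup_left ha)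
        (mem_sup_right (conj_mem_cj (inv_mem ha)))⟩
    have e := comm_of_cent k (f a ha) (f b hb)
    have e1 := mem_C.1 (p (conj_mem_cj (inv_mem ha))) b hb
    have e2 := mem_C.1 (p (conj_mem_cj (inv_mem hb))) a ha
    have z1 := commutator_mem_commutator (inv_mem (EQ ha)) (inv_mem (EQ hb))
    have z2 := s.cen (der_le z1) (s.c2 z1) u
    have z3 : ⁅a⁻¹, b⁻¹⁆ * ⁅a⁻¹, b⁻¹⁆ = 1 := by
      have e3 : a * b * (u * (a⁻¹ * b⁻¹) * u⁻¹) = b * a * (u * (b⁻¹ * a⁻¹) * u⁻¹) := by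
        calc _ = a * (b * (u * a⁻¹ * u⁻¹)) * (u * b⁻¹ * u⁻¹) := by group
          _ = a * (u * a⁻¹ * u⁻¹) * (b * (u * b⁻¹ * u⁻¹)) := by rw [e1]; group
          _ = b * ((u * b⁻¹ * u⁻¹) * a) * (u * a⁻¹ * u⁻¹) := by rw [e]; group
          _ = _ := by rw [← e2]; group
      calc ⁅a⁻¹, b⁻¹⁆ * ⁅a⁻¹, b⁻¹⁆ = ⁅a⁻¹, b⁻¹⁆ * (u * ⁅a⁻¹, b⁻¹⁆) * u⁻¹ := by rw [z2]; group
        _ = (b * a)⁻¹ * (a * b * (u * (a⁻¹ * b⁻¹) * u⁻¹)) * (u * (a * b) * u⁻¹) := by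
          rw [commutatorElement_def]; group
        _ = 1 := by rw [e3]; group
    have z4 := mem_bot.1 (gr_mem_of_sq (S := ⊥) (s.pi.elt (der_le z1)) (mem_bot.2 z3))
    exact (Commute.inv_inv_iff.1 (commutatorElement_eq_one_iff_mul_comm.1 z4)).symm
  · exact cent_symm (sup_le (cent_symm (zpowers_le.2 h2)) (cent_symm (zpowers_le.2 h3))) (mem_zpowers c)

/-- the partner of a plane is unique -/
theorem ex_pu (hM : PiGrp {2} M) (MQ : M ≤ N(Q)) (hy : ExR ρ Q M y) (hu : ExR ρ Q M u) (ht : ExR ρ Q M t) (nt : y ∉ C(Q))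
    (c1 : u ∉ N(GqE Q y)) (c2 : t ∉ N(GqE Q y)) : cj u (GqE Q y) = cj t (GqE Q y) := by
  by_contra c
  have p1 := s.planes2 hM MQ hy nt hu.1 c1
  have p2 := s.planes2 hM MQ hy nt ht.1 c2
  have p3 := s.planes2 hM MQ (hy.cj (MQ hu.1) (le_N hu.1)) (fun e => nt (by
    simpa [mul_assoc] using conj_mem_N' (N_le_N_C (MQ hu.1)) e)) (mul_mem ht.1 (inv_mem hu.1))
  rw [← cj_GqE (MQ hu.1), mem_N_iff_cj, ← cj_mul, inv_mul_cancel_right] at p3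
  have p4 := p3 (Ne.symm c)
  have q : ∀ x ∈ M, cj x (GqE Q y) ≤ Q := fun x hx => cj_le_of_mem_N (GqE_le (MQ hy.1)) (MQ hx)
  have f1 : cj u (cj t (GqE Q y)) = cj t (GqE Q y) := cj_eq_self (C_le_N (mem_C.2 fun a ha =>
    s.ex_fix hM MQ hy hu nt p1 (q t ht.1 ha) (p2 ha) (p4 ha)))
  have f2 : cj t (cj u (GqE Q y)) = cj u (GqE Q y) := cj_eq_self (C_le_N (mem_C.2 fun a ha =>
    s.ex_fix hM MQ hy ht nt p2 (q u hu.1 ha) (p1 ha) (cent_symm p4 ha)))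
  have f3 : ∀ x, ExR ρ Q M x → cj x (cj x (GqE Q y)) = GqE Q y := fun x hx => by
    rw [← cj_mul, ← sq, hx.sq, cj_one]
  obtain ⟨k, hk⟩ := gq_pow (hM.elt (mul_mem hu.1 ht.1))
  have := gq_mem_of_cop (S := N(GqE Q y)) (m := 3) hk (by norm_num) (by
    simp only [mem_N_iff_cj, pow_three, cj_mul]
    rw [f1, f3 t ht, f2, f3 u hu])
  rw [mem_N_iff_cj, cj_mul, f1] at this
  exact c2 (mem_N_iff_cj.2 this)

theorem ex_cc (hM : PiGrp {2} M) (MQ : M ≤ N(Q)) (hy : ExR ρ Q M y) (hu : ExR ρ Q M u) (ht : ExR ρ Q M t) :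
    ⁅⁅y, u⁆, t⁆ ∈ C(Q) := by
  have nC : M ≤ N(C(Q)) := MQ.trans N_le_N_C
  have e0 : ⁅y, u⁆ = y * (u * y * u⁻¹) := by rw [commutatorElement_def, hy.inv]; group
  have hy1 := hy.cj (MQ hu.1) (le_N hu.1)
  have cM := mul_mem hy.1 hy1.1
  rw [← cs_eq_one_iff (nC (comm_le_of_le le_rfl le_rfl (commutator_mem_commutator (e0 ▸ cM) ht.1))), e0,
    mfun_comm (nC cM) (nC ht.1), commutatorElement_eq_one_iff_mul_comm, mfun_mul (nC hy.1) (nC hy1.1)]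
  have S : ∀ a b x, ExR ρ Q M a → ExR ρ Q M b → x ∈ M → b ∉ C(Q) → cj x (GqE Q a) = GqE Q b →
      cs C(Q) x * cs C(Q) a = cs C(Q) b * cs C(Q) x := fun a b x ha hb hx nb e => by
    rw [s.ex_same hM MQ hb (ha.cj (MQ hx) (le_N hx)) nb (by rw [← e, cj_GqE (MQ hx)]), ← mfun_mul (nC hx) (nC ha.1),
      ← mfun_mul (nC (conj_mem_N (le_N hx) ha.1)) (nC hx), inv_mul_cancel_right]
  by_cases nt : y ∈ C(Q)
  · rw [cs_eq_one nt, cs_eq_one (conj_mem_N (nC hu.1) nt), one_mul, one_mul, mul_one]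
  have E1 := cj_GqE (t := y) (MQ hu.1)
  have nt1 : u * y * u⁻¹ ∉ C(Q) := fun e => nt (by simpa [mul_assoc] using conj_mem_N' (nC hu.1) e)
  by_cases c1 : u ∈ N(GqE Q y)
  · rw [← s.ex_same hM MQ hy hy1 nt (by rw [← E1, cj_eq_self c1]), ← mfun_mul (nC hy.1) (nC hy.1), ← sq, hy.sq, mfun_one,
      one_mul, mul_one]
  have f3 : ∀ x, ExR ρ Q M x → cj x (cj x (GqE Q y)) = GqE Q y := fun x hx => by
    rw [← cj_mul, ← sq, hx.sq, cj_one]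
  by_cases c2 : t ∈ N(GqE Q y)
  · have c3 : t ∈ N(GqE Q (u * y * u⁻¹)) := by_contra fun c3 => c1 (by
      have := s.ex_pu hM MQ hy1 hu ht nt1 (fun e => c1 (by
        rw [mem_N_iff_cj, ← E1, f3 u hu] at e; exact mem_N_iff_cj.2 e.symm)) c3
      rw [← E1, f3 u hu] at this
      have e := congrArg (cj t) this
      rw [cj_eq_self c2, ← cj_mul, ← sq, ht.sq, cj_one] at e
      exact mem_N_iff_cj.2 e.symm)
    rw [mul_assoc, ← S _ _ t hy1 hy1 ht.1 nt1 (cj_eq_self c3), ← mul_assoc, ← S _ _ t hy hy ht.1 nt (cj_eq_self c2), mul_assoc]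
  have c3 := s.ex_pu hM MQ hy hu ht nt c1 c2
  have c4 := S _ _ _ hy hy hy1.1 nt (cj_eq_self (C_le_N (mem_C.2 fun a ha => s.cent_t (MQ hy1.1) (hM.elt hy1.1)
    (GqE_le (MQ hy.1) ha) (E1 ▸ cent_symm (s.planes2 hM MQ hy nt hu.1 c1) ha))))
  rw [← c4, mul_assoc, ← S _ _ t hy1 hy ht.1 nt (by rw [← E1, c3, f3 t ht]), ← mul_assoc,
    ← S _ _ t hy hy1 ht.1 nt1 (by rw [← E1, c3]), mul_assoc, c4]

end GqS
end H8
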