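import Cfsg.Agent.H8.Ex1

/-! A `2`-group generated by reflections has class two modulo `C(Q)` (`GqS.ex_sq`); the norm `(w g) ^ 2 ^ n g ^ (- 2 ^ n)` of
an exceptional element (`GqS.ex_main`); the module theorem `ex_mod`. -/

set_option autoImplicit false
set_option linter.unusedSectionVars false

namespace H8
open Module Subgroup Cfsg H18 H1 H21 H21.HB
open scoped commutatorElement
universe u v

variable {G : Type u} [Group G] [Finite G] {K : Type*} [Field K] {V : Type v} [AddCommGroup V] [Module K V]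
  [FiniteDimensional K V] {k m n : ℕ} {ρ : G →* End K V} {Q A D L M W Z : Subgroup G} {a b c d g t u w x y : G} {l : G → K}

theorem ex_elem {s : Set G} (hn : closure s ≤ N(W)) (h1 : ∀ a ∈ s, ∀ b ∈ s, ⁅a, b⁆ ∈ W) (h2 : ∀ a ∈ s, a ^ 2 ∈ W) :
    ⁅closure s, closure s⁆ ≤ W ∧ ∀ x ∈ closure s, x ^ 2 ∈ W := by
  have k1 : Abel (closure s ⫽ W) := by
    rw [mim_closure fun x hx => hn (subset_closure hx)]
    refine (closure_le _).2 ?_
    rw [centralizer_closure]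
    rintro _ ⟨x, hx, rfl⟩ _ ⟨y, hy, rfl⟩
    rw [← commutatorElement_eq_one_iff_mul_comm, ← mfun_comm (hn (subset_closure hy)) (hn (subset_closure hx))]
    exact cs_eq_one (h1 y hy x hx)
  refine ⟨(abel_quo_iff hn).1 k1, fun x hx => ?_⟩
  rw [← cs_eq_one_iff (pow_mem (hn hx) 2), mfun_pow (hn hx)]
  induction hx using closure_induction with
  | mem x hx => rw [← mfun_pow (hn (subset_closure hx))]; exact cs_eq_one (h2 x hx)
  | one => rw [mfun_one, one_pow]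
  | mul x y hx hy e1 e2 =>
    rw [mfun_mul (hn hx) (hn hy), Commute.mul_pow (comm_of_cent k1 (mfun_mem_mim hx) (mfun_mem_mim hy)), e1, e2, one_mul]
  | inv x hx e => rw [mfun_inv (hn hx), inv_pow, e, inv_one]

theorem ex_cl2 {s : Set G} (h1 : ∀ a ∈ s, a ^ 2 = 1) (h2 : ∀ a ∈ s, ∀ b ∈ s, ∀ c ∈ s, ⁅⁅a, b⁆, c⁆ = 1) (hw : w ∈ closure s) :
    w ^ 2 ∈ C(closure s) ∧ w ^ 4 = 1 := by
  obtain ⟨k1, k2⟩ := ex_elem (s := s) (W := C(closure s)) (le_N.trans N_le_N_C) (fun a ha b hb => by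
    rw [centralizer_closure]
    exact fun c hc => (commutatorElement_eq_one_iff_mul_comm.1 (h2 a ha b hb c hc)).symm) fun a ha => h1 a ha ▸ one_mem _
  refine ⟨k2 w hw, ?_⟩
  induction hw using closure_induction with
  | mem x hx => rw [show 4 = 2 * 2 from rfl, pow_mul, h1 x hx, one_pow]
  | one => exact one_pow _
  | mul x y hx hy e1 e2 =>
    have z0 := k1 (commutator_mem_commutator hy hx)
    have z1 : Commute x ⁅y, x⁆ := mem_C.1 z0 x hx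
    have z2 : Commute y ⁅y, x⁆ := mem_C.1 z0 y hy
    have z3 : Commute x (y ^ 2) := mem_C.1 (k2 y hy) x hx
    have z4 : ⁅y, x⁆ ^ 2 = 1 := by
      calc ⁅y, x⁆ ^ 2 = (y * ⁅y, x⁆) * y⁻¹ * ⁅y, x⁆ := by rw [z2.eq, sq]; group
        _ = (y ^ 2 * x) * (y ^ 2)⁻¹ * x⁻¹ := by rw [commutatorElement_def, sq]; group
        _ = 1 := by rw [← z3.eq]; group
    have z5 : (x * y) ^ 2 = ⁅y, x⁆ * (x ^ 2 * y ^ 2) := by
      calc (x * y) ^ 2 = (x * ⁅y, x⁆) * x * y * y := by rw [commutatorElement_def, sq]; group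
        _ = _ := by rw [z1.eq, sq, sq]; group
    rw [show 4 = 2 * 2 from rfl, pow_mul, z5, ((z1.pow_left 2).mul_left (z2.pow_left 2)).symm.mul_pow, z4, one_mul,
      (z3.pow_left 2).mul_pow, ← pow_mul, ← pow_mul, e1, e2, one_mul]
  | inv x hx e => rw [inv_pow, e, inv_one]

theorem ex_norm (hw : w ∈ L) (hg : g ∈ N(L)) (j : ℕ) : (w * g) ^ j * (g ^ j)⁻¹ ∈ L := by
  induction j with
  | zero => simp
  | succ j ih =>
    have : (w * g) ^ (j + 1) * (g ^ (j + 1))⁻¹ = w * (g * ((w * g) ^ j * (g ^ j)⁻¹) * g⁻¹) := by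
      rw [pow_succ', pow_succ]; group
    rw [this]
    exact mul_mem hw (conj_mem_N hg ih)

variable [CharP K 2]

theorem ex_pow (inj : ∀ x, ρ x = 1 → x = 1) (h : (ρ g - 1) ^ (2 ^ (n + 1) - 1) = 0) : g ^ 2 ^ (n + 1) = 1 := inj _ (by
  rw [map_pow, ← sub_eq_zero, ← sub_one_pow (K := K)]; exact pow_eq_zero_of_le (Nat.sub_le _ _) h)

namespace GqS
variable (s : GqS 2 ρ Q) [IsAlgClosed K] (hM : PiGrp {2} M) (MQ : M ≤ N(Q)) (gen : M ≤ closure {u | ExR ρ Q M u})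
include s hM MQ gen

theorem ex_sq (hw : w ∈ M) : cs C(Q) w ^ 2 ∈ C(M ⫽ C(Q)) ∧ w ^ 4 ∈ C(Q) := by
  have nC : M ≤ N(C(Q)) := MQ.trans N_le_N_C
  have e : M ⫽ C(Q) = closure (mfun (coset C(Q)) '' {u | ExR ρ Q M u}) := by
    rw [← mim_closure fun x hx => nC hx.1, ← gen.antisymm ((closure_le _).2 fun x hx => hx.1)]
  rw [← cs_eq_one_iff (nC (pow_mem hw 4)), mfun_pow (nC hw), e]
  refine ex_cl2 ?_ ?_ (e ▸ mfun_mem_mim hw)
  · rintro _ ⟨a, ha, rfl⟩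
    rw [← mfun_pow (nC ha.1), ha.sq, mfun_one]
  · rintro _ ⟨a, ha, rfl⟩ _ ⟨b, hb, rfl⟩ _ ⟨c, hc, rfl⟩
    rw [← mfun_comm (nC ha.1) (nC hb.1), ← mfun_comm (nC (der_le (commutator_mem_commutator ha.1 hb.1))) (nC hc.1)]
    exact cs_eq_one (s.ex_cc hM MQ ha hb hc)

theorem ex_main (h : GqG 2 ρ Q n g) (gM : g ∈ N(M)) (hw : w ∈ M) (h' : GqG 2 ρ Q n (w * g)) (yM : g ^ 2 ^ n ∈ M)
    (nt : g ^ 2 ^ n ∉ C(Q)) : cs C(Q) ((w * g) ^ 2 ^ n * (g ^ 2 ^ n)⁻¹) ∈ C(M ⫽ C(Q)) ∧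
      (w ^ 2 = 1 → w ∈ C(M) → (w * g) ^ 2 ^ n * (g ^ 2 ^ n)⁻¹ ∈ C(Q)) := by
  have nC : M ≤ N(C(Q)) := MQ.trans N_le_N_C
  have hy : ExR ρ Q M (g ^ 2 ^ n) := ⟨yM, n, g, h, gM, rfl⟩
  have cM := ex_norm hw gM (2 ^ n)
  have y'M : (w * g) ^ 2 ^ n ∈ M := by simpa using mul_mem cM yM
  have fin : g ^ 2 ^ n * (w * g) ^ 2 ^ n ∈ C(GqE Q (g ^ 2 ^ n)) → (w * g) ^ 2 ^ n * (g ^ 2 ^ n)⁻¹ ∈ C(Q) := fun e => by
    have := inv_mem (s.eqv h nt h' e)
    rwa [mul_inv_rev, inv_eq_of_mul_eq_one_left (sq ((w * g) ^ 2 ^ n) ▸ h'.t2)] at this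
  have PM := fun x => s.PM (x := x) h nt
  have pl := fun x => s.planes2 (x := x) hM MQ hy nt
  have T := fun x => s.lemT' (x := x) h fun e => nt (s.cent_of_triv h.tn h.tp e)
  have yE := s.not_CE h.tn h.tp nt
  have gE := h.nE
  have EQ := GqE_le h.tn
  have dc := fun x => s.dec (x := x) le_rfl h.tn h.tp
  have ec := fun a c => s.EC_comm (a := a) (c := c) (t := g ^ 2 ^ n)
  have nw := fun e => norm_GqE (t := g ^ 2 ^ n) (MQ hw) e
  obtain ⟨n, rfl⟩ := s.ex_pos h nt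
  generalize GqE Q (g ^ 2 ^ (n + 1)) = E at *
  have nE : N(E) ≤ N(C(E)) := N_le_N_C
  have yn := pow_mem gE (2 ^ (n + 1))
  have y2 : cs C(E) (g ^ 2 ^ (n + 1)) ^ 2 = 1 := by rw [← mfun_pow (nE yn), h.t2, mfun_one]
  have A : w ∈ N(E) → cs C(E) w ∈ zpowers (cs C(E) (g ^ 2 ^ (n + 1))) → (w * g) ^ 2 ^ (n + 1) * (g ^ 2 ^ (n + 1))⁻¹ ∈ C(Q) :=
    fun wE e => fin (by
      obtain ⟨i, hi⟩ := mem_zpowers_iff.1 e
      have c1 : Commute (cs C(E) w) (cs C(E) g) := by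
        rw [← hi, mfun_pow (nE gE)]; exact ((Commute.refl _).pow_left _).zpow_left _
      have c2 : cs C(E) w ^ 2 ^ (n + 1) = 1 := by
        have : cs C(E) w ^ 2 = 1 := by
          rw [← hi, ← zpow_natCast, ← zpow_mul, mul_comm, zpow_mul, zpow_natCast, y2, one_zpow]
        rw [pow_succ', pow_mul, this, one_pow]
      rw [← cs_eq_one_iff (nE (mul_mem yn (pow_mem (mul_mem wE gE) _))), mfun_mul (nE yn) (nE (pow_mem (mul_mem wE gE) _)),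
        mfun_pow (nE (mul_mem wE gE)), mfun_mul (nE wE) (nE gE), c1.mul_pow, c2, one_mul, ← mfun_pow (nE gE), ← sq, y2])
  have B : ∀ x ∈ N(E), x ∈ C(E) ∨ g ^ 2 ^ (n + 1) * x ∈ C(E) → cs C(E) x ∈ zpowers (cs C(E) (g ^ 2 ^ (n + 1))) := by
    rintro x hx (e | e)
    · rw [cs_eq_one e]; exact one_mem _
    · rw [← cs_eq_one_iff (nE (mul_mem yn hx)), mfun_mul (nE yn) (nE hx)] at e
      rw [eq_inv_of_mul_eq_one_right e]; exact inv_mem (mem_zpowers _)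
  refine ⟨?_, fun w2 wc => A (nw (mem_C.1 wc _ yM).symm) (B w (nw (mem_C.1 wc _ yM).symm) (PM w (nw (mem_C.1 wc _ yM).symm)
    (hM.elt hw) (w2 ▸ one_mem _) (hM.elt (mul_mem yM hw))))⟩
  have tr : (w * g) ^ 2 ^ (n + 1) * (g ^ 2 ^ (n + 1))⁻¹ ∈ C(Q) →
      cs C(Q) ((w * g) ^ 2 ^ (n + 1) * (g ^ 2 ^ (n + 1))⁻¹) ∈ C(M ⫽ C(Q)) := fun e => by rw [cs_eq_one e]; exact one_mem _
  have nn : ∀ x ∈ M, x ∉ N(E) → x⁻¹ * g * x ∈ C(E) := fun x hx c => mem_C.2 fun a ha => by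
    have := T _ (pl x hx c (conj_mem_cj ha))
    calc a * (x⁻¹ * g * x) = x⁻¹ * (x * a * x⁻¹ * g) * x := by group
      _ = _ := by rw [this]; group
  have vM : ∀ x ∈ M, x⁻¹ * g * x * g⁻¹ ∈ M := fun x hx => by
    simpa only [mul_assoc] using mul_mem (inv_mem hx) (conj_mem_N gM hx)
  rcases n with _ | n
  swap
  · have ME : M ≤ N(E) := fun x hx => by_contra fun c => yE (by
      have e := C_anti EQ (s.ex_sq hM MQ gen (vM x hx)).2
      have x1 := C_le_N (nn x hx c)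
      rw [← cs_eq_one_iff (nE (pow_mem (mul_mem x1 (inv_mem gE)) 4)), mfun_pow (nE (mul_mem x1 (inv_mem gE))),
        mfun_mul (nE x1) (nE (inv_mem gE)), cs_eq_one (nn x hx c), one_mul, mfun_inv (nE gE), inv_pow, inv_eq_one] at e
      rw [← cs_eq_one_iff (nE yn), mfun_pow (nE gE), show 2 ^ (n + 1 + 1) = 4 * 2 ^ n by ring, pow_mul, e, one_pow])
    refine tr (A (ME hw) (mem_mpre.1 ((gen.trans ((closure_le (qpre C(E) (zpowers (cs C(E) (g ^ 2 ^ (n + 1 + 1)))))).2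
      fun u hu => mem_mpre.2 ⟨nE (ME hu.1), B u (ME hu.1) (PM u (ME hu.1) (hM.elt hu.1) (hu.sq ▸ one_mem _)
        (hM.elt (mul_mem yM hu.1)))⟩)) hw)).2)
  simp only [zero_add, pow_one] at *
  have e0 : (w * g) ^ 2 * (g ^ 2)⁻¹ = w ^ 2 * (w⁻¹ * g * w * g⁻¹) := by rw [sq, sq, sq]; group
  obtain ⟨q1, q2⟩ := s.ex_sq hM MQ gen hw
  have y'2 : ((w * g) ^ 2) ^ 2 = 1 := by simpa using h'.t2
  by_cases wE : w ∈ N(E)
  · have gp := (gq_pelt h.pow).zpowers.sup_norm hM (zpowers_le.2 gM)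
    have gP := mul_mem (mem_sup_right hw : w ∈ zpowers g ⊔ M) (mem_sup_left (mem_zpowers g))
    rcases PM _ (pow_mem (mul_mem wE gE) 2) (hM.elt y'M) (y'2 ▸ one_mem _) (hM.elt (mul_mem yM y'M)) with e | e
    swap
    · exact tr (fin e)
    obtain ⟨i, hi⟩ := mem_zpowers_iff.1 (B _ (mul_mem wE gE) (PM _ (mul_mem wE gE) (gp.elt gP) e
      (gp.elt (mul_mem (mem_sup_right yM) gP))))
    have c1 : Commute (cs C(E) g) (cs C(E) w) := by
      rw [mfun_mul (nE wE) (nE gE), mfun_pow (nE gE)] at hi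
      rw [eq_mul_inv_of_mul_eq hi.symm]
      exact (((Commute.refl _).pow_right _).zpow_right _).mul_right (Commute.refl _).inv_right
    have v0 := mul_mem (mul_mem (inv_mem wE) gE) wE
    have v1 : w⁻¹ * g * w * g⁻¹ ∈ C(E) := by
      rw [← cs_eq_one_iff (nE (mul_mem v0 (inv_mem gE))), mfun_mul (nE v0) (nE (inv_mem gE)),
        mfun_mul (nE (mul_mem (inv_mem wE) gE)) (nE wE), mfun_mul (nE (inv_mem wE)) (nE gE), mfun_inv (nE wE),
        mfun_inv (nE gE), mul_assoc _ (cs C(E) g), c1.eq]; group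
    have v2 : w⁻¹ * g * w * g⁻¹ ∈ C(Q) := mem_C.2 fun a ha => by
      obtain ⟨b, -, c, c1, e1, c2, rfl⟩ := dc a ha
      have c3 : c ∈ C(E) := mem_C.2 fun b hb => ec b c hb c1 c2
      have c4 := T _ (conj_mem_N (nE wE) c3)
      have c5 : c * (w⁻¹ * g * w * g⁻¹) = w⁻¹ * g * w * g⁻¹ * c := by
        calc _ = w⁻¹ * (w * c * w⁻¹ * g) * w * g⁻¹ := by group
          _ = w⁻¹ * g * w * (c * g⁻¹) := by rw [c4]; group
          _ = _ := by rw [(show Commute c g from T c c3).inv_right.eq]; group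
      rw [mul_assoc b, c5, ← mul_assoc, mem_C.1 v1 b e1, mul_assoc]
    rw [e0, mfun_mul (nC (pow_mem hw 2)) (nC (vM w hw)), cs_eq_one v2, mul_one, mfun_pow (nC hw)]
    exact q1
  · refine absurd ?_ yE
    have v1 := nn w hw wE
    have v2 : w⁻¹ * g * w * g ∈ M := by
      have := mul_mem (vM w hw) yM
      rwa [sq, mul_assoc, inv_mul_cancel_left] at this
    have v3 : (w⁻¹ * g * w * g) ^ 2 ∈ C(Q) := by
      have e1 : (w * g) ^ 2 = w ^ 2 * (w⁻¹ * g * w * g) := by rw [sq, sq]; group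
      have e2 := congrArg (mfun (coset C(Q))) y'2
      rw [e1, mfun_pow (nC (mul_mem (pow_mem hw 2) v2)), mfun_mul (nC (pow_mem hw 2)) (nC v2), mfun_pow (nC hw),
        (show Commute _ _ from mem_C.1 q1 _ (mfun_mem_mim v2)).symm.mul_pow, ← pow_mul, ← mfun_pow (nC hw), cs_eq_one q2,
        one_mul, mfun_one, ← mfun_pow (nC v2)] at e2
      exact (cs_eq_one_iff (nC (pow_mem v2 2))).1 e2
    have : g ^ 2 = (w⁻¹ * g * w * (g * (w⁻¹ * g * w) * g⁻¹))⁻¹ * (w⁻¹ * g * w * g) ^ 2 := by rw [sq, sq]; group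
    rw [this]
    exact mul_mem (inv_mem (mul_mem v1 (conj_mem_N (nE gE) v1))) (C_anti EQ v3)

end GqS

/-- the data -/
structure ExH (r : G → End K V) (A M L : Subgroup G) (n : ℕ) (g w : G) : Prop where
  two : PiGrp {2} M
  nM : A ≤ N(M)
  nL : A ≤ N(L)
  LM : L ≤ M
  gen : M ≤ closure {u | u ∈ M ∧ ∃ n g, g ∈ A ∧ (r g - 1) ^ (2 ^ (n + 1) - 1) = 0 ∧ u = g ^ 2 ^ n}
  gA : g ∈ A
  wL : w ∈ L
  eg : (r g - 1) ^ (2 ^ (n + 1) - 1) = 0
  ew : (r (w * g) - 1) ^ (2 ^ (n + 1) - 1) = 0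
  yM : g ^ 2 ^ n ∈ M

/-- the target elements -/
def ExT (M L : Subgroup G) (c d : G) : Prop := (∃ t ∈ M, d = ⁅c, t⁆) ∨ (L ≤ C(M) ∧ (∀ x ∈ L, x ^ 2 = 1) ∧ d = c)

theorem ExH.MA {r : G → End K V} (h : ExH r A M L n g w) : M ≤ A := h.gen.trans ((closure_le _).2 (by
  rintro _ ⟨-, n, g, g1, -, rfl⟩; exact pow_mem g1 _))

theorem ExH.dM {r : G → End K V} (h : ExH r A M L n g w) (e : ExT M L ((w * g) ^ 2 ^ n * (g ^ 2 ^ n)⁻¹) d) : d ∈ M := by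
  have := h.LM (ex_norm h.wL (h.nL h.gA) (2 ^ n))
  obtain ⟨t, t1, rfl⟩ | ⟨-, -, rfl⟩ := e
  exacts [der_le (commutator_mem_commutator this t1), this]

theorem GqS.ex_sc [IsAlgClosed K] (s : GqS 2 ρ Q) (hA : A ≤ N(Q)) (h : ExH ρ A M L n g w)
    (e : ExT M L ((w * g) ^ 2 ^ n * (g ^ 2 ^ n)⁻¹) d) : d ∈ C(Q) := by
  have MQ := h.MA.trans hA
  have nC : M ≤ N(C(Q)) := MQ.trans N_le_N_C
  have wM := h.LM h.wL
  have g1 : GqG 2 ρ Q n g := ⟨hA h.gA, ex_pow s.inj h.eg, h.eg⟩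
  have g2 : GqG 2 ρ Q n (w * g) := ⟨mul_mem (MQ wM) (hA h.gA), ex_pow s.inj h.ew, h.ew⟩
  have gen : M ≤ closure {u | ExR ρ Q M u} := h.gen.trans (closure_mono (by
    rintro _ ⟨u1, n, g, g1, g2, rfl⟩; exact ⟨u1, n, g, ⟨hA g1, ex_pow s.inj g2, g2⟩, h.nM g1, rfl⟩))
  have cM := ex_norm wM (h.nM h.gA) (2 ^ n)
  have key : cs C(Q) ((w * g) ^ 2 ^ n * (g ^ 2 ^ n)⁻¹) ∈ C(M ⫽ C(Q)) ∧
      (w ^ 2 = 1 → w ∈ C(M) → (w * g) ^ 2 ^ n * (g ^ 2 ^ n)⁻¹ ∈ C(Q)) := by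
    by_cases nt : g ^ 2 ^ n ∈ C(Q)
    swap
    · exact s.ex_main h.two MQ gen g1 (h.nM h.gA) wM g2 h.yM nt
    by_cases nt' : (w * g) ^ 2 ^ n ∈ C(Q)
    · exact ⟨by rw [cs_eq_one (mul_mem nt' (inv_mem nt))]; exact one_mem _, fun _ _ => mul_mem nt' (inv_mem nt)⟩
    obtain ⟨k1, k2⟩ := s.ex_main h.two MQ gen g2 (mul_mem (le_N wM) (h.nM h.gA)) (inv_mem wM)
      (by rwa [inv_mul_cancel_left]) (by simpa using mul_mem cM h.yM) nt'
    rw [inv_mul_cancel_left, ← inv_inv (g ^ 2 ^ n), ← mul_inv_rev] at k1 k2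
    rw [mfun_inv (nC cM), inv_mem_iff] at k1
    exact ⟨k1, fun a b => inv_mem_iff.1 (k2 (by rw [inv_pow, a, inv_one]) (inv_mem b))⟩
  obtain ⟨t, t1, rfl⟩ | ⟨e1, e2, rfl⟩ := e
  · rw [← cs_eq_one_iff (nC (der_le (commutator_mem_commutator cM t1))), mfun_comm (nC cM) (nC t1),
      commutatorElement_eq_one_iff_mul_comm, mem_C.1 key.1 _ (mfun_mem_mim t1)]
  · exact key.2 (e2 w h.wL) (e1 h.wL)

/-- the statement for a fixed module -/
def ExPr (G : Type u) [Group G] (K : Type*) [Field K] (V : Type v) [AddCommGroup V] [Module K V] : Prop :=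
  ∀ (ρ : G →* End K V), (∀ x, ρ x = 1 → x = 1) → ∀ (Q A M L : Subgroup G) (n : ℕ) (g w d : G), PiGrp {2}ᶜ Q → ⁅Q, Q⁆ ≤ C(Q) →
    A ≤ N(Q) → ExH ρ A M L n g w → ExT M L ((w * g) ^ 2 ^ n * (g ^ 2 ^ n)⁻¹) d → d ∈ C(Q)

open Classical in
/-- extension by `1` -/
noncomputable def dext {E : Type*} [Monoid E] (ρ : D →* E) (x : G) : E := if h : x ∈ D then ρ ⟨x, h⟩ else 1

theorem dext_of {E : Type*} [Monoid E] {ρ : D →* E} (h : x ∈ D) : dext ρ x = ρ ⟨x, h⟩ := dif_pos h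

theorem ExH.tr {K' V' : Type*} [Field K'] [AddCommGroup V'] [Module K' V'] {r : G → End K V} {r' : G → End K' V'}
    (h : ExH r A M L n g w) (k : ∀ x ∈ A, ∀ j, (r x - 1) ^ j = 0 → (r' x - 1) ^ j = 0) : ExH r' A M L n g w :=
  ⟨h.two, h.nM, h.nL, h.LM, h.gen.trans (closure_mono (by
    rintro _ ⟨u1, n, g, g1, g2, rfl⟩; exact ⟨u1, n, g, g1, k g g1 _ g2, rfl⟩)), h.gA, h.wL, k _ h.gA _ h.eg,
    k _ (mul_mem (h.MA (h.LM h.wL)) h.gA) _ h.ew, h.yM⟩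

theorem ex_transfer (ih : ∀ (G : Type u) [Group G] [Finite G], ExPr G K V) (ρ : D →* End K V) (h1 : PiGrp {2}ᶜ Q)
    (h2 : ⁅Q, Q⁆ ≤ C(Q)) (hA : A ≤ N(Q)) (QD : Q ≤ D) (AD : A ≤ D) (h : ExH (dext ρ) A M L n g w)
    (e : ExT M L ((w * g) ^ 2 ^ n * (g ^ 2 ^ n)⁻¹) d) (ha : a ∈ ⁅zpowers d, Q⁆) (hD : a ∈ D) : ρ ⟨a, hD⟩ = 1 := by
  let f := QuotientGroup.mk' ρ.toHomUnits.ker
  let ρ' := (Units.coeHom _).comp (QuotientGroup.kerLift ρ.toHomUnits)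
  have r : ∀ x ∈ D, ρ' (mfun f x) = dext ρ x := fun x hx => by rw [mfun_of_mem hx, dext_of hx]; rfl
  have MD := h.MA.trans AD
  have gD := AD h.gA
  have wD := MD (h.LM h.wL)
  have cD := MD (h.LM (ex_norm h.wL (h.nL h.gA) (2 ^ n)))
  have dD := MD (h.dM e)
  have := ih _ ρ' (fun x hx => QuotientGroup.kerLift_injective ρ.toHomUnits (Units.ext (by rw [map_one]; exact hx)))
    (mim f Q) (mim f A) (mim f M) (mim f L) n (mfun f g) (mfun f w) (mfun f d) h1.mim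
    (by rw [← mim_comm QD QD]; exact mim_cent h2) (mim_norm hA) ⟨h.two.mim, mim_norm h.nM, mim_norm h.nL, mim_mono h.LM,
      (mim_mono h.gen).trans (by
        rw [mim_closure fun x hx => MD hx.1]
        refine closure_mono ?_
        rintro _ ⟨_, ⟨u1, n, g, g1, g2, rfl⟩, rfl⟩
        exact ⟨mfun_mem_mim u1, n, _, mfun_mem_mim g1, by rwa [r g (AD g1)], mfun_pow (AD g1) _⟩),
      mfun_mem_mim h.gA, mfun_mem_mim h.wL, by rw [r g gD]; exact h.eg,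
      by rw [← mfun_mul wD gD, r _ (mul_mem wD gD)]; exact h.ew, by rw [← mfun_pow gD]; exact mfun_mem_mim h.yM⟩ (by
      rw [← mfun_mul wD gD, ← mfun_pow gD, ← mfun_pow (mul_mem wD gD), ← mfun_inv (pow_mem gD _),
        ← mfun_mul (pow_mem (mul_mem wD gD) _) (inv_mem (pow_mem gD _))]
      obtain ⟨t, t1, rfl⟩ | ⟨e1, e2, rfl⟩ := e
      · exact .inl ⟨_, mfun_mem_mim t1, mfun_comm cD (MD t1)⟩
      · refine .inr ⟨mim_cent e1, fun x hx => ?_, rfl⟩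
        obtain ⟨x, x1, x2, rfl⟩ := mem_mim.1 hx
        rw [← mfun_pow x2, e2 x x1, mfun_one])
  rw [← zpowers_le, ← mim_zpowers dD, ← comm_le_mker_iff (zpowers_le.2 dD) QD] at this
  have e := (mem_mker.1 (this ha)).2
  rw [mfun_of_mem hD] at e
  exact congrArg ρ' e |>.trans (map_one ρ')

theorem ex_down {p : ℕ} [hp : Fact p.Prime] [CharP K p] (hg : g ∈ N(Z)) (gp : g ^ p ^ (n + 1) = 1)
    (ex : (ρ g - 1) ^ (p ^ (n + 1) - 1) = 0) (h0 : gqV ρ Z l ≠ ⊥) :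
    ∃ k m, k + m = n ∧ g ^ p ^ k ∈ grStab ρ (gqV ρ Z l) ∧ (∀ j < k, g ^ p ^ j ∉ grStab ρ (gqV ρ Z l)) ∧
      ∀ w ∈ gqV ρ Z l, ((ρ (g ^ p ^ k) - 1) ^ (p ^ (m + 1) - 1)) w = 0 := by
  classical
  have e : ∃ k, g ^ p ^ k ∈ grStab ρ (gqV ρ Z l) := ⟨n + 1, gp ▸ one_mem _⟩
  have k1 := Nat.find_spec e
  have k2 : Nat.find e ≤ n + 1 := Nat.find_min' e (gp ▸ one_mem _)
  have k3 : ∀ j < Nat.find e, g ^ p ^ j ∉ grStab ρ (gqV ρ Z l) := fun j => Nat.find_min e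
  generalize Nat.find e = k at *
  have key : ∀ w ∈ gqV ρ Z l, ((ρ g - 1) ^ (p ^ k - 1)) w = 0 → w = 0 := fun w hw e => by
    rw [← geom_char (K := K), Finset.range_eq_Ico, Finset.sum_eq_sum_Ico_succ_bot (pow_pos hp.out.pos k), pow_zero,
      LinearMap.add_apply, LinearMap.sum_apply] at e
    refine gq_indep _ (fun i z => l ((g ^ i)⁻¹ * z * g ^ i)) (fun i hi => gqV_ne (ρ := ρ) (pow_mem hg i) fun c => ?_) _ w hw
      (fun i _ => by rw [← map_pow]; exact gqV_map (pow_mem hg i) hw) e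
    obtain ⟨i1, i2⟩ := Finset.mem_Ico.1 hi
    obtain ⟨j, u, u1, rfl⟩ := Nat.exists_eq_pow_mul_and_not_dvd (show i ≠ 0 by omega) p hp.out.ne_one
    refine k3 j ((Nat.pow_lt_pow_iff_right hp.out.one_lt).1 ((Nat.le_mul_of_pos_right _ (Nat.pos_of_ne_zero ?_)).trans_lt i2))
      (gq_mem_of_cop (k := n + 1) (by rw [← pow_mul, mul_comm, pow_mul, gp, one_pow]) u1 (by rwa [← pow_mul]))
    rintro rfl
    exact u1 (dvd_zero p)
  rcases k2.eq_or_lt with rfl | k2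
  · exact absurd (eq_bot_iff.2 fun w hw => key w hw (by rw [ex]; rfl)) h0
  obtain ⟨m, rfl⟩ := Nat.exists_eq_add_of_le (Nat.le_of_lt_succ k2)
  refine ⟨k, m, rfl, k1, k3, fun w hw => key _ (End.pow_apply_mem_of_forall_mem _ (fun w hw => sub_mem (k1 w hw) hw) w hw) ?_⟩
  have e6 : p ^ (k + m + 1) - 1 = p ^ k - 1 + p ^ k * (p ^ (m + 1) - 1) := by
    have := Nat.one_le_pow k p hp.out.pos
    have := Nat.le_mul_of_pos_right (p ^ k) (pow_pos hp.out.pos (m + 1))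
    rw [Nat.mul_sub_one, add_assoc, pow_add]; omega
  rw [e6, pow_add, pow_mul, sub_one_pow (K := K), ← map_pow] at ex
  exact congrArg (fun θ : End K V => θ w) ex

theorem ex_all [IsAlgClosed K] (e : ℕ) : ∀ (V : Type v) [AddCommGroup V] [Module K V] [FiniteDimensional K V],
    finrank K V = e → ∀ (G : Type u) [Group G] [Finite G], ExPr G K V := by
  induction e using Nat.strong_induction_on with | _ e ih
  intro V _ _ _ hd G _ _ ρ inj Q A M L n g w d h1 h2 hA h hT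
  have XQ : ⁅zpowers d, Q⁆ ≤ Q := comm_le_right (zpowers_le.2 (hA (h.MA (h.dM hT))))
  suffices fin : ∀ a ∈ ⁅zpowers d, Q⁆, a = 1 from
    zpowers_le.1 (commutator_eq_bot_iff_le_centralizer.1 (eq_bot_iff.2 fun a ha => mem_bot.2 (fin a ha)))
  by_cases irr : ∀ U : Submodule K V, Q ⊔ A ≤ grStab ρ U → U = ⊥ ∨ U = ⊤
  swap
  · push Not at irr
    obtain ⟨U, u1, u5, u6⟩ := irr
    obtain ⟨u1, u2⟩ := sup_le_iff.1 u1
    intro a ha
    have i1 : ∀ x : grStab ρ U, ∀ w ∈ U, (ρ.comp (grStab ρ U).subtype) x w ∈ U := fun x => x.2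
    exact gq_unip inj (h1.elt (XQ ha)) (u1 (XQ ha)) i1 (ex_transfer (ih _ (hd ▸ Submodule.finrank_lt u6) U rfl)
      (resHom _ U i1) h1 h2 hA u1 u2 (h.tr fun x hx j e => by
        rw [dext_of (u2 hx)]; exact gq_res_pow i1 fun w _ => congrArg (fun θ : End K V => θ w) e) hT ha _)
      (ex_transfer (ih _ (by
        have := U.finrank_quotient_add_finrank
        have := Submodule.finrank_eq_zero.not.2 u5
        omega) (V ⧸ U) rfl) (grQuo _ U i1) h1 h2 hA u1 u2 (h.tr fun x hx j e => by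
          rw [dext_of (u2 hx)]; exact gq_quo_pow i1 e) hT ha _)
  by_cases sc : ∀ z ∈ Q, z ∈ C(Q) → ∃ c : K, ρ z = c • 1
  · have s : GqS 2 ρ Q := ⟨inj, h1, h2, sc⟩
    intro a ha
    rwa [commutator_eq_bot_iff_le_centralizer.2 (zpowers_le.2 (s.ex_sc hA h hT)), mem_bot] at ha
  have nZ : N(Q) ≤ N(Z(Q)) := norm_inf le_rfl N_le_N_C
  have aZ : Abel Z(Q) := inf_le_right.trans (C_anti inf_le_left)
  have nA : Q ⊔ A ≤ N(Z(Q)) := (sup_le le_N hA).trans nZ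
  refine fun a ha => inj a (gqV_span aZ nA irr fun l v hv => ?_)
  by_cases h0 : gqV ρ Z(Q) l = ⊥
  · rw [h0, Submodule.mem_bot] at hv
    rw [hv, map_zero]
  have u6 : gqV ρ Z(Q) l ≠ ⊤ := fun e => sc fun z z1 z2 => gq_sc nA aZ irr e ⟨z1, z2⟩
  have u1 : Q ≤ grStab ρ (gqV ρ Z(Q) l) := (cent_symm inf_le_right).trans gqV_cent
  have dn := fun n x (hx : x ∈ A) ex => ex_down (n := n) (l := l) (nZ (hA hx)) (ex_pow inj ex) ex h0
  generalize gqV ρ Z(Q) l = U at *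
  have i1 : ∀ x : grStab ρ U, ∀ w ∈ U, (ρ.comp (grStab ρ U).subtype) x w ∈ U := fun x => x.2
  have gen : M ≤ closure {u | u ∈ M ∧ ∃ n g, g ∈ A ⊓ grStab ρ U ∧ (dext (resHom _ U i1) g - 1) ^ (2 ^ (n + 1) - 1) = 0 ∧
      u = g ^ 2 ^ n} := h.gen.trans (closure_mono (by
    rintro _ ⟨u1, n, x, x1, x2, rfl⟩
    obtain ⟨k, m, rfl, a1, -, a2⟩ := dn n x x1 x2
    exact ⟨u1, m, _, ⟨pow_mem x1 _, a1⟩, by rw [dext_of a1]; exact gq_res_pow i1 a2, by rw [← pow_mul, ← pow_add]⟩))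
  have MU : L ≤ grStab ρ U := h.LM.trans (gen.trans ((closure_le _).2 (by
    rintro _ ⟨-, n, g, g1, -, rfl⟩; exact pow_mem g1.2 _)))
  obtain ⟨k, m, e1, a1, a2, a3⟩ := dn n g h.gA h.eg
  obtain ⟨j, m', e2, b1, b2, b3⟩ := dn n _ (mul_mem (h.MA (h.LM h.wL)) h.gA) h.ew
  have N := fun j => ex_norm h.wL (h.nL h.gA) (2 ^ j)
  obtain rfl : k = j := le_antisymm (not_lt.1 fun c => a2 j c (by simpa using mul_mem (inv_mem (MU (N j))) b1))
    (not_lt.1 fun c => b2 k c (by simpa using mul_mem (MU (N k)) a1))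
  obtain rfl : m = m' := by omega
  subst e1
  exact congrArg (fun θ : End K U => (θ ⟨v, hv⟩ : V)) (ex_transfer (ih _ (hd ▸ Submodule.finrank_lt u6) U rfl) (resHom _ U i1)
    h1 h2 (inf_le_left.trans hA) u1 inf_le_right (n := m) (g := g ^ 2 ^ k) (w := (w * g) ^ 2 ^ k * (g ^ 2 ^ k)⁻¹)
    ⟨h.two, inf_le_left.trans h.nM, inf_le_left.trans h.nL, h.LM, gen, ⟨pow_mem h.gA _, a1⟩, N k,
      by rw [dext_of a1]; exact gq_res_pow i1 a3, by rw [inv_mul_cancel_right, dext_of b1]; exact gq_res_pow i1 b3,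
      by rw [← pow_mul, ← pow_add]; exact h.yM⟩
    (by rwa [inv_mul_cancel_right, ← pow_mul, ← pow_mul, ← pow_add]) ha (u1 (XQ ha)))

theorem ex_mod (G : Type u) [Group G] [Finite G] : ExPr G K V := by
  intro ρ inj Q A M L n g w d h1 h2 hA h hT
  let F := AlgebraicClosure K
  let φ := End.baseChangeHom K F V
  have i : Function.Injective φ := LinearMap.baseChangeHom_injective K V F
  exact ex_all (K := F) _ _ rfl G (φ.toMonoidHom.comp ρ) (fun x e => inj x (i (e.trans (map_one φ).symm))) Q A M L n g w d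
    h1 h2 hA (h.tr fun x _ j e => by simpa using congrArg φ e) hT

end H8
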