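import Cfsg.Agent.H8.Ex2
import Cfsg.Agent.H8.Dl3
import Cfsg.Agent.H8.Gr4

/-! The `2`-length of a soluble group is at most the exponent `e` of its Sylow `2`-subgroups: `ExC` (norm identity on chief
`2`-factors), `ex_step`, `ex_rep`, `ex_plr`, `ex_solv` (`2`-soluble groups are soluble). -/

set_option autoImplicit false
set_option linter.unusedSectionVars false

namespace H8
open Module Subgroup Cfsg H18 H1 H21 H21.HB
open scoped commutatorElement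
universe u v

variable {G : Type u} [Group G] [Finite G] {F H K W X Y : Subgroup G} {g : G} {m n : ℕ}

/-- the norm identity on all chief `2`-factors -/
def ExC (m : ℕ) (H : Subgroup G) : Prop :=
  ∀ Y X, Chief H Y X → PiNat {2} (Y.relIndex X) → ∀ g ∈ H, PiElt {2} g → ∀ w ∈ X, (w * g) ^ 2 ^ m * (g ^ 2 ^ m)⁻¹ ∈ Y

theorem ex_cover (hY : Y ⊴ H) (gH : g ∈ H) (FH : F ≤ H) (hX : X ≤ F ⊔ Y) (h : ∀ w ∈ F, (w * g) ^ n * (g ^ n)⁻¹ ∈ Y) :
    ∀ w ∈ X, (w * g) ^ n * (g ^ n)⁻¹ ∈ Y := fun w hw => by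
  have nY := hY.2
  obtain ⟨a, a1, y, y1, rfl⟩ := (mem_sup_of_norm (FH.trans nY)).1 (hX hw)
  have e : ∀ w ∈ H, ((w * g) ^ n * (g ^ n)⁻¹ ∈ Y ↔ (cs Y w * cs Y g) ^ n * cs Y (g ^ n)⁻¹ = 1) := fun w hw => by
    rw [← cs_eq_one_iff (nY (mul_mem (pow_mem (mul_mem hw gH) n) (inv_mem (pow_mem gH n)))),
      mfun_mul (nY (pow_mem (mul_mem hw gH) n)) (nY (inv_mem (pow_mem gH n))), mfun_pow (nY (mul_mem hw gH)),
      mfun_mul (nY hw) (nY gH)]
  rw [e _ (mul_mem (FH a1) (hY.1 y1)), mfun_mul (nY (FH a1)) (le_N y1), cs_eq_one y1, mul_one, ← e _ (FH a1)]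
  exact h a a1

theorem ex_base (h : ∀ x ∈ H, PiElt {2} x → x ^ 2 ^ m = 1) : ExC m H := fun Y X ch hi g gH gp => by
  obtain ⟨S, hS, le⟩ := exists_sylow_le Nat.prime_two gp.zpowers (zpowers_le.2 gH)
  refine ex_cover ch.nmlV gH (inf_le_left.trans hS.1) ((hS.inf_nml ch.nmlU).sup_of_idx ch.le hi).ge fun w hw => ?_
  have := mul_mem hw.1 (le (mem_zpowers g))
  rw [h g gH gp, h _ (hS.1 this) (hS.2.elt this), inv_one, mul_one]
  exact one_mem _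

theorem ExC.quo (h : ExC m H) (hK : K ⊴ H) : ExC m (H ⫽ K) := fun Y X ch hi z hz zp w hw => by
  obtain ⟨g, g1, g2, g3, rfl⟩ := exists_piElt_lift hz zp
  obtain ⟨a, a1, rfl⟩ := (mem_quo hK.2).1 (ch.nmlU.1 hw)
  have a2 := hK.2 a1
  have := (mem_mpre.1 (h _ _ (dl_chief hK ch) (by rw [idx_mpre (by rw [quo_N]; exact le_top)]; exact hi) g g1 g3 a
    (mem_mpre.2 ⟨a2, hw⟩))).2
  rwa [mfun_mul (pow_mem (mul_mem a2 g2) _) (inv_mem (pow_mem g2 _)), mfun_inv (pow_mem g2 _), mfun_pow (mul_mem a2 g2),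
    mfun_mul a2 g2, mfun_pow g2] at this

theorem ex_step {E : Type*} [Field E] [CharP E 2] {V : Type v} [AddCommGroup V] [Module E V] [FiniteDimensional E V]
    {ρ : G →* End E V} (inj : ∀ x, ρ x = 1 → x = 1) (hs : Solv H) (hO : O[{2}](H) = ⊥)
    (ex : ∀ g ∈ H, PiElt {2} g → (ρ g - 1) ^ (2 ^ (n + 1) - 1) = 0) : ExC n H := fun Y X ch hi g gH gp => by
  by_contra c
  obtain ⟨S, hS, le⟩ := exists_sylow_le Nat.prime_two gp.zpowers (zpowers_le.2 gH)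
  have gS := le (mem_zpowers g)
  have hL : O2[{2}ᶜ,{2}](H) ⊴ H := pcore2_nml
  have hT := hS.inf_nml hL
  have SN : S ≤ H ⊓ N(S ⊓ O2[{2}ᶜ,{2}](H)) := le_inf hS.1 (norm_inf le_N (hS.1.trans hL.2))
  have HR : H ≤ O[{2}ᶜ](H) ⊔ H ⊓ N(S ⊓ O2[{2}ᶜ,{2}](H)) := (frattini_arg Nat.prime_two hL hT).ge.trans (sup_le
    ((hT.sup_of_idx pcore_le_pcore2 pcore2_idx).ge.trans (sup_le (le_sup_of_le_right (inf_le_left.trans SN)) le_sup_left))
    le_sup_right)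
  have pw : ∀ h ∈ H ⊓ N(S ⊓ O2[{2}ᶜ,{2}](H)), PiElt {2} h → h ^ 2 ^ n ∈ S := fun h h1 h2 =>
    (hT.le_of_norm (zpowers_le.2 (gr_thmK (fun u _ => inj u) hs hO h1.1 (ex_pow inj (ex h h1.1 h2)) (ex h h1.1 h2)))
      (h2.pow' _).zpowers (.inl (zpowers_le.2 (pow_mem h1.2 _))) (mem_zpowers _)).1
  have AH : H ⊓ N(S ⊓ O2[{2}ᶜ,{2}](H)) ≤ H := inf_le_left
  generalize H ⊓ N(S ⊓ O2[{2}ᶜ,{2}](H)) = A at *
  let s : Set G := {u | ∃ h ∈ A, PiElt {2} h ∧ u = h ^ 2 ^ n}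
  have MS : closure s ≤ S := (closure_le _).2 (by rintro _ ⟨h, h1, h2, rfl⟩; exact pw h h1 h2)
  have nM : A ≤ N(closure s) := norm_closure (by
    rintro x hx _ ⟨h, h1, h2, rfl⟩
    exact ⟨_, conj_mem_N (le_N hx) h1, h2.conj x, conj_pow.symm⟩)
  have sM : ∀ x ∈ S, x ^ 2 ^ n ∈ closure s := fun x hx => subset_closure ⟨x, SN hx, hS.2.elt hx, rfl⟩
  have gen : closure s ≤ closure {u | u ∈ closure s ∧ ∃ n g, g ∈ A ∧ (ρ g - 1) ^ (2 ^ (n + 1) - 1) = 0 ∧ u = g ^ 2 ^ n} :=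
    closure_mono (by
      rintro _ ⟨h, h1, h2, rfl⟩
      exact ⟨subset_closure ⟨h, h1, h2, rfl⟩, n, h, h1, ex h (AH h1) h2, rfl⟩)
  generalize closure s = M at *
  have nY := ch.nmlV.2
  have nX := ch.nmlU.2
  have RX : ⁅O[{2}ᶜ](H), X⁆ ≤ Y := (le_inf (comm_le_left (ch.nmlU.1.trans pcore_nml.2)) (comm_le_right
    (pcore_nml.1.trans nX))).trans ((quo_eq_bot_iff (inf_le_right.trans ch.nml.2)).1 (eq_bot_iff.2 fun z hz => mem_bot.2
      ((((piGrp_quo_iff ch.nml.2).2 hi).elt (mim_mono inf_le_right hz)).eq_one' (pcore_pi.inf_left.mim.elt hz))))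
  have NC : ∀ F ≤ S ⊓ X, X ≤ F ⊔ Y → ∃ w ∈ F, (w * g) ^ 2 ^ n * (g ^ 2 ^ n)⁻¹ ∉ Y := fun F h1 h2 => by
    by_contra! k
    exact c (ex_cover ch.nmlV gH (h1.trans (inf_le_left.trans hS.1)) h2 k)
  have CV : ∀ F ≤ S ⊓ X, A ≤ N(F) → ¬ F ≤ Y → ∃ w ∈ F, (w * g) ^ 2 ^ n * (g ^ 2 ^ n)⁻¹ ∉ Y := fun F h1 h2 h3 => by
    have l : F ⊔ Y ≤ X := sup_le (h1.trans inf_le_right) ch.le
    exact NC F h1 (ch.max _ (le_sup_right.lt_of_not_ge fun e => h3 (le_sup_left.trans e)) l (HR.trans (sup_le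
      (norm_of_comm_le ((comm_mono le_rfl l).trans (RX.trans le_sup_right))) (norm_sup h2 (AH.trans nY))))).ge
  have MT : ∀ L ≤ M, A ≤ N(L) → ∀ w ∈ L, ∀ d, ExT M L ((w * g) ^ 2 ^ n * (g ^ 2 ^ n)⁻¹) d → d = 1 :=
    fun L h1 h2 w hw d e => by
      have wS := mul_mem (MS (h1 hw)) gS
      have D : ExH ρ A M L n g w := ⟨hS.2.of_le MS, nM, h2, h1, gen, SN gS, hw, ex g gH gp, ex _ (hS.1 wS) (hS.2.elt wS), sM g gS⟩
      exact dl_glob (H4.pSol_of_solvable hs) hO (hS.1 (MS (D.dM e))) (hS.2.elt (MS (D.dM e))) fun U hU u1 u2 =>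
        ex_mod G ρ inj U A M L n g w d u1 u2 (AH.trans hU.2) D e
  obtain ⟨w₀, a1, a2⟩ := NC _ le_rfl ((hS.inf_nml ch.nmlU).sup_of_idx ch.le hi).ge
  obtain ⟨w₁, b1, b2⟩ := CV (M ⊓ X) (inf_le_inf_right _ MS) (norm_inf nM (AH.trans nX)) fun e => a2 (e (mem_inf.2 ⟨mul_mem
    (sM _ (mul_mem a1.1 gS)) (inv_mem (sM g gS)), ex_norm a1.2 (nX gH) _⟩))
  have aZ : Abel Z(M) := inf_le_right.trans (C_anti inf_le_left)
  have nO : A ≤ N(Ω[2](Z(M))) := norm_omega (norm_inf nM (nM.trans N_le_N_C))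
  have OM : Ω[2](Z(M)) ≤ M := omega_le.trans inf_le_left
  have b3 : (w₁ * g) ^ 2 ^ n * (g ^ 2 ^ n)⁻¹ ∈ C(M) := mem_C.2 fun t ht =>
    (commutatorElement_eq_one_iff_mul_comm.1 (MT M le_rfl nM w₁ b1.1 _ (.inl ⟨t, ht, rfl⟩))).symm
  have sq1 : ∀ x ∈ S, (x ^ 2 ^ n) ^ 2 = 1 := fun x hx => by
    rw [← pow_mul, ← pow_succ, ex_pow inj (ex x (hS.1 hx) (hS.2.elt hx))]
  obtain ⟨w₂, c1, c2⟩ := CV (Ω[2](Z(M)) ⊓ X) (inf_le_inf_right _ (OM.trans MS)) (norm_inf nO (AH.trans nX)) fun e => b2 (e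
    ⟨mem_omega ⟨ex_norm b1.1 (nM (SN gS)) _, b3⟩ (by
      have := sq1 _ (mul_mem (MS b1.1) gS)
      rwa [← inv_mul_cancel_right ((w₁ * g) ^ 2 ^ n) (g ^ 2 ^ n), (show Commute _ _ from mem_C.1 b3 _ (sM g gS)).symm.mul_pow,
        sq1 g gS, mul_one] at this), ex_norm b1.2 (nX gH) _⟩)
  exact c2 (MT _ OM nO w₂ c1.1 _ (.inr ⟨omega_le.trans inf_le_right, fun x hx => (aZ.mem_omega_iff.1 hx).2, rfl⟩) ▸ one_mem _)

theorem ex_rep1 (ch : Chief H Y X) (hi : PiNat {2} (Y.relIndex X)) : ∃ (hW : Elem 2 (X ⫽ Y)) (ρ : H →* End (ZMod 2) (EV hW)),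
    (∀ x : H, ρ x = 1 ↔ ∀ a ∈ X, ⁅x.1, a⁆ ∈ Y) ∧ ∀ (x : H) (k : ℕ), (∀ w ∈ X, (w * x) ^ 2 ^ k * (x.1 ^ 2 ^ k)⁻¹ ∈ Y) →
      (ρ x - 1) ^ (2 ^ k - 1) = 0 := by
  have hW := dl_elem ch hi
  have nY := ch.nmlV.2
  have XH := ch.nmlU.1
  have f1 : ∀ g : H, ((coset Y).comp (inclusion nY)) g = cs Y g.1 := fun g => (mfun_of_mem (f := coset Y) (nY g.2)).symm
  let ρ := elemRep hW ((coset Y).comp (inclusion nY)) fun g => f1 g ▸ mfun_mem_N (ch.nmlU.2 g.2)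
  have v0 : ∀ (x : H) v, (ρ x v).val = cs Y x.1 * v.val * (cs Y x.1)⁻¹ := fun x v => by rw [elemRep_val, f1]
  have val : ∀ (x : H) v, (dt ρ x v).val = ⁅cs Y x.1, v.val⁆ := fun x v => by
    rw [dt, sub_eq_add_neg, EV.val_add, EV.val_neg, v0]; rfl
  refine ⟨hW, ρ, fun x => ⟨fun e a ha => (cs_eq_one_iff (nY (comm_le_of_le le_rfl XH (commutator_mem_commutator x.2 ha)))).1 ?_,
    fun e => LinearMap.ext fun v => sub_eq_zero.1 (EV.ext ((val x v).trans ?_))⟩, fun x k e => LinearMap.ext fun v => ?_⟩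
  · rw [mfun_comm (nY x.2) (nY (XH ha))]
    refine (val x (EV.mk hW _ (mfun_mem_mim ha))).symm.trans ?_
    rw [dt, e, End.one_apply, sub_self]; rfl
  · obtain ⟨a, a1, a2⟩ := (mem_quo ch.nml.2).1 v.mem
    rw [← a2, ← mfun_comm (nY x.2) (nY (XH a1))]
    exact cs_eq_one (e a a1)
  obtain ⟨a, a1, a2⟩ := (mem_quo ch.nml.2).1 v.mem
  have k1 : ∀ j : ℕ, (v.val * cs Y x.1) ^ j = ((∑ i ∈ Finset.range j, ρ x ^ i) v).val * cs Y x.1 ^ j := fun j => by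
    induction j with
    | zero => simp
    | succ j ih =>
      rw [pow_succ, ih, Finset.sum_range_succ, LinearMap.add_apply, EV.val_add, ← map_pow, v0, Subgroup.coe_pow,
        mfun_pow (nY x.2)]
      group
  have k2 := cs_eq_one (e a a1)
  have a3 := nY (XH a1)
  have x3 := nY x.2
  rw [mfun_mul (pow_mem (mul_mem a3 x3) _) (inv_mem (pow_mem x3 _)), mfun_inv (pow_mem x3 _), mfun_pow (mul_mem a3 x3),
    mfun_mul a3 x3, mfun_pow x3, a2, k1, mul_inv_cancel_right, geom_char (K := ZMod 2)] at k2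
  exact EV.ext k2

theorem ex_rep (h : RD 2 H W) (hy : ExC (n + 1) H) : ∃ (G' : Type u) (_ : Group G') (_ : Finite G') (V : Type u)
    (_ : AddCommGroup V) (_ : Module (ZMod 2) V) (_ : FiniteDimensional (ZMod 2) V) (f : H →* G') (ρ : G' →* End (ZMod 2) V),
    (∀ x, ρ x = 1 → x = 1) ∧ mker f = W ∧ ∀ g ∈ H, PiElt {2} g → (ρ (mfun f g) - 1) ^ (2 ^ (n + 1) - 1) = 0 := by
  classical
  have hi : ∀ i : {p : Subgroup G × Subgroup G // Chief H p.1 p.2 ∧ p.2 ≤ W}, PiNat {2} (i.1.1.relIndex i.1.2) := fun i =>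
    (piGrp_quo_iff i.2.1.nml.2).1 (h.pi.of_le i.2.2).mim
  choose hW r r1 r2 using fun i => ex_rep1 i.2.1 (hi i)
  let ρ : H →* End (ZMod 2) (∀ i, EV (hW i)) :=
    { toFun := fun x => LinearMap.pi fun i => (r i x).comp (LinearMap.proj i)
      map_one' := LinearMap.ext fun v => funext fun i => by simp
      map_mul' := fun x y => LinearMap.ext fun v => funext fun i => by simp }
  have e1 : ∀ (x : H) (k : ℕ) (v : ∀ i, EV (hW i)) i, ((ρ x - 1) ^ k : End (ZMod 2) (∀ i, EV (hW i))) v i =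
      ((r i x - 1) ^ k : End (ZMod 2) (EV (hW i))) (v i) := fun x k v i => by
    induction k with
    | zero => rfl
    | succ k ih => rw [pow_succ', pow_succ', End.mul_apply, End.mul_apply, ← ih]; rfl
  have e2 : ∀ x, ρ x = 1 ↔ ∀ i, r i x = 1 := fun x => ⟨fun e i => LinearMap.ext fun v => by
    simpa [ρ] using congrArg (fun θ : End (ZMod 2) (∀ i, EV (hW i)) => θ (Pi.single i v) i) e,
    fun e => LinearMap.ext fun v => funext fun i => by simp [ρ, e i]⟩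
  let f := QuotientGroup.mk' ρ.toHomUnits.ker
  have e3 : ∀ x (hx : x ∈ H), x ∈ mker f ↔ ∀ Y X, Chief H Y X → X ≤ W → ∀ a ∈ X, ⁅x, a⁆ ∈ Y := fun x hx => by
    rw [mem_mker, mfun_of_mem hx, and_iff_right hx, QuotientGroup.mk'_apply, QuotientGroup.eq_one_iff, MonoidHom.mem_ker,
      Units.ext_iff, MonoidHom.coe_toHomUnits, Units.val_one, e2]
    exact ⟨fun e Y X ch l => (r1 ⟨(Y, X), ch, l⟩ _).1 (e _), fun e i => (r1 i _).2 (e _ _ i.2.1 i.2.2)⟩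
  refine ⟨_, inferInstance, inferInstance, _, inferInstance, inferInstance, inferInstance, f,
    (Units.coeHom _).comp (QuotientGroup.kerLift ρ.toHomUnits), fun x hx => QuotientGroup.kerLift_injective ρ.toHomUnits
      (Units.ext (by rw [map_one]; exact hx)), le_antisymm ((le_pcore nml_mker (piGrp_of_prime_elt fun x hx h1 => ?_)).trans
      h.core) fun x hx => (e3 x (h.nml.1 hx)).2 fun Y X ch l a ha => ?_, fun g gH gp => ?_⟩
  · by_contra c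
    have x1 := mker_le hx
    have x2 : PiElt {2}ᶜ x := PiNat.p'_of_ne (piNat_self h1) c
    have := h.cent ⟨x1, stable_chief_cent (cop_of_pi' (zpowers_le.2 (h.nml.2 x1)) x2.zpowers h.pi (.inl abel_zpowers.solv))
      h.nml (fun Y X ch l => by
        rw [commutator_comm]
        exact commutator_le.2 fun y hy => (e3 y (zpowers_le.2 x1 hy)).1 (zpowers_le.2 hx hy) Y X ch l) (mem_zpowers x)⟩
    exact h1.one_lt.ne' (orderOf_eq_one_iff.2 ((h.pi.elt this).eq_one' x2))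
  · rw [← commutatorElement_inv]
    exact inv_mem (ch.comm_nil_le h.nml h.pi.mim.nil (commutator_mem_commutator ha hx))
  · rw [mfun_of_mem gH]
    exact LinearMap.ext fun v => funext fun i => (e1 _ _ v i).trans (by
      rw [r2 i ⟨g, gH⟩ _ (hy _ _ i.2.1 (hi i) g gH gp)]; rfl)

theorem ex_plr (m : ℕ) : ∀ (G : Type u) [Group G] [Finite G] (H : Subgroup G), Solv H → ExC m H → PLR 2 H m ⊥ := by
  induction m with
  | zero =>
    intro G _ _ H hs he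
    refine plr_zero_iff.2 ⟨Nml.bot, ?_⟩
    rw [relIndex_bot_left]
    refine chief_induction_up (T := fun W => PiGrp {2}ᶜ W) ⟨le_rfl, le_N⟩ Nml.bot bot_le PiGrp.bot fun Y X ch _ l k => ?_
    obtain ⟨p, hp, -, p1⟩ := ch.exists_prime (hs.of_le l)
    by_cases e : p = 2
    · exact absurd (fun w hw => by simpa using he Y X ch (e ▸ p1) 1 (one_mem _) PiElt.one w hw) ch.lt.not_ge
    · show PiNat _ _
      rw [← H18.card_mul_relIndex ch.le]
      exact k.mul (PiNat.p'_of_ne p1 e)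
  | succ m ih =>
    intro G _ _ H hs he
    refine plr_step (fun G _ H => Solv H ∧ ExC (m + 1) H) (fun G _ _ H K hK h => ⟨h.1.mim, h.2.quo hK⟩)
      (fun G _ _ H V h a => ?_) (H4.pSol_of_solvable hs) ⟨hs, he⟩
    obtain ⟨G', _, _, U, _, _, _, f, ρ, inj, e, ex⟩ := ex_rep h a.2
    have := (ih G' (mim f H) a.1.mim (ex_step inj a.1.mim (by
      rw [← mim_pcore le_rfl (e ▸ h.pi.inf_right), h.eq, ← e, mim_mker]) fun z hz zp => by
        obtain ⟨x, x1, -, rfl⟩ := mem_mim.1 hz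
        rw [← piPart_eq_self zp, ← mfun_piPart x1]
        exact ex _ (piPart_mem x1) piElt_piPart)).mpre le_rfl
    rwa [mpre_mim_of_le le_rfl mker_le, ← mker, e] at this

theorem ex_solv (h : H4.PSol 2 H) : Solv H := by
  obtain ⟨k, hk⟩ := psol_plr h Nml.bot
  have : ∀ k V, PLR 2 H k V → Solv V → Solv H := fun k V h => by
    induction h with
    | zero h1 h2 => exact fun s => solv_of_quo h1.2 (solv_of_two' ((piGrp_quo_iff h1.2).2 h2)) s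
    | succ h1 h2 h3 h4 h5 ih => exact fun s => ih (solv_of_quo (h5.nml.1.trans h2.2) ((piGrp_quo_iff
        (h5.nml.1.trans h2.2)).2 h4).nil.solv (solv_of_quo (h2.1.trans h1.2) (solv_of_two' ((piGrp_quo_iff
        (h2.1.trans h1.2)).2 h3)) s))
  exact this k ⊥ hk (abel_zpowers (x := (1 : G)).solv.of_le bot_le)

end H8
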