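import Cfsg.Agent.H8.AD3
import Cfsg.Agent.H8.Hz1
import Cfsg.Agent.H1.Cores
import Cfsg.Agent.H16.OddOrder

/-! Groups with `O(G) = 1` in which `χ(1) - χ(u)` is constant on the nonprincipal characters of the
principal `2`-block (`Ex`): all nontrivial `2`-elements are conjugate (`Ex.isConj`), `G = N C(P)` for
every nontrivial normal `N` (`Ex.sup`), and some faithful character has degree `|P| - 1` (`Ex.exists_deg`). -/

open H5 H7 Cfsg Finset
open scoped ComplexConjugate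

namespace H8
variable {G : Type*} [Group G] [Finite G] {M : Ideal AlgInt} {u : G} {k : ℂ}

open Classical in
/-- the nonprincipal characters of the principal block -/
noncomputable def nB0 (M : Ideal AlgInt) (G : Type*) [Group G] [Finite G] : Finset (IrrCharacter G) :=
  (nIr G).filter (· ∈ principalBlock M G)

theorem mem_nB0 {χ : IrrCharacter G} : χ ∈ nB0 M G ↔ χ ≠ irrOne G ∧ χ ∈ principalBlock M G := by
  simp [nB0, mem_nIr]

theorem mu_nB0 [M.IsMaximal] (x y : G) :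
    mu (principalBlock M G) x y = 1 + ∑ χ ∈ nB0 M G, χ.1 x * conj (χ.1 y) := by
  classical
  rw [mu_eq, sum_irr_split, if_pos irrOne_mem_principalBlock, nB0, sum_filter]
  simp

theorem lin_mem_principal {p : ℕ} [Fact p.Prime] [PM p M] {P : Subgroup G} (hP : SylIn p P ⊤)
    {χ : IrrCharacter G} (h1 : χ.1 1 = 1) (h : ∀ c ∈ cC P, χ.1 c = 1) : χ ∈ principalBlock M G := by
  refine (sameBlock_iff_red (irrOne G).2 χ.2).2 fun g => ?_
  rw [centralChar_eq χ.2, charDegree_of_eq (n := 1) (by simpa using h1), Nat.cast_one, div_one]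
  refine (congrArg _ (centralChar_irrOne g)).trans ?_
  by_cases e : p ∣ (c1 g).index
  · rw [red_mul (natCast_mem _ _) (char_mem_O χ.2.isCharacter g), red_natCast,
      (natCast_F_eq_zero_iff (p := p) _).2 e, zero_mul]
  obtain ⟨D, hD⟩ := exists_sylIn p (c1 g)
  obtain ⟨x, -, hx⟩ := hP.exists_cj_eq (hD.of_relIndex le_top (by rwa [Subgroup.relIndex_top_right]))
  rw [← χ.2.isClassFunction g x, h _ (by
    rw [← hx, ← cj_cC]
    exact conj_mem_cj.2 fun y hy => Subgroup.mem_centralizer_singleton_iff.1 (hD.le hy)), mul_one]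

/-- the extremal hypothesis -/
structure Ex (M : Ideal AlgInt) (u : G) (k : ℂ) : Prop where
  odd : pPrimeCore 2 G = ⊥
  ne : u ≠ 1
  eq : ∀ χ ∈ nB0 M G, χ.1 1 - χ.1 u = k

namespace Ex
variable [PM 2 M] (h : Ex M u k)
include h

theorem exists_inv {N : Subgroup G} [N.Normal] (hN : N ≠ ⊥) : ∃ t ∈ N, orderOf t = 2 :=
  H1.exists_prime_orderOf_mem Nat.prime_two (by_contra fun e =>
    hN (H1.eq_bot_of_pPrimeCore_eq_bot h.odd (Nat.prime_two.coprime_iff_not_dvd.2 e).symm))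

theorem sub (x : G) : mu (principalBlock M G) x 1 - mu (principalBlock M G) x u =
    conj k * ∑ χ ∈ nB0 M G, χ.1 x := by
  rw [mu_nB0, mu_nB0, add_sub_add_left_eq_sub, ← sum_sub_distrib, mul_sum]
  exact sum_congr rfl fun χ hχ => by rw [← h.eq χ hχ, map_sub]; ring

theorem ne_zero : k ≠ 0 := fun e => by
  obtain ⟨t, ht, t2⟩ := h.exists_inv (N := Subgroup.normalClosure {u}) fun e =>
    h.ne (e.le (Subgroup.subset_normalClosure rfl))
  have h1 := mu_eq_zero_of_dvd (p := 2) (isSat_of_isPBlock (isPBlock_principalBlock (M := M)))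
    (x := (1 : G)) (by simp) t2.symm.dvd
  rw [mu_nB0, sum_congr rfl (g := fun χ => ((charDegree χ.1 * charDegree χ.1 : ℕ) : ℂ)) fun χ hχ => ?_,
    ← Nat.cast_sum, add_comm] at h1
  · exact Nat.cast_add_one_ne_zero _ h1
  haveI := χ.2.isCharacter.normal_charKer
  rw [χ.2.isCharacter.mem_charKer.1 (Subgroup.normalClosure_le_normal (N := charKer χ.1)
    (by simpa using χ.2.isCharacter.mem_charKer.2 (sub_eq_zero.1 ((h.eq χ hχ).trans e)).symm) ht),
    ← χ.2.coe_charDegree]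
  simp

theorem isConj {x : G} (hx : IsPE 2 x) (x1 : x ≠ 1) : IsConj x (pp 2 u) := by_contra fun e => by
  have hB := isSat_of_isPBlock (isPBlock_principalBlock (M := M) (G := G))
  have h1 := mu_eq_zero (p := 2) hB (g := x) (h := 1) (by simpa [pp_of_isPE hx, pp_one] using x1)
  have h2 := h.sub x
  rw [h1, mu_eq_zero (p := 2) hB (by rwa [pp_of_isPE hx]), sub_zero, eq_comm, mul_eq_zero,
    map_eq_zero, or_iff_right h.ne_zero] at h2
  have h3 : ∀ χ : IrrCharacter G, red M (χ.1 x) = charDegree χ.1 := fun χ => by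
    rw [red_char_eq_red_pr (p := 2) χ.2.isCharacter, pr_of_isPE hx, ← χ.2.coe_charDegree, red_natCast]
  replace h1 := congrArg (red M) h1
  replace h2 := congrArg (red M) h2
  rw [red_sum _ fun χ _ => char_mem_O χ.2.isCharacter x, red_zero] at h2
  rw [mu_nB0, red_add (one_mem _) (sum_mem fun χ _ => mul_mem (char_mem_O χ.2.isCharacter x)
    (conj_char_mem_O χ.2.isCharacter 1)), red_sum _ fun χ _ => mul_mem (char_mem_O χ.2.isCharacter x)
    (conj_char_mem_O χ.2.isCharacter 1), sum_congr rfl (g := fun χ => red M (χ.1 x)) fun χ _ => ?_, h2] at h1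
  · simpa using h1
  rw [red_mul (char_mem_O χ.2.isCharacter x) (conj_char_mem_O χ.2.isCharacter 1), h3,
    ← χ.2.coe_charDegree, map_natCast, red_natCast, ← Nat.cast_mul]
  exact (CharP.natCast_eq_natCast (F M) 2).2 (by
    rcases Nat.mod_two_eq_zero_or_one (charDegree χ.1) with e | e <;> simp [Nat.ModEq, Nat.mul_mod, e])

theorem exists_inv' : ∃ t : G, orderOf t = 2 :=
  let ⟨t, _, e⟩ := h.exists_inv (N := ⊤) fun e => h.ne (e.le trivial); ⟨t, e⟩

theorem ord {x : G} (hx : IsPE 2 x) (x1 : x ≠ 1) : orderOf x = 2 := by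
  obtain ⟨t, ht⟩ := h.exists_inv'
  exact (orderOf_eq_of_isConj
    ((h.isConj hx x1).trans (h.isConj ⟨1, ht⟩ fun e => by simp [e] at ht).symm)).trans ht

theorem ord_pp : orderOf (pp 2 u) = 2 := by
  obtain ⟨t, ht⟩ := h.exists_inv'
  exact (orderOf_eq_of_isConj (h.isConj ⟨1, ht⟩ fun e => by simp [e] at ht).symm).trans ht

theorem two_dvd : 2 ∣ orderOf u := by_contra fun e => by simpa [pp_of_not_dvd e] using h.ord_pp

theorem mem {N : Subgroup G} [hn : N.Normal] (hN : N ≠ ⊥) {x : G} (hx : IsPE 2 x) : x ∈ N := by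
  by_cases x1 : x = 1
  · exact x1 ▸ one_mem _
  obtain ⟨t, ht, t2⟩ := h.exists_inv hN
  obtain ⟨c, rfl⟩ := isConj_iff.1
    ((h.isConj ⟨1, t2⟩ fun e => by simp [e] at t2).trans (h.isConj hx x1).symm)
  exact hn.conj_mem _ ht c

theorem exists_int : ∃ n : ℤ, ((2 ^ (Nat.card G).factorization 2 : ℕ) : ℂ) = k * n := by
  haveI := Fintype.ofFinite G
  obtain ⟨m, h1, h2⟩ := (isGen_reg_one (p := 2) (G := G)).exists_int
  have h3 := congrFun h2 1
  have h4 := congrFun h2 u
  simp only [Pi.smul_apply, reg, orderOf_one, Nat.dvd_one, OfNat.ofNat_ne_one, if_false, smul_eq_mul,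
    mul_one, Finset.sum_apply, if_pos h.two_dvd, mul_zero] at h3 h4
  classical
  refine ⟨∑ χ ∈ nB0 M G, m χ, ?_⟩
  rw [h3, ← sub_zero (∑ _, _), h4, ← sum_sub_distrib, sum_irr_split, Int.cast_sum, mul_sum, nB0, sum_filter]
  simp only [irrOne_apply, sub_self, zero_add]
  refine sum_congr rfl fun χ hχ => ?_
  split_ifs with e
  · rw [← h.eq χ (mem_nB0.2 ⟨mem_nIr.1 hχ, e⟩)]; ring
  · rw [← h1, classInner_smul_left, ← coe_irrOne, classInner_reg_comm (irrOne G).2.isCharacter χ.2.isCharacter,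
      classInner_reg_eq_zero (isSat_of_isPBlock isPBlock_principalBlock) e irrOne_mem_principalBlock]
    simp

theorem sum_one : 1 + ∑ χ ∈ nB0 M G, χ.1 u * (χ.1 u + k) = 0 := by
  have h1 := congrArg conj (mu_eq_zero_of_dvd (p := 2) (isSat_of_isPBlock (isPBlock_principalBlock (M := M)))
    (x := (1 : G)) (by simp) h.two_dvd)
  rw [mu_conj, map_zero, mu_nB0] at h1
  rw [← h1]
  refine congrArg _ (sum_congr rfl fun χ hχ => ?_)
  rw [← h.eq χ hχ, ← χ.2.coe_charDegree]
  simp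

theorem exists_nat : ∃ n : ℕ, 0 < n ∧ k = n ∧ n ∣ 2 ^ (Nat.card G).factorization 2 := by
  obtain ⟨m, hm⟩ := h.exists_int
  obtain ⟨χ, hχ⟩ : (nB0 M G).Nonempty := by_contra fun e => by
    simpa [not_nonempty_iff_eq_empty.1 e] using h.sum_one
  have m0 : (m : ℂ) ≠ 0 := fun e => by simp [e] at hm
  obtain ⟨n, hn⟩ := exists_int_of_isIntegral_rat (q := (2 ^ (Nat.card G).factorization 2 : ℕ) / m) (by
    rw [Rat.cast_div, Rat.cast_natCast, Rat.cast_intCast, hm, mul_div_cancel_right₀ _ m0, ← h.eq χ hχ]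
    exact (χ.2.isCharacter.isIntegral _).sub (χ.2.isCharacter.isIntegral _))
  rw [Rat.cast_div, Rat.cast_natCast, Rat.cast_intCast, hm, mul_div_cancel_right₀ _ m0] at hn
  have h1 := re_sub_nonneg χ.2.isCharacter u
  rw [h.eq χ hχ, hn, Complex.intCast_re, Int.cast_nonneg_iff] at h1
  obtain ⟨n, rfl⟩ := Int.eq_ofNat_of_zero_le h1
  refine ⟨n, Nat.pos_of_ne_zero fun e => h.ne_zero (by simp [hn, e]), hn, Int.natCast_dvd_natCast.1 ⟨m, ?_⟩⟩
  rw [hn] at hm
  exact_mod_cast hm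

variable {P N : Subgroup G}

theorem sylIn [N.Normal] (hP : SylIn 2 P ⊤) (hN : N ≠ ⊥) : SylIn 2 P N :=
  hP.of_le (fun _ hx => h.mem hN (isPE_of_mem hP.isPGroup hx)) le_top

theorem index [N.Normal] (hN : N ≠ ⊥) : ¬ 2 ∣ N.index := fun e => by
  obtain ⟨P⟩ : Nonempty (Sylow 2 G) := inferInstance
  exact P.not_dvd_index (e.trans (Subgroup.index_dvd_of_le (h.sylIn (sylIn_top P) hN).le))

theorem sup [N.Normal] (hP : SylIn 2 P ⊤) (hN : N ≠ ⊥) : N ⊔ cC P = ⊤ := by_contra fun e => by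
  haveI := normal_sup_cC (h.sylIn hP hN)
  have h1 := h.index (N := N ⊔ cC P) fun e => hN (eq_bot_iff.2 (le_sup_left.trans e.le))
  haveI := H16.odd_order (G ⧸ (N ⊔ cC P)) (Nat.odd_iff.2 (by rw [← Subgroup.index]; omega))
  haveI := QuotientGroup.nontrivial_iff.2 e
  obtain ⟨a, -, ha⟩ := SetLike.exists_of_lt (Group.IsSolvable.commutator_lt_top_of_nontrivial (G ⧸ (N ⊔ cC P)))
  obtain ⟨l, hl⟩ := CommGroup.exists_apply_ne_one_of_hasEnoughRootsOfUnity (Abelianization (G ⧸ (N ⊔ cC P))) ℂ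
    (a := Abelianization.of a) fun e => ha ((QuotientGroup.eq_one_iff _).1 e)
  let ν := (l.comp Abelianization.of).comp (QuotientGroup.mk' (N ⊔ cC P))
  have h2 : ∀ g, (ν g : ℂ) ^ (N ⊔ cC P).index = 1 := fun g => by
    rw [← Units.val_pow_eq_pow_val, ← map_pow]
    simp [ν, (QuotientGroup.eq_one_iff _).2 (Subgroup.pow_index_mem (N ⊔ cC P) g)]
  have h3 := h.eq ⟨_, isIrrCharacter_hom ν⟩ (mem_nB0.2 ⟨fun e => ?_, lin_mem_principal hP (by simp) fun c hc => ?_⟩)
  · obtain ⟨n, n0, rfl, hn⟩ := h.exists_nat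
    have h4 : ((1 - n : ℤ) : ℂ) = ν u := by push_cast; rw [← h3]; simp
    have h5 := h2 u
    rw [← h4, ← Int.cast_pow, Int.cast_eq_one, pow_eq_one_iff_of_ne_zero Subgroup.index_ne_zero_of_finite,
      even_iff_two_dvd] at h5
    omega
  · obtain ⟨g, rfl⟩ := QuotientGroup.mk_surjective a
    exact hl (Units.val_eq_one.1 (congrFun (congrArg Subtype.val e) g))
  · simp [ν, (QuotientGroup.eq_one_iff _).2 (Subgroup.mem_sup_right hc : c ∈ N ⊔ cC P)]

theorem ker {χ : IrrCharacter G} (hχ : χ ∈ nB0 M G) : charKer χ.1 = ⊥ := by_contra fun e => by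
  haveI := χ.2.isCharacter.normal_charKer
  obtain ⟨P, hP⟩ := exists_sylIn 2 (⊤ : Subgroup G)
  obtain ⟨ψ, hψ⟩ := mem_kerSet_iff_exists.1 (mem_kerSet_iff_le.2 (le_refl (charKer χ.1)))
  have := (AD.quot_principal (M := M) (h.sylIn hP e) (h.sup hP e) (h.index e)).le
    (show ψ ∈ _ ⁻¹' _ from (congrArg (· ∈ _) hψ).ge (mem_nB0.1 hχ).2)
  exact (mem_nB0.1 hχ).1 (by rw [← hψ, this]; rfl)

theorem le_deg (hP : SylIn 2 P ⊤) {χ : IrrCharacter G} (hχ : χ ∈ nB0 M G) :
    Nat.card P ≤ charDegree χ.1 + 1 := by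
  classical
  haveI := Fintype.ofFinite P
  obtain ⟨a, ha⟩ := χ.2.isCharacter.exists_int_of_forall_pow (g := pp 2 u) fun m hm => by
    rw [← pow_mod_orderOf, h.ord_pp, Nat.odd_iff.1 (Nat.coprime_two_right.1 (h.ord_pp ▸ hm)), pow_one]
  obtain ⟨n, hn⟩ := (χ.2.isCharacter.restrict P).exists_classInner_nat isCharacter_one
  rw [classInner, ← add_sum_erase _ _ (mem_univ 1), sum_congr rfl (g := fun _ => (a : ℂ)) fun x hx => ?_,
    sum_const, card_erase_of_mem (mem_univ _), card_univ, ← Nat.card_eq_fintype_card,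
    inv_mul_eq_iff_eq_mul₀ (Nat.cast_ne_zero.2 Nat.card_pos.ne'), OneMemClass.coe_one, ← χ.2.coe_charDegree,
    nsmul_eq_mul, Nat.cast_pred Nat.card_pos, map_one, mul_one] at hn
  · have h1 := re_sub_nonneg χ.2.isCharacter (pp 2 u)
    have h2 : (a : ℂ) ≠ charDegree χ.1 := fun e => by
      have := (h.ker hχ).le (χ.2.isCharacter.mem_charKer.2 (ha.trans (e.trans χ.2.coe_charDegree)))
      simpa [Subgroup.mem_bot.1 this] using h.ord_pp
    rw [ha, ← χ.2.coe_charDegree] at h1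
    have h3 : (charDegree χ.1 : ℤ) + (Nat.card P - 1) * a = Nat.card P * n := by exact_mod_cast hn
    have h4 : a < charDegree χ.1 := lt_of_le_of_ne (by simp at h1; exact_mod_cast h1) (by exact_mod_cast h2)
    have h5 : (0 : ℤ) < Nat.card P := by exact_mod_cast Nat.card_pos
    have h6 : a < n := by nlinarith
    zify
    nlinarith
  rw [map_one, mul_one, ← ha]
  exact χ.2.isClassFunction.eq_of_isConj (h.isConj (isPE_of_mem hP.isPGroup x.2)
    fun e => ne_of_mem_erase hx (Subtype.ext e))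

theorem exists_deg (hP : SylIn 2 P ⊤) : ∃ χ ∈ nB0 M G, charDegree χ.1 + 1 = Nat.card P := by
  obtain ⟨n, -, rfl, hn⟩ := h.exists_nat
  by_contra! e
  have h1 := h.sum_one
  rw [sum_congr rfl (g := fun χ => (((charDegree χ.1 - n) * charDegree χ.1 : ℕ) : ℂ)) fun χ hχ => ?_,
    ← Nat.cast_sum, add_comm] at h1
  · exact Nat.cast_add_one_ne_zero _ h1
  have h2 := h.le_deg hP hχ
  have h3 := e χ hχ
  have h4 := Nat.le_of_dvd (by positivity) hn
  rw [← Subgroup.card_top, ← hP.card] at h4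
  rw [Nat.cast_mul, Nat.cast_sub (by omega), ← h.eq χ hχ, χ.2.coe_charDegree]
  ring

end Ex
end H8
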