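import Cfsg.Agent.H8.Ext1
import Cfsg.Agent.H10.SL
import Cfsg.Agent.S2299
import Cfsg.Agent.S2300
import Cfsg.Agent.S2323

/-! Degrees of faithful characters of `SL₂(q)`, `q` odd (`sl2_deg`); the property `ExP` (`χ(1) - χ(u)` constant on
`B₀ ∖ 1`) for `SL₂(2ⁿ)` (`exP_sl2`) and its transfer along maps with odd kernel (`exP_iff`); a simplicity
criterion (`simple_of_conj`). -/

open H5 H7 Cfsg Finset
open scoped MatrixGroups

namespace H8
variable {G H : Type*} [Group G] [Finite G] [Group H] [Finite H] {M : Ideal AlgInt} {u : G}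

theorem eq_one_of_card_lin (h : Nat.card {χ : IrrCharacter G // χ.1 1 = 1} = 1) {χ : G → ℂ}
    (hχ : IsIrrCharacter G χ) (h1 : χ 1 = 1) : χ = fun _ => 1 :=
  congrArg (fun x => x.1.1) ((Nat.card_eq_one_iff_unique.1 h).1.elim ⟨⟨χ, hχ⟩, h1⟩ ⟨irrOne G, rfl⟩)

theorem sl2_deg {F : Type*} [Field F] [Fintype F] (h1 : Odd (Fintype.card F)) (h5 : 5 ≤ Fintype.card F)
    {ψ : SL(2, F) → ℂ} (hψ : IsCharacter _ ψ) {g : SL(2, F)} (hg : ψ g ≠ ψ 1) :
    Fintype.card F ≤ 2 * charDegree ψ + 1 := by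
  haveI := Fintype.ofFinite SL(2, F)
  obtain ⟨ξ, h2, h3, h4⟩ : ∃ ξ, IsIrrCharacter _ ξ ∧ classInner ψ ξ ≠ 0 ∧ ξ ≠ fun _ => 1 := by
    by_contra! e
    exact hg (by rw [H6.eq_smul_of_constituents hψ.isClassFunction isIrrCharacter_one e]; rfl)
  have h6 := hψ.charDegree_le_of_constituent h2 h3
  obtain ⟨a, b⟩ := Cfsg.Agent.S2299.result h1
  obtain ⟨m, hm⟩ := h1
  have h7 := (a ξ h2).resolve_left fun e => h4 (eq_one_of_card_lin (b h5).1 h2 e)
  rw [← h2.coe_charDegree, ← Nat.cast_add_one, ← Nat.cast_pred (by omega)] at h7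
  simp only [Nat.cast_inj] at h7
  omega

theorem psl2_deg {F : Type*} [Field F] [Fintype F] (h1 : Odd (Fintype.card F)) (h5 : 5 ≤ Fintype.card F)
    {φ : PSL(2, F) →* G} (hφ : Function.Injective φ) {ψ : G → ℂ} (hψ : IsCharacter _ ψ) (hk : charKer ψ = ⊥) :
    Fintype.card F ≤ 2 * charDegree ψ + 1 := by
  haveI := Matrix.ProjectiveSpecialLinearGroup.rank_two_simple (F := F) (by rw [Nat.card_eq_fintype_card]; omega)
  obtain ⟨x, hx⟩ := exists_ne (1 : PSL(2, F))
  obtain ⟨g, rfl⟩ := QuotientGroup.mk_surjective x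
  have := sl2_deg h1 h5 (hψ.comp (φ.comp (QuotientGroup.mk' _))) (g := g) fun e =>
    hx (hφ ((Subgroup.mem_bot.1 (hk.le (hψ.mem_charKer.2 (by simpa using e)))).trans (map_one φ).symm))
  simpa [charDegree] using this

theorem isConj_transv {F : Type*} [Field F] [Fintype F] [CharP F 2] {g : SL(2, F)} (hg : orderOf g = 2) :
    IsConj g (H24.upSL 1 1 (one_mul 1)) :=
  let ⟨h2, h3⟩ := (H24.orderOf_SL_eq_char_iff 2 g).1 hg
  H24.isConj_SL_of_char_two (CharP.cast_eq_zero F 2) h2 (by simp [H24.isScal_upSL_iff]) (by simp [h3, H24.upSL])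

theorem sl2_sq {F : Type*} [Field F] [Fintype F] [CharP F 2] {g x : SL(2, F)} (hg : orderOf g = 2)
    (h : Commute x g) : x ^ 2 = 1 := by
  obtain ⟨c, hc⟩ := isConj_iff.1 (isConj_transv hg)
  have h1 := h.map (MulAut.conj c)
  rw [MulAut.conj_apply c g, hc] at h1
  rw [← (MulAut.conj c).map_eq_one_iff, map_pow]
  generalize MulAut.conj c x = y at h1
  have h2 := fun i j => congrArg (fun z : SL(2, F) => z.1 i j) h1.eq
  have h3 := h2 0 0
  have h4 := h2 0 1
  have h5 := (Matrix.det_fin_two _).symm.trans y.2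
  have h6 : (2 : F) = 0 := CharP.cast_eq_zero F 2
  rw [Matrix.SpecialLinearGroup.coe_mul, Matrix.SpecialLinearGroup.coe_mul] at h3 h4
  simp [H24.upSL, Matrix.mul_apply, Fin.sum_univ_two] at h3 h4
  clear h1 h2 hc h
  ext i j
  fin_cases i <;> fin_cases j <;> simp [sq, Matrix.mul_apply, Fin.sum_univ_two] <;> grind

theorem sl2_equiv (F : Type*) [Field F] [Fintype F] {n : ℕ} (n0 : n ≠ 0) (h : Fintype.card F = 2 ^ n) :
    CharP F 2 ∧ Nonempty (SL(2, F) ≃* PSL(2, F)) := by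
  have h1 : 2 ∣ Fintype.card F := h ▸ dvd_pow_self 2 n0
  have h2 := Fintype.card_pos (α := F)
  refine ⟨charP_of_card_eq_prime_pow h, ⟨QuotientGroup.quotientBot.symm.trans
    (QuotientGroup.quotientMulEquivOfEq (Subgroup.card_eq_one.1 ?_).symm)⟩⟩
  rw [H10.card_center_SL2]
  exact Nat.coprime_two_left.2 (Nat.odd_iff.2 (by omega))

/-- `χ(1) - χ(u)` is constant on the nonprincipal characters of the principal block -/
def ExP (M : Ideal AlgInt) (u : G) : Prop :=
  ∃ k : ℂ, ∀ χ : IrrCharacter G, χ ∈ principalBlock M G → χ.1 ≠ (fun _ => 1) → χ.1 1 - χ.1 u = k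

variable [PM 2 M]

theorem exP_iff {π : G →* H} (hπ : Function.Surjective π) (hk : ¬ 2 ∣ Nat.card π.ker) :
    ExP M (π u) ↔ ExP M u := by
  have h1 := preimage_principal (M := M) hπ fun _ _ => sameBlock_of_comp' (p := 2) hπ hk
  refine exists_congr fun k => ⟨fun h χ hχ e => ?_, fun h ψ hψ e => ?_⟩
  · obtain ⟨ψ, rfl⟩ := (exists_icomp_eq hπ).1 (principalBlock_subset_kerSet hk hχ)
    simpa using h ψ (h1.le hχ) fun e' => e (funext fun g => congrFun e' _)
  · simpa using h _ (h1.ge hψ) fun e' => e (funext fun x => by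
      obtain ⟨g, rfl⟩ := hπ x
      exact congrFun e' g)

theorem exP_sl2 {F : Type*} [Field F] [Fintype F] [CharP F 2] (h4 : 4 ≤ Fintype.card F) {g : SL(2, F)}
    (hg : orderOf g = 2) : ExP M g := by
  refine ⟨Fintype.card F, fun χ hχ h1 => ?_⟩
  obtain ⟨a, b⟩ := Cfsg.Agent.S2300.result (F := F)
  obtain ⟨c, d⟩ := Cfsg.Agent.S2323.result h4 χ.1 χ.2 (H24.upSL 1 1 (one_mul 1)) rfl
  rw [χ.2.isClassFunction.eq_of_isConj (isConj_transv hg)]
  rcases a χ.1 χ.2 with e | e | e | e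
  · exact absurd (eq_one_of_card_lin (b h4).1 χ.2 e) h1
  · rw [d e, e]; ring
  · refine absurd ((isSat_singleton (p := 2) ?_).subset_of_mem isPBlock_principalBlock rfl hχ
      irrOne_mem_principalBlock) fun e' => h1 (congrArg Subtype.val e').symm
    obtain ⟨n, -, hn⟩ := FiniteField.card F 2
    have h5 : 2 ∣ Fintype.card F := hn ▸ dvd_pow_self 2 n.ne_zero
    rw [charDegree_of_eq e, H10.card_SL2, mul_assoc, Nat.factorization_mul (by omega) (by
      exact mul_ne_zero (by omega) (by omega)), Finsupp.add_apply, Nat.factorization_eq_zero_of_not_dvd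
        (n := _ * _) fun h => by rcases (Nat.prime_two.dvd_mul).1 h with h | h <;> omega, add_zero]
  · rw [c e, e]; ring

theorem exP_two (h : Nat.card G = 2) (hu : u ≠ 1) : ExP M u := by
  classical
  haveI := Fintype.ofFinite G
  haveI := isCyclic_of_prime_card (p := 2) h
  refine ⟨2, fun χ _ h1 => ?_⟩
  obtain ⟨l, hl⟩ := χ.2.exists_hom_of_comm fun a b => IsCyclic.commGroup.mul_comm a b
  have h2 := χ.2.sum_eq_zero h1
  rw [← (eq_univ_of_card {1, u} (by rw [card_pair hu.symm, ← h, Nat.card_eq_fintype_card])),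
    sum_pair hu.symm] at h2
  have h3 : χ.1 1 = 1 := by simp [hl]
  linear_combination 2 * h3 - h2

omit [PM 2 M] in
theorem simple_of_conj [Nontrivial G] (h2 : pCore 2 G = ⊥) (ho : pPrimeCore 2 G = ⊥)
    (hc : ∀ a b : G, orderOf a = 2 → orderOf b = 2 → ∃ φ : MulAut G, φ a = b)
    (hm : ∀ N : Subgroup G, N.Characteristic → N ≠ ⊥ → N = ⊤) : IsSimpleGroup G := by
  have inv : ∀ K : Subgroup G, K.Normal → K ≠ ⊥ → ∃ t ∈ K, orderOf t = 2 := fun K _ hK =>
    H1.exists_prime_orderOf_mem Nat.prime_two (by_contra fun e =>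
      hK (H1.eq_bot_of_pPrimeCore_eq_bot ho (Nat.prime_two.coprime_iff_not_dvd.2 e).symm))
  obtain ⟨N, hN, h1, -, h3⟩ := H1.exists_minimal_normal_le (⊤ : Subgroup G) top_ne_bot
  have cm : ∀ K : Subgroup G, K.Normal → N ⊓ K = ⊥ → ∀ n ∈ N, ∀ x ∈ K, Commute n x := fun K hK e n hn x hx =>
    Subgroup.commute_of_normal_of_disjoint N K hN hK (disjoint_iff.2 e) n x hn hx
  obtain ⟨a, ha, a2⟩ := inv N hN h1
  have a1 : a ≠ 1 := fun e => by simp [e] at a2
  have h4 : ∀ K : Subgroup G, K.Normal → K ≠ ⊥ → N ≤ K := fun K hK k1 => by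
    refine inf_eq_left.1 ((h3 (N ⊓ K) inferInstance inf_le_left).resolve_left fun e => ?_)
    obtain ⟨b, hb, b2⟩ := inv K hK k1
    have b1 : b ∉ N := fun e' => by simp [Subgroup.mem_bot.1 (e.le ⟨e', hb⟩)] at b2
    obtain ⟨φ, hφ⟩ := hc a (a * b) a2 (orderOf_eq_prime (by
      rw [(cm K hK e a ha b hb).mul_pow, ← a2, pow_orderOf_eq_one, a2, ← b2, pow_orderOf_eq_one, one_mul])
      fun e' => b1 (eq_inv_of_mul_eq_one_right e' ▸ inv_mem ha))
    have h5 : (N.map φ.toMonoidHom).Normal := hN.map _ φ.surjective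
    rcases h3 (N ⊓ N.map φ.toMonoidHom) inferInstance inf_le_left with e' | e'
    · have h6 : a ∈ N ⊓ cC N := ⟨ha, fun n hn => by
        have := (cm _ h5 e' n hn (a * b) ⟨a, ha, hφ⟩).mul_right (cm K hK e n hn b hb).inv_right
        simpa using this.eq⟩
      have h7 := (h3 (N ⊓ cC N) inferInstance inf_le_left).resolve_left fun e => a1 (e.le h6)
      haveI := Group.isSolvable_of_comm fun x y : N => Subtype.ext ((h7.ge y.2).2 x x.2)
      obtain ⟨-, p, hp, h8⟩ := H1.minimal_normal_elementary N h1 h3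
      obtain rfl := (Nat.prime_dvd_prime_iff_eq Nat.prime_two hp).1 (a2 ▸ orderOf_dvd_of_pow_eq_one (h8 a ha))
      exact h1 (H1.eq_bot_of_pCore_eq_bot h2 fun x => ⟨1, Subtype.ext (by simpa using h8 x x.2)⟩)
    · have h6 := Subgroup.eq_of_le_of_card_ge (inf_eq_left.1 e') (Subgroup.card_map_of_injective φ.injective).le
      exact b1 ((N.mul_mem_cancel_left ha).1 (h6.ge ⟨a, ha, hφ⟩))
  have h5 := hm N (Subgroup.characteristic_iff_le_comap.2 fun ϕ => h4 _ inferInstance fun e => h1 (by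
      rw [← Subgroup.map_comap_eq_self_of_surjective (f := ϕ.toMonoidHom) ϕ.surjective N]
      exact (congrArg _ e).trans (Subgroup.map_bot _))) h1
  exact ⟨fun K hK => (em _).imp_right fun e => eq_top_iff.2 (h5 ▸ h4 K hK e)⟩

end H8
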