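import Cfsg.Agent.H6.Extension
import Cfsg.Agent.H5.Central
import Cfsg.Agent.H5.FS
import Cfsg.Prelude.Def_Transfer

/-! Gagola characters (irreducible characters nonzero on exactly two classes): `Gag χ x`,
`gag_of_card`, the support `Gag.N` as a normal subgroup, faithfulness, `Gag.le_of_normal`,
`Gag.card_cent` (`|C(x)| = e² |N|`), `Gag.e_pow`, `Gag.cent_quot`. -/

open H5 Cfsg
open scoped ComplexConjugate

namespace H8

variable {G : Type*} [Group G] [Finite G]

structure Gag (χ : IrrCharacter G) (x : G) : Prop where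
  ne : x ≠ 1
  supp : ∀ g, χ.1 g ≠ 0 ↔ g = 1 ∨ IsConj x g
  nt : χ.1 ≠ fun _ => 1

theorem gag_of_card (hG : 2 < Nat.card G) (χ : IrrCharacter G)
    (hχ : Nat.card {C : ConjClasses G // ∃ g ∈ C.carrier, (χ : G → ℂ) g ≠ 0} = 2) :
    ∃ x, Gag χ x := by
  classical
  have h1 : ∃ g ∈ (ConjClasses.mk (1 : G)).carrier, (χ : G → ℂ) g ≠ 0 :=
    ⟨1, ConjClasses.mem_carrier_mk, χ.2.apply_one_ne_zero⟩
  obtain ⟨⟨D, g, hg, hg0⟩, hD, hu⟩ := (Nat.card_eq_two_iff' (⟨_, h1⟩ :
    {C : ConjClasses G // ∃ g ∈ C.carrier, (χ : G → ℂ) g ≠ 0})).mp hχ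
  have hgD : ConjClasses.mk g = D := ConjClasses.mem_carrier_iff_mk_eq.mp hg
  have hg1 : g ≠ 1 := by
    rintro rfl
    exact hD (Subtype.ext hgD.symm)
  have hs : ∀ y, χ.1 y ≠ 0 ↔ y = 1 ∨ IsConj g y := by
    intro y
    constructor
    · intro hy
      by_cases hy1 : y = 1
      · exact Or.inl hy1
      right
      have := hu ⟨ConjClasses.mk y, y, ConjClasses.mem_carrier_mk, hy⟩ (by
        intro h
        have := congrArg Subtype.val h
        simp only [ConjClasses.mk_eq_mk_iff_isConj, isConj_one_left] at this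
        exact hy1 this)
      have h2 : ConjClasses.mk y = ConjClasses.mk g := by rw [hgD]; exact congrArg Subtype.val this
      exact (ConjClasses.mk_eq_mk_iff_isConj.mp h2).symm
    · rintro (rfl | h)
      · exact χ.2.apply_one_ne_zero
      · rw [← χ.2.isClassFunction.eq_of_isConj h]; exact hg0
  refine ⟨g, hg1, hs, fun hone => ?_⟩
  have hall : ∀ y : G, y = 1 ∨ IsConj g y := fun y => (hs y).mp (by rw [hone]; simp)
  have := Fintype.ofFinite G
  have hc := card_filter_isConj g
  have h3 : (Finset.univ.filter fun y => IsConj g y) = Finset.univ.erase 1 := by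
    ext y
    simp only [Finset.mem_filter, Finset.mem_univ, true_and, Finset.mem_erase, and_true]
    constructor
    · rintro h rfl
      exact hg1 (isConj_one_right.mp h.symm |> fun h => by simpa using h)
    · intro h; exact (hall y).resolve_left h
  rw [h3, Finset.card_erase_of_mem (Finset.mem_univ _), Finset.card_univ,
    ← Nat.card_eq_fintype_card] at hc
  have hd : Nat.card G - 1 ∣ Nat.card G := hc ▸ Subgroup.index_dvd_card _
  obtain ⟨n, hn⟩ : ∃ n, Nat.card G = n + 1 := ⟨Nat.card G - 1, by omega⟩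
  rw [hn, Nat.add_sub_cancel] at hd
  have := Nat.le_of_dvd one_pos ((Nat.dvd_add_right dvd_rfl).mp hd)
  omega

namespace Gag

variable {χ : IrrCharacter G} {x : G}

theorem sum_eq [Fintype G] (h : Gag χ x) {f : G → ℂ} (hf : IsClassFunction G f) :
    ∑ g, χ.1 g * f g =
      χ.1 1 * f 1 + (Subgroup.centralizer ({x} : Set G)).index * (χ.1 x * f x) := by
  classical
  have h1 : (1 : G) ∉ Finset.univ.filter fun y => IsConj x y := by
    simp only [Finset.mem_filter, Finset.mem_univ, true_and, isConj_one_left]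
    exact h.ne
  have h0 := (χ.2.isClassFunction.mul hf).sum_filter_isConj x
  simp only [Pi.mul_apply] at h0
  rw [← h0]
  have h2 : ∑ g, χ.1 g * f g = ∑ g ∈ insert 1 (Finset.univ.filter fun y => IsConj x y),
      χ.1 g * f g := by
    symm
    refine Finset.sum_subset (Finset.subset_univ _) fun g _ hg => ?_
    have : ¬ (g = 1 ∨ IsConj x g) := by simpa using hg
    rw [← h.supp, not_not] at this
    rw [this, zero_mul]
  rw [h2, Finset.sum_insert h1]

theorem k_ne (x : G) : ((Subgroup.centralizer ({x} : Set G)).index : ℂ) ≠ 0 :=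
  Nat.cast_ne_zero.mpr Subgroup.index_ne_zero_of_finite

theorem val (h : Gag χ x) :
    ((Subgroup.centralizer ({x} : Set G)).index : ℂ) * χ.1 x = - χ.1 1 := by
  have := Fintype.ofFinite G
  have h1 := h.sum_eq (isClassFunction_const (1 : ℂ))
  simp only [mul_one] at h1
  rw [χ.2.sum_eq_zero h.nt] at h1
  linear_combination -h1

theorem ker (h : Gag χ x) {ψ : IrrCharacter G} (hψ : ψ ≠ χ) : x ∈ charKer ψ.1 := by
  have := Fintype.ofFinite G
  rw [ψ.2.mem_charKer]
  have h1 := h.sum_eq ψ.2.isClassFunction.conj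
  rw [← card_mul_classInner, χ.2.classInner_of_ne ψ.2 (fun e => hψ (Subtype.ext e.symm)),
    mul_zero, ← mul_assoc, h.val] at h1
  have h2 : conj (ψ.1 x) = conj (ψ.1 1) := by
    apply mul_left_cancel₀ χ.2.apply_one_ne_zero
    linear_combination h1
  exact (starRingEnd ℂ).injective h2

theorem sq (h : Gag χ x) :
    χ.1 1 ^ 2 * ((Subgroup.centralizer ({x} : Set G)).index + 1) =
      (Subgroup.centralizer ({x} : Set G)).index * Nat.card G := by
  have := Fintype.ofFinite G
  have h1 := h.sum_eq χ.2.isClassFunction.conj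
  rw [← card_mul_classInner, χ.2.classInner_self, mul_one,
    χ.2.isCharacter.conj_apply_one] at h1
  have h2 := congrArg conj h.val
  simp only [map_mul, map_neg, Complex.conj_natCast, χ.2.isCharacter.conj_apply_one] at h2
  have h3 := h.val
  rw [h1]
  linear_combination (χ.1 1 - ((Subgroup.centralizer ({x} : Set G)).index : ℂ) * χ.1 x - χ.1 1) * h2 +
    (χ.1 1) * h3

theorem supp_of_ker (h : Gag χ x) {y : G} (hy : ∀ ψ : IrrCharacter G, ψ ≠ χ → y ∈ charKer ψ.1) :
    χ.1 y ≠ 0 := by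
  classical
  by_cases hy1 : y = 1
  · rw [hy1]; exact χ.2.apply_one_ne_zero
  intro h0
  have h1 := sum_degree_mul_apply_of_ne_one hy1
  have h2 := sum_sq_degrees (G := G)
  rw [← Finset.add_sum_erase _ _ (Finset.mem_univ χ)] at h1 h2
  rw [h0, mul_zero, zero_add] at h1
  have h3 : ∑ ψ ∈ Finset.univ.erase χ, (ψ : G → ℂ) 1 ^ 2 = 0 := by
    rw [← h1]
    refine Finset.sum_congr rfl fun ψ hψ => ?_
    rw [apply_eq_of_mem_charKer (hy ψ (Finset.ne_of_mem_erase hψ)), pow_two]
  rw [h3, add_zero] at h2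
  have h4 := h.sq
  rw [h2] at h4
  have : (Nat.card G : ℂ) = 0 := by linear_combination h4
  exact card_ne_zero_complex this

/-- The support of a Gagola character. -/
def N (h : Gag χ x) : Subgroup G := ⨅ ψ : {ψ : IrrCharacter G // ψ ≠ χ}, charKer ψ.1.1

instance instNormalGagN (h : Gag χ x) : h.N.Normal :=
  Subgroup.normal_iInf_normal fun ψ => ψ.1.2.isCharacter.normal_charKer

theorem mem_N (h : Gag χ x) {g : G} : g ∈ h.N ↔ χ.1 g ≠ 0 := by
  constructor
  · intro hg
    exact h.supp_of_ker fun ψ hψ => Subgroup.mem_iInf.mp hg ⟨ψ, hψ⟩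
  · intro hg
    have hx : x ∈ h.N := Subgroup.mem_iInf.mpr fun ψ => h.ker ψ.2
    rcases (h.supp g).mp hg with rfl | hc
    · exact one_mem _
    · obtain ⟨c, rfl⟩ := isConj_iff.mp hc
      exact (instNormalGagN h).conj_mem _ hx c

theorem mem_N' (h : Gag χ x) {g : G} : g ∈ h.N ↔ g = 1 ∨ IsConj x g := h.mem_N.trans (h.supp g)

theorem x_mem (h : Gag χ x) : x ∈ h.N := h.mem_N'.mpr (Or.inr (IsConj.refl x))

theorem faithful (h : Gag χ x) {g : G} (hg : χ.1 g = χ.1 1) : g = 1 := by
  rcases (h.supp g).mp (hg ▸ χ.2.apply_one_ne_zero) with h1 | h1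
  · exact h1
  exfalso
  have h2 := h.val
  rw [χ.2.isClassFunction.eq_of_isConj h1, hg] at h2
  have h3 : (((Subgroup.centralizer ({x} : Set G)).index + 1 : ℕ) : ℂ) * χ.1 1 = 0 := by
    push_cast; linear_combination h2
  rcases mul_eq_zero.mp h3 with h4 | h4
  · exact Nat.succ_ne_zero _ (Nat.cast_eq_zero.mp h4)
  · exact χ.2.apply_one_ne_zero h4

theorem le_of_normal (h : Gag χ x) (K : Subgroup G) [hK : K.Normal] (hK1 : K ≠ ⊥) : h.N ≤ K := by
  have hx : x ∈ K := by
    by_contra hx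
    obtain ⟨ψ, hψ, h1, h2⟩ := exists_irr_le_charKer_not_mem K hx
    by_cases he : (⟨ψ, hψ⟩ : IrrCharacter G) = χ
    · apply hK1
      rw [eq_bot_iff]
      intro k hk
      have := apply_eq_of_mem_charKer (h1 hk)
      have e : ψ = χ.1 := congrArg Subtype.val he
      rw [e] at this
      exact h.faithful this
    · exact h2 (h.ker he)
  intro g hg
  rcases h.mem_N'.mp hg with rfl | hc
  · exact one_mem _
  · obtain ⟨c, rfl⟩ := isConj_iff.mp hc
    exact hK.conj_mem _ hx c

theorem isConj (h : Gag χ x) {a b : G} (ha : a ∈ h.N) (hb : b ∈ h.N) (ha1 : a ≠ 1) (hb1 : b ≠ 1) :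
    IsConj a b :=
  ((h.mem_N'.mp ha).resolve_left ha1).symm.trans ((h.mem_N'.mp hb).resolve_left hb1)

theorem of_mem (h : Gag χ x) {a : G} (ha : a ∈ h.N) (ha1 : a ≠ 1) : Gag χ a :=
  ⟨ha1, fun g => by
    rw [h.supp]
    have := (h.mem_N'.mp ha).resolve_left ha1
    exact or_congr Iff.rfl ⟨fun h' => this.symm.trans h', fun h' => this.trans h'⟩, h.nt⟩

theorem ne_bot (h : Gag χ x) : h.N ≠ ⊥ := fun e => h.ne (Subgroup.mem_bot.mp (e ▸ h.x_mem))

theorem elem (h : Gag χ x) : ∃ p : ℕ, p.Prime ∧ IsElementaryAbelian p h.N := by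
  have hne : Nat.card h.N ≠ 1 := fun e => h.ne_bot (Subgroup.eq_bot_of_card_eq _ e)
  obtain ⟨p, hp, hd⟩ := Nat.exists_prime_and_dvd hne
  have := Fact.mk hp
  obtain ⟨y, hy⟩ := exists_prime_orderOf_dvd_card' p hd
  have hy1 : (y : G) ≠ 1 := by
    intro e
    have : y = 1 := Subtype.ext e
    rw [this, orderOf_one] at hy
    exact hp.one_lt.ne hy
  have hpow : ∀ a ∈ h.N, a ^ p = 1 := by
    intro a ha
    by_cases ha1 : a = 1
    · rw [ha1, one_pow]
    obtain ⟨c, rfl⟩ := isConj_iff.mp (h.isConj y.2 ha hy1 ha1)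
    rw [conj_pow, ← hy, ← Subgroup.orderOf_coe, pow_orderOf_eq_one]; simp
  have hP : IsPGroup p h.N := fun a => ⟨1, Subtype.ext (by simpa using hpow a a.2)⟩
  refine ⟨p, hp, ?_, hpow⟩
  have : Nontrivial h.N := (Subgroup.nontrivial_iff_ne_bot _).mpr h.ne_bot
  have hz := hP.center_nontrivial
  have hZ : ((Subgroup.center h.N).map h.N.subtype) ≠ ⊥ := by
    intro e
    rw [Subgroup.map_eq_bot_iff_of_injective _ h.N.subtype_injective] at e
    exact (Subgroup.nontrivial_iff_ne_bot _).mp hz e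
  have hle := h.le_of_normal ((Subgroup.center h.N).map h.N.subtype) hZ
  refine ⟨⟨fun a b => ?_⟩⟩
  obtain ⟨z, hz, hza⟩ := hle a.2
  have : z = a := Subtype.ext hza
  rw [← this]
  exact ((Subgroup.mem_center_iff.mp hz) b).symm

theorem card_N (h : Gag χ x) : Nat.card h.N = (Subgroup.centralizer ({x} : Set G)).index + 1 := by
  classical
  have := Fintype.ofFinite G
  rw [← card_filter_isConj, ← Finset.card_insert_of_notMem (a := 1) (by
    simp only [Finset.mem_filter, Finset.mem_univ, true_and, isConj_one_left]; exact h.ne),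
    ← Nat.card_eq_finsetCard]
  refine Nat.card_congr (Equiv.subtypeEquivRight fun g => ?_)
  rw [h.mem_N']; simp

/-- the ramification index `e` -/
theorem exists_e (h : Gag χ x) : ∃ e : ℕ, χ.1 x = -e ∧
    charDegree χ.1 = e * (Subgroup.centralizer ({x} : Set G)).index ∧
    Nat.card (Subgroup.centralizer ({x} : Set G)) = e ^ 2 * Nat.card h.N := by
  have hk := k_ne x
  have hv := h.val
  have hi : IsIntegral ℤ ((charDegree χ.1 : ℂ) / (Subgroup.centralizer ({x} : Set G)).index) := by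
    have : (charDegree χ.1 : ℂ) / (Subgroup.centralizer ({x} : Set G)).index = - χ.1 x := by
      rw [χ.2.coe_charDegree, div_eq_iff hk]; linear_combination hv
    rw [this]; exact (χ.2.isCharacter.isIntegral x).neg
  obtain ⟨e, he⟩ := dvd_of_isIntegral_div Subgroup.index_ne_zero_of_finite hi
  have he' : χ.1 1 = (Subgroup.centralizer ({x} : Set G)).index * e := by
    rw [← χ.2.coe_charDegree, he]; push_cast; ring
  refine ⟨e, ?_, by rw [he, mul_comm], ?_⟩
  · apply mul_left_cancel₀ hk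
    rw [hv, he']; ring
  · have h1 := h.sq
    rw [he', ← (Subgroup.centralizer ({x} : Set G)).card_mul_index] at h1
    rw [h.card_N]
    apply Nat.cast_injective (R := ℂ)
    push_cast at h1 ⊢
    apply mul_left_cancel₀ (pow_ne_zero 2 hk)
    linear_combination -h1

theorem card_dvd_degree (h : Gag χ x) (Q : Subgroup G) (hQ : Q ⊓ h.N = ⊥) :
    Nat.card Q ∣ charDegree χ.1 := by
  classical
  have := Fintype.ofFinite Q
  obtain ⟨n, hn⟩ := (χ.2.isCharacter.restrict Q).exists_classInner_nat isCharacter_one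
  have h1 := card_mul_classInner (fun y : Q => χ.1 y) (fun _ => 1)
  rw [hn, Finset.sum_eq_single 1] at h1
  · refine ⟨n, ?_⟩
    apply Nat.cast_injective (R := ℂ)
    rw [χ.2.coe_charDegree]; push_cast; rw [h1]; simp
  · intro b _ hb
    have : χ.1 b = 0 := by
      by_contra h0
      have : (b : G) ∈ Q ⊓ h.N := ⟨b.2, h.mem_N.mpr h0⟩
      rw [hQ] at this
      exact hb (Subtype.ext (Subgroup.mem_bot.mp this))
    rw [this, zero_mul]
  · simp

theorem not_dvd_k (h : Gag χ x) {p : ℕ} [hp : Fact p.Prime] (hN : IsPGroup p h.N) :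
    ¬ p ∣ (Subgroup.centralizer ({x} : Set G)).index := by
  obtain ⟨n, hn⟩ := hN.exists_card_eq
  have hn0 : n ≠ 0 := by
    rintro rfl
    exact h.ne_bot (Subgroup.eq_bot_of_card_eq _ (by simpa using hn))
  intro hd
  have h1 : p ∣ Nat.card h.N := hn ▸ dvd_pow_self p hn0
  rw [h.card_N] at h1
  exact hp.out.one_lt.ne' (Nat.dvd_one.mp ((Nat.dvd_add_right hd).mp h1))

theorem pgroup_cent (h : Gag χ x) {p : ℕ} [hp : Fact p.Prime] (hN : IsPGroup p h.N) :
    IsPGroup p (Subgroup.centralizer ({x} : Set G)) := by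
  obtain ⟨e, -, he1, he2⟩ := h.exists_e
  obtain ⟨n, hn⟩ := hN.exists_card_eq
  have he0 : e ≠ 0 := by
    rintro rfl
    have := χ.2.charDegree_pos
    omega
  have key : ∀ q : ℕ, q.Prime → q ∣ e → q = p := by
    intro q hq hqe
    by_contra hne
    have := Fact.mk hq
    obtain ⟨Q⟩ : Nonempty (Sylow q G) := inferInstance
    have h1 := h.card_dvd_degree Q (disjoint_iff.mp (IsPGroup.disjoint_of_ne q p hne _ _ Q.2 hN))
    rw [Q.card_eq_multiplicity, he1, ← (Subgroup.centralizer ({x} : Set G)).card_mul_index, he2,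
      hq.pow_dvd_iff_le_factorization (mul_ne_zero he0 Subgroup.index_ne_zero_of_finite),
      Nat.factorization_mul (mul_ne_zero (pow_ne_zero 2 he0) Nat.card_pos.ne')
        Subgroup.index_ne_zero_of_finite,
      Nat.factorization_mul (pow_ne_zero 2 he0) Nat.card_pos.ne', Nat.factorization_pow,
      Nat.factorization_mul he0 Subgroup.index_ne_zero_of_finite] at h1
    have h2 := hq.factorization_pos_of_dvd he0 hqe
    simp only [Finsupp.coe_add, Pi.add_apply, Finsupp.coe_smul, Pi.smul_apply, smul_eq_mul] at h1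
    omega
  obtain ⟨m, hm⟩ : ∃ m, e = p ^ m := ⟨_, Nat.eq_prime_pow_of_unique_prime_dvd he0
    (fun {d} hd hde => key d hd hde)⟩
  exact IsPGroup.of_card (n := 2 * m + n) (by rw [he2, hn, hm]; ring)

theorem cent_quot (h : Gag χ x) {y : G} (hy : y ∉ h.N) :
    Nat.card (Subgroup.centralizer ({y} : Set G)) =
      Nat.card (Subgroup.centralizer ({(y : G ⧸ h.N)} : Set (G ⧸ h.N))) := by
  classical
  apply Nat.cast_injective (R := ℝ)
  rw [← sum_irr_normSq, ← sum_irr_normSq, ← Finset.add_sum_erase _ _ (Finset.mem_univ χ)]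
  have h0 : χ.1 y = 0 := by rw [h.mem_N, not_not] at hy; exact hy
  have h0' : (χ : G → ℂ) y = 0 := h0
  rw [h0', norm_zero, zero_pow two_ne_zero, zero_add]
  symm
  refine Finset.sum_bij (fun ψ _ => (irrQuotientEquiv h.N ψ).1) ?_ ?_ ?_ ?_
  · intro ψ _
    refine Finset.mem_erase.mpr ⟨fun e => ?_, Finset.mem_univ _⟩
    have h1 := (irrQuotientEquiv h.N ψ).2
    rw [e] at h1
    exact h.ne (h.faithful (apply_eq_of_mem_charKer (h1 h.x_mem)))
  · intro a _ b _ e
    exact (irrQuotientEquiv h.N).injective (Subtype.ext e)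
  · intro ψ hψ
    refine ⟨(irrQuotientEquiv h.N).symm ⟨ψ, iInf_le (fun ψ : {ψ : IrrCharacter G // ψ ≠ χ} =>
      charKer ψ.1.1) ⟨ψ, Finset.ne_of_mem_erase hψ⟩⟩, Finset.mem_univ _, by simp⟩
  · intro ψ _
    rw [irrQuotientEquiv_apply]

end Gag

end H8
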