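import Cfsg.Agent.H8.Hz1
import Cfsg.Agent.H7.Klein
import Cfsg.Agent.H16.SL25
import Cfsg.Agent.H1.Basic
import Cfsg.Agent.H1.Cores

/-! Herzog's hypothesis with `c = 4`: `#C(u) = 4` and a quotient of order `60` (`Hz.main`); the Camina-type
lemma `isConj_of_card_cent`. -/

open H5 H6 H7 Cfsg Finset
open scoped ComplexConjugate

namespace H8
variable {G : Type*} [Group G] [Finite G] {u : G}

open Classical in
theorem sum_ker_eq {A : Type*} [AddCommMonoid A] (N : Subgroup G) [N.Normal] (f : (G → ℂ) → A) :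
    ∑ χ : IrrCharacter G, (if N ≤ charKer χ.1 then f χ.1 else 0) =
      ∑ χ : IrrCharacter (G ⧸ N), f fun g => χ.1 g := by
  rw [← sum_filter, sum_subtype (p := fun χ : IrrCharacter G => N ≤ charKer χ.1) _ (by simp),
    ← (irrQuotientEquiv N).sum_comp]
  rfl

theorem isConj_of_card_cent (N : Subgroup G) [N.Normal] (h : Nat.card (Subgroup.centralizer ({u} : Set G)) =
    Nat.card (Subgroup.centralizer ({(u : G ⧸ N)} : Set (G ⧸ N)))) {x : G} (hx : IsConj (x : G ⧸ N) u) :
    IsConj x u := by_contra fun e => by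
  classical
  have h1 := sum_irr_normSq u
  rw [h, ← sum_irr_normSq, ← sum_ker_eq N fun χ => ‖χ u‖ ^ 2, eq_comm,
    sum_eq_sum_iff_of_le fun χ _ => by split_ifs <;> simp] at h1
  have h2 := sum_irr_mul_conj_of_not_isConj e
  rw [sum_congr rfl (g := fun χ => if N ≤ charKer χ.1 then χ.1 x * conj (χ.1 u) else 0) fun χ _ => ?_,
    sum_ker_eq N fun χ => χ x * conj (χ u), sum_irr_mul_conj_of_isConj hx] at h2
  · exact card_ne_zero_complex h2
  have := h1 χ (mem_univ _)
  split_ifs at this ⊢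
  · rfl
  · rw [show χ.1 u = 0 by simpa using this.symm, map_zero, mul_zero]

theorem Hz.perfect (h : Hz u 4) : commutator G = ⊤ := by
  rw [← Subgroup.index_eq_one, ← card_linear_irr, Nat.card_eq_one_iff_exists]
  exact ⟨⟨irrOne G, rfl⟩, fun χ => Subtype.ext (by_contra fun e => h.ne_lin χ.1.2 (ne_irrOne.1 e) χ.2)⟩

theorem Hz.int (h : Hz u 4) (χ : IrrCharacter G) : ∃ t : ℤ, χ.1 u = t ∧ (χ ≠ irrOne G →
    -1 ≤ t ∧ (t = -1 → χ.1 1 = 3)) := by
  by_cases e : χ = irrOne G
  · exact ⟨1, by simp [e], fun k => absurd e k⟩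
  have e1 := ne_irrOne.1 e
  rcases h χ e1 with k | k
  swap
  · exact ⟨0, by simp [k], fun _ => by simp⟩
  obtain ⟨d, h0, hd⟩ := χ.2.exists_apply_one
  have d1 : d ≠ 1 := fun e => h.ne_lin χ.2 e1 (by simp [hd, e])
  have d2 : d ≠ 2 := fun e => h.ne_lin χ.2 e1 (h.lin_of_norm (by norm_num) χ.2 (by
    rw [show χ.1 u = -2 by rw [e] at hd; push_cast at hd; linear_combination hd - k, hd, e]; simp))
  exact ⟨d - 4, by push_cast; linear_combination hd - k, fun _ => ⟨by omega, fun e => by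
    rw [hd, show d = 3 by omega]; rfl⟩⟩

open Classical in
theorem Hz.main (h : Hz u 4) (h1 : u ≠ 1) : Nat.card (Subgroup.centralizer ({u} : Set G)) = 4 ∧
    ∃ K : Subgroup G, K.Normal ∧ K.index = 60 ∧ u ∉ K ∧ u * u ∈ K := by
  haveI := Fintype.ofFinite G
  choose t ht ht' using h.int
  let I := nIr G
  let T := I.filter fun χ => t χ = -1
  have h2 : ∑ χ ∈ I, t χ * (t χ + 4) = -1 := by
    have := h.sum h1
    simp only [ht] at this
    exact_mod_cast (show ((∑ χ ∈ I, t χ * (t χ + 4) : ℤ) : ℂ) = -1 by push_cast; linear_combination this)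
  have h3 : ∀ χ ∈ T, χ.1 1 = 3 ∧ χ.1 u = -1 := fun χ e => by
    have e1 := (mem_filter.1 e).2
    exact ⟨(ht' χ (mem_nIr.1 (mem_filter.1 e).1)).2 e1, by simp [ht, e1]⟩
  let M := Subgroup.normalClosure {u * u}
  have hM : ∀ χ ∈ T, M ≤ charKer χ.1 := fun χ e => by
    haveI := χ.2.isCharacter.normal_charKer
    exact Subgroup.normalClosure_le_normal (by
      simpa using χ.2.mem_charKer.2 (h.sq_ker χ.2.isCharacter (h3 χ e).1 (h3 χ e).2))
  have h4 : Hz4 (u : G ⧸ M) := ⟨h.quot M, (QuotientGroup.eq_one_iff (u * u)).2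
    (Subgroup.subset_normalClosure rfl)⟩
  have h5 : T.card ≤ 2 := le_trans (card_le_card_of_injOn
    (fun χ => if e : M ≤ charKer χ.1 then (irrQuotientEquiv M).symm ⟨χ, e⟩ else irrOne _)
    (fun χ e => ?_) fun χ e ψ e' k => ?_) h4.card_le
  rotate_left
  · have := irrQuotientEquiv_apply M ((irrQuotientEquiv M).symm ⟨χ, hM χ e⟩) 1
    rw [Equiv.apply_symm_apply] at this
    simp only [dif_pos (hM χ e), coe_filter, mem_univ, true_and, Set.mem_setOf_eq]
    exact this.symm.trans (h3 χ e).1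
  · simp only [dif_pos (hM χ e), dif_pos (hM ψ e')] at k
    exact congrArg Subtype.val ((irrQuotientEquiv M).symm.injective k)
  have h6 : (T.card : ℤ) = ∑ χ ∈ I, if t χ = -1 then 1 else 0 := by simp [T]
  have h7 : ∀ χ ∈ I, -1 ≤ t χ := fun χ e => (ht' χ (mem_nIr.1 e)).1
  have h8 : ∀ χ ∈ I, t χ ≤ 1 := fun χ e => by
    have := single_le_sum (f := fun χ => t χ * (t χ + 4) + 3 * if t χ = -1 then 1 else 0) (fun χ e => by
      have := h7 χ e
      split_ifs with k
      · simp [k]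
      · have : 0 ≤ t χ := by omega
        positivity) e
    rw [sum_add_distrib, ← mul_sum, ← h6, h2] at this
    split_ifs at this <;> nlinarith
  rw [sum_congr rfl (g := fun χ => 5 * t χ ^ 2 - 8 * if t χ = -1 then 1 else 0) fun χ e => by
    have := h7 χ e
    have := h8 χ e
    interval_cases t χ <;> simp, sum_sub_distrib, ← mul_sum, ← mul_sum, ← h6] at h2
  refine ⟨?_, ?_⟩
  · have := sum_irr_mul_conj_of_isConj (IsConj.refl u)
    rw [sum_irr_split] at this
    simp only [ht, irrOne_apply, map_one, mul_one, map_intCast, ← pow_two] at this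
    have k : ((∑ χ ∈ I, t χ ^ 2 : ℤ) : ℂ) = 3 := by exact_mod_cast (show ∑ χ ∈ I, t χ ^ 2 = 3 by omega)
    push_cast at k
    have k1 := ht (irrOne G)
    rw [k, ← k1] at this
    exact_mod_cast this.symm.trans (show _ = (4 : ℂ) by simp; norm_num)
  obtain ⟨χ, e⟩ := card_pos.1 (show 0 < T.card by omega)
  obtain ⟨χ', h9, h10⟩ := χ.2.exists_deflate M (hM χ e)
  haveI := Fintype.ofFinite (G ⧸ M)
  refine ⟨charKer χ.1, χ.2.isCharacter.normal_charKer, ?_, fun k => ?_,
    hM χ e (Subgroup.subset_normalClosure rfl)⟩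
  · rw [← h4.index h9 ((h10 1).trans (h3 χ e).1),
      ← Subgroup.index_comap_of_surjective _ (QuotientGroup.mk'_surjective M)]
    congr 1
    ext g
    rw [Subgroup.mem_comap, h9.mem_charKer, χ.2.mem_charKer, ← h10, ← h10]; rfl
  · rw [χ.2.mem_charKer, (h3 χ e).1, (h3 χ e).2] at k
    norm_num at k

omit [Finite G] in
theorem inv_of_sq {x k : G} (h : x * k * (x * k) = x * x) : x⁻¹ * k * x = k⁻¹ := by
  rw [mul_assoc x, mul_right_inj] at h
  rw [eq_inv_iff_mul_eq_one, mul_assoc, mul_assoc, h, inv_mul_cancel]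

omit [Finite G] in
theorem inv_three {a b k : G} (h1 : a⁻¹ * k * a = k⁻¹) (h2 : b⁻¹ * k * b = k⁻¹)
    (h3 : (a * b)⁻¹ * k * (a * b) = k⁻¹) : k⁻¹ = k := by
  have : (a * b)⁻¹ * k * (a * b) = (b⁻¹ * (a⁻¹ * k * a)⁻¹ * b)⁻¹ := by group
  rw [← h3, this, h1, inv_inv, h2, inv_inv]

/-- data for the end game: all elements over involutions of `G / K` are conjugate to `u` -/
structure HzE (u : G) (K : Subgroup G) [K.Normal] (P : Sylow 2 G) (v : G) : Prop where
  card : Nat.card (Subgroup.centralizer ({u} : Set G)) = 4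
  cj : ∀ x : G, x ∉ K → x * x ∈ K → IsConj x u
  uP : u ∈ P
  vP : v ∈ P
  uK : u ∉ K
  vK : v ∉ K
  uvK : u * v ∉ K
  sq : ∀ x ∈ P, x * x ∈ K
  four : Nat.card ((P : Subgroup G).map (QuotientGroup.mk' K)) = 4

theorem Hz.ex (h : Hz u 4) (h1 : u ≠ 1) : ∃ (K : Subgroup G) (_ : K.Normal) (P : Sylow 2 G) (v : G),
    HzE u K P v ∧ Nonempty (G ⧸ K ≃* alternatingGroup (Fin 5)) := by
  obtain ⟨h2, K, hN, h3, h4, h5⟩ := h.main h1
  have u1 : (u : G ⧸ K) ≠ 1 := fun e => h4 ((QuotientGroup.eq_one_iff u).1 e)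
  haveI : Nontrivial (G ⧸ K) := ⟨_, _, u1⟩
  obtain ⟨e⟩ := H16.equiv_A5_of_not_solvable (K.index_eq_card ▸ h3) fun e =>
    (IsSolvable.commutator_lt_top_of_nontrivial (G ⧸ K)).ne (h.quot K).perfect
  haveI : IsSimpleGroup (G ⧸ K) := e.isSimpleGroup
  have c60 : Nat.card (G ⧸ K) = 60 := K.index_eq_card ▸ h3
  have h6 : K4 (G ⧸ K) := k4_of_not_pnil (by rw [c60]; decide +kernel) fun ⟨k, hk⟩ => by
    rcases IsSimpleGroup.eq_bot_or_eq_top_of_normal (pPrimeCore 2 (G ⧸ K)) inferInstance with e | e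
    · rw [e, Subgroup.index_bot, c60] at hk
      exact absurd ((Nat.prime_three.dvd_of_dvd_pow (hk ▸ by norm_num : 3 ∣ 2 ^ k))) (by norm_num)
    · exact not_dvd_card_pPrimeCore (p := 2) (G := G ⧸ K) (by simp [e, c60])
  have o2 : ∀ x : G, x ∉ K → x * x ∈ K → orderOf (x : G ⧸ K) = 2 := fun x e1 e2 =>
    orderOf_eq_prime (by rw [pow_two]; exact (QuotientGroup.eq_one_iff _).2 e2)
      fun e => e1 ((QuotientGroup.eq_one_iff x).1 e)
  have hu : IsPE 2 u := isPE_of_pow (k := 2) (by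
    simpa [h2] using congrArg Subtype.val (pow_card_eq_one' (x := (⟨u, Subgroup.mem_centralizer_singleton_iff.2 rfl⟩ :
      Subgroup.centralizer ({u} : Set G)))))
  obtain ⟨P, hP⟩ := hu.isPGroup_zpowers.exists_le_sylow
  have uP := hP (Subgroup.mem_zpowers u)
  have hV := h6.kl _ (by simpa [← MonoidHom.range_eq_map, MonoidHom.range_eq_top.2 (QuotientGroup.mk'_surjective K)]
    using (sylIn_top P).map (QuotientGroup.mk' K))
  obtain ⟨_, ⟨v, vP, rfl⟩, v1, vu⟩ := kl_exists hV u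
  refine ⟨K, hN, P, v, ⟨h2, fun x e1 e2 => isConj_of_card_cent K (h2.trans ((h.quot K).main u1).1.symm)
    (h6.one _ _ (o2 x e1 e2) (o2 u h4 h5)), uP, vP, h4, fun e => v1 ((QuotientGroup.eq_one_iff v).2 e),
    fun e => vu ?_, fun x e => (QuotientGroup.eq_one_iff _).1 (kl_sq hV ⟨x, e, rfl⟩), hV.card_four⟩, ⟨e⟩⟩
  exact mul_left_cancel (a := (u : G ⧸ K)) (((QuotientGroup.eq_one_iff _).2 e).trans ((QuotientGroup.eq_one_iff _).2 h5).symm)

namespace HzE
variable {K : Subgroup G} [K.Normal] {P : Sylow 2 G} {v : G} (h : HzE u K P v)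
include h

omit [Finite G] in
theorem cj' {x k : G} (hx : x ∈ P) (h1 : x ∉ K) (hk : k ∈ K) : IsConj (x * k) u :=
  h.cj _ (fun e => h1 ((K.mul_mem_cancel_right hk).1 e)) (by
    rw [← QuotientGroup.eq_one_iff, QuotientGroup.mk_mul, QuotientGroup.mk_mul_of_mem x hk,
      ← QuotientGroup.mk_mul, QuotientGroup.eq_one_iff]
    exact h.sq x hx)

omit [Finite G] in
theorem three {k : G} (e : ∀ x ∈ P, x ∉ K → x * k * (x * k) = x * x) : k⁻¹ = k ∧ k * u = u * k := by
  have h1 := inv_of_sq (e u h.uP h.uK)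
  have := inv_three h1 (inv_of_sq (e v h.vP h.vK)) (inv_of_sq (e _ (P.1.mul_mem h.uP h.vP) h.uvK))
  rw [this] at h1
  exact ⟨this, by nth_rewrite 2 [← h1]; group⟩

theorem eq_bot (h2 : u * u = 1) : K = ⊥ := by
  have s : ∀ x, IsConj x u → x * x = 1 := fun x e => by
    obtain ⟨c, rfl⟩ := isConj_iff.1 e
    simpa [conj_mul] using h2
  have h1 : K ≤ Subgroup.centralizer {u} := fun k hk => Subgroup.mem_centralizer_singleton_iff.2
    (h.three fun x e1 e2 => by rw [s _ (h.cj' e1 e2 hk), s _ (h.cj x e2 (h.sq x e1))]).2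
  have h3 : (P : Subgroup G) ≤ Subgroup.centralizer {u} := fun y hy => by
    by_cases e : y ∈ K
    · exact h1 e
    by_cases e' : u * y ∈ K
    · simpa using mul_mem (inv_mem (Subgroup.mem_centralizer_singleton_iff.2 (rfl : u * u = u * u))) (h1 e')
    have k1 := s _ (h.cj _ e' (h.sq _ (P.1.mul_mem h.uP hy)))
    have k2 := s _ (h.cj _ e (h.sq _ hy))
    rw [Subgroup.mem_centralizer_singleton_iff, ← inv_eq_of_mul_eq_one_right k1, mul_inv_rev,
      inv_eq_of_mul_eq_one_right k2, inv_eq_of_mul_eq_one_right h2]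
  have h4 := Subgroup.card_le_of_le (sup_le h3 h1)
  rw [h.card, sup_comm, ← QuotientGroup.comap_map_mk', H1.card_comap_mk', h.four] at h4
  exact Subgroup.eq_bot_of_card_le _ (by omega)

variable (h2 : u * u ≠ 1)
include h2

theorem cyc {x : G} (e : IsConj x u) : orderOf x = 4 ∧ Subgroup.centralizer {x} = Subgroup.zpowers x := by
  have h1 := (card_centralizer_eq_of_isConj e).trans h.card
  have h3 : Subgroup.zpowers x ≤ Subgroup.centralizer {x} :=
    Subgroup.zpowers_le.2 (Subgroup.mem_centralizer_singleton_iff.2 rfl)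
  have h4 := Subgroup.card_dvd_of_le h3
  rw [h1, Nat.card_zpowers] at h4
  have h5 : ¬ orderOf x ∣ 2 := fun k => h2 (by
    obtain ⟨c, rfl⟩ := isConj_iff.1 e
    simpa [conj_mul, ← pow_two] using orderOf_dvd_iff_pow_eq_one.1 k)
  have h6 : orderOf x = 4 := by
    have := Nat.le_of_dvd (by norm_num) h4
    interval_cases orderOf x <;> simp_all
  exact ⟨h6, (Subgroup.eq_of_le_of_card_ge h3 (by rw [h1, Nat.card_zpowers, h6])).symm⟩

theorem cases {x c : G} (e : IsConj x u) (hc : c * x = x * c) (c2 : c * c = 1) : c = 1 ∨ c = x * x := by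
  classical
  obtain ⟨h1, h3⟩ := h.cyc h2 e
  obtain ⟨i, hi, rfl⟩ := Finset.mem_image.1 (mem_zpowers_iff_mem_range_orderOf.1
    (h3.le (Subgroup.mem_centralizer_singleton_iff.2 hc)))
  rw [← pow_add, ← orderOf_dvd_iff_pow_eq_one, h1] at c2
  rw [h1, mem_range] at hi
  interval_cases i
  exacts [Or.inl (pow_zero _), by omega, Or.inr (pow_two _), by omega]

theorem cen {x : G} (hx : x ∈ P) : x * (u * u) = u * u * x ∧ (x ∉ K → x * x = u * u) := by
  haveI : Nontrivial P := ⟨⟨u, h.uP⟩, 1, fun e => h2 (by simp [show u = 1 from congrArg Subtype.val e])⟩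
  haveI := P.isPGroup'.center_nontrivial
  obtain ⟨c, hc⟩ := exists_prime_orderOf_dvd_card' (G := Subgroup.center P) 2
    ((P.isPGroup'.to_subgroup _).card_eq_or_dvd.resolve_left Finite.one_lt_card.ne')
  have c2 : (c.1.1 : G) * c.1.1 = 1 := by
    simpa [hc, pow_two] using congrArg (fun x => x.1.1) (pow_orderOf_eq_one c)
  have c1 : (c.1.1 : G) ≠ 1 := fun e => by
    rw [show c = 1 from Subtype.ext (Subtype.ext e), orderOf_one] at hc; omega
  have k : ∀ y ∈ P, y * c.1.1 = c.1.1 * y := fun y hy =>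
    congrArg Subtype.val (Subgroup.mem_center_iff.1 c.2 ⟨y, hy⟩)
  have k2 : ∀ y ∈ P, y ∉ K → c.1.1 = y * y := fun y hy e =>
    (h.cases h2 (h.cj y e (h.sq y hy)) (k y hy).symm c2).resolve_left c1
  rw [← k2 u h.uP h.uK]
  exact ⟨k x hx, fun e => (k2 x hx e).symm⟩

theorem inf_cases {t : G} (h1 : t ∈ P) (h3 : t ∈ K) : t = 1 ∨ t = u * u := by
  obtain ⟨h4, h5⟩ := h.three (k := t) fun x e1 e2 => by
    rw [(h.cen h2 (P.1.mul_mem e1 h1)).2 fun e => e2 ((K.mul_mem_cancel_right h3).1 e), (h.cen h2 e1).2 e2]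
  exact h.cases h2 (IsConj.refl u) h5 (by nth_rewrite 1 [← h4]; simp)

omit h h2 [K.Normal] in
theorem eq_one_of_odd {x : G} (h1 : x ∈ oddCore G) (h3 : x * x = 1) : x = 1 := by_contra fun e =>
  not_dvd_card_pPrimeCore (p := 2) (G := G) (by
    have := Subgroup.orderOf_dvd_natCard _ h1
    rwa [orderOf_eq_prime (p := 2) (by rwa [pow_two]) e] at this)

theorem z2 : u * u * (u * u) = 1 := by
  have := pow_orderOf_eq_one u
  rwa [(h.cyc h2 (IsConj.refl u)).1, show 4 = 2 + 2 from rfl, pow_add, pow_two] at this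

theorem core {k : G} (hk : k ∈ K) : k ∈ oddCore G ∨ k * (u * u) ∈ oddCore G := by
  have zK := h.sq u h.uP
  have h1 : SylIn 2 ((P : Subgroup G) ⊓ K) K := by
    simpa using (sylIn_top P).inf_normal K (by simp [Subgroup.normalizer_eq_top])
  have h3 : (P : Subgroup G) ⊓ K = Subgroup.zpowers (u * u) := le_antisymm (fun t e => by
    rcases h.inf_cases h2 e.1 e.2 with rfl | rfl
    exacts [one_mem _, Subgroup.mem_zpowers _]) (Subgroup.zpowers_le.2 ⟨P.1.mul_mem h.uP h.uP, zK⟩)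
  have h4 := (pnil_of_sylIn h1 fun n hn t ht => by
    have e := (Subgroup.mem_normalizer_iff.1 hn.2 t).1 ht
    rcases h.inf_cases h2 ht.1 ht.2 with rfl | rfl
    · simp
    · exact (mul_inv_eq_iff_eq_mul.1 ((h.inf_cases h2 e.1 e.2).resolve_left (by simpa using h2))).symm).index
  rw [← h1.card, h3, Nat.card_zpowers, orderOf_eq_prime (p := 2) (by rw [pow_two, h.z2 h2]) h2] at h4
  have kk : ∀ x : K, x ∈ pPrimeCore 2 K → x.1 ∈ oddCore G := fun x e =>
    H1.map_pPrimeCore_le_of_normal K ⟨x, e, rfl⟩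
  by_cases e : (⟨k, hk⟩ : K) ∈ pPrimeCore 2 K
  · exact Or.inl (kk _ e)
  · exact Or.inr (kk (⟨k, hk⟩ * ⟨_, zK⟩) ((Subgroup.mul_mem_iff_of_index_two h4).2 (iff_of_false e
      fun e => h2 (eq_one_of_odd (kk _ e) (h.z2 h2)))))

theorem comm (hO : oddCore G ≤ K) : IsMulCommutative (oddCore G) := by
  refine ⟨⟨MonoidHom.FixedPointFree.commute_all_of_involutive (φ := MulAut.conjNormal (H := oddCore G) (u * u))
    (fun d hd => Subtype.ext ?_) fun d => Subtype.ext ?_⟩⟩
  swap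
  · simp only [MulAut.conjNormal_apply, ← mul_assoc]
    rw [mul_assoc _ (u * u)⁻¹, ← mul_inv_rev, mul_assoc (u * u), h.z2 h2]; simp
  have hd' : u * u * d = d * (u * u) := mul_inv_eq_iff_eq_mul.1 (congrArg Subtype.val hd)
  refine eq_one_of_odd d.2 ?_
  nth_rewrite 1 [← (h.three (k := d) fun x e1 e2 => ?_).1]
  · simp
  have h3 := pow_orderOf_eq_one (x * d)
  rw [(h.cyc h2 (h.cj' e1 e2 (hO d.2))).1, show 4 = 2 * 2 from rfl, pow_mul, pow_two, pow_two] at h3
  obtain ⟨h4, h5⟩ := h.cen h2 e1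
  have h6 : x * d * (x * d) = u * u * (x⁻¹ * d * x * d) := by rw [← h5 e2]; group
  have h7 : Commute (u * u) (x⁻¹ * d * x * d) :=
    (((Commute.symm h4).inv_right.mul_right hd').mul_right h4.symm).mul_right hd'
  rw [h6, h7.symm.mul_mul_mul_comm, h.z2 h2, one_mul] at h3
  rw [h6, eq_one_of_odd (mul_mem (by simpa using (inferInstance : (oddCore G).Normal).conj_mem _ d.2 x⁻¹) d.2) h3,
    mul_one, h5 e2]

theorem sl (hO : oddCore G ≤ K) (e : G ⧸ K ≃* alternatingGroup (Fin 5)) :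
    Nonempty (G ⧸ oddCore G ≃* H16.SL25) := by
  have zK := h.sq u h.uP
  have k : ∀ g : G, g ∈ K ↔ (g : G ⧸ oddCore G) = 1 ∨ (g : G ⧸ oddCore G) = ((u * u : G) : G ⧸ oddCore G) :=
    fun g => ⟨fun e => (h.core h2 e).imp (QuotientGroup.eq_one_iff _).2 fun e' => QuotientGroup.eq.2 (by
      simpa [← eq_inv_of_mul_eq_one_left (h.z2 h2), mul_assoc] using
        (inferInstance : (oddCore G).Normal).conj_mem _ (inv_mem e') g⁻¹),
      fun e => e.elim (fun e => hO ((QuotientGroup.eq_one_iff _).1 e)) fun e => by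
        simpa using inv_mem ((K.mul_mem_cancel_right zK).1 (hO (QuotientGroup.eq.1 e)))⟩
  refine H16.equiv_SL25_of_quot (z := ((u * u : G) : G ⧸ oddCore G))
    (by rw [← QuotientGroup.mk_mul, h.z2 h2]; rfl) (fun g => ?_) (fun t ht => ?_)
    (e.toMonoidHom.comp (QuotientGroup.map _ K (MonoidHom.id G) hO))
    (e.surjective.comp (QuotientGroup.map_surjective_of_surjective _ _ _ QuotientGroup.mk_surjective _))
    fun g => ?_
  · induction g using QuotientGroup.induction_on with | H g => ?_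
    refine mul_inv_eq_iff_eq_mul.1 (((k _).1 (Subgroup.Normal.conj_mem inferInstance _ zK g)).resolve_left
      fun e => h2 ?_)
    simpa using eq_one_of_odd ((QuotientGroup.eq_one_iff _).1 e) (by rw [conj_mul, h.z2 h2]; simp)
  · induction t using QuotientGroup.induction_on with | H t => ?_
    have h3 := (QuotientGroup.eq_one_iff _).1 ht
    refine (k t).1 (by_contra fun e => ?_)
    have h4 := (h.cyc h2 (h.cj t e (hO h3))).1
    have h5 := pow_orderOf_eq_one t
    rw [h4, show 4 = 2 + 2 from rfl, pow_add, pow_two] at h5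
    have := orderOf_dvd_of_pow_eq_one ((pow_two t).trans (eq_one_of_odd h3 h5))
    rw [h4] at this; omega
  · induction g using QuotientGroup.induction_on with | H g => ?_
    exact ((map_eq_one_iff e e.injective).trans (QuotientGroup.eq_one_iff g)).trans (k g)

end HzE
end H8
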