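import Cfsg.Agent.H8.Tri
import Cfsg.Agent.H1.FTCor
import Cfsg.Agent.H18.BG6

/-! The step of the Isaacs correspondence (odd order): `Isa G K L H S` (setup), `Isa.birel`. -/

set_option autoImplicit false
open H5 H19 Cfsg
open scoped ComplexConjugate commutatorElement

namespace H8

open H18 in
theorem exists_sigma {X : Type*} [Group X] [Finite X] {K Z Y S : Subgroup X} [hK : K.Normal]
    (hZ : Z ≤ Subgroup.center X) (hZK : Z ≤ K) (hZY : Z ≤ Y) (hSY : S ≤ Y) (hn : Y ≤ N(S))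
    (htop : K ⊔ Y = ⊤) (hKY : K ⊓ Y ≤ Z) (hab : ∀ a ∈ K, ∀ b ∈ K, a * b * a⁻¹ * b⁻¹ ∈ Z)
    (hc : (Nat.card S).Coprime (Nat.card K)) (hC : K ⊓ C(S) ≤ Z) :
    ∃ σ : MulAut X, σ * σ = 1 ∧ (∀ y ∈ Y, σ y = y) ∧ ∀ k ∈ K, σ k * k ∈ Z := by
  have cen : ∀ z ∈ Z, ∀ x, x * z = z * x := fun z hz => Subgroup.mem_center_iff.1 (hZ hz)
  have cj : ∀ x, ∀ z ∈ Z, x * z * x⁻¹ ∈ Z := fun x z hz => by
    rwa [cen z hz, mul_inv_cancel_right]
  have k2 : ∀ a b : X, a ∈ K → b * a ∈ Z → b ∈ K := fun a b ha h =>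
    (K.mul_mem_cancel_right ha).1 (hZK h)
  let D : Subgroup (X × X) :=
    { carrier := {d | d.1 ∈ K ∧ d.2 * d.1 ∈ Z}
      one_mem' := ⟨K.one_mem, by simp⟩
      mul_mem' := fun {a b} ha hb => ⟨K.mul_mem ha.1 hb.1, by
        have := Z.mul_mem (Z.mul_mem (cj a.2 _ (hab _ (k2 _ _ hb.1 hb.2) _ ha.1)) ha.2) hb.2
        convert this using 1; simp only [Prod.snd_mul, Prod.fst_mul]; group⟩
      inv_mem' := fun {a} ha => ⟨K.inv_mem ha.1, by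
        have := cj a.1 _ (Z.inv_mem ha.2)
        convert this using 1; simp only [Prod.snd_inv, Prod.fst_inv]; group⟩ }
  have mD : ∀ d, d ∈ D ↔ d.1 ∈ K ∧ d.2 * d.1 ∈ Z := fun _ => Iff.rfl
  let δ : X →* X × X := (MonoidHom.id X).prod (MonoidHom.id X)
  have hδ : ∀ x, δ x = (x, x) := fun _ => rfl
  have nD : ∀ U : Subgroup X, U.map δ ≤ N(D) := fun U => le_normalizer_of_forall <| by
    rintro _ ⟨x, -, rfl⟩ d hd
    exact ⟨hK.conj_mem _ hd.1 x, by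
      have := cj x _ hd.2
      convert this using 1; simp only [hδ, Prod.snd_mul, Prod.fst_mul, Prod.inv_mk]; group⟩
  have co : H1.Cop (S.map δ) D := H1.cop_of_coprime (nD S) (by
    have : Nat.card D ∣ Nat.card K * Nat.card K := by
      rw [← Nat.card_prod, ← Nat.card_congr (K.prodEquiv K).toEquiv]
      exact Subgroup.card_dvd_of_le fun d hd => ⟨hd.1, k2 _ _ hd.1 hd.2⟩
    exact ((hc.mul_right hc).coprime_dvd_right this).coprime_dvd_left (S.card_map_dvd δ))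
  have ED : ⁅D, S.map δ⁆ ≤ D := comm_le_left (nD S)
  have dg : ⁅D, S.map δ⁆ ⊓ C(S.map δ) ≤ δ.range :=
    (co.comm.cent_le_of_comm_eq co.comm_comm).trans ((Subgroup.commutator_mono ED ED).trans
      (Subgroup.commutator_le.2 fun a ha b hb => ⟨⁅a.1, b.1⁆, Prod.ext rfl (by
        have c := cen _ (hab _ ha.1 _ hb.1) (b.1 * a.1)⁻¹
        have c1 := cen _ ha.2 (a.1⁻¹ * b.2 * a.1)
        have c2 := cen _ hb.2 (b.1⁻¹ * a.1 * b.1)
        change a.1 * b.1 * a.1⁻¹ * b.1⁻¹ = a.2 * b.2 * a.2⁻¹ * b.2⁻¹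
        calc _ = (b.1 * a.1)⁻¹ * (a.1 * b.1 * a.1⁻¹ * b.1⁻¹) * (b.1 * a.1) := by rw [c]; group
          _ = a.1⁻¹ * (b.1⁻¹ * a.1 * b.1 * (b.2 * b.1)) * (b.2 * b.1)⁻¹ := by group
          _ = a.1⁻¹ * b.2 * a.1 * (a.2 * a.1) * (a.2 * a.1)⁻¹ * b.2⁻¹ := by rw [c2]; group
          _ = _ := by rw [c1]; group)⟩))
  have nE : Y.map δ ≤ N(⁅D, S.map δ⁆) := norm_comm (nD Y) (le_normalizer_of_forall <| by
    rintro _ ⟨y, hy, rfl⟩ _ ⟨s, hs, rfl⟩
    exact ⟨_, conj_mem_of_le_normalizer hn hy hs, by simp⟩)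
  set W := ⁅D, S.map δ⁆ ⊔ Y.map δ with hW
  have key : ∀ w ∈ W, w.1 ∈ K → w ∈ D ∧ (w.1 = 1 → w.2 = 1) := fun w hw h => by
    obtain ⟨d, hd, _, ⟨y, hy, rfl⟩, rfl⟩ := (mem_sup_iff_of_le_normalizer nE).1 hw
    have yZ : y ∈ Z := hKY ⟨(K.mul_mem_cancel_left (ED hd).1).1 h, hy⟩
    refine ⟨D.mul_mem (ED hd) ⟨hZK yZ, Z.mul_mem yZ yZ⟩, fun e => ?_⟩
    have d1 : d.1 ∈ Z := (eq_inv_of_mul_eq_one_left e : d.1 = y⁻¹) ▸ Z.inv_mem yZ
    obtain ⟨x, rfl⟩ := dg ⟨hd, fun t _ => Prod.ext (cen _ d1 _)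
      (cen _ ((Z.mul_mem_cancel_right d1).1 (ED hd).2) _)⟩
    exact e
  have sj : ∀ a, ∃ b, (a, b) ∈ W := fun a => by
    have y : Y ≤ W.map (MonoidHom.fst X X) := fun y hy =>
      ⟨δ y, Subgroup.mem_sup_right ⟨y, hy, rfl⟩, rfl⟩
    have : K ⊔ Y ≤ W.map (MonoidHom.fst X X) := sup_le ((H1.cop_of_coprime
      (le_top.trans (Subgroup.normalizer_eq_top K).ge) hc).comm_sup.ge.trans (sup_le
      (Subgroup.commutator_le.2 fun k hk s hs => ⟨⁅(k, k⁻¹), δ s⁆, Subgroup.mem_sup_left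
        (Subgroup.commutator_mem_commutator ⟨hk, by simp⟩ ⟨s, hs, rfl⟩), rfl⟩)
      (hC.trans (hZY.trans y)))) y
    obtain ⟨w, hw, rfl⟩ := this (htop.ge (Subgroup.mem_top a))
    exact ⟨w.2, hw⟩
  have sw : W ≤ W.comap (MulEquiv.prodComm : X × X ≃* X × X).toMonoidHom :=
    sup_le (Subgroup.commutator_le.2 <| by
      rintro d hd _ ⟨s, hs, rfl⟩
      rw [Subgroup.mem_comap, map_commutatorElement]
      refine Subgroup.mem_sup_left (Subgroup.commutator_mem_commutator ⟨k2 _ _ hd.1 hd.2, ?_⟩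
        ⟨s, hs, rfl⟩)
      simpa [mul_assoc] using cj d.1 _ hd.2) <| by
      rintro _ ⟨y, hy, rfl⟩
      exact Subgroup.mem_sup_right ⟨y, hy, rfl⟩
  choose f hf using sj
  have un : ∀ a b, (a, b) ∈ W → f a = b := fun a b h => mul_inv_eq_one.1
    ((key _ (W.mul_mem (hf a) (W.inv_mem h)) (by simp)).2 (by simp))
  have iv : ∀ a, f (f a) = a := fun a => un _ _ (sw (hf a))
  exact ⟨⟨⟨f, f, iv, iv⟩, fun a b => un _ _ (W.mul_mem (hf a) (hf b))⟩, MulEquiv.ext iv,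
    fun y hy => un _ _ (Subgroup.mem_sup_right ⟨y, hy, rfl⟩), fun k hk => (key _ (hf k) hk).1.2⟩

variable {Γ : Type*} [Group Γ] {A G K L H S S' T Z : Subgroup Γ} {θ θ' χ ψ φ ν : Γ → ℂ} {s : Γ}

/-- setup of the Isaacs correspondence step -/
structure Isa (G K L H S : Subgroup Γ) : Prop where
  LK : L ≤ K
  KG : K ≤ G
  LH : L ≤ H
  HG : H ≤ G
  nK : G ≤ Subgroup.normalizer (K : Set Γ)
  nL : G ≤ Subgroup.normalizer (L : Set Γ)
  SG : S ≤ Subgroup.normalizer (G : Set Γ)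
  SK : S ≤ Subgroup.normalizer (K : Set Γ)
  SL : S ≤ Subgroup.normalizer (L : Set Γ)
  ab : ∀ a ∈ K, ∀ b ∈ K, a * b * a⁻¹ * b⁻¹ ∈ L
  odd : Odd (Nat.card G)
  sup : G ≤ K ⊔ H
  hH : ∀ s ∈ S, ∀ h ∈ H, s * h * s⁻¹ * h⁻¹ ∈ L
  fp : ∀ k ∈ K, (∀ s ∈ S, s * k * s⁻¹ * k⁻¹ ∈ L) → k ∈ L

theorem Isa.SH (h : Isa G K L H S) : S ≤ Subgroup.normalizer (H : Set Γ) :=
  le_normalizer_of_forall fun s hs x hx => by simpa using H.mul_mem (h.LH (h.hH s hs x hx)) hx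

theorem Isa.congr (h : Isa G K L H S) (h1 : S' ≤ L ⊔ S) (h2 : S ≤ L ⊔ S') : Isa G K L H S' := by
  have LG := h.LK.trans h.KG
  have n := h1.trans (sup_le Subgroup.le_normalizer h.SL)
  refine ⟨h.LK, h.KG, h.LH, h.HG, h.nK, h.nL,
    h1.trans (sup_le (LG.trans Subgroup.le_normalizer) h.SG),
    h1.trans (sup_le (LG.trans h.nK) h.SK), n, h.ab, h.odd, h.sup, fun s hs x hx => ?_,
    fun k hk e => h.fp k hk fun s hs => ?_⟩
  · obtain ⟨l, hl, t, ht, rfl⟩ := (mem_sup_iff_of_le_normalizer h.SL).1 (h1 hs)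
    exact (comm_mul_left hl (h.nL (h.HG hx))).2 (h.hH t ht x hx)
  · obtain ⟨l, hl, t, ht, rfl⟩ := (mem_sup_iff_of_le_normalizer n).1 (h2 hs)
    exact (comm_mul_left hl (h.nL (h.KG hk))).2 (e t ht)

theorem map_norm {Δ : Type*} [Group Δ] (f : Γ →* Δ) (h : A ≤ Subgroup.normalizer (K : Set Γ)) :
    A.map f ≤ Subgroup.normalizer (K.map f : Set Δ) :=
  (Subgroup.map_mono h).trans (Subgroup.le_normalizer_map f)

theorem Isa.map {Δ : Type*} [Group Δ] {f : Γ →* Δ} (hf : Function.Injective f)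
    (h : Isa G K L H S) : Isa (G.map f) (K.map f) (L.map f) (H.map f) (S.map f) := by
  refine ⟨Subgroup.map_mono h.LK, Subgroup.map_mono h.KG, Subgroup.map_mono h.LH,
    Subgroup.map_mono h.HG, map_norm f h.nK, map_norm f h.nL, map_norm f h.SG, map_norm f h.SK,
    map_norm f h.SL, ?_, by rw [Subgroup.card_map_of_injective hf]; exact h.odd,
    Subgroup.map_sup K H f ▸ Subgroup.map_mono h.sup, ?_, ?_⟩
  · rintro _ ⟨a, ha, rfl⟩ _ ⟨b, hb, rfl⟩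
    exact ⟨_, h.ab a ha b hb, by simp⟩
  · rintro _ ⟨a, ha, rfl⟩ _ ⟨b, hb, rfl⟩
    exact ⟨_, h.hH a ha b hb, by simp⟩
  · rintro _ ⟨k, hk, rfl⟩ e
    refine ⟨k, h.fp k hk fun s hs => (Subgroup.mem_map_iff_mem hf).1 ?_, rfl⟩
    simpa using e _ ⟨s, hs, rfl⟩

theorem Isa.cent [Finite Γ] (h : Isa G K L H S) (hc : (Nat.card S).Coprime (Nat.card G))
    (hL : L ≤ Subgroup.centralizer (S : Set Γ)) : H ≤ Subgroup.centralizer (S : Set Γ) :=
  (H1.cop_of_coprime h.SH (hc.coprime_dvd_right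
    (Subgroup.card_dvd_of_le h.HG))).cent_of_comm_cent ((Subgroup.commutator_comm H S).le.trans
    ((Subgroup.commutator_le.2 h.hH).trans hL))

theorem Isa.inf_cent (h : Isa G K L H S) : K ⊓ Subgroup.centralizer (S : Set Γ) ≤ L :=
  fun k hk => h.fp k hk.1 fun s hs => by simp [hk.2 s hs]

theorem Isa.cent_le (h : Isa G K L H S) : G ⊓ Subgroup.centralizer (S : Set Γ) ≤ H := fun g hg => by
  obtain ⟨k, hk, x, hx, rfl⟩ := (mem_sup_iff_of_le_normalizer (h.HG.trans h.nK)).1 (h.sup hg.1)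
  refine H.mul_mem (h.LH (h.fp k hk fun s hs => ?_)) hx
  have := conj_mem_of_le_normalizer h.nL (h.KG hk) (L.inv_mem (h.hH s hs x hx))
  have e := hg.2 s hs
  convert this using 1
  calc _ = s * (k * x) * x⁻¹ * s⁻¹ * k⁻¹ := by group
    _ = _ := by rw [e]; group

theorem relIndex_dvd_right [Finite Γ] (A K : Subgroup Γ) : A.relIndex K ∣ Nat.card K :=
  Subgroup.relIndex_dvd_card _ _

variable [Fintype Γ]
open Glaub

theorem Glaub.Corr.birel {p : ℕ} (h : Corr p G H S) :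
    BiRel (fun χ => χ ∈ irr G ∧ S ≤ stabf χ) (fun χ => χ ∈ irr H ∧ S ≤ stabf χ) (Gl p H) := by
  refine ⟨fun χ a => ?_, fun β b => ?_⟩
  · obtain ⟨β, b1, b2, b3⟩ := h.ex χ a.1 a.2
    exact ⟨β, ⟨⟨b1, b2⟩, b3⟩, fun β' e => h.uniq χ a.1 a.2 _ e.1.1 e.1.2 _ b1 b2 e.2 b3⟩
  · obtain ⟨χ, b1, b2, b3⟩ := h.surj β b.1 b.2
    exact ⟨χ, ⟨⟨b1, b2⟩, b3⟩, fun β' e => h.inj _ e.1.1 e.1.2 _ b1 b2 _ b.1 b.2 e.2 b3⟩

theorem inv_over_unique (hn : A ≤ Subgroup.normalizer (K : Set Γ))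
    (hc : (Nat.card A).Coprime (Nat.card K)) (hZ : Z ≤ K)
    (hab : ∀ a ∈ K, ∀ b ∈ K, a * b * a⁻¹ * b⁻¹ ∈ Z)
    (hC : K ⊓ Subgroup.centralizer (A : Set Γ) ≤ Z) (hν : ν ∈ irr Z) (hθ : θ ∈ irr K)
    (hθ' : θ' ∈ irr K) (i : A ≤ stabf θ) (i' : A ≤ stabf θ') (o : Ov Z θ ν) (o' : Ov Z θ' ν) :
    θ' = θ := by
  obtain ⟨lam, l1, e⟩ := exists_lin_mul hZ hab hθ hθ' hν o o'
  have := Fintype.ofFinite A
  let μ : K →* ℂˣ := ∏ a : A, lam.comp (conjEquiv (hn a.2)).toMonoidHom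
  have hμ : ∀ x, μ x = ∏ a : A, lam (conjEquiv (hn a.2) x) := fun x => by
    simp [μ, MonoidHom.finset_prod_apply]
  have h1 : K ≤ μ.ker.map K.subtype := (H1.cop_of_coprime hn hc).comm_sup.ge.trans (sup_le
    (Subgroup.commutator_le.2 fun k hk a ha => ⟨⟨k, hk⟩ * (conjEquiv (hn ha) ⟨k, hk⟩)⁻¹, by
      change μ _ = 1
      rw [map_mul, map_inv, mul_inv_eq_one, hμ, hμ, ← Equiv.prod_comp (Equiv.mulRight ⟨a, ha⟩)]
      exact Finset.prod_congr rfl fun b _ => congrArg lam (Subtype.ext (by simp [mul_assoc])), by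
      simp [commutatorElement_def, mul_assoc]⟩) fun z hz => ⟨⟨z, hz.1⟩, by
      change μ _ = 1
      rw [hμ]
      exact Finset.prod_eq_one fun a _ => l1 _ (by simpa [hz.2 a a.2] using hC hz), rfl⟩)
  refine eq_of_eqOn (irr_supp hθ') (irr_supp hθ) fun x hx => ?_
  by_cases h0 : θ x = 0
  · rw [e, Pi.mul_apply, h0, zero_mul]
  have h2 : ∀ a : A, lam (conjEquiv (hn a.2) ⟨x, hx⟩) = lam ⟨x, hx⟩ := fun a => by
    have a1 := congrFun (mem_stabf.1 (i a.2)) x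
    have a2 := congrFun (mem_stabf.1 (i' a.2)) x
    rw [cjf_apply] at a1 a2
    rw [e, Pi.mul_apply, Pi.mul_apply, a1, H19.extendByZero_of_mem _ hx, H19.extendByZero_of_mem _
      (conj_mem_of_le_normalizer hn a.2 hx)] at a2
    exact Units.ext (mul_left_cancel₀ h0 a2)
  obtain ⟨y, h3, rfl⟩ := h1 hx
  have h4 : lam y ^ Nat.card A = 1 := by
    rw [← show μ y = 1 from h3, hμ]
    exact ((Finset.prod_congr rfl fun a _ => h2 a).trans (by simp)).symm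
  have h5 : lam y ^ Nat.card K = 1 := by rw [← map_pow, pow_card_eq_one', map_one]
  rw [e, Pi.mul_apply, H19.extendByZero_of_mem _ hx,
    show lam ⟨_, hx⟩ = 1 from (pow_eq_one_iff_of_coprime hc).1 ⟨h4, h5⟩, Units.val_one, mul_one]

theorem Isa.inv_iff_ov (h : Isa G K L H S) (hc : (Nat.card S).Coprime (Nat.card G))
    (hν : ν ∈ irr L) (i : G ≤ stabf ν) (hθ : θ ∈ irr K) (i1 : S ≤ stabf θ) (i2 : G ≤ stabf θ)
    (o : Ov L θ ν) (hχ : χ ∈ irr G) (o' : Ov L χ ν) : S ≤ stabf χ ↔ Ov K χ θ := by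
  have c : (K.relIndex S).Coprime (K.relIndex G) :=
    (hc.coprime_dvd_left (relIndex_dvd_right _ _)).coprime_dvd_right (relIndex_dvd_right _ _)
  refine ⟨fun e => ?_, fun e x hx => mem_stabf_of_trivial h.KG h.nK hχ hθ i2 e (h.SK hx) (h.SG hx)
    (i1 hx) (fun g hg => ?_) (pow_relIndex_mem h.SK hx) c⟩
  · haveI := normal_subgroupOf_of_le_normalizer h.nK
    haveI := H1.solv_of_odd h.odd
    obtain ⟨θ', a, b, d⟩ := exists_invariant_under h.KG h.nK h.SK h.SG c (Or.inr inferInstance) hχ e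
    rwa [← inv_over_unique h.SK (hc.coprime_dvd_right (Subgroup.card_dvd_of_le h.KG)) h.LK h.ab
      h.inf_cent hν hθ a i1 b o (ov_of_inv h.LK h.KG h.nL hν i hχ a o' d)]
  · obtain ⟨k, hk, y, hy, rfl⟩ := (mem_sup_iff_of_le_normalizer (h.HG.trans h.nK)).1 (h.sup hg)
    exact (comm_mul_right hk (h.SK hx)).2 (h.LK (h.hH x hx y hy))

theorem Isa.core (h : Isa G K L H S) (hc : (Nat.card S).Coprime (Nat.card G))
    (c1 : L ≤ Subgroup.centralizer (G : Set Γ)) (c2 : L ≤ Subgroup.centralizer (S : Set Γ))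
    (hs : s * s = 1) (s1 : ∀ x ∈ S, x * s = s * x) (s2 : ∀ x ∈ H, x * s = s * x)
    (s3 : ∀ k ∈ K, s * k * s⁻¹ * k ∈ L) : Corr 2 G H S := by
  have z : ∀ x ∈ Subgroup.zpowers s, ∀ y ∈ H, x * y * x⁻¹ = y := fun x hx y hy => by
    obtain ⟨n, rfl⟩ := hx
    exact mul_inv_eq_iff_eq_mul.2 (Commute.zpow_left (s2 y hy).symm n)
  have o : orderOf s ∣ 2 := orderOf_dvd_of_pow_eq_one (by rw [sq, hs])
  have hc' : (Nat.card (Subgroup.zpowers s)).Coprime (Nat.card G) := by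
    rw [Nat.card_zpowers]; exact (Nat.coprime_two_left.2 h.odd).coprime_dvd_left o
  have sK : Subgroup.zpowers s ≤ Subgroup.normalizer (K : Set Γ) := Subgroup.zpowers_le.2
    (H1.mem_normalizer_of_conj_mem fun k hk => (K.mul_mem_cancel_right hk).1 (h.LK (s3 k hk)))
  have h' : Isa G K L H (Subgroup.zpowers s) := ⟨h.LK, h.KG, h.LH, h.HG, h.nK, h.nL,
    le_normalizer_of_forall fun x hx g hg => by
      obtain ⟨k, hk, y, hy, rfl⟩ := (mem_sup_iff_of_le_normalizer (h.HG.trans h.nK)).1 (h.sup hg)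
      have := G.mul_mem (h.KG (conj_mem_of_le_normalizer sK hx hk)) (h.HG hy)
      rw [← z x hx y hy] at this
      simpa [mul_assoc] using this, sK,
    le_normalizer_of_forall fun x hx l hl => by rwa [z x hx l (h.LH hl)], h.ab, h.odd, h.sup,
    fun x hx y hy => by simp [z x hx y hy], fun k hk e => by
      have a := L.mul_mem (L.inv_mem (e s (Subgroup.mem_zpowers s))) (s3 k hk)
      have b : k ^ 2 ∈ L := by simpa [sq, mul_assoc] using a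
      obtain ⟨r, hr⟩ := exists_pow_eq_self_of_coprime ((Nat.coprime_two_left.2 h.odd).coprime_dvd_right
        (G.orderOf_dvd_natCard (h.KG hk)))
      exact hr ▸ L.pow_mem b r⟩
  have HS := h.cent hc c2
  have Hs : H ≤ Subgroup.centralizer (Subgroup.zpowers s : Set Γ) := fun y hy x hx =>
    mul_inv_eq_iff_eq_mul.1 (z x hx y hy)
  have st : ∀ {U V : Subgroup Γ} {β : Γ → ℂ}, U ≤ Subgroup.centralizer (V : Set Γ) → β ∈ irr U →
      V ≤ stabf β := fun e b x hx => mem_stabf_of_centralizes (irr_supp b) fun c hc => e hc x hx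
  refine (corr_coprime Nat.prime_two h'.SG (IsPGroup.of_card_dvd_pow (n := 1) (by
    rwa [Nat.card_zpowers])) hc'.symm (le_antisymm (le_inf h.HG Hs) h'.cent_le)).congr
    (fun χ hχ => ?_) fun β hβ => iff_of_true (st Hs hβ) (st HS hβ)
  obtain ⟨ν, a, b⟩ := exists_ov_under (h.LK.trans h.KG) hχ
  have cK := hc.coprime_dvd_right (Subgroup.card_dvd_of_le h.KG)
  obtain ⟨θ, t1, t2, t3⟩ := exists_invariant_over_of_abelian h.LK h.ab h.SL h.SK
    ((cK.coprime_dvd_left (relIndex_dvd_right _ _)).coprime_dvd_right (relIndex_dvd_right _ _)) a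
    (st c2 a)
  have u : ∀ x ∈ Subgroup.centralizer (S : Set Γ), x ∈ Subgroup.normalizer (K : Set Γ) →
      x ∈ Subgroup.normalizer (L : Set Γ) → x ∈ stabf ν → x ∈ stabf θ := fun x x1 x2 x3 x4 =>
    inv_over_unique h.SK cK h.LK h.ab h.inf_cent a t1 (cjf_mem_irr x2 t1) t2
      (le_stabf_cjf (Subgroup.centralizer_le_normalizer _ x1) t2) t3
      (mem_stabf.1 x4 ▸ Ov.cjf x3 t3)
  have t4 : G ≤ stabf θ := h.sup.trans (sup_le (le_stabf_of_cf (cf_of_irr t1)) fun y hy =>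
    u y (HS hy) (h.nK (h.HG hy)) (h.nL (h.HG hy)) (st c1 a (h.HG hy)))
  have m := Subgroup.mem_zpowers s
  rw [h.inv_iff_ov hc a (st c1 a) t1 t2 t4 t3 hχ b, h'.inv_iff_ov hc' a (st c1 a) t1
    (Subgroup.zpowers_le.2 (u s s1 (sK m) (h'.SL m) (st (h.LH.trans Hs) a m))) t4 t3 hχ b]

theorem gl_iff_of_eq {Δ : Type*} [Group Δ] [Fintype Δ] {p : ℕ} {V : Subgroup Δ} {a b : Δ → ℂ}
    (e : ip H (res H χ) ψ = ip V (res V a) b) : Gl p H χ ψ ↔ Gl p V a b := by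
  unfold Gl; rw [e]

theorem Isa.central (h : Isa G K L H S) (hL : L ≤ S) (hc : (L.relIndex S).Coprime (Nat.card G))
    (c : L ≤ Subgroup.center Γ) (ht : G ⊔ S = ⊤) :
    BiRel (fun χ => χ ∈ irr G ∧ S ≤ stabf χ) (fun χ => χ ∈ irr H ∧ S ≤ stabf χ) (Gl 2 H) := by
  obtain ⟨S₀, hS⟩ := H18.exists_sd ⟨hL, h.SL⟩
    (hc.symm.coprime_dvd_left (Subgroup.card_dvd_of_le (h.LK.trans h.KG)))
  have le : S₀ ≤ S := hS.sup ▸ le_sup_right
  have h0 := h.congr (le.trans le_sup_right) hS.sup.ge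
  rw [← hS.card_quo.symm.trans (H18.card_quo h.SL)] at hc
  have cc : ∀ U : Subgroup Γ, L ≤ Subgroup.centralizer (U : Set Γ) := fun U =>
    c.trans (Subgroup.center_le_centralizer _)
  have HS := h0.cent hc (cc _)
  haveI : K.Normal := Subgroup.normalizer_eq_top_iff.1 (top_unique (ht ▸ sup_le h.nK h.SK))
  obtain ⟨σ, σ1, σ2, σ3⟩ := exists_sigma (Y := H ⊔ S₀) c h.LK (h.LH.trans le_sup_left) le_sup_right
    (sup_le (HS.trans (Subgroup.centralizer_le_normalizer _)) Subgroup.le_normalizer)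
    (top_unique (ht ▸ sup_le (h.sup.trans (sup_le_sup_left le_sup_left _))
      (hS.sup.ge.trans (sup_le_sup h.LK le_sup_right)))) (fun x hx => by
      obtain ⟨y, hy, t, ht, rfl⟩ := (mem_sup_iff_of_le_normalizer h0.SH).1 hx.2
      obtain rfl : t = 1 := (H18.inf_eq_bot_of_coprime' hc).le
        ⟨ht, (G.mul_mem_cancel_left (h.HG hy)).1 (h.KG hx.1)⟩
      exact h0.inf_cent ⟨hx.1, by simpa using HS hy⟩) h.ab
    (hc.coprime_dvd_right (Subgroup.card_dvd_of_le h.KG)) h0.inf_cent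
  let Δ := Γ ⋊[MonoidHom.id _] MulAut Γ
  haveI : Finite Δ := Finite.of_equiv _ SemidirectProduct.equivProd.symm
  haveI := Fintype.ofFinite Δ
  let j : Γ →* Δ := SemidirectProduct.inl
  have hj : Function.Injective j := SemidirectProduct.inl_injective
  have hs : ∀ x, SemidirectProduct.inr σ * j x * (SemidirectProduct.inr σ)⁻¹ = j (σ x) := fun x =>
    by rw [← map_inv]; exact (SemidirectProduct.inl_aut σ x).symm
  have cm : ∀ U ≤ H ⊔ S₀, ∀ x ∈ U.map j, x * SemidirectProduct.inr σ = SemidirectProduct.inr σ * x := by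
    rintro U hU _ ⟨y, hy, rfl⟩
    rw [mul_inv_eq_iff_eq_mul.1 (hs y), σ2 y (hU hy)]
  have mc : ∀ U : Subgroup Γ, L.map j ≤ Subgroup.centralizer (U.map j : Set Δ) := by
    rintro U _ ⟨l, hl, rfl⟩ _ ⟨u, hu, rfl⟩
    rw [← map_mul, cc U hl u hu, map_mul]
  have co := ((h0.map hj).core (s := SemidirectProduct.inr σ)
    (by rwa [Subgroup.card_map_of_injective hj, Subgroup.card_map_of_injective hj]) (mc _) (mc _)
    (by rw [← map_mul, σ1, map_one]) (cm _ le_sup_right) (cm _ le_sup_left) (by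
      rintro _ ⟨k, hk, rfl⟩
      rw [hs, ← map_mul]
      exact ⟨_, σ3 k hk, rfl⟩)).birel
  have tr : ∀ U, L ≤ U → BiRel (fun χ => χ ∈ irr U ∧ S ≤ stabf χ)
      (fun χ => χ ∈ irr (U.map j) ∧ S₀.map j ≤ stabf χ) fun ξ χ => χ ∘ j = ξ := fun U hU =>
    (birel_inj hj U).restrict fun ξ χ a b e => by
      rw [← stab_iff hU le hS.sup.ge ξ a, ← e, Subgroup.map_le_iff_le_comap]
      exact forall₂_congr fun x _ => mem_stabf_comp fun x hx =>
        irr_supp b x fun h => hx (U.map_le_range j h)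
  refine (tr G (h.LK.trans h.KG)).transfer (tr H h.LH) (fun _ a _ b _ _ _ _ e e' => ?_) co
  rw [← e, ← e']
  exact gl_iff_of_eq (ip_comp j H a b)

theorem Isa.hat {Y : Subgroup Γ} (h : Isa G K L H S) (hS : S ≤ Y) (hG : G ≤ Y)
    (T : Tri Y L φ) : Isa (T.hat G) (T.hat K) (T.hat L) (T.hat H) (T.hat S) := by
  have LG := h.LK.trans h.KG
  refine ⟨T.hat_mono h.LK, T.hat_mono h.KG, T.hat_mono h.LH, T.hat_mono h.HG,
    T.hat_norm h.LK h.nK, T.hat_norm le_rfl h.nL, T.hat_norm LG h.SG, T.hat_norm h.LK h.SK,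
    T.hat_norm le_rfl h.SL, ?_, ?_, T.hat_sup (h.KG.trans hG) (h.HG.trans hG) ▸ T.hat_mono h.sup,
    ?_, ?_⟩
  · rintro _ ⟨a, ha, rfl⟩ _ ⟨b, hb, rfl⟩
    exact ⟨a * b * a⁻¹ * b⁻¹, by simpa using h.ab _ ha _ hb, by simp⟩
  · rw [← H18.card_mul_relIndex (T.hat_mono LG), T.relIndex_hat le_rfl hG]
    exact (((h.odd.of_dvd_nat (Subgroup.card_dvd_of_le LG)).pow).of_dvd_nat T.card_hat_L).mul
      (h.odd.of_dvd_nat (relIndex_dvd_right _ _))
  · rintro _ ⟨a, ha, rfl⟩ _ ⟨b, hb, rfl⟩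
    exact ⟨a * b * a⁻¹ * b⁻¹, by simpa using h.hH _ ha _ hb, by simp⟩
  · rintro _ ⟨k, hk, rfl⟩ e
    refine (T.mem_hat le_rfl).2 (h.fp _ hk fun s hs => ?_)
    obtain ⟨w, rfl⟩ := T.exists_π (hS hs)
    have := e _ ⟨w, hs, rfl⟩
    rw [← map_inv, ← map_inv, ← map_mul, ← map_mul, ← map_mul, T.mem_hat le_rfl] at this
    simpa using this

theorem Isa.inv (h : Isa G K L H S) (hc : (Nat.card S).Coprime (Nat.card G)) (hφ : φ ∈ irr L)
    (i1 : G ≤ stabf φ) (i2 : S ≤ stabf φ) :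
    BiRel (fun χ => (χ ∈ irr G ∧ Ov L χ φ) ∧ S ≤ stabf χ)
      (fun χ => (χ ∈ irr H ∧ Ov L χ φ) ∧ S ≤ stabf χ) (Gl 2 H) := by
  have LG := h.LK.trans h.KG
  have GY : G ≤ G ⊔ S := le_sup_left
  have SY : L ⊔ S ≤ G ⊔ S := sup_le_sup_right LG S
  obtain ⟨T⟩ := exists_tri (LG.trans GY) (sup_le h.nL h.SL) hφ (sup_le i1 i2)
  have h' := (h.congr (S' := L ⊔ S) le_rfl (le_sup_right.trans le_sup_right)).hat SY GY T
  have co := (h'.central (T.hat_mono le_sup_left) (by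
    rw [← H18.card_mul_relIndex (T.hat_mono LG), T.relIndex_hat le_rfl GY,
      T.relIndex_hat le_rfl SY, ← relIndex_inf_of_sup le_sup_left le_sup_right
      (sup_le Subgroup.le_normalizer h.SL) le_rfl]
    exact ((((hc.coprime_dvd_right (Subgroup.card_dvd_of_le LG)).pow_right 2).coprime_dvd_right
      T.card_hat_L).mul_right (hc.coprime_dvd_right (relIndex_dvd_right _ _))).coprime_dvd_left
      (relIndex_dvd_right _ _)) T.hat_L_central (by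
    rw [← T.hat_sup GY SY, ← sup_assoc, sup_eq_left.2 LG, T.hat_Y])).restrict
    (A := T.Cd) (B := T.Cd) fun β γ a b g => Tri.cd_iff h'.LH h'.HG a.1 b.1 g.ip_ne_zero
  have tr : ∀ U, L ≤ U → U ≤ G → BiRel (fun χ => (χ ∈ irr U ∧ Ov L χ φ) ∧ S ≤ stabf χ)
      (fun β => (β ∈ irr (T.hat U) ∧ T.hat (L ⊔ S) ≤ stabf β) ∧ T.Cd β) T.Cr := fun U a b =>
    ((T.birel a (b.trans GY)).restrict (A := fun χ => S ≤ stabf χ)
      (B := fun β => T.hat (L ⊔ S) ≤ stabf β) fun χ β c _ e => by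
      rw [← e.le_stabf (fun x hx => irr_supp c.1 x fun h => hx (GY (b h))) SY, sup_le_iff,
        and_iff_right (a.trans (le_stabf_of_cf (cf_of_irr c.1)))]).congr (fun _ => Iff.rfl)
      fun _ => and_right_comm
  exact (tr G LG le_rfl).transfer (tr H h.LH h.HG) (fun _ _ _ _ _ _ _ _ e e' =>
    gl_iff_of_eq (Tri.ip_eq h.LH (h.HG.trans GY) e e')) co

theorem cliff_birel (hL : L ≤ G) (nL : G ≤ Subgroup.normalizer (L : Set Γ))
    (SG : S ≤ Subgroup.normalizer (G : Set Γ)) (SL : S ≤ Subgroup.normalizer (L : Set Γ))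
    (hφ : φ ∈ irr L) (i : S ≤ stabf φ) :
    BiRel (fun χ => (χ ∈ irr G ∧ Ov L χ φ) ∧ S ≤ stabf χ)
      (fun χ => (χ ∈ irr (G ⊓ stabf φ) ∧ Ov L χ φ) ∧ S ≤ stabf χ)
      fun χ ψ => ind (G ⊓ stabf φ) G ψ = χ := by
  have LT : L ≤ G ⊓ stabf φ := le_inf hL (le_stabf_of_cf (cf_of_irr hφ))
  have nT := le_norm_inf SG (i.trans Subgroup.le_normalizer)
  refine BiRel.restrict ⟨fun χ a => ?_, fun ψ a => ?_⟩ fun χ ψ a b e => ⟨fun c x hx => ?_,
    fun c x hx => by rw [mem_stabf, ← e, cjf_ind _ (SG hx), mem_stabf.1 (c hx)]⟩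
  · obtain ⟨ψ, b, c, d⟩ := cliff_surj LT inf_le_left nL hφ le_rfl a.1 a.2
    exact ⟨ψ, ⟨⟨b, c⟩, d⟩, fun ψ' e =>
      cliff_inj LT inf_le_left nL hφ le_rfl e.1.1 e.1.2 b c (e.2.trans d.symm)⟩
  · obtain ⟨b, c⟩ := ind_mem_irr_of_inertia LT inf_le_left nL hφ le_rfl a.1 a.2
    exact ⟨_, ⟨⟨b, c.trans_ne a.2⟩, rfl⟩, fun _ e => e.2.symm⟩
  · exact cliff_inj LT inf_le_left nL hφ le_rfl (cjf_mem_irr (nT hx) b.1)
      (mem_stabf.1 (i hx) ▸ b.2.cjf (SL hx)) b.1 b.2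
      (by rw [← cjf_ind _ (SG hx), e, mem_stabf.1 (c hx)])

theorem ip_cliff {V : Subgroup Γ} {ζ : Γ → ℂ} (hLV : L ≤ V) (hV : V ≤ T) (hT : T ≤ G)
    (nL : G ≤ Subgroup.normalizer (L : Set Γ)) (hφ : φ ∈ irr L) (i : G ⊓ stabf φ ≤ T)
    (hψ : ψ ∈ irr T) (o : Ov L ψ φ) (hζ : ζ ∈ irr V) (o' : Ov L ζ φ) :
    ip V (res V (ind T G ψ)) ζ = ip V (res V ψ) ζ := by
  have LT := hLV.trans hV
  have a := (ind_mem_irr_of_inertia LT hT nL hφ i hψ o).1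
  rw [← res_res hV, cf_eq_sum (res_mem_cf hT (cf_of_irr a)), map_sum, ip_sum_left,
    Finset.sum_eq_single_of_mem ψ hψ fun η hη ne => ?_, map_smul, ip_smul_left,
    ← ip_res_ind (cf_of_irr hψ) (cf_of_irr a), ip_irr_self a, one_mul]
  rw [map_smul, ip_smul_left]
  by_contra e
  have b : Ov L η φ := Ov.trans hLV hV (chars_of_irr hη) hζ (chars_of_irr hφ)
    (right_ne_zero_of_mul e) o'
  have c := left_ne_zero_of_mul e
  rw [← ip_res_ind (cf_of_irr hη) (cf_of_irr a)] at c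
  refine ne (cliff_inj LT hT nL hφ i hη b hψ o ?_)
  by_contra ne'
  exact c (ip_irr_ne a (ind_mem_irr_of_inertia LT hT nL hφ i hη b).1 (Ne.symm ne'))

theorem Isa.over (h : Isa G K L H S) (hc : (Nat.card S).Coprime (Nat.card G)) (hφ : φ ∈ irr L)
    (i : S ≤ stabf φ) :
    BiRel (fun χ => (χ ∈ irr G ∧ Ov L χ φ) ∧ S ≤ stabf χ)
      (fun χ => (χ ∈ irr H ∧ Ov L χ φ) ∧ S ≤ stabf χ) (Gl 2 H) := by
  have Lφ := le_stabf_of_cf (cf_of_irr hφ)
  have n := i.trans (Subgroup.le_normalizer (H := stabf φ))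
  have d : Nat.card (G ⊓ stabf φ : Subgroup Γ) ∣ Nat.card G := Subgroup.card_dvd_of_le inf_le_left
  have h' : Isa (G ⊓ stabf φ) (K ⊓ stabf φ) L (H ⊓ stabf φ) S := ⟨le_inf h.LK Lφ,
    inf_le_inf_right _ h.KG, le_inf h.LH Lφ, inf_le_inf_right _ h.HG,
    le_norm_inf (inf_le_left.trans h.nK) (inf_le_right.trans Subgroup.le_normalizer),
    inf_le_left.trans h.nL, le_norm_inf h.SG n, le_norm_inf h.SK n, h.SL,
    fun a ha b hb => h.ab a ha.1 b hb.1, h.odd.of_dvd_nat d,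
    (H1.cop_of_coprime (le_norm_inf h.SG n) (hc.coprime_dvd_right d)).comm_sup.ge.trans
      (sup_le_sup (le_inf (Subgroup.commutator_le.2 fun g hg s hs => by
        obtain ⟨k, hk, y, hy, rfl⟩ := (mem_sup_iff_of_le_normalizer (h.HG.trans h.nK)).1
          (h.sup hg.1)
        exact (comm_mul_left hk (h.SK hs)).2 (by
          simpa [mul_assoc] using K.inv_mem (h.LK (h.hH s hs y hy))))
        ((H18.comm_le_left (le_norm_inf h.SG n)).trans inf_le_right))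
      (le_inf ((inf_le_inf_right _ inf_le_left).trans h.cent_le) (inf_le_left.trans inf_le_right))),
    fun s hs x hx => h.hH s hs x hx.1, fun k hk => h.fp k hk.1⟩
  refine (cliff_birel (h.LK.trans h.KG) h.nL h.SG h.SL hφ i).transfer
    (cliff_birel h.LH (h.HG.trans h.nL) h.SH h.SL hφ i) (fun χ ψ ξ ζ a b c d e e' => ?_)
    (h'.inv (hc.coprime_dvd_right d) hφ inf_le_right i)
  refine gl_iff_of_eq ?_
  rw [← e', ← ip_cliff h'.LH h'.HG inf_le_left h.nL hφ le_rfl b.1.1 b.1.2 d.1.1 d.1.2, e,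
    ip_res_ind (cf_of_irr d.1.1) (res_mem_cf h.HG (cf_of_irr a.1.1)), res_res inf_le_left]

omit [Fintype Γ] in
theorem exists_cent_cjf [Finite Γ] (SG : S ≤ Subgroup.normalizer (G : Set Γ))
    (hc : (Nat.card S).Coprime (Nat.card G)) (i : S ≤ stabf φ) {g : Γ} (hg : g ∈ G)
    (i' : S ≤ stabf (cjf g φ)) :
    ∃ c ∈ G ⊓ Subgroup.centralizer (S : Set Γ), cjf c φ = cjf g φ := by
  obtain ⟨u, hu, c, hc', rfl⟩ := H18.pprod_trans_coprime
    (U := Subgroup.normalizer (G : Set Γ) ⊓ stabf φ) inf_le_left (le_inf SG i) hc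
    (H1.solv_or_of_coprime hc) (Subgroup.mem_sup_left hg) fun x hx => by
      obtain ⟨y, hy, rfl⟩ := H18.mem_cj'.1 hx
      refine ⟨Subgroup.mul_mem _ (Subgroup.mul_mem _ (Subgroup.le_normalizer hg) (SG hy))
        (Subgroup.inv_mem _ (Subgroup.le_normalizer hg)), ?_⟩
      change cjf _ _ = _
      rw [cjf_mul, cjf_mul, mem_stabf.1 (i' hy), cjf_inv_cjf]
  exact ⟨c, hc', by rw [cjf_mul, mem_stabf.1 hu.2]⟩

theorem Isa.birel (h : Isa G K L H S) (hc : (Nat.card S).Coprime (Nat.card G)) :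
    BiRel (fun χ => χ ∈ irr G ∧ S ≤ stabf χ) (fun χ => χ ∈ irr H ∧ S ≤ stabf χ) (Gl 2 H) := by
  have LG := h.LK.trans h.KG
  have un : ∀ U ≤ G, L ≤ U → S ≤ Subgroup.normalizer (U : Set Γ) → ∀ χ ∈ irr U, S ≤ stabf χ →
      ∃ φ ∈ irr L, S ≤ stabf φ ∧ Ov L χ φ := fun U a b c χ d e => by
    haveI := normal_subgroupOf_of_le_normalizer (a.trans h.nL)
    haveI := H1.solv_of_odd (h.odd.of_dvd_nat (Subgroup.card_dvd_of_le a))
    exact exists_invariant_under b (a.trans h.nL) h.SL c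
      ((hc.coprime_dvd_left (relIndex_dvd_right _ _)).coprime_dvd_right
      ((relIndex_dvd_right _ _).trans (Subgroup.card_dvd_of_le a))) (Or.inr inferInstance) d e
  have tr : ∀ χ ∈ irr G, ∀ ψ ∈ irr H, ∀ φ ∈ irr L, Gl 2 H χ ψ → Ov L ψ φ → Ov L χ φ :=
    fun χ a ψ b φ c g => Ov.trans h.LH h.HG (chars_of_irr a) b (chars_of_irr c) g.ip_ne_zero
  refine ⟨fun χ a => ?_, fun ψ a => ?_⟩
  · obtain ⟨φ, b1, b2, b3⟩ := un G le_rfl LG h.SG χ a.1 a.2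
    obtain ⟨ψ, ⟨⟨c1, c2⟩, c3⟩, c4⟩ := (h.over hc b1 b2).1 χ ⟨⟨a.1, b3⟩, a.2⟩
    refine ⟨ψ, ⟨⟨c1.1, c2⟩, c3⟩, fun ξ e => c4 ξ ⟨⟨⟨e.1.1, ?_⟩, e.1.2⟩, e.2⟩⟩
    obtain ⟨φ', d1, d2, d3⟩ := un H h.HG h.LH h.SH ξ e.1.1 e.1.2
    obtain ⟨g, hg, rfl⟩ := exists_cjf_of_constituents LG h.nL a.1 d1 b1
      (tr χ a.1 ξ e.1.1 φ' d1 e.2 d3) b3
    obtain ⟨c, hc', e'⟩ := exists_cent_cjf h.SG hc d2 hg b2
    exact e' ▸ d3.cjf_right (h.HG.trans h.nL) e.1.1 (h.cent_le hc')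
  · obtain ⟨φ, b1, b2, b3⟩ := un H h.HG h.LH h.SH ψ a.1 a.2
    obtain ⟨χ, ⟨⟨c1, c2⟩, c3⟩, c4⟩ := (h.over hc b1 b2).2 ψ ⟨⟨a.1, b3⟩, a.2⟩
    exact ⟨χ, ⟨⟨c1.1, c2⟩, c3⟩, fun ξ e =>
      c4 ξ ⟨⟨⟨e.1.1, tr ξ e.1.1 ψ a.1 φ b1 e.2 b3⟩, e.1.2⟩, e.2⟩⟩

end H8
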