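import Cfsg.Agent.H17.FStar
import Cfsg.Agent.H9.IsoP
import Cfsg.Agent.H3.BG4a
import Cfsg.Agent.H18.BG1
import Cfsg.Agent.H18.Rank

/-! A non-central isolated element of odd prime order `p` in a group of `p`-rank at most two with `O_{p'} = 1`:
`F*(G)` is simple (`H8.red`), modulo a statement on perfect groups; `iso_tr` (transfer for an abelian Sylow subgroup). -/

set_option autoImplicit false

namespace H8
open Subgroup Cfsg H18
open scoped commutatorElement
universe u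

section
variable {G : Type*} [Group G] [Finite G] {p : ℕ} {L P : Subgroup G} {z : G}

theorem iso_tr (hp : p.Prime) (hP : Hall {p} P L) (ab : Abel P) (hL : ⁅L, L⁆ = L) (hz : z ∈ P) (h : z ∈ C(L ⊓ N(P))) :
    z = 1 := by
  haveI : IsMulCommutative P := ⟨⟨fun a b => Subtype.ext (comm_of_cent ab a.2 b.2)⟩⟩
  have e := hP.der_inf_abel hp ab
  rw [hL, inf_eq_right.2 hP.1] at e
  exact eq_one_of_eq_bot (H3.fitting_inf_eq_bot (A := P) (H := L ⊓ N(P)) inf_le_right
    (PiNat.coprime hP.2 ((hP.of_le (le_inf hP.1 le_N) inf_le_left).idx_of_le ab))) (mem_inf.2 ⟨e ▸ hz, h⟩)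

theorem iso_cyc (hp : p.Prime) (h2 : p ≠ 2) (hr : PRankLE p 2 G) (hP : PiGrp {p} P) (hz : z ^ p = 1) (zc : z ∈ C(P))
    (zP : z ∉ P) : Cyc P := by
  obtain ⟨k, hk⟩ := hP.card_eq_pow
  refine H3.odd_pgroup_rank1_cyclic hp hP (hk ▸ (hp.odd_of_ne_two h2).pow) (not_lt.1 fun c => ?_)
  obtain ⟨A, hA⟩ := exists_pelem_of_lt hp c
  have := ((hA.top.sup_elt hp (mem_top z) hz (C_anti hA.1 zc) fun e => zP (hA.1 e)).le_prank hp).trans
    ((prank_top_le_iff hp).2 hr)
  omega

end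

theorem red {G : Type u} [Group G] [Finite G] {p : ℕ} [Fact p.Prime] (hp : p ≠ 2) (hcore : Cfsg.pPrimeCore p G = ⊥)
    (hrank : Cfsg.PRankLE p 2 G) (x : G) (hx : orderOf x = p) (hiso : Cfsg.IsIsolated x) (hnc : x ∉ Subgroup.center G)
    (ML : ∀ (L : Type u) [Group L] [Finite L], commutator L = ⊤ → Cfsg.PRankLE p 2 L → ∀ l : L, l ≠ 1 →
      (∃ k, l ^ p ^ k = 1) → Cfsg.IsIsolated l → ∀ z ∈ Subgroup.center L, z ≠ 1 → z ^ p = 1 → l ∈ Subgroup.center L) :
    IsSimpleGroup ↥(Cfsg.generalizedFittingSubgroup G) ∧ ¬ IsMulCommutative ↥(Cfsg.generalizedFittingSubgroup G) ∧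
      (x ∈ Cfsg.generalizedFittingSubgroup G ∨ ∀ P : Sylow p ↥(Cfsg.generalizedFittingSubgroup G),
        IsCyclic ↥(P : Subgroup ↥(Cfsg.generalizedFittingSubgroup G))) := by
  have pp : p.Prime := Fact.out
  have xp : x ^ p = 1 := hx ▸ pow_orderOf_eq_one x
  have px : PiElt {p} x := piElt_of_pow_eq_one pp xp
  have ct : ∀ S : Subgroup G, PiGrp {p} S → x ∈ S → x ∈ C(S) := fun S h1 h2 =>
    mem_C.2 fun g hg => H9.iso_commute_of_mem hiso h1.isPGroup h2 hg
  have oq : H17.oQ p (⊤ : Subgroup G) = ⊥ := (H17.oQ_top p).trans hcore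
  have pF : PiGrp {p} (H17.fit (⊤ : Subgroup G)) :=
    piGrp_of_isPGroup pp (H17.fit_eq_oP_of_oQ_eq_bot oq ▸ H17.oP_pgroup p ⊤)
  have nF : (⊤ : Subgroup G) ≤ N(H17.fit ⊤) := H17.le_normalizer_fit ⊤
  have xF : x ∈ C(H17.fit (⊤ : Subgroup G)) := C_anti le_sup_right (ct _ (px.zpowers.sup_norm pF (le_top.trans nF))
    (mem_sup_left (mem_zpowers x)))
  have dv : ∀ K, H17.IsComp K (⊤ : Subgroup G) → p ∣ Nat.card K := fun K hK => by
    by_contra c
    exact hK.ne_bot (eq_bot_iff.2 (oq ▸ hK.subn.le_oQ c))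
  obtain ⟨L, hL, xL⟩ : ∃ L, H17.IsComp L (⊤ : Subgroup G) ∧ x ∉ C(L) := by
    by_contra! c
    have x1 : x ∈ H17.fit (⊤ : Subgroup G) := H17.centralizer_gfit_le_fit ⊤ (mem_inf.2 ⟨mem_top x, by
      rw [H17.gfit_eq]
      exact zpowers_le.1 (cent_symm (sup_le (H17.lay_le_iff.2 fun K hK => cent_symm (zpowers_le.2 (c K hK)))
        (cent_symm (zpowers_le.2 xF))))⟩)
    exact hnc (mem_center_iff.2 fun g => mul_inv_eq_iff_eq_mul.1
      (hiso g (mem_C.1 xF _ (conj_mem nF (mem_top g) x1)).symm))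
  have xN : x ∈ N(L) := by
    obtain ⟨S, hS, le⟩ := exists_sylow_le pp px.zpowers le_top
    have xS := ct S hS.2 (le (mem_zpowers x))
    have hP := (hS.inf_nml (K := H17.lay ⊤) ⟨le_top, H17.le_normalizer_lay ⊤⟩).inf_nml (K := L)
      ⟨hL.le_lay, hL.lay_le_normalizer⟩
    refine H17.mem_normalizer_iff_cj.2 (((hL.cj_of_mem_normalizer (g := x) (by simp)).eq_or_commutator hL).resolve_right
      fun e => hP.ne_bot_p pp (dv L hL) (eq_bot_iff.2 fun y hy => ?_))
    have le : S ⊓ H17.lay ⊤ ⊓ L ≤ C(L) := fun y hy => comm_eq_bot_iff.1 e (by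
      have := H17.conj_mem_cj (g := x) hy.2
      rwa [← mem_C.1 xS y hy.1.1, mul_inv_cancel_right] at this)
    exact iso_tr pp hP (le.trans (C_anti hP.1)) hL.perfect hy (C_anti inf_le_left (le hy))
  have nL : L ⊴ N(L) := ⟨le_N, le_rfl⟩
  have nC : C(L) ⊴ N(L) := ⟨C_le_N, N_le_N_C⟩
  have key : ¬ p ∣ Nat.card C(L) ∧ (x ∈ L ∨ ∃ P, Hall {p} P L ∧ Cyc P) := by
    by_cases c : x ∈ L ⊔ C(L)
    · obtain ⟨l₀, l1, c₀, c1, e⟩ := (mem_sup_of_cent (cent_symm le_rfl)).1 c
      obtain ⟨l, hl, pl, d, hd, pd, e⟩ : ∃ l ∈ L, PiElt {p} l ∧ ∃ d ∈ C(L), PiElt {p} d ∧ x = l * d :=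
        ⟨_, piPart_mem l1, piElt_piPart, _, piPart_mem c1, piElt_piPart, by
          rw [← piPart_mul (mem_C.1 c1 _ l1), ← e, piPart_eq_self px]⟩
      have lC : l ∉ C(L) := fun k => xL (e ▸ mul_mem k hd)
      have il : ∀ g ∈ L, Commute l (g * l * g⁻¹) → g * l * g⁻¹ = l := fun g hg k => by
        have e1 : g * x * g⁻¹ = g * l * g⁻¹ * d := by rw [e, ← mul_assoc, mul_assoc _ d, ← mem_C.1 hd _ (inv_mem hg), mul_assoc _ _ d, ← mul_assoc]
        have k1 : Commute (g * l * g⁻¹) d := mem_C.1 hd _ (conj_mem le_N hg hl)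
        have k2 : Commute l d := mem_C.1 hd _ hl
        have := hiso g (by rw [e1, e]; exact (k.mul_right k2).mul_left (k1.symm.mul_right (Commute.refl d)))
        rw [e1, e] at this
        exact mul_right_cancel this
      obtain ⟨S, hS, le⟩ := exists_sylow_le pp (pl.zpowers.sup_norm pd.zpowers (cent_norm (cent_symm
        ((zpowers_le.2 hd).trans (C_anti (zpowers_le.2 hl)))))) (sup_le (zpowers_le.2 (le_N hl)) (zpowers_le.2 (C_le_N hd)))
      have lS : l ∈ S := le (mem_sup_left (mem_zpowers l))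
      have dS : d ∈ S := le (mem_sup_right (mem_zpowers d))
      have hP := hS.inf_nml nL
      have hD := hS.inf_nml nC
      have D0 : S ⊓ C(L) = ⊥ := by
        by_contra k
        obtain ⟨z, z1, z2, z3⟩ : ∃ z ∈ S ⊓ C(L), z ≠ 1 ∧ z ^ p = 1 := by
          obtain ⟨z, z1, z2⟩ := H17.exists_orderOf_of_ne_bot hD.2.isPGroup k
          exact ⟨z, z1, fun e => pp.one_lt.ne' (by rw [← z2, e, orderOf_one]), z2 ▸ pow_orderOf_eq_one z⟩
        have zL : z ∉ L := fun zL => by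
          obtain ⟨k, hk⟩ := pl.zpowers.card_eq_pow
          have := ML L (map_injective L.subtype_injective (by
              rw [map_subtype_commutator, hL.perfect, ← MonoidHom.range_eq_map, range_subtype]))
            ((prank_le_iff pp).1 ((prank_mono pp le_top).trans ((prank_top_le_iff pp).2 hrank))) ⟨l, hl⟩
            (fun e => lC (by rw [show l = 1 from congrArg Subtype.val e]; exact one_mem _))
            ⟨k, Subtype.ext (by rw [← hk, Nat.card_zpowers]; exact pow_orderOf_eq_one l)⟩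
            (fun g k => Subtype.ext (il g g.2 (congrArg Subtype.val k))) ⟨z, zL⟩
            (mem_center_iff.2 fun g => Subtype.ext (mem_C.1 z1.2 g g.2)) (fun e => z2 (congrArg Subtype.val e))
            (Subtype.ext z3)
          exact lC (mem_C.2 fun g hg => congrArg Subtype.val (mem_center_iff.1 this ⟨g, hg⟩))
        have cy := iso_cyc pp hp hrank hP.2 z3 (C_anti inf_le_right z1.2) fun k => zL k.2
        have lP : l ∈ S ⊓ L := mem_inf.2 ⟨lS, hl⟩
        exact lC (by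
          rw [iso_tr pp hP cy.abel hL.perfect lP (mem_C.2 fun g hg => mul_inv_eq_iff_eq_mul.1
            (il g hg.1 (comm_of_cent cy.abel lP (conj_mem_N hg.2 lP))))]
          exact one_mem _)
      refine ⟨fun k => hD.ne_bot_p pp k D0, .inl ?_⟩
      rw [e, eq_one_of_eq_bot D0 (mem_inf.2 ⟨dS, hd⟩), mul_one]
      exact hl
    obtain ⟨S, hS, le⟩ := exists_sylow_le pp px.zpowers (zpowers_le.2 xN)
    have xS := ct S hS.2 (le (mem_zpowers x))
    have hP := hS.inf_nml nL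
    have hD := hS.inf_nml nC
    have l1 : S ⊓ L ⊔ S ⊓ C(L) ≤ S := sup_le inf_le_left inf_le_left
    have cy := iso_cyc pp hp hrank (hS.2.of_le l1) xp (C_anti l1 xS) fun k =>
      c ((sup_le_sup inf_le_right inf_le_right : S ⊓ L ⊔ S ⊓ C(L) ≤ _) k)
    refine ⟨fun k => ?_, .inr ⟨_, hP, cy.of_le le_sup_left⟩⟩
    obtain ⟨z, z1, z2⟩ := exists_mem_ne_one' (cy.inf_ne_bot (hS.2.of_le l1) le_sup_left le_sup_right
      (hP.ne_bot_p pp (dv L hL)) (hD.ne_bot_p pp k))
    exact z2 (iso_tr pp hP (cy.of_le le_sup_left).abel hL.perfect z1.1 (C_anti inf_le_left z1.2.2))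
  have F0 : H17.fit (⊤ : Subgroup G) = ⊥ := by
    by_contra k
    exact key.1 ((pF.dvd_card k).trans (card_dvd_of_le (cent_symm (hL.le_lay.trans
      (comm_eq_bot_iff.1 (H17.commutator_lay_fit ⊤))))))
  have E : generalizedFittingSubgroup G = L := by
    rw [← H17.gfit_top, H17.gfit_eq, F0, sup_bot_eq]
    exact le_antisymm (H17.lay_le_iff.2 fun K hK => ((hK.eq_or_commutator hL).resolve_right fun e =>
      key.1 ((dv K hK).trans (card_dvd_of_le (comm_eq_bot_iff.1 e)))).le) hL.le_lay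
  rw [E]
  obtain ⟨s1, s2⟩ := H17.isSimpleGroup_of_qs hL.qs (eq_bot_iff.2 (F0 ▸ hL.subn.inf_centralizer_le_fit))
  refine ⟨s1, s2, key.2.imp_right fun ⟨P, hP, cy⟩ Q => ?_⟩
  obtain ⟨T, rfl⟩ := hP.exists_sylow pp
  have : IsCyclic ((T : Subgroup L).map L.subtype) := cy
  haveI := isCyclic_of_surjective _ ((T : Subgroup L).equivMapOfInjective _ L.subtype_injective).symm.surjective
  exact isCyclic_of_surjective _ (T.equiv Q).surjective

end H8
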