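import Cfsg.Agent.H15.Kl0
import Cfsg.Agent.S0958
import Cfsg.Agent.S4652
import Cfsg.Agent.S0936
import Cfsg.Agent.S4646
import Cfsg.Agent.S4691

/-! Piece `PB` of S4606: blocks with `k(B) = l(B) + 1`, conjugacy in the defect group and the principal block. -/
set_option autoImplicit false
namespace H8.KlB
open Subgroup Cfsg H15.Kl
open scoped commutatorElement
universe u

theorem exb {G : Type u} [Group G] [Finite G] (p : ℕ) [Fact p.Prime] (M : Ideal AlgInt) (hM : IsPModular p M)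
    (B : Set (IrrCharacter G)) (hB : IsPBlock M B) (D : Subgroup G) (hD : IsDefectGroup p M B D) (hp : IsPGroup p D)
    (x : G) (hx : x ∈ D) : ∃ b, IsInducedBlock M (centralizer ({x} : Set G)) b B := by
  have hle : zpowers x ≤ D := by rwa [zpowers_le]
  have hc : ∀ y, y ∈ centralizer ({x} : Set G) ↔ Commute x y := fun y => by
    rw [mem_centralizer_singleton_iff]; exact ⟨fun h => h.symm, fun h => h.symm⟩
  refine (Cfsg.Agent.S0958.result p M hM (zpowers x) _ (hp.to_le hle) ?_ ?_ B hB).2 ⟨D, hD, 1, ?_⟩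
  · refine sup_le ?_ fun y hy => ?_
    · rw [zpowers_le, hc]
    · rw [hc]; exact hy x (mem_zpowers x)
  · refine le_trans (fun y hy => ?_) (centralizer_le_normalizer _)
    rintro _ ⟨k, rfl⟩
    exact (((hc y).1 hy).zpow_left k).eq
  · rintro _ ⟨y, hy, rfl⟩
    simpa using hle hy

theorem ordp {G : Type u} [Group G] [Finite G] {p : ℕ} [Fact p.Prime] {D : Subgroup G} (hp : IsPGroup p D) {x : G}
    (hx : x ∈ D) : ∃ k, orderOf x = p ^ k := by
  obtain ⟨k, hk⟩ := (IsPGroup.iff_orderOf.1 hp) ⟨x, hx⟩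
  exact ⟨k, by rw [← hk, orderOf_mk]⟩

theorem cmp {H : Type u} [Group H] [Finite H] {p : ℕ} [hp : Fact p.Prime] (h : HasNormalPComplement p H) (g y : H)
    (hg : ¬ p ∣ orderOf g) : ¬ p ∣ orderOf ⁅g, y⁆ := by
  obtain ⟨P, N, hN, hc⟩ := h
  obtain ⟨k, hk⟩ := IsPGroup.iff_card.1 P.isPGroup'
  have hi : N.index = p ^ k := by rw [hc.symm.index_eq_card, hk]
  have hcN : ¬ p ∣ Nat.card N := by rw [← hc.index_eq_card]; exact P.not_dvd_index
  have gN : g ∈ N := by
    have h1 : g ^ p ^ k ∈ N := hi ▸ N.pow_index_mem g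
    have hco : (p ^ k).Coprime (orderOf g) := (hp.out.coprime_iff_not_dvd.2 hg).pow_left k
    obtain ⟨m, hm⟩ := exists_pow_eq_self_of_coprime hco
    exact hm ▸ pow_mem h1 m
  have cN : ⁅g, y⁆ ∈ N := by
    rw [commutatorElement_def, show g * y * g⁻¹ * y⁻¹ = g * (y * g⁻¹ * y⁻¹) by group]
    exact mul_mem gN (hN.conj_mem _ (inv_mem gN) y)
  exact fun hd => hcN (hd.trans (N.orderOf_dvd_natCard cN))

theorem pB (hA : PA.{u}) : PB.{u} := by
  intro G _ _ p _ M hM B hB D hD hk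
  have hp : IsPGroup p D := by
    obtain ⟨g, -, P, rfl⟩ := hD
    exact P.isPGroup'.map _
  refine ⟨hp, fun x hx y hy x1 y1 => ?_, ?_⟩
  · obtain ⟨b, hb⟩ := exb p M hM B hB D hD hp x hx
    obtain ⟨b', hb'⟩ := exb p M hM B hB D hD hp y hy
    exact (hA G p M hM B hB hk x y x1 y1 (ordp hp hx) (ordp hp hy) b b' hb hb').1
  · rintro rfl
    haveI := Fintype.ofFinite G
    refine ⟨fun x g y x1 hx hg hy ho => ?_, (Cfsg.Agent.S4652.result p M hM D).1 hD⟩
    have hz : IsPGroup p (zpowers x) := by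
      obtain ⟨k, hk⟩ := hx
      rintro ⟨_, ⟨m, rfl⟩⟩
      refine ⟨k, Subtype.ext ?_⟩
      show (x ^ m) ^ p ^ k = 1
      rw [← zpow_natCast, ← zpow_mul, mul_comm, zpow_mul, zpow_natCast, hk, one_zpow]
    obtain ⟨S, hS⟩ := hz.exists_le_sylow
    have xS : x ∈ (S : Subgroup G) := hS (mem_zpowers x)
    have hSD := (Cfsg.Agent.S4652.result p M hM (S : Subgroup G)).2 ⟨S, rfl⟩
    obtain ⟨b, hb⟩ := exb p M hM _ hB _ hSD S.isPGroup' x xS
    have r1 := (hA G p M hM _ hB hk x x x1 x1 (ordp S.isPGroup' xS) (ordp S.isPGroup' xS) b b hb hb).2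
    have e := (Cfsg.Agent.S0936.result p M hM _ b ⟨_, hb⟩).1 hb
    rw [e] at r1
    haveI := Fintype.ofFinite (centralizer ({x} : Set G))
    have hN := (Cfsg.Agent.S4691.result p M hM).2 ((Cfsg.Agent.S4646.result p M hM).2 r1)
    have gC : g ∈ centralizer ({x} : Set G) := mem_centralizer_singleton_iff.2 hg.eq.symm
    have yC : y ∈ centralizer ({x} : Set G) := mem_centralizer_singleton_iff.2 hy.eq.symm
    have := cmp hN ⟨g, gC⟩ ⟨y, yC⟩ (by rwa [orderOf_mk])
    rwa [← orderOf_coe] at this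

end H8.KlB
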