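import Cfsg.Agent.H3.VnB

/-! S4591, the inclusion `Y`: a normal subgroup in all kernels of `p'`-degree characters lies in `N P'`. -/
set_option autoImplicit false
namespace H8.KpY
open Subgroup Cfsg H5 H6
open scoped commutatorElement Pointwise

variable {G : Type*} [Group G] [Finite G]

theorem lin (p : ℕ) [hp : Fact p.Prime] (P : Sylow p G) (K : Subgroup G)
    (hK : ∀ χ, IsIrrCharacter G χ → ¬ p ∣ charDegree χ → K ≤ charKer χ) (H : Subgroup G)
    (hH : (P : Subgroup G) ≤ H) {c : G} (cK : c ∈ K) (cH : c ∈ H) : c ∈ ⁅H, H⁆ := by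
  classical
  haveI := Fintype.ofFinite G
  have : (⟨c, cH⟩ : H) ∈ commutator H := by
    by_contra hc
    obtain ⟨lam, -, h2⟩ := H8.exists_lin_ne_one le_rfl hc
    have h5 := isIrrCharacter_hom lam
    obtain ⟨χ, h7, h8⟩ := H8.exists_constituent_not_dvd (isCharacter_ind _ h5.isCharacter) (n := p) (by
      rw [H8.deg_ind h5.isCharacter, H8.charDegree_of_eq (n := 1) (by simp), mul_one]
      exact fun e => P.not_dvd_index (e.trans (index_dvd_of_le hH)))
    rw [inner_ind_left _ _ χ.2.isClassFunction, Ne, classInner_eq_zero_comm] at h7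
    have := apply_eq_of_mem_charKer (H8.ker_le_of_constituent χ.2.isCharacter h5 h7
      (x := ⟨c, cH⟩) (hK _ χ.2 h8 cK))
    exact h2 (Units.ext (by simpa using this))
  have h := mem_map_of_mem H.subtype this
  rwa [map_subtype_commutator] at h

theorem pY (p : ℕ) [hp : Fact p.Prime] (P : Sylow p G) (N : Subgroup G)
    (hmax : ∀ L : Subgroup G, L.Normal → L ⊓ centralizer ((P : Subgroup G) : Set G) = ⊥ → L ≤ N)
    (K : Subgroup G) [K.Normal] (hK : ∀ χ, IsIrrCharacter G χ → ¬ p ∣ charDegree χ → K ≤ charKer χ) :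
    K ≤ N ⊔ ⁅(P : Subgroup G), (P : Subgroup G)⁆ := by
  have nV : (pResidualOf p K).Normal := H3.map_subtype_pResidual_normal K
  have le : pResidualOf p K ≤ K := map_subtype_le _
  have hd : ¬ p ∣ Nat.card (pResidualOf p K) := fun hd => by
    have e : pResidual p (pResidualOf p K) = ⊤ := by
      rw [H26.pResidual_eq_subgroupOf, H26.pResidualOf_pResidualOf, subgroupOf_self]
    obtain ⟨ψ, h1, h2, h3⟩ := H8.berkovich e hd
    exact h2 (le.trans (hK ψ h1 h3))
  have hVN : pResidualOf p K ≤ N := by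
    refine hmax _ nV (eq_bot_iff.2 ?_)
    rintro c ⟨cV, cC⟩
    have hz : zpowers c ≤ centralizer ((P : Subgroup G) : Set G) := by rwa [zpowers_le]
    have h1 := lin p P K hK ((P : Subgroup G) ⊔ zpowers c) le_sup_left (le cV) (mem_sup_right (mem_zpowers c))
    have h2 : ⁅(P : Subgroup G) ⊔ zpowers c, (P : Subgroup G) ⊔ zpowers c⁆ ≤ (P : Subgroup G) := by
      rw [commutator_le]
      intro a ha b hb
      rw [← SetLike.mem_coe, coe_mul_of_right_le_normalizer_left _ _ (hz.trans (centralizer_le_normalizer _))] at ha hb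
      obtain ⟨u, hu, _, ⟨k, rfl⟩, rfl⟩ := ha
      obtain ⟨v, hv, _, ⟨l, rfl⟩, rfl⟩ := hb
      have cu : Commute u c := cC u hu
      have cv : Commute v c := cC v hv
      have e : ⁅u * c ^ k, v * c ^ l⁆ = ⁅u, v⁆ := by
        have e1 : u * c ^ k * (v * c ^ l) = u * v * c ^ (k + l) := by
          rw [zpow_add, mul_assoc u, ← mul_assoc (c ^ k), ← (cv.zpow_right k).eq]; group
        have e2 : v * c ^ l * (u * c ^ k) = v * u * c ^ (k + l) := by
          rw [add_comm, zpow_add, mul_assoc v, ← mul_assoc (c ^ l), ← (cu.zpow_right l).eq]; group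
        calc ⁅u * c ^ k, v * c ^ l⁆ = u * c ^ k * (v * c ^ l) * (v * c ^ l * (u * c ^ k))⁻¹ := by
              rw [commutatorElement_def]; group
          _ = ⁅u, v⁆ := by rw [e1, e2, commutatorElement_def]; group
      show ⁅u * c ^ k, v * c ^ l⁆ ∈ (P : Subgroup G)
      rw [e, commutatorElement_def]
      exact mul_mem (mul_mem (mul_mem hu hv) (inv_mem hu)) (inv_mem hv)
    obtain ⟨k, hk⟩ := (IsPGroup.iff_orderOf.1 P.isPGroup') ⟨c, h2 h1⟩
    rw [orderOf_mk] at hk
    have h3 := (pResidualOf p K).orderOf_dvd_natCard cV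
    rw [mem_bot, ← orderOf_eq_one_iff]
    cases k with
    | zero => simpa using hk
    | succ k => exact absurd ((hk ▸ dvd_pow_self p k.succ_ne_zero).trans h3) hd
  intro x hx
  let f := QuotientGroup.mk' (pResidualOf p K)
  have hf : Function.Surjective f := QuotientGroup.mk'_surjective _
  have hKp : IsPGroup p (K.map f) := by
    rintro ⟨_, y, hy, rfl⟩
    obtain ⟨k, hk⟩ := H26.exists_pow_mem_pResidualOf (p := p) hy
    exact ⟨k, Subtype.ext (by
      show f y ^ p ^ k = 1
      rw [← map_pow]; exact (QuotientGroup.eq_one_iff _).2 hk)⟩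
  haveI : (K.map f).Normal := Normal.map inferInstance f hf
  have hle : K.map f ≤ (P.mapSurjective hf : Subgroup _) := hKp.le_sylow_of_normal _
  obtain ⟨u, hu, e⟩ := hle (mem_map_of_mem f hx)
  have hv : x * u⁻¹ ∈ pResidualOf p K := by
    rw [← QuotientGroup.eq_one_iff]
    show f (x * u⁻¹) = 1
    rw [map_mul, map_inv, ← e]; simp
  have uK : u ∈ K := by
    have := mul_mem (inv_mem (le hv)) hx
    simpa using this
  have := mul_mem (mem_sup_left (hVN hv)) (mem_sup_right (S := N) (lin p P K hK P le_rfl uK hu))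
  simpa using this

end H8.KpY
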