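import Cfsg.Agent.H5.Char
import Mathlib.RingTheory.Valuation.LocalSubring
import Mathlib.RingTheory.Flat.TorsionFree
import Mathlib.RingTheory.LocalRing.Module
import Mathlib.RingTheory.Localization.Module
import Mathlib.LinearAlgebra.Matrix.ToLin
import Mathlib.Algebra.Field.ZMod
import Mathlib.Algebra.Algebra.ZMod
import Mathlib.GroupTheory.PGroup
import Mathlib.FieldTheory.Finiteness

/-! Lattices. For a valuation subring `𝒪` of `ℂ` every character is the trace of a matrix
representation over `𝒪` (`exists_lat`); there is such an `𝒪` with a given prime `p` in its maximal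
ideal (`exists_valSub`); over a field of characteristic `p` the sum of the matrices of a `p`-group
of order larger than the degree vanishes (`sum_pgroup_eq_zero`); free decomposition of sums over
unions of double cosets (`sum_free_dc`). -/

open Module Cfsg H5

namespace H8

theorem exists_valSub (p : ℕ) (hp : p.Prime) :
    ∃ 𝒪 : ValuationSubring ℂ, (p : 𝒪) ∈ IsLocalRing.maximalIdeal 𝒪 := by
  let A : Subring ℂ := ⊥
  have hI : Ideal.span {(p : A)} ≠ ⊤ := by
    rw [Ne, Ideal.span_singleton_eq_top]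
    intro h
    obtain ⟨b, hb⟩ := h.exists_right_inv
    obtain ⟨n, hn⟩ := Subring.mem_bot.1 b.2
    have h1 : (p : ℂ) * n = 1 := by
      rw [hn]; exact_mod_cast congrArg Subtype.val hb
    have h2 : (p : ℤ) * n = 1 := by exact_mod_cast h1
    have := Int.isUnit_iff_natAbs_eq.1 (IsUnit.of_mul_eq_one _ h2)
    exact hp.one_lt.ne' (by simpa using this)
  obtain ⟨B, hB, h⟩ := Ideal.image_subset_nonunits_valuationSubring _ hI
  refine ⟨B, ?_⟩
  have : (p : ℂ) ∈ B.nonunits := h ⟨(p : A), Ideal.mem_span_singleton_self _, by simp⟩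
  rw [← ValuationSubring.coe_mem_nonunits_iff]
  simpa using this

theorem exists_lat {G : Type*} [Group G] [Finite G] (𝒪 : ValuationSubring ℂ) {χ : G → ℂ}
    (h : IsCharacter G χ) : ∃ (n : ℕ) (R : G →* Matrix (Fin n) (Fin n) 𝒪),
      ∀ g, ((R g).trace : ℂ) = χ g := by
  classical
  obtain ⟨m, ρ, rfl⟩ := h
  let S : Set (Fin m → ℂ) := Set.range fun x : G × Fin m => ρ x.1 (Pi.single x.2 1)
  let L : Submodule 𝒪 (Fin m → ℂ) := Submodule.span 𝒪 S
  haveI : Module.Finite 𝒪 L := Module.Finite.span_of_finite _ (Set.finite_range _)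
  haveI : Module.Flat 𝒪 L := by
    rw [Module.Flat.flat_iff_torsion_eq_bot_of_isBezout, eq_bot_iff]
    rintro x ⟨⟨a, ha⟩, hx⟩
    have h1 : (a : ℂ) • (x : Fin m → ℂ) = 0 := congrArg Subtype.val hx
    have h2 : (a : ℂ) ≠ 0 := fun h => nonZeroDivisors.ne_zero ha (Subtype.ext h)
    exact Subtype.ext ((smul_eq_zero.1 h1).resolve_left h2)
  haveI : Module.Free 𝒪 L := Module.free_of_flat_of_isLocalRing
  let b := Module.finBasis 𝒪 L
  set n := finrank 𝒪 L
  have hli : LinearIndependent ℂ fun i => (b i : Fin m → ℂ) :=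
    (LinearIndependent.iff_fractionRing 𝒪 ℂ).1 (b.linearIndependent.map' L.subtype L.ker_subtype)
  have hsp : ⊤ ≤ Submodule.span ℂ (Set.range fun i => (b i : Fin m → ℂ)) := by
    have h1 : ∀ x : L, (x : Fin m → ℂ) ∈ Submodule.span ℂ (Set.range fun i => (b i : Fin m → ℂ)) := by
      intro x
      rw [← b.sum_repr x]
      push_cast
      exact Submodule.sum_mem _ fun i _ =>
        Submodule.smul_mem _ ((b.repr x i : 𝒪) : ℂ) (Submodule.subset_span ⟨i, rfl⟩)
    rw [← (Pi.basisFun ℂ (Fin m)).span_eq, Submodule.span_le]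
    rintro _ ⟨i, rfl⟩
    refine h1 ⟨_, Submodule.subset_span ⟨(1, i), ?_⟩⟩
    simp
  let c : Basis (Fin n) ℂ (Fin m → ℂ) := Basis.mk hli hsp
  have hc : ∀ i, c i = b i := fun i => Basis.mk_apply hli hsp i
  have hL : ∀ g, ∀ x ∈ L, ρ g x ∈ L := fun g x hx => by
    induction hx using Submodule.span_induction with
    | mem x hx =>
      obtain ⟨y, rfl⟩ := hx
      refine Submodule.subset_span ⟨(g * y.1, y.2), ?_⟩
      simp
    | zero => simp
    | add x y _ _ hx hy => rw [map_add]; exact L.add_mem hx hy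
    | smul a x _ hx =>
      have : ρ g (a • x) = a • ρ g x := map_smul (ρ g) (a : ℂ) x
      rw [this]; exact L.smul_mem a hx
  let r : G →* Module.End 𝒪 L :=
    { toFun := fun g => ((ρ g).restrictScalars 𝒪).restrict (hL g)
      map_one' := by ext x; simp
      map_mul' := fun g h => by ext x : 1; apply Subtype.ext; show ρ (g * h) x = ρ g (ρ h x); simp }
  refine ⟨n, (LinearMap.toMatrixAlgEquiv b).toMonoidHom.comp r, fun g => ?_⟩
  rw [Representation.character, LinearMap.trace_eq_matrix_trace ℂ c]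
  simp only [Matrix.trace, Matrix.diag]
  push_cast
  refine Finset.sum_congr rfl fun i _ => ?_
  show ((LinearMap.toMatrixAlgEquiv b (r g) i i : 𝒪) : ℂ) = _
  rw [LinearMap.toMatrixAlgEquiv_apply, LinearMap.toMatrix_apply, hc]
  have h1 : ρ g (b i) = ∑ j, ((b.repr (r g (b i)) j : 𝒪) : ℂ) • c j := by
    have := congrArg Subtype.val (b.sum_repr (r g (b i)))
    push_cast at this
    simp only [hc]
    exact this.symm
  rw [h1, c.repr_sum_self]

theorem sum_pgroup_eq_zero {k P V : Type*} [Field k] {p : ℕ} [Fact p.Prime] [CharP k p] [Group P]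
    [Fintype P] (hP : IsPGroup p P) [AddCommGroup V] [Module k V] [FiniteDimensional k V]
    (ρ : Representation k P V) (hlt : finrank k V < Nat.card P) : ∑ x, ρ x = 0 := by
  classical
  by_contra hne
  obtain ⟨w, hw⟩ : ∃ w, (∑ x, ρ x) w ≠ 0 := by
    by_contra h
    push Not at h
    exact hne (LinearMap.ext h)
  -- the relations among the `ρ x w`
  let φ : (P → k) →ₗ[k] V := Fintype.linearCombination k fun x => ρ x w
  have hφ : ∀ f, φ f = ∑ x, f x • ρ x w := fun f => Fintype.linearCombination_apply _ _ _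
  have hker : LinearMap.ker φ ≠ ⊥ := by
    apply LinearMap.ker_ne_bot_of_finrank_lt
    rwa [finrank_fintype_fun_eq_card, ← Nat.card_eq_fintype_card]
  obtain ⟨f, hf, hf0⟩ := (Submodule.ne_bot_iff _).1 hker
  letI : Algebra (ZMod p) k := ZMod.algebra k p
  let K : Submodule (ZMod p) (P → k) :=
    Submodule.span (ZMod p) (Set.range fun y : P => fun x => f (y * x))
  haveI : Module.Finite (ZMod p) K := Module.Finite.span_of_finite _ (Set.finite_range _)
  haveI : Finite K := Module.finite_of_finite (ZMod p)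
  have hKinv : ∀ (y : P), ∀ u ∈ K, (fun x => u (y⁻¹ * x)) ∈ K := fun y u hu => by
    induction hu using Submodule.span_induction with
    | mem u hu =>
      obtain ⟨z, rfl⟩ := hu
      exact Submodule.subset_span ⟨z * y⁻¹, by ext x; simp [mul_assoc]⟩
    | zero => exact K.zero_mem
    | add u v _ _ hu hv => exact K.add_mem hu hv
    | smul a u _ hu => exact K.smul_mem a hu
  have hKker : ∀ u ∈ K, φ u = 0 := fun u hu => by
    induction hu using Submodule.span_induction with
    | mem u hu =>
      obtain ⟨z, rfl⟩ := hu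
      have h1 : φ f = 0 := hf
      rw [hφ] at h1 ⊢
      have h2 := congrArg (ρ z⁻¹) h1
      rw [map_sum, map_zero, ← Equiv.sum_comp (Equiv.mulLeft z)] at h2
      rw [← h2]
      refine Finset.sum_congr rfl fun x _ => ?_
      rw [map_smul, ← Module.End.mul_apply, ← map_mul]
      simp
    | zero => exact map_zero φ
    | add u v _ _ hu hv => rw [map_add, hu, hv, add_zero]
    | smul a u _ hu =>
      have : a • u = (algebraMap (ZMod p) k a) • u := by rw [algebraMap_smul]
      rw [this, map_smul, hu, smul_zero]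
  letI : MulAction P K :=
    { smul := fun y u => ⟨fun x => u.1 (y⁻¹ * x), hKinv y u.1 u.2⟩
      one_smul := fun u => Subtype.ext (by ext x; show u.1 (1⁻¹ * x) = u.1 x; simp)
      mul_smul := fun y z u => Subtype.ext (by
        ext x; show u.1 ((y * z)⁻¹ * x) = u.1 (z⁻¹ * (y⁻¹ * x)); simp [mul_assoc]) }
  have hdvd : p ∣ Nat.card K := by
    haveI : Nontrivial K := ⟨⟨⟨f, Submodule.subset_span ⟨1, by ext x; simp⟩⟩, 0,
      fun h => hf0 (congrArg Subtype.val h)⟩⟩
    rw [Module.natCard_eq_pow_finrank (K := ZMod p) (V := K), Nat.card_zmod]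
    exact dvd_pow_self p finrank_pos.ne'
  obtain ⟨u, hu, hu0⟩ := hP.exists_fixed_point_of_prime_dvd_card_of_fixed_point K hdvd
    (a := 0) (fun y => Subtype.ext rfl)
  have hconst : ∀ x, u.1 x = u.1 1 := fun x => by
    have := congrFun (congrArg Subtype.val (hu x)) x
    have h2 : u.1 (x⁻¹ * x) = u.1 x := this
    rw [← h2, inv_mul_cancel]
  have h1 := hKker u.1 u.2
  rw [hφ] at h1
  rw [Finset.sum_congr rfl (fun x _ => by rw [hconst x]), ← Finset.smul_sum, smul_eq_zero] at h1
  rcases h1 with h1 | h1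
  · exact hu0 (Subtype.ext (funext fun x => by rw [hconst x, h1]; rfl)).symm
  · exact hw (by rw [LinearMap.sum_apply]; exact h1)

theorem sum_free_dc {G : Type*} [Group G] (P N : Subgroup G) [Fintype P] [Fintype N]
    (s : Finset G) (hs : ∀ g ∈ s, ∀ (u : P) (n : N), u * g * n ∈ s)
    (hfree : ∀ g ∈ s, ∀ (u : P) (n : N), u * g * n = g → u = 1) :
    ∃ t : Finset G, t ⊆ s ∧ ∀ {M : Type*} [AddCommMonoid M] (f : G → M),
      ∑ g ∈ s, f g = ∑ y ∈ t, ∑ u : P, ∑ n : N, f (u * y * n) := by
  classical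
  induction s using Finset.strongInduction with
  | H s ih =>
    rcases s.eq_empty_or_nonempty with rfl | ⟨g, hg⟩
    · exact ⟨∅, subset_rfl, fun f => by simp⟩
    let φ : P × N → G := fun x => x.1 * g * x.2
    have hφ : Function.Injective φ := by
      rintro ⟨u, n⟩ ⟨u', n'⟩ h
      have h : (u : G) * g * n = u' * g * n' := h
      have h1 : u'⁻¹ * u = 1 := hfree g hg (u'⁻¹ * u) (n * n'⁻¹) (by
        push_cast
        calc _ = (u' : G)⁻¹ * (u * g * n) * (n' : G)⁻¹ := by group
          _ = g := by rw [h]; group)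
      have h2 : u' = u := inv_mul_eq_one.1 h1
      subst h2
      exact Prod.ext rfl (Subtype.ext (mul_left_cancel h))
    let D : Finset G := Finset.univ.image φ
    have hD : D ⊆ s := fun x hx => by
      obtain ⟨y, -, rfl⟩ := Finset.mem_image.1 hx
      exact hs g hg _ _
    have hgD : g ∈ D := Finset.mem_image.2 ⟨(1, 1), Finset.mem_univ _, by simp [φ]⟩
    obtain ⟨t, hts, ht⟩ := ih (s \ D) (Finset.sdiff_ssubset hD ⟨g, hgD⟩) (fun x hx u n => by
      rw [Finset.mem_sdiff] at hx ⊢
      refine ⟨hs x hx.1 u n, fun h => hx.2 ?_⟩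
      obtain ⟨y, -, hy⟩ := Finset.mem_image.1 h
      refine Finset.mem_image.2 ⟨(u⁻¹ * y.1, y.2 * n⁻¹), Finset.mem_univ _, ?_⟩
      have hy : (y.1 : G) * g * y.2 = u * x * n := hy
      show ((u⁻¹ * y.1 : P) : G) * g * ((y.2 * n⁻¹ : N) : G) = x
      push_cast
      calc _ = (u : G)⁻¹ * (y.1 * g * y.2) * (n : G)⁻¹ := by group
        _ = x := by rw [hy]; group) (fun x hx => hfree x (Finset.mem_sdiff.1 hx).1)
    have hgt : g ∉ t := fun h => (Finset.mem_sdiff.1 (hts h)).2 hgD
    refine ⟨insert g t, Finset.insert_subset hg (hts.trans Finset.sdiff_subset), fun f => ?_⟩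
    rw [Finset.sum_insert hgt, ← ht f, ← Finset.sum_sdiff hD, add_comm,
      Finset.sum_image (fun a _ b _ h => hφ h), Fintype.sum_prod_type]

end H8
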