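import Cfsg.Agent.H8.BSol
import Cfsg.Agent.H8.PDeg
import Cfsg.Agent.H8.Cd1
import Cfsg.Agent.H8.PiIrr
import Cfsg.Agent.H1.FTCor

/-! Kernels of `p'`-degree characters of the principal block (`inf_le_der_of_ker`) and a
Frattini criterion for `{p},{q}`-separable groups (`eq_bot_of_le_phi`). -/

set_option autoImplicit false
open H5 Cfsg
open scoped commutatorElement

namespace H8

variable {G : Type*} [Group G] [Finite G] {M : Ideal AlgInt} {p q : ℕ}

theorem principal_of_isPGroup [hp : Fact p.Prime] [H7.PM p M] (h : IsPGroup p G)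
    (χ : IrrCharacter G) : χ ∈ principalBlock M G := by
  rw [principal_eq_kerSet (p := p) (N := ⊥) (by simpa using hp.out.one_lt.ne') (P := ⊤)
    ((h.to_quotient _).to_subgroup _) fun g _ hg =>
      (H7.isPE_of_mem ((h.to_quotient ⊥).to_subgroup ⊤) (Subgroup.mem_top g)).eq_one hg]
  rintro n rfl; rfl

theorem inf_le_der_of_ker [hp : Fact p.Prime] [H7.PM p M] (P : Sylow p G) {L : Subgroup G}
    (h : ∀ χ ∈ principalBlock M G, ¬ p ∣ charDegree (χ : G → ℂ) → χ ∈ H7.kerSet L) :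
    (P : Subgroup G) ⊓ L ≤ ⁅(P : Subgroup G), (P : Subgroup G)⁆ := fun y hy => by
  haveI := Fintype.ofFinite P
  by_contra hn
  obtain ⟨lam, -, h2⟩ := exists_lin_ne_one (G := P) le_rfl (g := ⟨y, hy.1⟩) fun e => hn (by
    rw [← Subgroup.map_subtype_commutator]; exact ⟨_, e, rfl⟩)
  obtain ⟨χ, a, b, c⟩ := exists_over_not_dvd (M := M) P.not_dvd_index
    (η := ⟨_, isIrrCharacter_hom lam⟩) (principal_of_isPGroup P.isPGroup' _)
    (by rw [charDegree_hom]; simpa using hp.out.one_lt.ne')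
  have := ker_le_of_constituent χ.2.isCharacter (isIrrCharacter_hom lam) c (x := ⟨y, hy.1⟩)
    (χ.2.mem_charKer.2 (h χ a b y hy.2))
  exact h2 (by simpa using (isIrrCharacter_hom lam).mem_charKer.1 this)

open H18 H1

theorem le_phi_of_le_der {E P H : Subgroup G} (hp : p.Prime) (hE : E ⊴ H) (hP : P ≤ H)
    (hπ : PiGrp {p} P) (h : E ≤ ⁅P, P⁆) : E ≤ Φ(H) :=
  le_phi hE.le fun K hK => by_contra fun hn => by
    have e : E ⊔ K = H := (hK.eq_or_eq le_sup_right (sup_le hE.le hK.le)).resolve_left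
      fun e => hn (le_sup_left.trans e.le)
    have h1 : P ⊓ K = P := phi_nongen inf_le_left (by
      calc P = P ⊓ (E ⊔ K) := by rw [e, inf_eq_left.2 hP]
        _ = E ⊔ (P ⊓ K) := (hE.nrm2 hK.le).modular_left (h.trans der_le)
        _ ≤ _ := sup_le (le_sup_of_le_right (h.trans (hπ.der_le_phi hp))) le_sup_left)
    exact hn ((h.trans der_le).trans (h1.ge.trans inf_le_right))

theorem eq_bot_of_le_phi {H : Subgroup G} (sp : PiSep {p} H) (sq : PiSep {q} H)
    (h : ∀ π : Set ℕ, π = {p} ∨ π = {q} ∨ π = {p}ᶜ ∩ {q}ᶜ → ∀ E, E ⊴ H → PiGrp π E → E ≤ Φ(H)) :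
    H = ⊥ := by
  by_contra h0
  obtain ⟨W, hW, -⟩ := exists_chief_above phi_nml Nml.rfl (phi_lt h0)
  have hn : W ≤ N(Φ(H)) := hW.nml.norm
  obtain ⟨π, h1, h2⟩ : ∃ π : Set ℕ, (π = {p} ∨ π = {q} ∨ π = {p}ᶜ ∩ {q}ᶜ) ∧ PiGrp π (W ⫽ Φ(H)) := by
    rcases (sp.mono hW.nmlU.le).mim.minNorm hW.minNorm with a | a
    · exact ⟨_, .inl rfl, a⟩
    rcases (sq.mono hW.nmlU.le).mim.minNorm hW.minNorm with b | b
    · exact ⟨_, .inr (.inl rfl), b⟩
    · exact ⟨_, .inr (.inr rfl), fun r hr hd => ⟨a r hr hd, b r hr hd⟩⟩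
  have hs : PiSep π W := piSep_of_quo hn (piSep_of_pi h2) (piSep_of_solv phi_nil.solv)
  obtain ⟨K, hK⟩ := hs.hall_exists
  have e := hK.sup_of_idx hW.le ((piGrp_quo_iff hn).1 h2)
  have f := hs.frattini_arg hW.nmlU hK
  have g : H ⊓ N(K) = H := phi_nongen inf_le_left (by
    refine f.ge.trans (sup_le (e.ge.trans (sup_le (le_sup_of_le_left ?_) le_sup_right)) le_sup_left)
    exact le_inf (hK.le.trans hW.nmlU.le) le_N)
  exact hW.lt.not_ge (e.ge.trans (sup_le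
    (h π h1 K ⟨hK.le.trans hW.nmlU.le, g.ge.trans inf_le_right⟩ hK.pi) le_rfl))

end H8
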