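import Cfsg.Agent.H8.Schur
import Cfsg.Agent.H8.Blich
import Cfsg.Agent.H4.FFD

/-! Schur's bound for `p`-solvable linear groups (`H8.psol_schur`): replacing a character of `N P`
(`N` a normal `p'`-subgroup) by one that is rational on `P` (`H8.exists_rat_char`). -/

open H5 H6 Cfsg
open scoped ComplexConjugate

namespace H8

variable {G : Type*} [Group G] [Finite G]

theorem exists_rat_irr {N : Subgroup G} [N.Normal] (hc : N.index.Coprime (Nat.card N))
    {χ : G → ℂ} (hχ : IsIrrCharacter G χ) :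
    ∃ ψ, IsCharacter G ψ ∧ charDegree ψ ≤ charDegree χ ∧ charKer ψ ⊓ N ≤ charKer χ ∧
      ∀ k, k.Coprime (Nat.card G) → (∀ n ∈ N, n ^ k = n) → pw k ψ = ψ := by
  classical
  haveI := Fintype.ofFinite G
  obtain ⟨θ, hθ, h1⟩ := exists_irr_under (N := N) hχ
  have hNT := le_inertia hθ.isClassFunction
  have hθ' := isIrr_sOf hNT hθ
  have hc' : (N.subgroupOf (inertia θ)).index.Coprime (Nat.card (N.subgroupOf (inertia θ))) := by
    rw [Nat.card_congr (Subgroup.subgroupOfEquivOfLe hNT).toEquiv]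
    exact hc.coprime_dvd_left (Subgroup.relIndex_dvd_index_of_le hNT)
  obtain ⟨η, ⟨h2, h3, h4⟩, h5⟩ := exists_canonical_ext hθ' (fun g => by rw [cj_sOf, g.2])
    hθ'.coe_charDegree.symm (Nat.Coprime.mul_right (hc'.coprime_dvd_right (detOrder_dvd_card _))
      (hc'.coprime_dvd_right hθ'.charDegree_dvd_card))
  have h6 : (fun n : N => η ⟨n, hNT n.2⟩) = θ := funext fun n => h3 ⟨⟨n, hNT n.2⟩, n.2⟩
  obtain ⟨h7, h8⟩ := corr_irr hθ le_rfl hNT h2 (by rw [h6, hθ.classInner_self]; exact one_ne_zero)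
  rw [h6, hθ.classInner_self] at h8
  refine ⟨_, h7.isCharacter, ?_, fun n hn => ?_, fun k hk hn => ?_⟩
  · rw [deg_ind h2.isCharacter, charDegree_congr (χ := η) (ψ := θ) (congrFun h6 1)]
    exact Nat.le_of_dvd hχ.charDegree_pos (index_inertia_mul_dvd hχ hθ h1)
  · have a := clifford_res h7 hθ (h8 ▸ one_ne_zero)
    have b := clifford_res hχ hθ h1
    rw [h8, one_smul] at a
    rw [← a] at b
    have c := congrFun b ⟨n, hn.2⟩
    have d := congrFun b 1
    simp only [Pi.smul_apply, smul_eq_mul, OneMemClass.coe_one] at c d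
    rw [h7.mem_charKer.1 hn.1, ← d] at c
    exact hχ.mem_charKer.2 (mul_left_cancel₀ (card_ne_zero _) c)
  · have hk' := cop_sub hk (inertia θ)
    rw [← ind_pw hk, h5 (pw k η) (h2.pow_arg hk') (fun n => ?_) ((hc'.coprime_dvd_right
      (detOrder_dvd_card _)).coprime_dvd_right (h4 ▸ detOrder_pw_dvd hk' h2.isCharacter))]
    rw [← h3]
    exact congrArg η (Subtype.ext (hn _ n.2))

theorem exists_rat_char {N : Subgroup G} [N.Normal] (hc : N.index.Coprime (Nat.card N))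
    {χ : G → ℂ} (hχ : IsCharacter G χ) :
    ∃ ψ, IsCharacter G ψ ∧ charDegree ψ ≤ charDegree χ ∧ charKer ψ ⊓ N ≤ charKer χ ∧
      ∀ k, k.Coprime (Nat.card G) → (∀ n ∈ N, n ^ k = n) → pw k ψ = ψ := by
  refine hχ.induction_irr (P := fun χ => ∃ ψ, IsCharacter G ψ ∧ charDegree ψ ≤ charDegree χ ∧
    charKer ψ ⊓ N ≤ charKer χ ∧ ∀ k, k.Coprime (Nat.card G) → (∀ n ∈ N, n ^ k = n) → pw k ψ = ψ)
    ⟨0, isCharacter_zero, le_rfl, inf_le_left, fun _ _ _ => rfl⟩ ?_
  rintro φ θ hφ hθ ⟨ψ, a1, a2, a3, a4⟩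
  obtain ⟨ξ, b1, b2, b3, b4⟩ := exists_rat_irr hc hφ
  refine ⟨ξ + ψ, b1.add a1, ?_, ?_, fun k hk hn => ?_⟩
  · rw [charDegree_add' b1 a1, charDegree_add' hφ.isCharacter hθ]; omega
  · rw [b1.charKer_add a1, hφ.isCharacter.charKer_add hθ]
    exact fun g hg => ⟨b3 ⟨hg.1.1, hg.2⟩, a3 ⟨hg.1.2, hg.2⟩⟩
  · exact congrArg₂ (· + ·) (b4 k hk hn) (a4 k hk hn)

/-- Schur's bound for a `p`-group acting on a `p'`-subgroup of a linear group. -/
theorem schur_act {p : ℕ} [hp : Fact p.Prime] {N P : Subgroup G} (hP : IsPGroup p P)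
    (hN : (Nat.card N).Coprime p) (hn : P ≤ Subgroup.normalizer (N : Set G)) {χ : G → ℂ}
    (hχ : IsCharacter G χ) (hf : charKer χ = ⊥) {a : ℕ}
    (ha : p ^ a ∣ (Subgroup.centralizer (N : Set G)).relIndex P) {L : ℕ} (hL : charDegree χ < L) :
    a ≤ schurF p L (charDegree χ) := by
  classical
  obtain ⟨b, hb⟩ := hP.exists_card_eq
  have hc : (Nat.card N).Coprime (Nat.card P) := hb ▸ hN.pow_right b
  haveI : (N.subgroupOf (N ⊔ P)).Normal :=
    Subgroup.normal_subgroupOf_of_le_normalizer (sup_le Subgroup.le_normalizer hn)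
  have hNc : Nat.card (N.subgroupOf (N ⊔ P)) = Nat.card N :=
    Nat.card_congr (Subgroup.subgroupOfEquivOfLe le_sup_left).toEquiv
  have hi : (N.subgroupOf (N ⊔ P)).index ∣ Nat.card P :=
    (H1.relIndex_sup_of_le_normalizer hn).dvd.trans (Subgroup.index_dvd_card _)
  obtain ⟨ψ, h1, h2, h3, h4⟩ := exists_rat_char (N := N.subgroupOf (N ⊔ P))
    (hNc ▸ hc.symm.coprime_dvd_left hi) (hχ.restrict (N ⊔ P))
  have h5 : IsCharacter P fun x : P => ψ ⟨x, Subgroup.mem_sup_right x.2⟩ := isCharacter_resLe le_sup_right h1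
  obtain ⟨c, hc'⟩ := hP.index (charKer fun x : P => ψ ⟨x, Subgroup.mem_sup_right x.2⟩)
  have h6 : charDegree (fun x : P => ψ ⟨x, Subgroup.mem_sup_right x.2⟩) ≤ charDegree χ :=
    (charDegree_congr (by rfl)).trans_le (h2.trans_eq (charDegree_congr (by rfl)))
  refine le_trans ?_ ((schur_bound hP h5 (fun σ => ?_) hc' (h6.trans_lt hL)).trans (schurF_mono _ _ h6))
  · refine (Nat.pow_dvd_pow_iff_le_right hp.out.one_lt).1 (ha.trans (hc' ▸ Subgroup.index_dvd_of_le ?_))
    intro x hx n hn'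
    have hx' : (⟨x, Subgroup.mem_sup_right x.2⟩ : ↥(N ⊔ P)) ∈ charKer ψ :=
      h1.mem_charKer.2 (h5.mem_charKer.1 hx)
    have h7 := h3 (x := ⟨n, Subgroup.mem_sup_left hn'⟩ * ⟨x, Subgroup.mem_sup_right x.2⟩ *
      (⟨n, Subgroup.mem_sup_left hn'⟩)⁻¹ * (⟨x, Subgroup.mem_sup_right x.2⟩)⁻¹)
      ⟨(charKer ψ).mul_mem (h1.normal_charKer.conj_mem _ hx' _) (inv_mem hx'), by
        change n * x * n⁻¹ * (x : G)⁻¹ ∈ N
        rw [mul_assoc, mul_assoc, ← mul_assoc (x : G)]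
        exact mul_mem hn' ((Subgroup.mem_normalizer_iff.1 (hn x.2) _).1 (inv_mem hn'))⟩
    have h8 : n * x * n⁻¹ * (x : G)⁻¹ ∈ charKer χ :=
      hχ.mem_charKer.2 ((hχ.restrict (N ⊔ P)).mem_charKer.1 h7)
    rw [hf, Subgroup.mem_bot, mul_inv_eq_one, mul_inv_eq_iff_eq_mul] at h8
    exact h8
  · obtain ⟨k, hk, hσ⟩ := exists_pow_ringHom_char P (σ : ℂ →+* ℂ)
    obtain ⟨m, hm1, hm2⟩ := Nat.chineseRemainder hc 1 k
    have hm : m.Coprime (Nat.card ↥(N ⊔ P)) := by
      rw [← (N.subgroupOf (N ⊔ P)).card_mul_index, hNc]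
      refine Nat.Coprime.mul_right ?_ (Nat.Coprime.coprime_dvd_right hi ?_)
      · rw [Nat.Coprime, hm1.gcd_eq]; simp
      · rw [Nat.Coprime, hm2.gcd_eq]; exact hk
    funext x
    refine (hσ _ h5 x).trans (Eq.trans ?_ (congrFun (h4 m hm fun n hn' => ?_) _))
    · exact congrArg ψ (Subtype.ext (congrArg (fun y : P => (y : G))
        (pow_eq_pow_iff_modEq.2 (hm2.symm.of_dvd (orderOf_dvd_natCard x)))))
    · refine (pow_eq_pow_iff_modEq.2 (hm1.of_dvd ?_)).trans (pow_one n)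
      exact hNc ▸ Subgroup.orderOf_dvd_natCard _ hn'

theorem psol_schur {p : ℕ} [hp : Fact p.Prime] (hs : IsPSolvable p G) {χ : G → ℂ}
    (hχ : IsCharacter G χ) (hf : charKer χ = ⊥) {L : ℕ} (hL : charDegree χ < L) :
    (pCore p G).index.factorization p ≤ schurF p L (charDegree χ) := by
  set π := QuotientGroup.mk' (pCore p G)
  have hπ : Function.Surjective π := QuotientGroup.mk'_surjective _
  obtain ⟨b, hb⟩ := (H1.pCore_isPGroup p G).exists_card_eq
  set K := pPrimeCore p (G ⧸ pCore p G)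
  have hK : (Nat.card K).Coprime p := H1.coprime_card_pPrimeCore _ _
  have hO : pCore p G ≤ K.comap π := QuotientGroup.le_comap_mk' _ _
  have hi : (pCore p G).relIndex (K.comap π) = Nat.card K := by
    rw [← Subgroup.relIndex_bot_left, ← Subgroup.map_comap_eq_self_of_surjective hπ K,
      ← Subgroup.relIndex_comap, Subgroup.map_comap_eq_self_of_surjective hπ, MonoidHom.comap_bot,
      QuotientGroup.ker_mk']
  obtain ⟨N, -, -, h3, h4⟩ := H1.exists_complement_le (N := pCore p G) (L := K.comap π)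
    (by simp [Subgroup.normalizer_eq_top]) (by
      rw [inf_eq_left.2 hO, hi, hb]; exact hK.symm.pow_left _)
  rw [inf_eq_left.2 hO] at h3
  rw [hi] at h4
  have h5 : N.map π = K := by
    rw [← Subgroup.map_comap_eq_self_of_surjective hπ K, ← h3, Subgroup.map_sup,
      (Subgroup.map_eq_bot_iff _).2 (QuotientGroup.ker_mk' _).ge, bot_sup_eq]
  have h6 := H1.map_mk'_normalizer (A := N) (N := pCore p G) (by rw [h4, hb]; exact hK.pow_right _)
    (Or.inr (haveI := (H1.pCore_isPGroup p G).isNilpotent; inferInstance))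
  rw [h5, Subgroup.normalizer_eq_top K] at h6
  obtain ⟨Q⟩ : Nonempty (Sylow p (Subgroup.normalizer (N : Set G))) := inferInstance
  have h7 : Function.Surjective (π.comp (Subgroup.normalizer (N : Set G)).subtype) := by
    rw [← MonoidHom.range_eq_top, ← MonoidHom.map_range, Subgroup.range_subtype, h6]
  have hP := Q.isPGroup'.map (Subgroup.normalizer (N : Set G)).subtype
  refine schur_act hP (h4 ▸ hK) (Subgroup.map_subtype_le _) hχ hf ?_ hL
  rw [Subgroup.index_eq_card, ← (Q.mapSurjective h7).card_eq_multiplicity, Sylow.coe_mapSurjective,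
    ← Subgroup.map_map, ← Subgroup.relIndex_bot_left, ← Subgroup.relIndex_comap,
    ← Subgroup.inf_relIndex_right (Subgroup.centralizer _)]
  refine Subgroup.relIndex_dvd_of_le_left _ fun x hx => ?_
  have h8 := ((H4.isPSolvable_iff.1 hs).quotient (pCore p G)).centralizer_oQ_le (by
    rw [pCoreOf, H1.map_pCore_top, H1.pCore_quotient_eq_bot])
  rw [H17.oQ_top, top_inf_eq] at h8
  have h9 : π x ∈ K := h8 fun y hy => by
    obtain ⟨n, hn, rfl⟩ := (h5.ge hy : y ∈ N.map π)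
    rw [← map_mul, ← map_mul, hx.1 n hn]
  obtain ⟨e, he⟩ := hP ⟨x, hx.2⟩
  have h10 : orderOf (π x) ∣ p ^ e := orderOf_dvd_of_pow_eq_one (by
    rw [← map_pow, show x ^ p ^ e = 1 from congrArg Subtype.val he, map_one])
  exact orderOf_eq_one_iff.1 (Nat.eq_one_of_dvd_coprimes (hK.pow_right e) (K.orderOf_dvd_natCard h9) h10)

end H8
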