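import Cfsg.Agent.H8.Ito

/-! Symplectic characters have even-dimensional fixed spaces (`even_inner_one_of_fs`); real constituents of odd
multiplicity (`exists_real_odd`). -/

set_option autoImplicit false

open H5 H6 Cfsg Matrix
open scoped ComplexConjugate

namespace H8

theorem exists_rank_fact {n : ℕ} {E : Matrix (Fin n) (Fin n) ℂ} (hE : E * E = E) :
    ∃ (r : ℕ) (B : Matrix (Fin n) (Fin r) ℂ) (C : Matrix (Fin r) (Fin n) ℂ), B * C = E ∧ C * B = 1 := by
  let e := Matrix.toLin' E
  let b := Module.finBasis ℂ (LinearMap.range e)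
  refine ⟨_, LinearMap.toMatrix b (Pi.basisFun ℂ _) (LinearMap.range e).subtype,
    LinearMap.toMatrix (Pi.basisFun ℂ _) b e.rangeRestrict, ?_, ?_⟩
  · rw [← LinearMap.toMatrix_comp, LinearMap.toMatrix_eq_toMatrix']
    exact LinearMap.toMatrix'_toLin' E
  · rw [← LinearMap.toMatrix_comp, ← LinearMap.toMatrix_id b]
    congr 1
    ext ⟨_, v, rfl⟩ i
    simp [e, Matrix.mulVec_mulVec, hE]

theorem even_trace_of_skew {n : ℕ} {E M M' : Matrix (Fin n) (Fin n) ℂ} (hE : E * E = E) (hM : Mᵀ = -M)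
    (hM' : M * M' = 1) (hEM : Eᵀ * M = M * E) : ∃ r : ℕ, Even r ∧ E.trace = r := by
  obtain ⟨r, B, C, h1, h2⟩ := exists_rank_fact hE
  refine ⟨r, ?_, by rw [← h1, trace_mul_comm, h2, trace_one, Fintype.card_fin]⟩
  have h3 : Bᵀ * M * B * (C * M' * Cᵀ) = 1 := by
    calc _ = Bᵀ * (M * (B * C)) * M' * Cᵀ := by simp only [Matrix.mul_assoc]
      _ = Bᵀ * (B * C)ᵀ * (M * M') * Cᵀ := by rw [h1, ← hEM]; simp only [Matrix.mul_assoc]
      _ = (C * B * (C * B))ᵀ := by simp only [hM', Matrix.mul_one, transpose_mul, Matrix.mul_assoc]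
      _ = 1 := by simp [h2]
  have h4 : (Bᵀ * M * B).det ≠ 0 := det_ne_zero_of_right_inverse h3
  have h5 : (Bᵀ * M * B)ᵀ = -(Bᵀ * M * B) := by simp [transpose_mul, hM, Matrix.mul_assoc]
  have h6 := det_transpose (Bᵀ * M * B)
  rw [h5, det_neg, Fintype.card_fin] at h6
  by_contra h7
  rw [(Nat.not_even_iff_odd.1 h7).neg_one_pow] at h6
  exact h4 (by linear_combination -h6 / 2)

variable {G : Type*} [Group G]

theorem even_inner_one_of_fs [Fintype G] {H : Type*} [Group H] [Fintype H] {χ : G → ℂ}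
    (h : IsIrrCharacter G χ) (hf : fsInd χ = -1) (f : H →* G) :
    ∃ r : ℕ, Even r ∧ classInner (fun x => χ (f x)) (fun _ => 1) = r := by
  obtain ⟨n, X, M, hX, hU, hM, hT, hMM⟩ := exists_form h (real_of_fs h (by rw [hf]; norm_num))
  have hH := card_ne_zero_complex (G := H)
  let E : Matrix (Fin n) (Fin n) ℂ := (Nat.card H : ℂ)⁻¹ • ∑ a, X (f a)
  have hXE : ∀ b, X (f b) * E = E := by
    intro b
    simp only [E, mul_smul_comm, Finset.mul_sum, ← map_mul]
    congr 1
    exact Equiv.sum_comp (Equiv.mulLeft b) fun a => X (f a)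
  have hE : E * E = E := by
    conv_lhs => rw [show E * E = ((Nat.card H : ℂ)⁻¹ • ∑ a, X (f a)) * E from rfl]
    simp only [smul_mul_assoc, Finset.sum_mul, hXE, Finset.sum_const, Finset.card_univ,
      ← Nat.card_eq_fintype_card, ← Nat.cast_smul_eq_nsmul ℂ, smul_smul, inv_mul_cancel₀ hH, one_smul]
  have hXM : ∀ g, (X g)ᵀ * M = M * X g⁻¹ := fun g => by
    conv_rhs => rw [← hM g, Matrix.mul_assoc, ← map_mul, mul_inv_cancel, map_one, Matrix.mul_one]
  have hEM : Eᵀ * M = M * E := by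
    simp only [E, transpose_smul, transpose_sum, smul_mul_assoc, mul_smul_comm, Finset.sum_mul,
      Finset.mul_sum, hXM]
    congr 1
    rw [← Equiv.sum_comp (Equiv.inv H)]
    simp
  obtain ⟨r, h1, h2⟩ := even_trace_of_skew hE (by rw [hT, hf, neg_one_smul]) (mul_eq_one_comm.1 hMM) hEM
  refine ⟨r, h1, ?_⟩
  rw [classInner_one_right, ← h2]
  simp [E, trace_sum, hX]

/-- A real character whose restriction contains the trivial character with odd multiplicity has a strongly real
constituent of odd multiplicity. -/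
theorem exists_real_odd [Fintype G] {H : Type*} [Group H] [Fintype H] (f : H →* G) {Λ : G → ℂ}
    (hΛ : IsCharacter G Λ) (hr : (fun g => conj (Λ g)) = Λ) {k : ℕ} (hk : Odd k)
    (h : classInner (fun x => Λ (f x)) (fun _ => 1) = k) :
    ∃ χ, IsIrrCharacter G χ ∧ fsInd χ = 1 ∧ ∃ m : ℕ, Odd m ∧ classInner Λ χ = m := by
  classical
  obtain ⟨m, hm, e⟩ := hΛ.exists_nat
  choose n hn using fun χ : IrrCharacter G => (χ.2.isCharacter.comp f).exists_classInner_nat isCharacter_one
  have h1 : ∑ χ, m χ * n χ = k := by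
    have : (fun x => Λ (f x)) = ∑ χ : IrrCharacter G, (m χ : ℂ) • fun x => χ.1 (f x) := by
      funext x; conv_lhs => rw [e]
      simp
    rw [this, classInner_sum_left] at h
    simp only [classInner_smul_left, hn] at h
    exact_mod_cast h
  by_contra h2
  push Not at h2
  let σ : IrrCharacter G → IrrCharacter G := fun χ => ⟨_, χ.2.conj⟩
  have hσ : ∀ χ, σ (σ χ) = χ := fun χ => Subtype.ext (funext fun g => by simp [σ])
  have h3 : ∀ χ, m (σ χ) * n (σ χ) = m χ * n χ := fun χ => by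
    have e1 : (m (σ χ) : ℂ) = m χ := by
      rw [← hm, ← hm]
      conv_lhs => rw [← hr]
      rw [classInner_conj_conj, χ.2.isCharacter.classInner_comm hΛ]
    have e2 : (n (σ χ) : ℂ) = n χ := by
      have := classInner_conj_conj (fun x => χ.1 (f x)) (fun _ => 1)
      simp only [map_one] at this
      rw [← hn, ← hn, this, isCharacter_one.classInner_comm (χ.2.isCharacter.comp f)]
    rw [Nat.cast_injective e1, Nat.cast_injective e2]
  have h4 : ∑ χ, ((m χ * n χ : ℕ) : ZMod 2) = 0 := by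
    rw [← Finset.sum_filter_add_sum_filter_not Finset.univ fun χ => σ χ = χ, Finset.sum_eq_zero,
      Finset.sum_involution (fun χ _ => σ χ), add_zero]
    · intro χ _
      rw [h3, ← two_mul]; exact mul_eq_zero_of_left rfl _
    · intro χ hχ _
      exact (Finset.mem_filter.1 hχ).2
    · intro χ hχ
      refine Finset.mem_filter.2 ⟨Finset.mem_univ _, ?_⟩
      rw [hσ]; exact fun e => (Finset.mem_filter.1 hχ).2 e.symm
    · intro χ _; exact hσ χ
    · intro χ hχ
      rw [ZMod.natCast_eq_zero_iff_even]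
      rcases χ.2.fsInd_spec with ⟨-, h5 | h5⟩ | ⟨h5, -⟩
      · exact (Nat.not_odd_iff_even.1 fun h6 => h2 χ.1 χ.2 h5 _ h6 (hm χ)).mul_right _
      · obtain ⟨r, h6, h7⟩ := even_inner_one_of_fs χ.2 h5 f
        rw [hn] at h7
        exact (Nat.cast_injective h7 ▸ h6 : Even (n χ)).mul_left _
      · exact absurd (congrArg Subtype.val (Finset.mem_filter.1 hχ).2) h5
  rw [← Nat.cast_sum, h1, ZMod.natCast_eq_zero_iff_even] at h4
  exact Nat.not_odd_iff_even.2 h4 hk

end H8
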