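import Cfsg.Agent.H18.Bender
import Cfsg.Agent.H19.BenderD1
import Cfsg.Agent.H1.Harv3
import Cfsg.Agent.H1.FTCor

/-! Strongly embedded point stabilisers and characters: `SEd.exists_nonfixed` (an automorphism inverting a
nontrivial element of an odd order group moves an irreducible character), `SEd.exists_irr_of_A1` (a group with a
split BN-pair of rank one as in Bender's theorem has an irreducible character of degree divisible by `|G : H|`),
`SEd.sein_stab` (point stabiliser strongly embedded from an abelian transitive Sylow subgroup). -/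

set_option autoImplicit false
open Cfsg H18 H1 H19 Subgroup MulAction

namespace H8
namespace SEd

theorem eq_one_of_conj_inv {G : Type*} [Group G] {d k : G} (hd : Odd (orderOf d)) (hk : Odd (orderOf k))
    (e : d * k * d⁻¹ = k⁻¹) : k = 1 := by
  have h2 : ∀ n : ℕ, d ^ (2 * n) * k * (d ^ (2 * n))⁻¹ = k := by
    intro n
    induction n with
    | zero => simp
    | succ n ih =>
      have e' : d * k⁻¹ * d⁻¹ = k := by
        have : d * k⁻¹ * d⁻¹ = (d * k * d⁻¹)⁻¹ := by group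
        rw [this, e, inv_inv]
      have : d ^ (2 * (n + 1)) * k * (d ^ (2 * (n + 1)))⁻¹ =
          d * (d * (d ^ (2 * n) * k * (d ^ (2 * n))⁻¹) * d⁻¹) * d⁻¹ := by
        rw [show 2 * (n + 1) = 1 + (1 + 2 * n) by ring, pow_add, pow_add, pow_one]; group
      rw [this, ih, e, e']
  obtain ⟨m, hm⟩ := hd
  have h3 : d ^ (2 * (m + 1)) = d := by
    rw [show 2 * (m + 1) = (2 * m + 1) + 1 by ring, ← hm, pow_succ, pow_orderOf_eq_one, one_mul]
  have h4 := h2 (m + 1)
  rw [h3, e] at h4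
  exact H5.eq_one_of_odd hk (by nth_rewrite 1 [← h4]; simp)

theorem exists_nonfixed {G : Type*} [Group G] [Fintype G] {D : Subgroup G} {t k : G} (ho : Odd (Nat.card D))
    (hk : k ∈ D) (k1 : k ≠ 1) (e : t⁻¹ * k * t = k⁻¹) : ∃ τ ∈ irr D, cfcj t τ ≠ τ := by
  classical
  by_contra hn
  push Not at hn
  let φ : G → ℂ := fun x => if ∃ d ∈ D, d * k * d⁻¹ = x then 1 else 0
  have hφ : φ ∈ cf D := by
    refine mem_cf.2 ⟨fun x hx => ?_, fun g hg x => ?_⟩
    · refine if_neg ?_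
      rintro ⟨d, hd, rfl⟩
      exact hx (D.mul_mem (D.mul_mem hd hk) (D.inv_mem hd))
    · refine if_congr ⟨?_, ?_⟩ rfl rfl
      · rintro ⟨d, hd, h⟩
        refine ⟨g⁻¹ * d, D.mul_mem (D.inv_mem hg) hd, ?_⟩
        have : g⁻¹ * d * k * (g⁻¹ * d)⁻¹ = g⁻¹ * (d * k * d⁻¹) * g := by group
        rw [this, h]; group
      · rintro ⟨d, hd, h⟩
        refine ⟨g * d, D.mul_mem hg hd, ?_⟩
        rw [← h]; group
  have h1 : φ k⁻¹ = φ k := by
    rw [cf_apply_eq_sum hφ k⁻¹, cf_apply_eq_sum hφ k]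
    refine Finset.sum_congr rfl fun χ hχ => ?_
    have := congrFun (hn χ hχ) k
    rw [cfcj_apply, e] at this
    rw [this]
  have h2 : φ k = 1 := if_pos ⟨1, D.one_mem, by simp⟩
  rw [h2] at h1
  have h3 : ∃ d ∈ D, d * k * d⁻¹ = k⁻¹ := by
    by_contra h
    have : φ k⁻¹ = 0 := if_neg h
    rw [this] at h1
    exact zero_ne_one h1
  obtain ⟨d, hd, h⟩ := h3
  exact k1 (eq_one_of_conj_inv (H5.odd_order_of_mem ho hd) (H5.odd_order_of_mem ho hk) h)

theorem exists_irr_of_A1 {G : Type*} [Group G] [Fintype G] {H Q : Subgroup G} {t : G}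
    (h : H5.A1 ⊤ H Q (H ⊓ H18.cj t H) t) (h2 : 1 < prank 2 (⊤ : Subgroup G)) :
    ∃ χ ∈ irr (⊤ : Subgroup G), ∃ n : ℕ, χ 1 = (H.index * n : ℕ) := by
  obtain ⟨k, hk, ik, k1⟩ := h.exists_K_ne h2
  obtain ⟨τ, hτ, hne⟩ := exists_nonfixed (t := t) h.odd hk k1 (by rw [h.ti]; exact ik)
  have hψ := infl_mem_irr h.sd.norm h.sd.inf hτ
  rw [h.sd.sup] at hψ
  have hres := res_infl h.sd.inf (irr_supp hτ)
  have hone := infl_one h.sd.inf (irr_supp hτ)
  generalize infl Q τ = ψ at hψ hres hone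
  have hc : H.index = (H ⊓ H18.cj t H).relIndex H + 1 := by
    have a := h.relIndex_H
    have b := h.cardH
    have c := H18.card_mul_relIndex h.leD
    rw [relIndex_top_right] at a
    rw [a]
    congr 1
    have : 0 < Nat.card ↥(H ⊓ H18.cj t H) := Nat.card_pos
    rw [b, mul_comm (Nat.card Q)] at c
    exact (Nat.eq_of_mul_eq_mul_left this c).symm
  have key := ip_ind_ind_two (H := H) (t := t)
    (fun g hg => let ⟨x, hx, y, hy, e⟩ := h.bruhat g trivial hg; ⟨x, hx, y, h.leQ hy, e⟩) hc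
    (cf_of_irr hψ) (cf_of_irr hψ)
  have e1 : res H (cfcj t ψ) = cfcj t τ := by
    ext x
    by_cases hx : x ∈ H
    · rw [res_of_mem _ hx, cfcj_apply, cfcj_apply, h.ti]
      by_cases hx' : t * x * t ∈ H
      · rw [← hres, res_of_mem _ (h.conjD (h.mem_D.2 ⟨hx, hx'⟩))]
      · rw [irr_supp hψ _ hx', irr_supp hτ _ fun e => hx' (h.leD e)]
    · rw [res_of_not_mem _ hx, cfcj_apply, h.ti]
      refine (irr_supp hτ _ fun e => hx ?_).symm
      have := h.leD (h.conjD e)
      rwa [show t * (t * x * t) * t = t * (t * (x * t * t)) by group, h.tt', h.tt''] at this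
  have hτ' := cfcj_mem_irr_N hτ h.tN
  have e2 : ip (H ⊓ H18.cj t H) ψ (cfcj t ψ) = 0 := by
    rw [← ip_res_right (irr_supp hψ), e1, ← ip_res_left (irr_supp hτ'), hres]
    exact ip_irr_ne hτ hτ' hne.symm
  rw [e2, ip_irr_self hψ, add_zero] at key
  obtain ⟨n, -, hn⟩ := irr_exists_apply_one hτ
  refine ⟨_, irr_of_chars_of_ip (ind_mem_chars le_top (chars_of_irr hψ)) key, n, ?_⟩
  rw [ind_one le_top, relIndex_top_right, hone, hn]
  push_cast; rfl

theorem eq_one_of_fix {G Ω : Type*} [Group G] [MulAction G Ω] [FaithfulSMul G Ω] {P : Subgroup G}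
    (htr : ∀ a b : Ω, ∃ x ∈ P, x • a = b) (hab : ∀ x ∈ P, ∀ y ∈ P, x * y = y * x) {x : G} (hx : x ∈ P) {a : Ω}
    (e : x • a = a) : x = 1 := by
  refine FaithfulSMul.eq_of_smul_eq_smul (α := Ω) fun b => ?_
  obtain ⟨y, hy, rfl⟩ := htr a b
  rw [← mul_smul, hab x hx y hy, mul_smul, e, one_smul]

theorem sein_stab {G Ω : Type*} [Group G] [Finite G] [MulAction G Ω] [FaithfulSMul G Ω] [Finite Ω] {P : Subgroup G}
    (hodd : Odd (Nat.card Ω)) (h1 : 1 < Nat.card Ω)
    (htr : ∀ a b : Ω, ∃ x ∈ P, x • a = b) (hab : ∀ x ∈ P, ∀ y ∈ P, x * y = y * x) {t : G} (tt : t * t = 1)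
    (t1 : t ≠ 1) (tN : t ∈ N(P)) (hC : ∀ x ∈ P, t * x = x * t → x = 1)
    (hcj : ∀ s : G, s * s = 1 → s ≠ 1 → IsConj t s) (a : Ω) : SEin (stabilizer G a) ⊤ := by
  have ti : t⁻¹ = t := inv_eq_of_mul_eq_one_right tt
  have u1 : ∀ b c : Ω, t • b = b → t • c = c → b = c := by
    intro b c hb hc
    obtain ⟨x, hx, rfl⟩ := htr b c
    have hx' : t * x * t⁻¹ ∈ P := (mem_normalizer_iff.1 tN x).1 hx
    have : x⁻¹ * (t * x * t⁻¹) = 1 := by
      refine eq_one_of_fix htr hab (P.mul_mem (P.inv_mem hx) hx') (a := b) ?_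
      rw [ti, mul_smul, mul_smul, mul_smul, hb, hc, inv_smul_smul]
    have h3 : t * x = x * t := by
      have h4 : t * x * t⁻¹ = x := by rw [inv_mul_eq_one] at this; exact this.symm
      calc t * x = t * x * t⁻¹ * t := by group
        _ = x * t := by rw [h4]
    rw [hC x hx h3, one_smul]
  have u2 : ∀ s : G, s * s = 1 → s ≠ 1 → ∀ b c : Ω, s • b = b → s • c = c → b = c := by
    intro s s2 s1 b c hb hc
    obtain ⟨g, rfl⟩ := isConj_iff.1 (hcj s s2 s1)
    have k : ∀ d : Ω, (g * t * g⁻¹) • d = d → t • g⁻¹ • d = g⁻¹ • d := fun d hd => by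
      rw [mul_smul, mul_smul, smul_eq_iff_eq_inv_smul] at hd; exact hd
    exact MulAction.injective g⁻¹ (u1 _ _ (k b hb) (k c hc))
  refine ⟨lt_top_iff_ne_top.2 fun e => ?_, ?_, fun g _ hg x hx hx' x2 => ?_⟩
  · haveI : Nontrivial Ω := Finite.one_lt_card_iff_nontrivial.1 h1
    obtain ⟨b, hb⟩ := exists_ne a
    obtain ⟨x, -, hx⟩ := htr a b
    have : x ∈ stabilizer G a := by rw [e]; trivial
    exact hb (hx.symm.trans this)
  · have hp : IsPGroup 2 (zpowers t) := by
      refine IsPGroup.of_card (n := 1) ?_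
      haveI : Fact (Nat.Prime 2) := ⟨Nat.prime_two⟩
      rw [Nat.card_zpowers, pow_one]
      exact orderOf_eq_prime (by rw [pow_two]; exact tt) t1
    haveI : Fact (Nat.Prime 2) := ⟨Nat.prime_two⟩
    obtain ⟨b, hb⟩ := hp.nonempty_fixed_point_of_prime_not_dvd_card Ω (by
      rw [← even_iff_two_dvd, Nat.not_even_iff_odd]; exact hodd)
    have hb' : t • b = b := hb ⟨t, mem_zpowers t⟩
    obtain ⟨x, -, rfl⟩ := htr b a
    refine H5.even_of_inv (x := x * t * x⁻¹) ?_ ?_ ?_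
    · rw [mem_stabilizer_iff, mul_smul, mul_smul, inv_smul_smul, hb']
    · calc x * t * x⁻¹ * (x * t * x⁻¹) = x * (t * t) * x⁻¹ := by group
        _ = 1 := by rw [tt]; group
    · intro e
      apply t1
      calc t = x⁻¹ * (x * t * x⁻¹) * x := by group
        _ = 1 := by rw [e]; group
  · by_contra x1
    apply hg
    rw [mem_stabilizer_iff] at hx hx' ⊢
    rw [mul_smul, mul_smul, inv_smul_eq_iff] at hx'
    exact u2 x x2 x1 _ _ hx' hx

end SEd
end H8
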