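import Cfsg.Agent.H8.B1
import Cfsg.Agent.H6.Monomial

/-! Class functions with values in `O M` that only depend on the `p'`-part are `O M`-combinations
of characters (`inner_mem_O_of_pr`); characters mod `M` separate the `p`-regular classes
(`isConj_of_red`).  `exists_sylow_nilp` gives the decomposition of a nilpotent group. -/

open H5 H7 Cfsg MonoidAlgebra
open scoped ComplexConjugate Pointwise

namespace H8

variable {G H : Type*} [Group G] [Group H] [Finite G] {M : Ideal AlgInt} {p : ℕ}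
  [hp : Fact p.Prime]

theorem exists_sylow_nilp [Group.IsNilpotent G] : ∃ U : Subgroup G, U.Normal ∧ IsPGroup p U ∧
    ¬ p ∣ U.index ∧ (∀ g, IsPE p g → g ∈ U) ∧ ∀ y, ¬ p ∣ orderOf y → y ∈ cC U := by
  obtain ⟨U⟩ : Nonempty (Sylow p G) := inferInstance
  haveI : (U : Subgroup G).Normal := inferInstance
  refine ⟨U, this, U.isPGroup', U.not_dvd_index, fun g hg => hg.mem_of_not_dvd_index U.not_dvd_index,
    fun y hy u hu => ?_⟩
  obtain ⟨k, hk⟩ := isPE_of_mem U.isPGroup' hu
  exact H3.commute_of_isNilpotent_of_coprime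
    (hk ▸ ((Nat.Prime.coprime_iff_not_dvd hp.out).2 hy).pow_left k)

theorem sum_nilp {β : Type*} [AddCommMonoid β] [Fintype G] {U : Subgroup G} [Fintype U]
    (hU : IsPGroup p U) (h1 : ∀ g, IsPE p g → g ∈ U) (h2 : ∀ y, ¬ p ∣ orderOf y → y ∈ cC U)
    (f : G → β) : ∑ g, f g = ∑ y, if p ∣ orderOf y then 0 else ∑ u : U, f (u * y) := by
  classical
  have := sum_pp_mem hU h2 f
  simp only [h1 _ (isPE_pp _), if_true] at this
  rw [this, Finset.sum_comm]
  exact Finset.sum_congr rfl fun y _ => by split_ifs <;> simp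

variable [PM p M]

omit hp in
theorem avg_mem_O {U : Subgroup G} [U.Normal] [Fintype U] {φ : G → ℂ} (hφ : IsCharacter G φ)
    (g : G) : (Nat.card U : ℂ)⁻¹ * ∑ u : U, φ (u * g) ∈ O M := by
  classical
  haveI := Fintype.ofFinite G
  rw [H6.coset_avg hφ.isClassFunction]
  refine sum_mem fun ξ _ => ?_
  split_ifs
  · obtain ⟨n, hn⟩ := hφ.exists_classInner_nat ξ.2.isCharacter
    exact mul_mem (hn ▸ natCast_mem _ _) (char_mem_O ξ.2.isCharacter _)
  · exact zero_mem _

theorem inner_mem_O_of_pr [Fintype G] {f : G → ℂ} (hf : IsClassFunction G f)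
    (h1 : ∀ g, f (pr p g) = f g) (h2 : ∀ g, f g ∈ O M) {χ : G → ℂ} (hχ : IsCharacter G χ) :
    classInner f χ ∈ O M := by
  refine H6.brauer_inner_mem (O M).toAddSubgroup hf (fun E q hq hE _ φ hφ => ?_) hχ
  haveI := isNilpotent_of_isElementary hq hE
  obtain ⟨U, _, a1, a2, a3, a4⟩ := exists_sylow_nilp (G := E) (p := p)
  haveI := Fintype.ofFinite U
  show _ ∈ O M
  rw [classInner, sum_nilp a1 a3 a4, ← U.index_mul_card, Nat.cast_mul, mul_inv, mul_assoc,
    Finset.mul_sum]
  refine mul_mem (natCast_inv_mem_O a2) (sum_mem fun y _ => ?_)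
  split_ifs with hy
  · simp
  have h3 : ∀ u : U, f (((u : E) * y : E) : G) = f y := fun u => by
    rw [← h1, pr_coe, pr_mul_of (isPE_of_mem a1 u.2) hy (a4 y hy u u.2)]
  have h4 := avg_mem_O (M := M) (U := U) hφ.conj y
  simp only [h3, ← Finset.mul_sum]
  rw [mul_left_comm]
  exact mul_mem (h2 _) h4

theorem red_eq_of_inner_mem [Fintype G] {f : G → ℂ} (hf : IsClassFunction G f)
    (h : ∀ χ : IrrCharacter G, classInner f χ ∈ O M) {x y : G}
    (e : ∀ χ : IrrCharacter G, red M ((χ : G → ℂ) x) = red M ((χ : G → ℂ) y)) :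
    red M (f x) = red M (f y) := by
  rw [hf.apply_eq_sum_irr x, hf.apply_eq_sum_irr y,
    red_sum _ fun χ _ => mul_mem (h χ) (char_mem_O χ.2.isCharacter _),
    red_sum _ fun χ _ => mul_mem (h χ) (char_mem_O χ.2.isCharacter _)]
  exact Finset.sum_congr rfl fun χ _ => by
    rw [red_mul (h χ) (char_mem_O χ.2.isCharacter _), red_mul (h χ) (char_mem_O χ.2.isCharacter _),
      e]

theorem isConj_of_red {x y : G}
    (e : ∀ χ : IrrCharacter G, red M ((χ : G → ℂ) x) = red M ((χ : G → ℂ) y)) :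
    IsConj (pr p x) (pr p y) := by
  classical
  haveI := Fintype.ofFinite G
  let f : G → ℂ := fun g => if IsConj (pr p x) (pr p g) then 1 else 0
  have hf : IsClassFunction G f := fun g h => by
    simp only [f, pr_conj]
    congr 1
    exact propext ⟨fun e => e.trans (isConj_iff.2 ⟨h, rfl⟩).symm,
      fun e => e.trans (isConj_iff.2 ⟨h, rfl⟩)⟩
  have := red_eq_of_inner_mem hf (fun χ => inner_mem_O_of_pr (p := p) hf (fun g => by
    simp only [f, pr_of_not_dvd (not_dvd_orderOf_pr g)]) (fun g => by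
    simp only [f]; split_ifs; exacts [one_mem _, zero_mem _]) χ.2.isCharacter) e
  by_contra h
  simp only [f, h, IsConj.refl, if_true, if_false, red_one, red_zero, one_ne_zero] at this

end H8
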