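import Cfsg.Agent.H18.Prod
/-! Smith–Tyrer, part 1: the transfer of a Heisenberg cocycle gives a non-split central extension by `Z_p` when the
Sylow `p`-subgroup is abelian, non-cyclic, with automizer inside `±1`. -/
set_option autoImplicit false
open Subgroup
open scoped commutatorElement
namespace H8
universe u

/-- normalised `2`-cocycles -/
structure StCoc (G R : Type*) [Group G] [AddCommGroup R] where
  c : G → G → R
  assoc : ∀ g h k, c g h + c (g * h) k = c h k + c g (h * k)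
  one_left : ∀ g, c 1 g = 0

section
variable {G R : Type*} [Group G] [AddCommGroup R]

theorem StCoc.one_right (c : StCoc G R) (g : G) : c.c g 1 = 0 := by
  have := c.assoc g 1 1
  rw [mul_one, mul_one, c.one_left, zero_add] at this
  simpa using this

/-- the central extension of a cocycle -/
@[ext] structure StExt (c : StCoc G R) where
  g : G
  k : R

variable {c : StCoc G R}

instance stExtMul : Mul (StExt c) := ⟨fun x y => ⟨x.g * y.g, x.k + y.k + c.c x.g y.g⟩⟩
instance stExtOne : One (StExt c) := ⟨⟨1, 0⟩⟩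
instance stExtInv : Inv (StExt c) := ⟨fun x => ⟨x.g⁻¹, -x.k - c.c x.g⁻¹ x.g⟩⟩

@[simp] theorem StExt.mul_g (x y : StExt c) : (x * y).g = x.g * y.g := rfl
@[simp] theorem StExt.mul_k (x y : StExt c) : (x * y).k = x.k + y.k + c.c x.g y.g := rfl
@[simp] theorem StExt.one_g : (1 : StExt c).g = 1 := rfl
@[simp] theorem StExt.one_k : (1 : StExt c).k = 0 := rfl
@[simp] theorem StExt.inv_g (x : StExt c) : x⁻¹.g = x.g⁻¹ := rfl
@[simp] theorem StExt.inv_k (x : StExt c) : x⁻¹.k = -x.k - c.c x.g⁻¹ x.g := rfl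

instance stExtGroup : Group (StExt c) := Group.ofLeftAxioms
  (fun x y z => StExt.ext (mul_assoc _ _ _) (by
    have := c.assoc x.g y.g z.g
    simp only [StExt.mul_k, StExt.mul_g]
    rw [add_assoc _ (c.c x.g y.g), add_comm (c.c x.g y.g), ← add_assoc, add_assoc _ (c.c x.g y.g), this]
    abel))
  (fun x => StExt.ext (one_mul _) (by simp [c.one_left]))
  (fun x => StExt.ext (inv_mul_cancel _) (by simp only [StExt.mul_k, StExt.inv_k, StExt.inv_g, StExt.one_k]; abel))

instance stExtFinite [Finite G] [Finite R] : Finite (StExt c) :=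
  Finite.of_injective (fun x : StExt c => (x.g, x.k)) fun _ _ h => StExt.ext (congrArg Prod.fst h) (congrArg Prod.snd h)

/-- projection -/
def StExt.proj (c : StCoc G R) : StExt c →* G := MonoidHom.mk' (fun x => x.g) fun _ _ => rfl

theorem StExt.pow_mk (k : R) (n : ℕ) : (⟨1, k⟩ : StExt c) ^ n = ⟨1, n • k⟩ := by
  induction n with
  | zero => simp; rfl
  | succ n ih => rw [pow_succ, ih]; exact StExt.ext (by simp) (by simp [c.one_left, succ_nsmul])

end

/-- central extension by a group of order `p` lying in the derived subgroup -/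
def CentExt (p : ℕ) (G : Type u) [Group G] : Prop :=
  ∃ (Γ : Type u) (_ : Group Γ) (_ : Finite Γ) (π : Γ →* G) (z : Γ), Function.Surjective π ∧ (∀ c, c * z = z * c) ∧
    z ^ p = 1 ∧ z ≠ 1 ∧ (∀ x, π x = 1 ↔ x ∈ zpowers z) ∧ z ∈ commutator Γ

variable {G : Type u} [Group G] [Finite G] {p : ℕ} [hp : Fact p.Prime]

theorem centExt_of_coc (c : StCoc G (ZMod p)) {u v : G} (h : u * v = v * u) (hm : c.c u v - c.c v u ≠ 0) :
    CentExt p G := by
  refine ⟨StExt c, inferInstance, inferInstance, StExt.proj c, ⟨1, c.c u v - c.c v u⟩, fun g => ⟨⟨g, 0⟩, rfl⟩,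
    fun x => StExt.ext (by simp) (by simp [c.one_left, c.one_right, add_comm]), ?_, fun e => hm (congrArg StExt.k e),
    fun x => ⟨fun e => ?_, ?_⟩, ?_⟩
  · rw [StExt.pow_mk]; exact StExt.ext rfl (by simp)
  · refine ⟨((x.k / (c.c u v - c.c v u)).val : ℕ), ?_⟩
    simp only [zpow_natCast]
    rw [StExt.pow_mk]
    exact StExt.ext (Eq.symm e) (by simp [div_mul_cancel₀ _ hm])
  · rintro ⟨n, rfl⟩
    rw [map_zpow]; exact one_zpow n
  · have : (⟨1, c.c u v - c.c v u⟩ : StExt c) = ⁅(⟨u, 0⟩ : StExt c), (⟨v, 0⟩ : StExt c)⁆ := by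
      rw [commutatorElement_def, mul_assoc, ← mul_inv_rev, eq_mul_inv_iff_mul_eq]
      exact StExt.ext (by simp [h]) (by simp [c.one_left])
    rw [this]
    exact commutator_mem_commutator (mem_top _) (mem_top _)

omit [Finite G] hp in
theorem exists_coc1 {R : Type*} [AddCommGroup R] (P : Subgroup G) {α a : G → R} (h : ∀ g, ∀ q ∈ P, α (g * q) = α g + a q) :
    ∃ A : G → G ⧸ P → R, ∀ g h : G, A g h = α (g * h) - α h := by
  refine ⟨fun g x => α (g * x.out) - α x.out, fun g k => ?_⟩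
  obtain ⟨q, e⟩ := QuotientGroup.mk_out_eq_mul P k
  simp only [e, ← mul_assoc, h _ _ q.2]
  abel

theorem centExt_of_fun (P : Subgroup G) (hi : ¬ p ∣ P.index) {α β a b : G → ZMod p}
    (hα : ∀ g, ∀ q ∈ P, α (g * q) = α g + a q) (hβ : ∀ g, ∀ q ∈ P, β (g * q) = β g + b q) {u v : G} (h : u * v = v * u)
    {m : ZMod p} (hm : m ≠ 0) (e : ∀ g, (α (u * (v * g)) - α (v * g)) * (β (v * g) - β g) -
      (α (v * (u * g)) - α (u * g)) * (β (u * g) - β g) = m) : CentExt p G := by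
  obtain ⟨A, hA⟩ := exists_coc1 P hα
  obtain ⟨B, hB⟩ := exists_coc1 P hβ
  have := Fintype.ofFinite (G ⧸ P)
  have k : ∀ {A : G → G ⧸ P → ZMod p} {α : G → ZMod p}, (∀ g h : G, A g h = α (g * h) - α h) →
      ∀ g h x, A (g * h) x = A g (h • x) + A h x := fun {A α} hA g h x => by
    induction x using QuotientGroup.induction_on with
    | H x => rw [MulAction.Quotient.smul_mk, smul_eq_mul, hA, hA, hA, mul_assoc]; abel
  have k1 : ∀ x, A 1 x = 0 := fun x => by
    induction x using QuotientGroup.induction_on with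
    | H x => simp [hA]
  refine centExt_of_coc ⟨fun g h => ∑ x, A g (h • x) * B h x, fun g h l => ?_, fun g => by simp [k1]⟩ h ?_
  · rw [← Equiv.sum_comp (MulAction.toPerm l) fun x => A g (h • x) * B h x]
    simp only [← Finset.sum_add_distrib, MulAction.toPerm_apply, k hA, k hB, mul_smul]
    exact Finset.sum_congr rfl fun x _ => by ring
  · have : ∀ x : G ⧸ P, A u (v • x) * B v x - A v (u • x) * B u x = m := fun x => by
      induction x using QuotientGroup.induction_on with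
      | H x => simp only [MulAction.Quotient.smul_mk, smul_eq_mul, hA, hB, e]
    simp only [← Finset.sum_sub_distrib, this, Finset.sum_const, Finset.card_univ, nsmul_eq_mul]
    refine mul_ne_zero ?_ hm
    rw [← Nat.card_eq_fintype_card, Ne, ZMod.natCast_eq_zero_iff]
    exact hi

/-- every element of the normalizer centralizes or inverts `P` -/
def PmAct (P : Subgroup G) : Prop :=
  ∀ n ∈ normalizer (P : Set G), (∀ v ∈ P, n * v * n⁻¹ = v) ∨ ∀ v ∈ P, n * v * n⁻¹ = v⁻¹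

theorem PmAct.exists_sign (P : Sylow p G) [hab : IsMulCommutative P] (h : PmAct (P : Subgroup G)) (d : G) :
    ∃ e : ℤ, e * e = 1 ∧ ∀ w ∈ (P : Subgroup G), d⁻¹ * w * d ∈ (P : Subgroup G) → d⁻¹ * w * d = w ^ e := by
  have k : ∀ w ∈ (P : Subgroup G), d⁻¹ * w * d ∈ (P : Subgroup G) → d⁻¹ * w * d = w ∨ d⁻¹ * w * d = w⁻¹ := fun w h1 h2 => by
    obtain ⟨n, hn, e⟩ := P.conj_eq_normalizer_conj_of_mem w d h1 h2
    rw [e]
    simpa using (h n⁻¹ (inv_mem hn)).imp (fun f => f w h1) fun f => f w h1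
  by_contra! hc
  obtain ⟨x, x1, x2, x3⟩ := hc 1 rfl
  obtain ⟨y, y1, y2, y3⟩ := hc (-1) rfl
  rw [zpow_one] at x3
  rw [zpow_neg_one] at y3
  have ex := (k x x1 x2).resolve_left x3
  have ey := (k y y1 y2).resolve_right y3
  have e : d⁻¹ * (x * y) * d = (d⁻¹ * x * d) * (d⁻¹ * y * d) := by group
  have c : x * y = y * x := congrArg Subtype.val (hab.is_comm.comm ⟨x, x1⟩ ⟨y, y1⟩)
  rcases k (x * y) (mul_mem x1 y1) (e ▸ mul_mem x2 y2) with f | f
  · rw [e, ex, ey, mul_left_inj] at f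
    exact x3 (ex.trans f)
  · rw [e, ex, ey, c, mul_inv_rev, mul_right_inj] at f
    exact y3 (ey.trans f)

theorem PmAct.exists_fun (P : Sylow p G) [IsMulCommutative P] (h : PmAct (P : Subgroup G)) (R : Type*) [AddCommGroup R] :
    ∃ ε : G → ℤ, (∀ g, ε g * ε g = 1) ∧ (∀ g, ∀ u ∈ (P : Subgroup G), ε (u * g) = ε g) ∧
      ∀ a : G → R, (∀ x ∈ (P : Subgroup G), ∀ y ∈ (P : Subgroup G), a (x * y) = a x + a y) →
        ∃ α : G → R, (∀ g, ∀ q ∈ (P : Subgroup G), α (g * q) = α g + a q) ∧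
          ∀ g, ∀ u ∈ (P : Subgroup G), α (u * g) = α g + ε g • a u := by
  choose e e1 e2 using h.exists_sign P
  set Q : Subgroup G := (P : Subgroup G)
  let r : G → G := fun g => (DoubleCoset.mk Q Q g).out
  have r1 : ∀ g, ∀ u ∈ Q, ∀ q ∈ Q, r (u * g * q) = r g := fun g u hu q hq =>
    congrArg Quotient.out ((DoubleCoset.eq Q Q _ _).2 ⟨u, hu, q, hq, rfl⟩).symm
  have r2 : ∀ g, ∃ t ∈ Q, ∃ q ∈ Q, g = t * r g * q := fun g =>
    (DoubleCoset.eq Q Q _ _).1 (DoubleCoset.out_eq' Q Q _)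
  choose t ht q hq r3 using r2
  refine ⟨fun g => e (r g), fun g => e1 _, fun g u hu => by simpa using congrArg e (r1 g u hu 1 (one_mem _)),
    fun a ha => ?_⟩
  let f : Q →* Multiplicative R := MonoidHom.mk' (fun x => Multiplicative.ofAdd (a x)) fun x y => by
    rw [← ofAdd_add]; exact congrArg _ (ha _ x.2 _ y.2)
  have az : ∀ w ∈ Q, ∀ n : ℤ, a (w ^ n) = n • a w := fun w hw n => congrArg Multiplicative.toAdd (map_zpow f ⟨w, hw⟩ n)
  have key : ∀ g, ∀ t' ∈ Q, ∀ q' ∈ Q, g = t' * r g * q' →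
      e (r g) • a (t g) + a (q g) = e (r g) • a t' + a q' := fun g t' h1 q' h2 h3 => by
    have h4 : (r g)⁻¹ * (t'⁻¹ * t g) * r g = q' * (q g)⁻¹ := by
      have := (r3 g).symm.trans h3
      calc _ = (r g)⁻¹ * t'⁻¹ * (t g * r g * q g) * (q g)⁻¹ := by group
        _ = _ := by rw [this]; group
    have h5 := e2 (r g) _ (mul_mem (inv_mem h1) (ht g)) (h4 ▸ mul_mem h2 (inv_mem (hq g)))
    have h6 := congrArg a (h4.symm.trans h5)
    rw [az _ (mul_mem (inv_mem h1) (ht g)), ha _ h2 _ (inv_mem (hq g)), ha _ (inv_mem h1) _ (ht g), ← zpow_neg_one,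
      ← zpow_neg_one, az _ h1, az _ (hq g), neg_one_zsmul, neg_one_zsmul, smul_add, smul_neg] at h6
    rw [← sub_eq_zero] at h6 ⊢
    rw [← neg_eq_zero, ← h6]; abel
  refine ⟨fun g => e (r g) • a (t g) + a (q g), fun g x hx => ?_, fun g u hu => ?_⟩
  · have e : r (g * x) = r g := by simpa using r1 g 1 (one_mem _) x hx
    beta_reduce
    rw [key (g * x) (t g) (ht g) (q g * x) (mul_mem (hq g) hx) (by rw [e, ← mul_assoc, ← r3]), e, ha _ (hq g) _ hx,
      add_assoc]
  · have e : r (u * g) = r g := by simpa using r1 g u hu 1 (one_mem _)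
    beta_reduce
    rw [key (u * g) (u * t g) (mul_mem hu (ht g)) (q g) (hq g) (by rw [e, mul_assoc, mul_assoc, ← mul_assoc (t g), ← r3]),
      e, ha _ hu _ (ht g), smul_add]
    abel

omit [Finite G] in
theorem exists_add_fun {P M : Subgroup G} (hn : P ≤ normalizer (M : Set G)) (hi : M.relIndex P = p) :
    ∃ a : G → ZMod p, (∀ x ∈ P, ∀ y ∈ P, a (x * y) = a x + a y) ∧ ∀ x ∈ P, a x = 0 ↔ x ∈ M := by
  classical
  have : (M.subgroupOf P).Normal := normal_subgroupOf_of_le_normalizer hn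
  have e : (P ⧸ M.subgroupOf P) ≃* Multiplicative (ZMod p) := mulEquivOfPrimeCardEq (p := p) hi (by simp)
  refine ⟨fun g => if h : g ∈ P then (e (⟨g, h⟩ : P)).toAdd else 0, fun x hx y hy => ?_, fun x hx => ?_⟩
  · simp only [dif_pos hx, dif_pos hy, dif_pos (mul_mem hx hy), ← toAdd_mul, ← map_mul, ← QuotientGroup.mk_mul]
    rfl
  · simp [dif_pos hx, mem_subgroupOf]

open H18 in
theorem PmAct.centExt (P : Sylow p G) [hab : IsMulCommutative P] (h : PmAct (P : Subgroup G))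
    (hc : ¬ IsCyclic (P : Subgroup G)) : CentExt p G := by
  have hP : PiGrp {p} (P : Subgroup G) := piGrp_of_isPGroup hp.out P.isPGroup'
  have k : ∀ u ∈ (P : Subgroup G), ∃ (a : G → ZMod p) (v : G), (∀ x ∈ (P : Subgroup G), ∀ y ∈ (P : Subgroup G),
      a (x * y) = a x + a y) ∧ a u = 0 ∧ v ∈ (P : Subgroup G) ∧ a v ≠ 0 := fun u hu => by
    obtain ⟨M, h1, h2, h3⟩ := hP.exists_index_p (K := zpowers u) (lt_of_le_of_ne (zpowers_le.2 hu) fun e => hc (by
      rw [← e]; infer_instance))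
    obtain ⟨a, a1, a2⟩ := exists_add_fun h2.norm h3
    obtain ⟨v, v1, v2⟩ : ∃ v ∈ (P : Subgroup G), v ∉ M := by
      by_contra! e
      rw [relIndex_eq_one.2 e] at h3
      exact hp.out.one_lt.ne h3
    exact ⟨a, v, a1, (a2 u hu).2 (h1 (mem_zpowers u)), v1, mt (a2 v v1).1 v2⟩
  obtain ⟨a, u, a1, -, hu, a2⟩ := k 1 (one_mem _)
  obtain ⟨b, v, b1, b2, hv, b3⟩ := k u hu
  obtain ⟨ε, e1, e2, e3⟩ := h.exists_fun P (ZMod p)
  obtain ⟨α, a3, a4⟩ := e3 a a1
  obtain ⟨β, b4, b5⟩ := e3 b b1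
  refine centExt_of_fun P P.not_dvd_index a3 b4 (congrArg Subtype.val (hab.is_comm.comm ⟨u, hu⟩ ⟨v, hv⟩))
    (mul_ne_zero a2 b3) fun g => ?_
  have : ((ε g : ZMod p)) * ε g = 1 := by exact_mod_cast congrArg (Int.cast : ℤ → ZMod p) (e1 g)
  rw [a4 _ u hu, b5 _ v hv, b5 _ u hu, b2, e2 g v hv]
  simp only [zsmul_eq_mul]
  linear_combination (a u * b v) * this

end H8
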