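import Cfsg.Agent.H8.SmT1
import Cfsg.Agent.H8.Avg2
import Cfsg.Agent.H8.Contr
import Cfsg.Agent.H7.Invol
import Cfsg.Agent.H7.Misc2
import Cfsg.Agent.H6.K3a
import Cfsg.Agent.H6.Ind
/-! Smith–Tyrer, part 2: a principal block of dihedral shape does not admit a non-split central extension by `Z_p`. -/
set_option autoImplicit false
open H5 H7 Cfsg Finset
open scoped ComplexConjugate
namespace H8

theorem st_two {ι : Type*} (s : Finset ι) (α β : ι → ℤ) {F : ℤ} (hF : F ≠ 1) (hn : ∀ i ∈ s, 0 < α i + β i * F)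
    (h1 : ∑ i ∈ s, (α i - β i) ^ 2 = 2) (h2 : ∑ i ∈ s, α i * (α i - β i) = 1)
    (h3 : ∑ i ∈ s, ((α i * β i * (α i - β i) : ℤ) : ℂ) / ((α i + β i * F : ℤ) : ℂ) = 0) : ∃ i ∈ s, α i + β i * F = 1 := by
  classical
  set T := s.filter fun i => α i - β i ≠ 0
  have e1 : ∀ i ∈ T, (α i - β i) ^ 2 = 1 := fun i hi => by
    obtain ⟨h4, h5⟩ := mem_filter.1 hi
    have := (single_le_sum (fun i _ => sq_nonneg (α i - β i)) h4).trans_eq h1
    have h6 : -1 ≤ α i - β i ∧ α i - β i ≤ 1 := by constructor <;> nlinarith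
    rcases (by omega : α i - β i = 1 ∨ α i - β i = -1) with e | e <;> simp [e]
  rw [← sum_filter_of_ne (p := fun i => α i - β i ≠ 0) fun i _ h e => h (by simp [e])] at h1 h2 h3
  rw [sum_congr rfl e1, sum_const, nsmul_eq_mul, mul_one] at h1
  obtain ⟨i, j, hij, e⟩ := card_eq_two.1 (show T.card = 2 by exact_mod_cast h1)
  have hi : i ∈ T := by simp [e]
  have hj : j ∈ T := by simp [e]
  have ni := hn i (mem_filter.1 hi).1
  have nj := hn j (mem_filter.1 hj).1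
  change ∑ i ∈ T, _ = _ at h2 h3
  rw [e, sum_pair hij] at h2 h3
  rw [div_add_div _ _ (by exact_mod_cast ni.ne') (by exact_mod_cast nj.ne'), div_eq_zero_iff] at h3
  have h4 : α i * β i * (α i - β i) * (α j + β j * F) + (α i + β i * F) * (α j * β j * (α j - β j)) = 0 := by
    rcases h3 with h3 | h3
    · exact_mod_cast h3
    · exact absurd h3 (by exact_mod_cast (mul_pos ni nj).ne')
  have k : ∀ {a b c d : ℤ}, (a - b) ^ 2 = 1 → (c - d) ^ 2 = 1 → a * (a - b) + c * (c - d) = 1 →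
      a * b * (a - b) * (c + d * F) + (a + b * F) * (c * d * (c - d)) = 0 → b = 0 ∨ d = 0 := fun {a b c d} x y z w => by
    obtain ⟨u, rfl⟩ : ∃ u, a = b + u := ⟨a - b, by ring⟩
    obtain ⟨v, rfl⟩ : ∃ v, c = d + v := ⟨c - d, by ring⟩
    simp only [add_sub_cancel_left] at x y z w
    have : b * d * (F - 1) = 0 := by
      rcases sq_eq_one_iff.1 x with rfl | rfl <;> rcases sq_eq_one_iff.1 y with rfl | rfl
      · obtain rfl : d = -1 - b := by linarith
        linear_combination w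
      · obtain rfl : d = 1 + b := by linarith
        linear_combination w
      · obtain rfl : d = b - 1 := by linarith
        linear_combination w
      · obtain rfl : d = 1 - b := by linarith
        linear_combination w
    exact mul_eq_zero.1 ((mul_eq_zero.1 this).resolve_right (sub_ne_zero.2 hF))
  have x := e1 i hi
  have y := e1 j hj
  rcases k x y h2 h4 with f | f
  · refine ⟨i, (mem_filter.1 hi).1, ?_⟩
    rw [f] at ni x ⊢
    rcases sq_eq_one_iff.1 x with x | x <;> omega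
  · refine ⟨j, (mem_filter.1 hj).1, ?_⟩
    rw [f] at nj y ⊢
    rcases sq_eq_one_iff.1 y with y | y <;> omega

theorem st_arith {ι : Type*} (s : Finset ι) (α β : ι → ℤ) {F x r : ℤ} (hFx : F ≠ x) (h0 : F ≠ 0) (hF : F ≠ 1)
    (h2 : 1 + F ≠ 0) (hn : ∀ i ∈ s, 0 < α i + β i * F)
    (hS : ∀ u w : ℤ, u = F ∨ u = x → w = F ∨ w = x →
      ∑ i ∈ s, ((α i + β i * u) * (α i + β i * w) : ℂ) = 1 + u * w + r * ((1 + u) * (1 + w)))
    (hT : ∑ i ∈ s, ((α i + β i * x) ^ 3 / (α i + β i * F) : ℂ) = 1 + x ^ 3 / F + r * ((1 + x) ^ 3 / (1 + F))) :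
    ∃ i ∈ s, α i + β i * F = 1 := by
  have k : ∀ u w : ℤ, u = F ∨ u = x → w = F ∨ w = x → ∑ i ∈ s, α i ^ 2 + (u + w) * ∑ i ∈ s, α i * β i +
      u * w * ∑ i ∈ s, β i ^ 2 = 1 + u * w + r * ((1 + u) * (1 + w)) := fun u w hu hw => by
    have := hS u w hu hw
    rw [mul_sum, mul_sum, ← sum_add_distrib, ← sum_add_distrib]
    refine Eq.trans (sum_congr rfl fun i _ => (by ring : _ = (α i + β i * u) * (α i + β i * w))) ?_
    exact_mod_cast this
  have k1 := k F F (.inl rfl) (.inl rfl)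
  have k2 := k F x (.inl rfl) (.inr rfl)
  have k3 := k x x (.inr rfl) (.inr rfl)
  have D := sub_ne_zero.2 hFx
  have e3 : ∑ i ∈ s, β i ^ 2 = r + 1 := mul_left_cancel₀ (pow_ne_zero 2 D) (by linear_combination k1 - 2 * k2 + k3)
  have e2 : ∑ i ∈ s, α i * β i = r := mul_left_cancel₀ D (by rw [e3] at k1 k2; linear_combination k1 - k2)
  have e1 : ∑ i ∈ s, α i ^ 2 = r + 1 := by rw [e3, e2] at k1; linear_combination k1
  refine st_two s α β hF hn ?_ ?_ ?_
  · simp only [sub_sq, mul_assoc, sum_add_distrib, sum_sub_distrib, ← mul_sum, e1, e2, e3]; ring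
  · simp only [mul_sub, ← sq, sum_sub_distrib, e1, e2]; ring
  · have c1 : ∑ i ∈ s, (α i : ℂ) ^ 2 = r + 1 := by exact_mod_cast e1
    have c2 : ∑ i ∈ s, (α i : ℂ) * β i = r := by exact_mod_cast e2
    have c3 : ∑ i ∈ s, (β i : ℂ) ^ 2 = r + 1 := by exact_mod_cast e3
    have D' : ((F : ℂ) - x) ^ 3 ≠ 0 := pow_ne_zero 3 (by exact_mod_cast D)
    have h0' : (F : ℂ) ≠ 0 := by exact_mod_cast h0
    have h2' : 1 + (F : ℂ) ≠ 0 := by exact_mod_cast h2
    refine mul_left_cancel₀ D' ?_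
    rw [mul_sum, sum_congr rfl (g := fun i => (F * (F + 1) : ℂ) * α i ^ 2 +
      ((F - x) ^ 3 + F * (F + 1) * (2 * F - 3 * (F - x))) * (α i * β i) +
      ((F - x) ^ 3 * (-F - 1) + F * (F + 1) * (F ^ 2 - 3 * F * (F - x) + 3 * (F - x) ^ 2)) * β i ^ 2 -
        F * (F + 1) * ((α i + β i * x) ^ 3 / (α i + β i * F))) fun i hi => by
        have : (α i + β i * F : ℂ) ≠ 0 := by exact_mod_cast (hn i hi).ne'
        push_cast
        rw [← mul_div_assoc, ← mul_div_assoc, eq_sub_iff_add_eq, ← add_div, div_eq_iff this]; ring]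
    simp only [sum_sub_distrib, sum_add_distrib, ← mul_sum, c1, c2, c3, hT]
    field_simp; ring

theorem st_fourier {ι : Type*} {p : ℕ} (hp : 0 < p) (s : Finset ι) (c g : ι → ℂ) (hc : ∀ i ∈ s, c i ^ p = 1)
    (h : ∀ k, 0 < k → k < p → ∑ i ∈ s, c i ^ k * g i = 0) {ω : ℂ} (hω : ω ^ p = 1) [DecidablePred fun i => c i = ω] :
    (p : ℂ) * ∑ i ∈ s with c i = ω, g i = ∑ i ∈ s, g i := by
  have ω0 : ω ≠ 0 := fun e => by simp [e, hp.ne'] at hω
  have k : ∀ i ∈ s, (p : ℂ) * (if c i = ω then g i else 0) = ∑ k ∈ range p, ω⁻¹ ^ k * (c i ^ k * g i) := fun i hi => by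
    simp only [← mul_assoc, ← mul_pow, ← sum_mul]
    split_ifs with e
    · simp [e, ω0]
    · have e' : ω⁻¹ * c i ≠ 1 := fun f => e (by rw [inv_mul_eq_one₀ ω0] at f; exact f.symm)
      rw [geom_sum_eq e', mul_pow, hc i hi, inv_pow, hω]; simp
  rw [sum_filter, mul_sum, sum_congr rfl k, sum_comm, sum_eq_single 0 (fun k hk k0 => by
    rw [← mul_sum, h k (Nat.pos_of_ne_zero k0) (mem_range.1 hk), mul_zero]) (by simp [hp.ne'])]
  simp

variable {G : Type*} [Group G] [Finite G] {p : ℕ} [hp : Fact p.Prime] {M : Ideal AlgInt} [PM p M]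

/-- a principal block of dihedral shape -/
structure StDih (p : ℕ) (M : Ideal AlgInt) {G : Type*} [Group G] (χ : IrrCharacter G) (Y : Finset (IrrCharacter G))
    (ε δ : ℤ) : Prop where
  ne : χ ≠ irrOne G
  e : ε = 1 ∨ ε = -1
  d : δ = 1 ∨ δ = -1
  yne : Y.Nonempty
  one : irrOne G ∉ Y
  sum : ∀ f : IrrCharacter G → ℂ, ∑ᶠ ψ ∈ principalBlock M G, f ψ = f (irrOne G) + f χ + ∑ η ∈ Y, f η
  reg : ∀ η ∈ Y, ∀ g, ¬ p ∣ orderOf g → δ * (η : G → ℂ) g = 1 + ε * (χ : G → ℂ) g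

namespace StDih
variable {χ : IrrCharacter G} {Y : Finset (IrrCharacter G)} {ε δ : ℤ} (h : StDih p M χ Y ε δ)
include h

omit [Finite G] hp [PM p M] in
theorem ee : (ε : ℂ) * ε = 1 := by rcases h.e with e | e <;> simp [e]
omit [Finite G] hp [PM p M] in
theorem dd : (δ : ℂ) * δ = 1 := by rcases h.d with e | e <;> simp [e]

omit hp [PM p M] in
theorem mem : χ ∈ principalBlock M G ∧ χ ∉ Y := by
  classical
  have := h.sum fun ψ => if ψ = χ then 1 else 0
  rw [finsum_mem_eq_finite_toFinset_sum _ (Set.toFinite _), sum_ite_eq', sum_ite_eq', if_neg h.ne.symm, if_pos rfl,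
    zero_add] at this
  simp only [Set.Finite.mem_toFinset] at this
  split_ifs at this with h1 h2 h2 <;> first | exact ⟨h1, h2⟩ | norm_num at this

omit [Finite G] hp [PM p M] in
theorem val {η : IrrCharacter G} (hη : η ∈ Y) {g : G} (hg : ¬ p ∣ orderOf g) :
    (η : G → ℂ) g = δ * (1 + ε * (χ : G → ℂ) g) := by
  rw [← h.reg η hη g hg, ← mul_assoc, h.dd, one_mul]

omit [Finite G] hp [PM p M] in
theorem mu_eq {y w : G} (hy : ¬ p ∣ orderOf y) (hw : ¬ p ∣ orderOf w) :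
    mu (principalBlock M G) y w = 1 + ε * (χ : G → ℂ) y * conj (ε * (χ : G → ℂ) w) +
      Y.card * ((1 + ε * (χ : G → ℂ) y) * (1 + conj (ε * (χ : G → ℂ) w))) := by
  rw [mu, h.sum, sum_congr rfl (g := fun _ => (1 + ε * (χ : G → ℂ) y) * (1 + conj (ε * (χ : G → ℂ) w))) fun η hη => by
    rw [h.val hη hy, h.val hη hw]
    simp only [map_mul, map_add, map_one, map_intCast]
    linear_combination (1 + ε * (χ : G → ℂ) y) * (1 + ε * conj ((χ : G → ℂ) w)) * h.dd]
  simp only [irrOne_apply, map_mul, map_one, map_intCast, sum_const, nsmul_eq_mul]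
  linear_combination -((χ : G → ℂ) y * conj ((χ : G → ℂ) w)) * h.ee

omit [PM p M] in
theorem cube {t : G} (ht : ¬ p ∣ orderOf t) {F x : ℤ} (eF : ε * (χ : G → ℂ) 1 = F) (e : ε * (χ : G → ℂ) t = x) :
    ∑ᶠ ψ ∈ principalBlock M G, (ψ : G → ℂ) t * (ψ : G → ℂ) t / (ψ : G → ℂ) 1 * (ψ : G → ℂ) t =
      1 + x ^ 3 / F + Y.card * ((1 + x) ^ 3 / (1 + F)) := by
  have e' : (χ : G → ℂ) t = ε * x := by rw [← e, ← mul_assoc, h.ee, one_mul]
  have eF' : (χ : G → ℂ) 1 = ε * F := by rw [← eF, ← mul_assoc, h.ee, one_mul]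
  rw [h.sum, sum_congr rfl (g := fun _ => ((1 + x) ^ 3 / (1 + F) : ℂ)) fun η hη => by
    rw [h.val hη ht, h.val hη not_dvd_orderOf_one, e, eF]
    rcases h.d with f | f <;> simp only [f, Int.cast_neg, Int.cast_one, neg_mul, one_mul, div_neg, mul_neg, neg_neg] <;> ring]
  simp only [irrOne_apply, e', eF', sum_const, nsmul_eq_mul]
  rcases h.e with f | f <;> simp only [f] <;> push_cast <;> ring

theorem exists_proj [Fintype G] {t : G} (ht : ¬ p ∣ orderOf t) {F x : ℤ} (eF : ε * (χ : G → ℂ) 1 = F)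
    (e : ε * (χ : G → ℂ) t = x) (hFx : F ≠ x) : ∃ Φ Ψ : G → ℂ, IsGeneralizedCharacter G Φ ∧ IsGeneralizedCharacter G Ψ ∧
      (∀ g, p ∣ orderOf g → Φ g = 0 ∧ Ψ g = 0) ∧ ∀ a b : ℂ,
      classInner (fun g => a + b * (ε * (χ : G → ℂ) g)) Φ = a ∧ classInner (fun g => a + b * (ε * (χ : G → ℂ) g)) Ψ = b := by
  have g0 : IsGeneralizedCharacter G ((δ : ℂ) • ∑ η ∈ Y, (η : G → ℂ)) :=
    (IsGeneralizedCharacter.sum _ fun η _ => η.2.isGen).intCast_smul δ
  refine ⟨(irrOne G : G → ℂ) + (δ : ℂ) • ∑ η ∈ Y, (η : G → ℂ), (ε : ℂ) • (χ : G → ℂ) + (δ : ℂ) • ∑ η ∈ Y, (η : G → ℂ),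
    (irrOne G).2.isGen.add g0, (χ.2.isGen.intCast_smul ε).add g0, fun g hg => ?_, fun a b => ?_⟩
  · have k : ∀ {w : G} {x : ℤ}, ¬ p ∣ orderOf w → ε * (χ : G → ℂ) w = x →
        1 + ε * (χ : G → ℂ) g * x + δ * (∑ η ∈ Y, (η : G → ℂ) g) * (1 + x) = 0 := fun {w x} hw e => by
      have e' : (χ : G → ℂ) w = ε * x := by rw [← e, ← mul_assoc, h.ee, one_mul]
      have := congrArg conj (mu_eq_zero_of_dvd (isSat_of_isPBlock (isPBlock_principalBlock (M := M))) hw hg)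
      rw [mu_conj, map_zero, mu, h.sum, sum_congr (s₁ := Y) rfl (g := fun η => (η : G → ℂ) g * (δ * (1 + x))) fun η hη => by
        rw [h.val hη hw, e]; simp only [map_mul, map_add, map_one, map_intCast], ← sum_mul] at this
      simp only [irrOne_apply, e', map_mul, map_one, map_intCast] at this
      linear_combination this
    have k1 := k not_dvd_orderOf_one eF
    have k2 := k ht e
    have D : (F : ℂ) - x ≠ 0 := by exact_mod_cast sub_ne_zero.2 hFx
    simp only [Pi.add_apply, Pi.smul_apply, Finset.sum_apply, smul_eq_mul, irrOne_apply]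
    exact ⟨mul_left_cancel₀ D (by linear_combination F * k2 - x * k1), mul_left_cancel₀ D (by linear_combination k1 - k2)⟩
  · have e0 : (fun g => a + b * (ε * (χ : G → ℂ) g)) = a • (irrOne G : G → ℂ) + (b * ε) • (χ : G → ℂ) := by
      ext g; simp [irrOne_apply, mul_assoc]
    have n : ∀ {ψ η : IrrCharacter G}, ψ ≠ η → classInner (ψ : G → ℂ) η = 0 := fun {ψ η} f =>
      ψ.2.classInner_of_ne η.2 fun e => f (Subtype.ext e)
    have n1 : ∑ η ∈ Y, classInner (irrOne G : G → ℂ) η = 0 := sum_eq_zero fun η hη => n fun e => h.one (e ▸ hη)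
    have n2 : ∑ η ∈ Y, classInner (χ : G → ℂ) η = 0 := sum_eq_zero fun η hη => n fun e => h.mem.2 (e ▸ hη)
    simp only [e0, classInner_add_left, classInner_add_right, classInner_smul_left, classInner_smul_right,
      classInner_sum_right, sum_add_distrib, ← mul_sum, n1, n2, n h.ne, n h.ne.symm, (irrOne G).2.classInner_self, χ.2.classInner_self, map_intCast]
    exact ⟨by ring, by linear_combination b * h.ee⟩

end StDih

theorem st_transfer {Γ : Type*} [Group Γ] [Finite Γ] {π : Γ →* G} (hπ : Function.Surjective π) {z : Γ}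
    (hz : ∀ c, c * z = z * c) (zp : z ^ p = 1) (hk : ∀ x, π x = 1 ↔ x ∈ Subgroup.zpowers z) {ω : ℂ} (hω : ω ^ p = 1) :
    ∃ A : Finset (IrrCharacter Γ), (∀ ψ ∈ A, (ψ : Γ → ℂ) z = ω * (ψ : Γ → ℂ) 1) ∧
      ∀ (g : IrrCharacter Γ → ℂ) (y : Γ), (∀ k, 0 < k → k < p →
        ∑ᶠ ψ ∈ principalBlock M Γ, g ψ * (ψ : Γ → ℂ) (z ^ k * y) = 0) →
        ∑ ψ ∈ A, g ψ * (ψ : Γ → ℂ) y = ∑ᶠ ψ ∈ principalBlock M G, g (icomp π hπ ψ) * (ψ : G → ℂ) (π y) := by
  classical
  have kp : IsPGroup p π.ker := fun ⟨x, hx⟩ => ⟨1, Subtype.ext (by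
    obtain ⟨n, rfl⟩ := (hk x).1 hx
    simp only [pow_one, SubmonoidClass.mk_pow, OneMemClass.coe_one]
    rw [← zpow_natCast, ← zpow_mul, mul_comm, zpow_mul, zpow_natCast, zp, one_zpow])⟩
  have pre : icomp π hπ ⁻¹' principalBlock M Γ = principalBlock M G := preimage_principal hπ fun χ ψ h1 h2 =>
    sameBlock_of_comp hπ kp (fun y _ x hx => by
      obtain ⟨n, rfl⟩ := (hk x).1 hx
      exact ((show Commute z y from (hz y).symm).zpow_left n).eq) h1 h2
  let c : IrrCharacter Γ → ℂ := fun ψ => (ψ : Γ → ℂ) z / (ψ : Γ → ℂ) 1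
  have n0 : ∀ ψ : IrrCharacter Γ, (ψ : Γ → ℂ) 1 ≠ 0 := fun ψ => ψ.2.apply_one_ne_zero
  have c1 : ∀ (ψ : IrrCharacter Γ) k y, (ψ : Γ → ℂ) (z ^ k * y) = c ψ ^ k * (ψ : Γ → ℂ) y := fun ψ k y => by
    induction k with
    | zero => simp
    | succ k ih => rw [pow_succ', mul_assoc, irr_central_mul ψ.2 hz, ih, pow_succ', mul_assoc]
  have c2 : ∀ ψ, c ψ ^ p = 1 := fun ψ => by
    have := c1 ψ p 1
    rw [zp, one_mul] at this
    exact mul_right_cancel₀ (n0 ψ) (by rw [← this, one_mul])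
  set B := (principalBlock M Γ).toFinite.toFinset
  refine ⟨B.filter fun ψ => c ψ = ω, fun ψ hψ => by rw [← (mem_filter.1 hψ).2, div_mul_cancel₀ _ (n0 ψ)], fun g y hg => ?_⟩
  have k : ∀ k, 0 < k → k < p → ∑ ψ ∈ B, c ψ ^ k * (g ψ * (ψ : Γ → ℂ) y) = 0 := fun k k0 k1 => by
    rw [← hg k k0 k1, finsum_mem_eq_finite_toFinset_sum _ (Set.toFinite _)]
    exact sum_congr rfl fun ψ _ => by rw [c1]; ring
  have e1 := st_fourier hp.out.pos B c _ (fun i _ => c2 i) k hω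
  rw [← st_fourier hp.out.pos B c _ (fun i _ => c2 i) k (one_pow p)] at e1
  rw [mul_left_cancel₀ (by exact_mod_cast hp.out.ne_zero) e1, ← pre]
  refine Eq.trans ?_ (finsum_icomp hπ (principalBlock M Γ) fun ψ => g ψ * (ψ : Γ → ℂ) y)
  rw [← finsum_mem_coe_finset]
  refine finsum_mem_congr (Set.ext fun ψ => ?_) fun _ _ => rfl
  simp only [B, coe_filter, Set.Finite.mem_toFinset, Set.mem_setOf_eq, Set.mem_inter_iff, mem_kerSet]
  refine and_congr_right fun _ => ⟨fun e n hn => ?_, fun e => ?_⟩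
  · obtain ⟨k, rfl⟩ := mem_powers_iff_mem_zpowers.2 ((hk n).1 hn)
    simpa [e] using c1 ψ k 1
  · exact (div_eq_one_iff_eq (n0 ψ)).2 (e z ((hk z).2 (Subgroup.mem_zpowers z)))

theorem StDih.not_centExt {χ : IrrCharacter G} {Y : Finset (IrrCharacter G)} {ε δ : ℤ} (h : StDih p M χ Y ε δ)
    (hp2 : p ≠ 2) {t : G} (ht : t * t = 1) (h1 : (χ : G → ℂ) t ≠ (χ : G → ℂ) 1) (h2 : ε * (χ : G → ℂ) 1 ≠ 1) :
    ¬ CentExt p G := by
  rintro ⟨Γ, _, _, π, z, hπ, hz, zp, z1, hk, hc⟩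
  classical
  have := Fintype.ofFinite Γ
  have := Fintype.ofFinite G
  have h2p : ¬ p ∣ 2 := fun e => hp2 ((Nat.prime_dvd_prime_iff_eq hp.out Nat.prime_two).1 e)
  have tr : ¬ p ∣ orderOf t := not_dvd_orderOf_of_pow h2p (by rw [sq, ht])
  have t1 : t ≠ 1 := fun e => h1 (by rw [e])
  obtain ⟨x0, ex0⟩ := χ.2.isCharacter.exists_int_of_forall_pow (g := t) fun k hk => by
    rw [orderOf_eq_prime (by rw [sq, ht]) t1, Nat.coprime_two_right] at hk
    obtain ⟨k, rfl⟩ := hk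
    rw [pow_succ, pow_mul, sq, ht, one_pow, one_mul]
  obtain ⟨F, eF⟩ : ∃ F : ℤ, ε * (χ : G → ℂ) 1 = F := ⟨ε * charDegree (χ : G → ℂ), by simp [coe_deg]⟩
  obtain ⟨x, ex⟩ : ∃ x : ℤ, ε * (χ : G → ℂ) t = x := ⟨ε * x0, by simp [ex0]⟩
  have ε0 : (ε : ℂ) ≠ 0 := left_ne_zero_of_mul_eq_one h.ee
  have hFx : F ≠ x := fun e => h1 (mul_left_cancel₀ ε0 (by rw [ex, eF, e]))
  have D : (F : ℂ) - x ≠ 0 := by exact_mod_cast sub_ne_zero.2 hFx
  obtain ⟨s, sr, rfl⟩ := exists_pRegular_lift hπ tr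
  have zk : ∀ n : ℤ, IsPE p (z ^ n) := fun n => isPE_of_pow (k := 1) (by
    rw [pow_one, ← zpow_natCast, ← zpow_mul, mul_comm, zpow_mul, zpow_natCast, zp, one_zpow])
  have ss : s * s = 1 := by
    obtain ⟨n, e⟩ := (hk (s * s)).1 (by rw [map_mul, ht])
    exact ((show z ^ n = s * s from e) ▸ zk n).eq_one (not_dvd_orderOf_mul rfl sr sr)
  obtain ⟨ω, hω, ω1⟩ : ∃ ω : ℂ, ω ^ p = 1 ∧ ω ≠ 1 := by
    have := Complex.isPrimitiveRoot_exp p hp.out.ne_zero
    exact ⟨_, this.pow_eq_one, this.ne_one hp.out.one_lt⟩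
  obtain ⟨A, A1, A2⟩ := st_transfer (M := M) hπ hz zp hk hω
  have sat := isSat_of_isPBlock (isPBlock_principalBlock (M := M) (G := Γ))
  have ppk : ∀ k y, ¬ p ∣ orderOf y → pp p (z ^ k * y) = z ^ k := fun k y hy =>
    pp_mul_of (by simpa using zk k) hy ((show Commute z y from (hz y).symm).pow_left k)
  have oz : orderOf z = p := orderOf_eq_prime zp z1
  have S : ∀ y w, ¬ p ∣ orderOf y → ¬ p ∣ orderOf w → ∑ ψ ∈ A, (ψ : Γ → ℂ) y * conj ((ψ : Γ → ℂ) w) =
      1 + ε * (χ : G → ℂ) (π y) * conj (ε * (χ : G → ℂ) (π w)) +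
        Y.card * ((1 + ε * (χ : G → ℂ) (π y)) * (1 + conj (ε * (χ : G → ℂ) (π w)))) := fun y w hy hw => by
    rw [← h.mu_eq (not_dvd_orderOf_map π hy) (not_dvd_orderOf_map π hw), mu]
    simpa only [mul_comm, icomp_apply] using A2 (fun ψ => conj ((ψ : Γ → ℂ) w)) y fun k k0 k1 => by
      simpa only [mu, mul_comm] using mu_eq_zero sat (g := z ^ k * y) (h := w) (by
        rw [ppk k y hy, pp_of_not_dvd hw, isConj_one_left]
        exact pow_ne_one_of_lt_orderOf k0.ne' (oz ▸ k1))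
  have T := A2 (fun ψ => (ψ : Γ → ℂ) s * (ψ : Γ → ℂ) s / (ψ : Γ → ℂ) 1) s fun k k0 k1 =>
    sum_invol_eq_zero sat ss ss fun u _ e => by
      rw [ppk k s sr, ((show Commute u z from hz u).pow_right k).eq, mul_inv_cancel_right, eq_inv_iff_mul_eq_one,
        ← pow_add, ← orderOf_dvd_iff_pow_eq_one, oz, ← two_mul, hp.out.dvd_mul] at e
      exact e.elim h2p (Nat.not_dvd_of_pos_of_lt k0 k1)
  simp only [icomp_apply, map_one] at T
  rw [h.cube tr eF ex] at T
  have lin : ∀ ψ ∈ A, ∀ y, ¬ p ∣ orderOf y → (ψ : Γ → ℂ) y = ((ψ : Γ → ℂ) 1 - ((ψ : Γ → ℂ) 1 - (ψ : Γ → ℂ) s) / (F - x) * F) +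
      ((ψ : Γ → ℂ) 1 - (ψ : Γ → ℂ) s) / (F - x) * (ε * (χ : G → ℂ) (π y)) := fun ψ hψ y hy => by
    set l : ℂ := (ε * (χ : G → ℂ) (π y) - x) / (F - x)
    set m : ℂ := (F - ε * (χ : G → ℂ) (π y)) / (F - x)
    let f : IrrCharacter Γ → ℂ := fun ψ => (ψ : Γ → ℂ) y - l * (ψ : Γ → ℂ) 1 - m * (ψ : Γ → ℂ) s
    have k1 : ∀ w, ¬ p ∣ orderOf w → ∑ ψ ∈ A, f ψ * conj ((ψ : Γ → ℂ) w) = 0 := fun w hw => by
      simp only [f, sub_mul, sum_sub_distrib, mul_assoc, ← mul_sum, S y w hy hw, S 1 w not_dvd_orderOf_one hw, S s w sr hw,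
        map_one, eF, ex, l, m]
      field_simp; ring
    have k2 : ∑ ψ ∈ A, f ψ * conj (f ψ) = 0 := by
      rw [sum_congr rfl (g := fun ψ => f ψ * conj ((ψ : Γ → ℂ) y) - conj l * (f ψ * conj ((ψ : Γ → ℂ) 1)) -
        conj m * (f ψ * conj ((ψ : Γ → ℂ) s))) fun ψ _ => by simp only [f, map_sub, map_mul]; ring]
      simp only [sum_sub_distrib, ← mul_sum, k1 y hy, k1 1 not_dvd_orderOf_one, k1 s sr, mul_zero, sub_zero]
    simp only [Complex.mul_conj] at k2
    have k3 := Complex.normSq_eq_zero.1 ((sum_eq_zero_iff_of_nonneg fun ψ _ => Complex.normSq_nonneg (f ψ)).1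
      (by exact_mod_cast k2) ψ hψ)
    simp only [f, l, m, sub_sub, sub_eq_zero] at k3
    rw [k3]; field_simp; ring
  obtain ⟨Φ, Ψ, g1, g2, v, inn⟩ := h.exists_proj tr eF ex hFx
  have int : ∀ ψ : IrrCharacter Γ, ∃ a b : ℤ, ψ ∈ A → ∀ y, ¬ p ∣ orderOf y →
      (ψ : Γ → ℂ) y = a + b * (ε * (χ : G → ℂ) (π y)) := fun ψ => by
    by_cases hψ : ψ ∈ A
    swap
    · exact ⟨0, 0, fun e => absurd e hψ⟩
    have g0 : IsGeneralizedCharacter Γ fun g => (ψ : Γ → ℂ) (pr p g) := by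
      have := IsGeneralizedCharacter.sum univ fun (i : IBr M Γ) _ => (isGen_bch_pr (p := p) i).natCast_smul (dec (ψ : Γ → ℂ) i)
      convert this using 1
      ext g
      simp [apply_eq_sum_bch (M := M) ψ.2.isCharacter (not_dvd_orderOf_pr (p := p) g)]
    have k : ∀ {Θ : G → ℂ} {a b : ℂ}, (∀ y, ¬ p ∣ orderOf y → (ψ : Γ → ℂ) y = a + b * (ε * (χ : G → ℂ) (π y))) →
        (∀ g, p ∣ orderOf g → Θ g = 0) → classInner (fun g => (ψ : Γ → ℂ) (pr p g)) (fun g => Θ (π g)) =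
          classInner (fun g => a + b * (ε * (χ : G → ℂ) g)) Θ := fun {Θ a b} e hΘ => by
      rw [← H6.inner_comp_surjective π hπ, classInner, classInner]
      refine congrArg _ (sum_congr rfl fun g _ => ?_)
      by_cases f : p ∣ orderOf (π g)
      · simp [hΘ _ f]
      · rw [e _ (not_dvd_orderOf_pr g), ← pr_map, pr_of_not_dvd f]
    obtain ⟨a, ha⟩ := g0.exists_classInner_int (g1.comp π)
    obtain ⟨b, hb⟩ := g0.exists_classInner_int (g2.comp π)
    rw [k (lin ψ hψ) fun g hg => (v g hg).1, (inn _ _).1] at ha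
    rw [k (lin ψ hψ) fun g hg => (v g hg).2, (inn _ _).2] at hb
    exact ⟨a, b, fun _ y hy => by rw [lin ψ hψ y hy, ha, hb]⟩
  choose α β hαβ using int
  have v1 : ∀ ψ ∈ A, (ψ : Γ → ℂ) 1 = α ψ + β ψ * F := fun ψ hψ => by rw [hαβ ψ hψ 1 not_dvd_orderOf_one, map_one, eF]
  have v2 : ∀ ψ ∈ A, (ψ : Γ → ℂ) s = α ψ + β ψ * x := fun ψ hψ => by rw [hαβ ψ hψ s sr, ex]
  obtain ⟨η, hη⟩ := h.yne
  obtain ⟨ψ, hψ, e⟩ := st_arith A α β (r := Y.card) hFx
    (fun e => mul_ne_zero ε0 χ.2.apply_one_ne_zero (by rw [eF, e, Int.cast_zero]))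
    (fun e => h2 (by rw [eF, e, Int.cast_one]))
    (fun e => η.2.apply_one_ne_zero (by
      rw [h.val hη not_dvd_orderOf_one, eF, show 1 + (F : ℂ) = 0 by exact_mod_cast e, mul_zero]))
    (fun ψ hψ => by
      have := v1 ψ hψ
      rw [← coe_deg] at this
      rw [show α ψ + β ψ * F = charDegree (ψ : Γ → ℂ) by exact_mod_cast this.symm]
      exact_mod_cast charDegree_pos ψ.2)
    (fun u w hu hw => by
      have k : ∀ u : ℤ, u = F ∨ u = x → ∃ y, ¬ p ∣ orderOf y ∧ ε * (χ : G → ℂ) (π y) = u := fun u hu => by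
        rcases hu with rfl | rfl
        exacts [⟨1, not_dvd_orderOf_one, by rw [map_one, eF]⟩, ⟨s, sr, ex⟩]
      obtain ⟨y, y1, y2⟩ := k u hu
      obtain ⟨y', y3, y4⟩ := k w hw
      have := S y y' y1 y3
      rw [y2, y4, map_intCast] at this
      rw [Int.cast_natCast, ← this]
      exact sum_congr rfl fun ψ hψ => by
        rw [hαβ ψ hψ y y1, hαβ ψ hψ y' y3, y2, y4]; simp only [map_add, map_mul, map_intCast])
    (by
      rw [Int.cast_natCast, ← T]
      exact sum_congr rfl fun ψ hψ => by rw [v1 ψ hψ, v2 ψ hψ]; ring)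
  have e1 : (ψ : Γ → ℂ) 1 = 1 := by rw [v1 ψ hψ]; exact_mod_cast e
  have e2 := apply_eq_of_mem_charKer (ψ.2.commutator_le_charKer_iff.2 e1 hc)
  rw [A1 ψ hψ, e1, mul_one] at e2
  exact ω1 e2

theorem PmAct.sub {P : Subgroup G} {K : Type*} [Group K] (f : K →* G) (hf : Function.Injective f) {Q : Subgroup K}
    (e : Q.map f = P) (h : PmAct P) : PmAct Q := fun n hn => by
  subst e
  refine (h (f n) (Subgroup.le_normalizer_map f ⟨n, hn, rfl⟩)).imp (fun k v hv => hf ?_) fun k v hv => hf ?_ <;>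
    simpa using k (f v) ⟨v, hv, rfl⟩

theorem PmAct.normal (hp2 : p ≠ 2) (P : Sylow p G) [hab : IsMulCommutative P] (h : PmAct (P : Subgroup G))
    (hc : ¬ IsCyclic (P : Subgroup G)) (hO : pPrimeCore p G = ⊥) : (P : Subgroup G).Normal := by
  induction hn : Nat.card G using Nat.strong_induction_on generalizing G with
  | _ n ih =>
  subst hn
  by_cases hN : Subgroup.normalizer (P : Set G) ≤ Subgroup.centralizer (P : Set G)
  · have := (pnil_of_le P hN).index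
    rw [hO, Subgroup.index_bot, ← P.card_eq_multiplicity] at this
    rw [Subgroup.eq_top_of_card_eq _ this.symm]
    infer_instance
  obtain ⟨s, s1, s2⟩ := SetLike.not_le_iff_exists.1 hN
  have h2p : ¬ p ∣ 2 := fun e => hp2 ((Nat.prime_dvd_prime_iff_eq hp.out Nat.prime_two).1 e)
  have cen : ∀ {n : G}, n ∈ Subgroup.centralizer (P : Set G) ↔ ∀ v ∈ (P : Subgroup G), n * v * n⁻¹ = v := fun {n} =>
    forall₂_congr fun v _ => by rw [mul_inv_eq_iff_eq_mul, eq_comm]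
  have odd : ∀ v ∈ (P : Subgroup G), v = v⁻¹ → v = 1 := fun v hv e => (isPE_of_mem P.isPGroup' hv).eq_one
    (not_dvd_orderOf_of_pow h2p (by rw [sq]; exact mul_eq_one_iff_eq_inv.2 e))
  have s3 := (h s s1).resolve_left (mt cen.2 s2)
  have F : FA p (P : Subgroup G) := ⟨sylIn_top P, P.le_centralizer, fun y hy y1 n hn => (h n hn.2).elim cen.2 fun e =>
    absurd (odd y hy (by rw [← e y hy, Subgroup.mem_centralizer_singleton_iff.1 hn.1, mul_inv_cancel_right])) y1⟩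
  have i2 : (Subgroup.centralizer (P : Set G)).relIndex (Subgroup.normalizer (P : Set G)) = 2 := by
    refine Subgroup.relIndex_eq_two_iff.2 ⟨s, s1, fun b hb => ?_⟩
    by_cases e : b ∈ Subgroup.centralizer (P : Set G)
    · exact .inr ⟨e, fun f => s2 ((mul_mem_cancel_left e).1 f)⟩
    · refine .inl ⟨cen.2 fun v hv => ?_, e⟩
      have := (h b hb).resolve_left (mt cen.2 e) v⁻¹ (inv_mem hv)
      rw [← s3 v hv] at this
      rw [show b * s * v * (b * s)⁻¹ = b * (s * v * s⁻¹) * b⁻¹ by group, this, s3 v hv, inv_inv]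
  have h7 : 7 ≤ Nat.card P := by
    obtain ⟨k, hk⟩ := P.isPGroup'.exists_card_eq
    have p3 : 3 ≤ p := by have := hp.out.two_le; omega
    have k2 : 2 ≤ k := by
      by_contra! f
      refine hc (isCyclic_of_card_dvd_prime (p := p) ?_)
      rw [hk]
      exact (pow_dvd_pow p (Nat.le_of_lt_succ f)).trans (by rw [pow_one])
    have := (Nat.pow_le_pow_left p3 2).trans (Nat.pow_le_pow_right hp.out.pos k2)
    omega
  obtain ⟨M, hM⟩ := exists_isPModular p
  have : PM p M := ⟨hM⟩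
  obtain ⟨χ, Y, ε, δ, c1, c2, c3, c4, c5, c6, c7, c8⟩ := H6.dih (M := M) F ((card_autN _).trans i2) h7
  have D : StDih p M χ Y.toFinite.toFinset ε δ := ⟨c1, c2, c3, by simpa using c4, by simpa using c5,
    fun f => by rw [c6, finsum_mem_eq_finite_toFinset_sum _ Y.toFinite], fun η hη => c8 η (by simpa using hη)⟩
  have nK := χ.2.isCharacter.normal_charKer
  by_cases h2 : ε * (χ : G → ℂ) 1 = 1
  · have h3 : (P : Subgroup G) ≤ charKer (χ : G → ℂ) := fun v hv => χ.2.mem_charKer.2 (by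
      by_cases v1 : v = 1
      · rw [v1]
      · rw [c7 v hv v1, ← one_mul ((χ : G → ℂ) 1), ← D.ee, mul_assoc, h2, mul_one])
    set K := charKer (χ : G → ℂ)
    have K1 : K ≠ ⊤ := fun e => c1 (Subtype.ext (χ.2.charKer_eq_top_iff.1 e))
    have e0 : ((P.subtype h3 : Sylow p K) : Subgroup K).map K.subtype = P := Subgroup.map_subgroupOf_eq_of_le h3
    have e : (P.subtype h3 : Sylow p K) ≃* (P : Subgroup G) := Subgroup.subgroupOfEquivOfLe h3
    have : IsMulCommutative (P.subtype h3 : Sylow p K) := ⟨⟨fun a b => e.injective (by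
      rw [map_mul, map_mul, hab.is_comm.comm])⟩⟩
    have : ((P.subtype h3 : Sylow p K) : Subgroup K).Normal := ih _ (by
        rw [← K.index_mul_card]
        exact lt_mul_of_one_lt_left Nat.card_pos (Subgroup.one_lt_index_of_ne_top K1))
      _ (h.sub K.subtype K.subtype_injective e0) (fun f => hc (e.isCyclic.1 f)) (by
        rw [← Subgroup.map_eq_bot_iff_of_injective _ K.subtype_injective, eq_bot_iff, ← hO]
        refine le_pPrimeCore' ?_
        rw [Subgroup.card_map_of_injective K.subtype_injective]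
        exact not_dvd_card_pPrimeCore) rfl
    have := Sylow.characteristic_of_normal _ this
    rw [← e0]
    infer_instance
  have K0 : charKer (χ : G → ℂ) = ⊥ := by
    rw [eq_bot_iff, ← hO]
    refine le_pPrimeCore' fun f => ?_
    obtain ⟨g, hg⟩ := exists_prime_orderOf_dvd_card' p f
    rw [← Subgroup.orderOf_coe] at hg
    obtain ⟨v, v1, e⟩ := F.exists_conj (g := g) hg.symm.dvd
    rw [pp_of_isPE (isPE_of_pow (k := 1) (by rw [pow_one, ← hg, pow_orderOf_eq_one]))] at e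
    refine h2 ?_
    rw [← χ.2.mem_charKer.1 g.2, χ.2.isCharacter.isClassFunction.eq_of_isConj e, c7 v v.2 (by simpa using v1), D.ee]
  obtain ⟨t, ht⟩ := exists_prime_orderOf_dvd_card' (G := G) 2 (i2 ▸ (Subgroup.relIndex_dvd_card _ _).trans
    (Subgroup.card_subgroup_dvd_card _))
  refine absurd (h.centExt P hc) (D.not_centExt hp2 (t := t) (by rw [← sq, ← ht, pow_orderOf_eq_one]) (fun e => ?_) h2)
  have := χ.2.mem_charKer.2 e
  rw [K0, Subgroup.mem_bot] at this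
  simp [this] at ht

end H8
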